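import Mathlib.GroupTheory.SemidirectProduct
import Mathlib.GroupTheory.Nilpotent
import Mathlib.GroupTheory.PGroup

set_option autoImplicit false

namespace Cfsg.Agent.Helper8

open scoped commutatorElement

/-- A `p`-group `A` of automorphisms of a finite `p`-group `N` stabilizes a finite chain from `⊥`
to `⊤`, acting trivially on the factors. -/
theorem exists_central_chain {N : Type*} [Group N] [Finite N] {p : ℕ} [Fact p.Prime]
    (hN : IsPGroup p N) (A : Subgroup (MulAut N)) [Finite A] (hA : IsPGroup p A) :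
    ∃ (c : ℕ) (U : ℕ → Subgroup N), U 0 = ⊥ ∧ U c = ⊤ ∧
      (∀ i, ∀ x ∈ U (i + 1), ∀ α ∈ A, x⁻¹ * α x ∈ U i) ∧
      ∀ i, ∀ x ∈ U i, ∀ α ∈ A, α x ∈ U i := by
  haveI : Finite (N ⋊[A.subtype] A) := Finite.of_equiv _ SemidirectProduct.equivProd.symm
  have hG : IsPGroup p (N ⋊[A.subtype] A) := by
    obtain ⟨a, ha⟩ := IsPGroup.iff_card.mp hN
    obtain ⟨b, hb⟩ := IsPGroup.iff_card.mp hA
    apply IsPGroup.of_card (n := a + b)
    rw [SemidirectProduct.card, ha, hb, pow_add]
  haveI := hG.isNilpotent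
  obtain ⟨c, hc⟩ := Group.IsNilpotent.nilpotent (N ⋊[A.subtype] A)
  refine ⟨c, fun i => (Subgroup.upperCentralSeries (N ⋊[A.subtype] A) i).comap
    SemidirectProduct.inl, ?_, ?_, ?_, ?_⟩
  · show (Subgroup.upperCentralSeries (N ⋊[A.subtype] A) 0).comap _ = ⊥
    rw [Subgroup.upperCentralSeries_zero]
    ext x
    rw [Subgroup.mem_comap, Subgroup.mem_bot, Subgroup.mem_bot]
    constructor
    · intro h
      apply SemidirectProduct.inl_injective (φ := A.subtype)
      rw [h, map_one]
    · intro h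
      rw [h, map_one]
  · show (Subgroup.upperCentralSeries (N ⋊[A.subtype] A) c).comap _ = ⊤
    rw [hc]
    rfl
  · intro i x hx α hα
    show SemidirectProduct.inl (x⁻¹ * α x) ∈ Subgroup.upperCentralSeries (N ⋊[A.subtype] A) i
    have hx' : (SemidirectProduct.inl x : N ⋊[A.subtype] A)⁻¹
        ∈ Subgroup.upperCentralSeries (N ⋊[A.subtype] A) (i + 1) := inv_mem hx
    have h1 := Subgroup.mem_upperCentralSeries_succ_iff.mp hx' (SemidirectProduct.inr (⟨α, hα⟩ : A))
    have h2 : ⁅(SemidirectProduct.inl x : N ⋊[A.subtype] A)⁻¹,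
        (SemidirectProduct.inr (⟨α, hα⟩ : A) : N ⋊[A.subtype] A)⁆
        = SemidirectProduct.inl (x⁻¹ * α x) := by
      rw [commutatorElement_def, map_mul, map_inv, inv_inv]
      have h3 := SemidirectProduct.inl_aut (φ := A.subtype) ⟨α, hα⟩ x
      have h4 : (SemidirectProduct.inl (α x) : N ⋊[A.subtype] A)
          = SemidirectProduct.inr (⟨α, hα⟩ : A) * SemidirectProduct.inl x
            * SemidirectProduct.inr (⟨α, hα⟩ : A)⁻¹ := h3
      rw [h4, map_inv]
      group
    rw [← h2]
    exact h1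
  · intro i x hx α hα
    show SemidirectProduct.inl (α x) ∈ Subgroup.upperCentralSeries (N ⋊[A.subtype] A) i
    have h3 := SemidirectProduct.inl_aut (φ := A.subtype) ⟨α, hα⟩ x
    have h4 : (SemidirectProduct.inl (α x) : N ⋊[A.subtype] A)
        = SemidirectProduct.inr (⟨α, hα⟩ : A) * SemidirectProduct.inl x
          * SemidirectProduct.inr (⟨α, hα⟩ : A)⁻¹ := h3
    rw [h4, map_inv]
    exact (inferInstance : (Subgroup.upperCentralSeries (N ⋊[A.subtype] A) i).Normal).conj_mem _ hx _

end Cfsg.Agent.Helper8
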