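import Mathlib
import Cfsg.Agent.Helper8.StronglyEmbedded
import Cfsg.Agent.Helper8.TwoMaxEA

set_option autoImplicit false

namespace Cfsg.Agent.Helper8.Fixity

open Cfsg.Agent.Helper8

theorem dvd_card_of_orbits {G X : Type*} [Group G] [MulAction G X] [Finite X] (d : ℕ)
    (h : ∀ x : X, Nat.card (MulAction.orbit G x) = d) : d ∣ Nat.card X := by
  classical
  haveI : Fintype (MulAction.orbitRel.Quotient G X) := Fintype.ofFinite _
  rw [Nat.card_congr (MulAction.selfEquivSigmaOrbits G X), Nat.card_sigma]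
  simp only [h]
  rw [Finset.sum_const, smul_eq_mul]
  exact dvd_mul_left _ _

theorem card_dvd_of_free {G X : Type*} [Group G] [MulAction G X] [Finite X]
    (h : ∀ (g : G) (x : X), g • x = x → g = 1) : Nat.card G ∣ Nat.card X := by
  apply dvd_card_of_orbits (G := G)
  intro x
  rw [Nat.card_coe_set_eq, ← MulAction.index_stabilizer]
  have : MulAction.stabilizer G x = ⊥ := by
    rw [eq_bot_iff]
    intro g hg
    exact Subgroup.mem_bot.mpr (h g x hg)
  rw [this, Subgroup.index_bot]

variable {G : Type*} [Group G]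

/-- a Sylow subgroup of `H` whose normalizer lies in `H` is a Sylow subgroup of `G` -/
theorem sylow_of_normalizer_le' [Finite G] {p : ℕ} [Fact p.Prime] (H Q : Subgroup G)
    (hQH : Q ≤ H) (hQ : ∃ S : Sylow p H, (S : Subgroup H) = Q.subgroupOf H)
    (hN : Subgroup.normalizer (Q : Set G) ≤ H) : ∃ P : Sylow p G, (P : Subgroup G) = Q := by
  obtain ⟨S, hS⟩ := hQ
  have hQp : IsPGroup p Q := by
    have h1 : IsPGroup p (Q.subgroupOf H) := hS ▸ S.isPGroup'
    exact h1.of_equiv (Subgroup.subgroupOfEquivOfLe hQH)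
  obtain ⟨P, hP⟩ := hQp.exists_le_sylow
  refine ⟨P, ?_⟩
  by_contra hne
  have hlt : Q < (P : Subgroup G) := lt_of_le_of_ne hP (fun h => hne h.symm)
  obtain ⟨x, hxP, hxN, hxQ⟩ := exists_mem_normalizer_not_mem P.isPGroup' hlt
  have hxH : x ∈ H := hN hxN
  apply hxQ
  have hT : IsPGroup p (((P : Subgroup G) ⊓ H).subgroupOf H) :=
    (P.isPGroup'.to_le inf_le_left).comap_subtype
  have hle : (S : Subgroup H) ≤ ((P : Subgroup G) ⊓ H).subgroupOf H := by
    rw [hS]
    intro y hy
    exact Subgroup.mem_inf.mpr ⟨hP hy, y.2⟩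
  have heq := S.is_maximal' hT hle
  have hxm : (⟨x, hxH⟩ : H) ∈ ((P : Subgroup G) ⊓ H).subgroupOf H :=
    Subgroup.mem_inf.mpr ⟨hxP, hxH⟩
  rw [heq, hS] at hxm
  exact hxm

variable {Ω : Type*} [MulAction G Ω]

theorem central_free [FaithfulSMul G Ω] (htr : MulAction.IsPretransitive G Ω) (z : G)
    (hz : z ∈ Subgroup.center G) (a : Ω) (hza : z • a = a) : z = 1 := by
  apply FaithfulSMul.eq_of_smul_eq_smul (α := Ω)
  intro b
  obtain ⟨x, rfl⟩ := MulAction.exists_smul_eq G a b
  rw [one_smul, ← mul_smul, ← Subgroup.mem_center_iff.mp hz x, mul_smul, hza]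

theorem center_dvd [Finite G] [Finite Ω] [FaithfulSMul G Ω] (htr : MulAction.IsPretransitive G Ω)
    (g₀ : G) : Nat.card (Subgroup.center G) ∣ Nat.card (MulAction.fixedBy Ω g₀) := by
  letI : MulAction ↥(Subgroup.center G) ↥(MulAction.fixedBy Ω g₀) :=
    { smul := fun z a => ⟨(z : G) • (a : Ω), by
        have ha : g₀ • (a : Ω) = a := a.2
        change g₀ • ((z : G) • (a : Ω)) = (z : G) • (a : Ω)
        rw [← mul_smul, Subgroup.mem_center_iff.mp z.2 g₀, mul_smul, ha]⟩
      one_smul := fun a => Subtype.ext (one_smul G (a : Ω))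
      mul_smul := fun z w a => Subtype.ext (mul_smul (z : G) (w : G) (a : Ω)) }
  apply card_dvd_of_free
  intro z a hza
  have h1 : (z : G) • (a : Ω) = a := congrArg Subtype.val hza
  exact Subtype.ext (central_free htr z z.2 a h1)

theorem sylow_part [Finite G] [Finite Ω] (htr : MulAction.IsPretransitive G Ω) (k : ℕ)
    (hfix : ∀ g : G, g ≠ 1 → Nat.card (MulAction.fixedBy Ω g) ≤ k)
    (p : ℕ) (hp : p.Prime) (hkp : k < p) (α : Ω)
    (hdvd : p ∣ Nat.card (MulAction.stabilizer G α)) :
    ¬ p ∣ (MulAction.stabilizer G α).index := by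
  haveI : Fact p.Prime := ⟨hp⟩
  obtain ⟨P⟩ : Nonempty (Sylow p (MulAction.stabilizer G α)) := inferInstance
  have hPne : (P : Subgroup (MulAction.stabilizer G α)) ≠ ⊥ := P.ne_bot_of_dvd_card hdvd
  obtain ⟨⟨q, hq⟩, hq1⟩ := (Subgroup.ne_bot_iff_exists_ne_one).mp hPne
  have hmod := P.isPGroup'.card_modEq_card_fixedPoints Ω
  rw [MulAction.index_stabilizer_of_transitive]
  intro hd
  have h1 : p ∣ Nat.card (MulAction.fixedPoints ↥(P : Subgroup (MulAction.stabilizer G α)) Ω) :=
    (Nat.modEq_zero_iff_dvd.mp ((hmod.symm.trans (Nat.modEq_zero_iff_dvd.mpr hd))))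
  have hα : α ∈ MulAction.fixedPoints ↥(P : Subgroup (MulAction.stabilizer G α)) Ω := by
    intro x
    exact x.1.2
  have hpos : 0 < Nat.card (MulAction.fixedPoints ↥(P : Subgroup (MulAction.stabilizer G α)) Ω) :=
    Nat.card_pos_iff.mpr ⟨⟨⟨α, hα⟩⟩, inferInstance⟩
  have hsub : MulAction.fixedPoints ↥(P : Subgroup (MulAction.stabilizer G α)) Ω
      ⊆ MulAction.fixedBy Ω ((q : MulAction.stabilizer G α) : G) := by
    intro x hx
    exact hx ⟨q, hq⟩
  have hq1' : ((q : MulAction.stabilizer G α) : G) ≠ 1 := by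
    intro h
    apply hq1
    exact Subtype.ext (Subtype.ext h)
  have h2 := hfix _ hq1'
  have h3 : Nat.card (MulAction.fixedPoints ↥(P : Subgroup (MulAction.stabilizer G α)) Ω)
      ≤ Nat.card (MulAction.fixedBy Ω ((q : MulAction.stabilizer G α) : G)) := by
    rw [Nat.card_coe_set_eq, Nat.card_coe_set_eq]
    exact Set.ncard_le_ncard hsub (Set.toFinite _)
  have h4 := Nat.le_of_dvd hpos h1
  omega


theorem even_of_fixity_two [Finite G] [Finite Ω] (htr : MulAction.IsPretransitive G Ω)
    (hfix : ∀ g : G, g ≠ 1 → Nat.card (MulAction.fixedBy Ω g) ≤ 2) (g₀ : G) (hg₀ : g₀ ≠ 1)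
    (hcard : Nat.card (MulAction.fixedBy Ω g₀) = 2) : 2 ∣ Nat.card G := by
  classical
  by_contra hodd
  rw [Nat.card_coe_set_eq, Set.ncard_eq_two] at hcard
  obtain ⟨a, b, hab, hF⟩ := hcard
  have ha : g₀ • a = a := by
    have : a ∈ MulAction.fixedBy Ω g₀ := by
      rw [hF]
      simp
    exact this
  have hb : g₀ • b = b := by
    have : b ∈ MulAction.fixedBy Ω g₀ := by
      rw [hF]
      simp
    exact this
  have claim1 : ∀ h : G, h ≠ 1 → h • a = a → h • b = b → ∀ c : Ω, h • c = c → c = a ∨ c = b := by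
    intro h hh ha' hb' c hc
    by_contra hcon
    push Not at hcon
    have h3 : ({a, b, c} : Set Ω) ⊆ MulAction.fixedBy Ω h := by
      intro y hy
      rcases hy with rfl | rfl | rfl <;> assumption
    have h4 := Set.ncard_le_ncard h3 (Set.toFinite _)
    have h5 : ({a, b, c} : Set Ω).ncard = 3 :=
      Set.ncard_eq_three.mpr ⟨a, b, c, hab, Ne.symm hcon.1, Ne.symm hcon.2, rfl⟩
    have h6 := hfix h hh
    rw [Nat.card_coe_set_eq] at h6
    omega
  have claim2 : ∀ x : G, x • a = b → x • b ≠ a := by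
    intro x hxa hxb
    have hox : Odd (orderOf x) := by
      have h1 : orderOf x ∣ Nat.card G := orderOf_dvd_natCard x
      rcases Nat.even_or_odd (orderOf x) with he | ho
      · exact absurd (he.two_dvd.trans h1) hodd
      · exact ho
    obtain ⟨j, hj⟩ := hox
    have hx2 : ∀ i : ℕ, (x ^ (2 * i)) • a = a := by
      intro i
      induction i with
      | zero => simp
      | succ i ih =>
        rw [mul_add, mul_one, pow_add, mul_smul, pow_two, mul_smul, hxa, hxb, ih]
    have h1 : x ^ (2 * j + 1) = 1 := by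
      rw [← hj]
      exact pow_orderOf_eq_one x
    have h2 : (x ^ (2 * j + 1)) • a = x • a := by
      rw [pow_succ', mul_smul, hx2]
    rw [h1, one_smul] at h2
    exact hab (h2.trans hxa)
  have hg₀H : g₀ ∈ MulAction.stabilizer G a ⊓ MulAction.stabilizer G b :=
    Subgroup.mem_inf.mpr ⟨ha, hb⟩
  have claim3 : ∀ Q : Subgroup G, Q ≤ MulAction.stabilizer G a ⊓ MulAction.stabilizer G b →
      Q ≠ ⊥ → Subgroup.normalizer (Q : Set G) ≤
        MulAction.stabilizer G a ⊓ MulAction.stabilizer G b := by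
    intro Q hQH hQ n hn
    obtain ⟨⟨q, hq⟩, hq1⟩ := (Subgroup.ne_bot_iff_exists_ne_one).mp hQ
    have hq1' : q ≠ 1 := fun h => hq1 (Subtype.ext h)
    have hqa : q • a = a := (Subgroup.mem_inf.mp (hQH hq)).1
    have hqb : q • b = b := (Subgroup.mem_inf.mp (hQH hq)).2
    have hnq : n⁻¹ * q * n ∈ Q := by
      have := (Subgroup.mem_normalizer_iff.mp (inv_mem hn) q).mp hq
      simpa using this
    have hna : q • (n • a) = n • a := by
      have h1 : (n⁻¹ * q * n) • a = a := (Subgroup.mem_inf.mp (hQH hnq)).1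
      calc q • (n • a) = n • ((n⁻¹ * q * n) • a) := by simp [mul_smul]
        _ = n • a := by rw [h1]
    have hnb : q • (n • b) = n • b := by
      have h1 : (n⁻¹ * q * n) • b = b := (Subgroup.mem_inf.mp (hQH hnq)).2
      calc q • (n • b) = n • ((n⁻¹ * q * n) • b) := by simp [mul_smul]
        _ = n • b := by rw [h1]
    rcases claim1 q hq1' hqa hqb _ hna with h1 | h1
    · rcases claim1 q hq1' hqa hqb _ hnb with h2 | h2
      · exfalso
        exact hab (MulAction.injective n (h1.trans h2.symm))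
      · exact Subgroup.mem_inf.mpr ⟨h1, h2⟩
    · rcases claim1 q hq1' hqa hqb _ hnb with h2 | h2
      · exact absurd h2 (claim2 n h1)
      · exfalso
        exact hab (MulAction.injective n (h1.trans h2.symm))
  have hHne : Nat.card (MulAction.stabilizer G a ⊓ MulAction.stabilizer G b : Subgroup G) ≠ 1 := by
    intro h1
    have h2 := Subgroup.card_eq_one.mp h1
    rw [h2] at hg₀H
    exact hg₀ (Subgroup.mem_bot.mp hg₀H)
  obtain ⟨p, hp, hpd⟩ := Nat.exists_prime_and_dvd hHne
  haveI : Fact p.Prime := ⟨hp⟩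
  obtain ⟨S⟩ : Nonempty (Sylow p (MulAction.stabilizer G a ⊓ MulAction.stabilizer G b :
    Subgroup G)) := inferInstance
  have hQH : (S : Subgroup _).map (MulAction.stabilizer G a ⊓ MulAction.stabilizer G b).subtype
      ≤ MulAction.stabilizer G a ⊓ MulAction.stabilizer G b := Subgroup.map_subtype_le _
  have hQne : (S : Subgroup _).map (MulAction.stabilizer G a ⊓ MulAction.stabilizer G b).subtype
      ≠ ⊥ := by
    intro hbot
    have h1 : (S : Subgroup ↥(MulAction.stabilizer G a ⊓ MulAction.stabilizer G b)) = ⊥ :=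
      (Subgroup.map_eq_bot_iff_of_injective
        (S : Subgroup ↥(MulAction.stabilizer G a ⊓ MulAction.stabilizer G b))
        (Subgroup.subtype_injective
          (MulAction.stabilizer G a ⊓ MulAction.stabilizer G b))).mp hbot
    exact S.ne_bot_of_dvd_card hpd h1
  have hQS : ∃ S' : Sylow p (MulAction.stabilizer G a ⊓ MulAction.stabilizer G b : Subgroup G),
      (S' : Subgroup _) = ((S : Subgroup _).map
        (MulAction.stabilizer G a ⊓ MulAction.stabilizer G b).subtype).subgroupOf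
          (MulAction.stabilizer G a ⊓ MulAction.stabilizer G b) := by
    refine ⟨S, ?_⟩
    exact (Subgroup.comap_map_eq_self_of_injective (Subgroup.subtype_injective _) _).symm
  obtain ⟨P, hP⟩ := sylow_of_normalizer_le' _ _ hQH hQS (claim3 _ hQH hQne)
  obtain ⟨x, hx⟩ := MulAction.exists_smul_eq G a b
  have hQb : (P : Subgroup G) ≤ MulAction.stabilizer G b := by
    rw [hP]
    exact hQH.trans inf_le_right
  have hxQb : cj x (P : Subgroup G) ≤ MulAction.stabilizer G b := by
    rintro _ ⟨q, hq, rfl⟩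
    have hq' := hq
    rw [SetLike.mem_coe, hP] at hq'
    have hqa : q • a = a := (Subgroup.mem_inf.mp (hQH hq')).1
    change (x * q * x⁻¹) • b = b
    rw [← hx]
    simp [mul_smul, hqa]
  have hsyl : ∃ R' : Sylow p (MulAction.stabilizer G b),
      (R' : Subgroup (MulAction.stabilizer G b))
        = (P : Subgroup G).subgroupOf (MulAction.stabilizer G b) :=
    ⟨P.subtype hQb, rfl⟩
  obtain ⟨y, hy, hle⟩ := exists_cj_le_of_isSylowIn hsyl hxQb (isPGroup_cj x P.isPGroup')
  have h2 : cj (y * x) (P : Subgroup G) = P := by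
    rw [TwoMaxEA.cj_mul]
    exact Subgroup.eq_of_le_of_card_ge hle (by rw [card_cj, card_cj])
  have h3 : y * x ∈ MulAction.stabilizer G a ⊓ MulAction.stabilizer G b := by
    apply claim3 _ hQH hQne
    rw [← hP]
    exact mem_normalizer_of_cj_eq h2
  have h4 : (y * x) • a = a := (Subgroup.mem_inf.mp h3).1
  rw [mul_smul, hx] at h4
  have h5 : y • b = b := hy
  exact hab (h4.symm.trans h5)

end Cfsg.Agent.Helper8.Fixity
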