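import Cfsg.Agent.Helper8.RingNilp
import Cfsg.Agent.Helper8.FusionInv2
import Cfsg.Agent.Helper8.FusionAlperin3
import Cfsg.Agent.Helper5.StrEmb
import Cfsg.Agent.S5086
import Cfsg.Prelude.Def_PLocal

/-!
# The `p^n`-th powers of the centre are normal when the class is small

`S` of class at most `n(p-1)+1`, `F` saturated on `S`: the subgroup of `p^n`-th powers of `Z(S)`
is normal in `F`.
-/

set_option autoImplicit false

namespace Cfsg.Agent.Helper8

open Cfsg
open scoped commutatorElement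

variable {Ω : Type*} [Group Ω] {S : Subgroup Ω}

/-- Key group lemma: `x ∈ S` normalizes the abelian `V ≤ S`, `x^p` centralizes `V`, and `S` has
class at most `n(p-1)+1`: then `x` centralizes the `p^n`-th powers of `V`. -/
theorem commute_pow_of_class (S : Subgroup Ω) (p : ℕ) (hp : p.Prime) (n : ℕ)
    (hcl : S.lowerCentralSeries (n * (p - 1) + 1) = ⊥) (x : Ω) (hxS : x ∈ S) (V : Subgroup Ω)
    (hVS : V ≤ S) (hVab : ∀ a ∈ V, ∀ b ∈ V, a * b = b * a) (hxV : ∀ v ∈ V, x * v * x⁻¹ ∈ V)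
    (hxp : ∀ v ∈ V, x ^ p * v = v * x ^ p) : ∀ v ∈ V, x * v ^ (p ^ n) = v ^ (p ^ n) * x := by
  intro v hv
  let T : V →* V :=
    { toFun := fun u => ⟨x * u * x⁻¹, hxV u u.2⟩
      map_one' := Subtype.ext (by simp)
      map_mul' := fun a b => Subtype.ext (by simp [mul_assoc]) }
  have hTk : ∀ (k : ℕ) (u : V), ((T^[k] u : V) : Ω) = x ^ k * u * (x ^ k)⁻¹ := by
    intro k
    induction k with
    | zero => intro u; simp
    | succ k ih =>
      intro u
      rw [Function.iterate_succ_apply']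
      show x * ((T^[k] u : V) : Ω) * x⁻¹ = _
      rw [ih, pow_succ']
      group
  have hT : ∀ u : V, T^[p] u = u := by
    intro u
    apply Subtype.ext
    rw [hTk, hxp u u.2]
    group
  have hc : ∀ (k : ℕ) (u : V),
      (((fun w : V => T w * w⁻¹)^[k] u : V) : Ω) ∈ S.lowerCentralSeries k := by
    intro k
    induction k with
    | zero => intro u; exact hVS u.2
    | succ k ih =>
      intro u
      rw [Function.iterate_succ_apply']
      have h1 := ih u
      generalize (fun w : V => T w * w⁻¹)^[k] u = w at h1 ⊢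
      have h2 : ((T w * w⁻¹ : V) : Ω) = ⁅(w : Ω), x⁆⁻¹ := by
        show x * (w : Ω) * x⁻¹ * (w : Ω)⁻¹ = _
        rw [commutatorElement_def]
        group
      rw [h2]
      exact Subgroup.inv_mem _ (Subgroup.commutator_mem_commutator h1 hxS)
  have hN : ∀ u : V, (fun w : V => T w * w⁻¹)^[n * (p - 1) + 1] u = 1 := by
    intro u
    have := hc (n * (p - 1) + 1) u
    rw [hcl, Subgroup.mem_bot] at this
    exact Subtype.ext this
  have h := hom_pow_fix (fun a b => Subtype.ext (hVab a a.2 b b.2)) p hp n T hT hN ⟨v, hv⟩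
  have h' : x * v ^ (p ^ n) * x⁻¹ = v ^ (p ^ n) := congrArg Subtype.val h
  calc x * v ^ (p ^ n) = x * v ^ (p ^ n) * x⁻¹ * x := by group
    _ = v ^ (p ^ n) * x := by rw [h']

/-- The subsystem of `F` consisting of the maps that preserve membership in `W`. -/
def stabSystem (F : FusionSystem S) (W : Subgroup Ω)
    (hW : S ≤ Subgroup.normalizer (W : Set Ω)) : FusionSystem S where
  Hom P := {φ | φ ∈ F.Hom P ∧ ∀ x : P, (x : Ω) ∈ W ↔ φ x ∈ W}
  le_of_mem h := F.le_of_mem h.1
  injective_of_mem h := F.injective_of_mem h.1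
  conj_mem {P g} hP hg := ⟨F.conj_mem hP hg, fun x => by
    show (x : Ω) ∈ W ↔ g * x * g⁻¹ ∈ W
    exact (Subgroup.mem_normalizer_iff.mp (hW hg)) x⟩
  comp_mem hφ hψ h := ⟨F.comp_mem hφ.1 hψ.1 h, fun x => (hφ.2 x).trans (hψ.2 ⟨_, h x⟩)⟩
  inv_mem {P φ} hφ := by
    obtain ⟨ψ, hψ, hinv⟩ := F.inv_mem hφ.1
    refine ⟨ψ, ⟨hψ, ?_⟩, hinv⟩
    rintro ⟨_, ⟨x, rfl⟩⟩
    rw [hinv x]
    exact (hφ.2 x).symm

/-- Alperin-style induction for showing that all maps of `F` preserve a subgroup `W`. -/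
theorem hom_preserves_of_autGroups [Finite S] (p : ℕ) [Fact p.Prime] (hS : IsPGroup p S)
    (F : FusionSystem S) (hF : F.IsSaturated p) (W : Subgroup Ω)
    (hW : S ≤ Subgroup.normalizer (W : Set Ω))
    (hA : ∀ R : Subgroup Ω, (R = S ∨ F.IsEssential p R) →
      (∀ Q : Subgroup Ω, R < Q → ∀ φ ∈ F.Hom Q, ∀ x : Q, (x : Ω) ∈ W → φ x ∈ W) →
      ∀ α ∈ F.autGroup R, ∀ x : R, (x : Ω) ∈ W → ((α x : R) : Ω) ∈ W) :
    ∀ (P : Subgroup Ω), ∀ φ ∈ F.Hom P, ∀ x : P, (x : Ω) ∈ W → φ x ∈ W := by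
  have key := alperin_induction p hS F hF (stabSystem F W hW) (by
    intro R hR hbig α hα
    have hRS : R ≤ S := by
      rcases hR with rfl | hR
      · exact le_rfl
      · exact hR.1.1
    have hA' := hA R hR (fun Q hQ φ hφ x hx => ((hbig Q hQ hφ).2 x).mp hx)
    rw [mem_autGroup_iff (stabSystem F W hW) hRS]
    refine ⟨(mem_autGroup_iff F hRS α).mp hα, fun x => ⟨fun hx => hA' α hα x hx, fun hx => ?_⟩⟩
    have h1 := hA' α⁻¹ ((F.autGroup R).inv_mem hα) (α x) hx
    rwa [MulAut.inv_apply_self] at h1)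
  intro P φ hφ x hx
  exact ((key P hφ).2 x).mp hx

theorem map_mem_center {G : Type*} [Group G] (α : MulAut G) {v : G} (hv : v ∈ Subgroup.center G) :
    α v ∈ Subgroup.center G := by
  rw [Subgroup.mem_center_iff] at hv ⊢
  intro y
  have h := congrArg α (hv (α⁻¹ y))
  rwa [map_mul, map_mul, MulAut.apply_inv_self] at h

/-- Frattini argument for the intersection of a Sylow subgroup with a normal subgroup. -/
theorem normalizer_sylow_inf_sup_eq_top {H : Type*} [Group H] [Finite H] {p : ℕ} [Fact p.Prime]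
    (T : Sylow p H) (N : Subgroup H) [N.Normal] :
    Subgroup.normalizer (((T : Subgroup H) ⊓ N : Subgroup H) : Set H) ⊔ N = ⊤ := by
  obtain ⟨P, hP⟩ := Cfsg.Agent.Helper5.exists_sylow_map_eq_inf T N
  have h := Sylow.normalizer_sup_eq_top P
  rwa [hP] at h

/-- Elements of the power closure of the centre are `p^n`-th powers of central elements. -/
theorem mem_powerClosure_center (p n : ℕ) (S : Subgroup Ω) {w : Ω}
    (hw : w ∈ powerClosure p n (S ⊓ Subgroup.centralizer (S : Set Ω))) :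
    ∃ z ∈ S ⊓ Subgroup.centralizer (S : Set Ω), w = z ^ (p ^ n) := by
  unfold powerClosure at hw
  induction hw using Subgroup.closure_induction with
  | mem y hy => exact hy
  | one => exact ⟨1, Subgroup.one_mem _, (one_pow _).symm⟩
  | mul a b _ _ ha hb =>
    obtain ⟨z1, hz1, rfl⟩ := ha
    obtain ⟨z2, hz2, rfl⟩ := hb
    refine ⟨z1 * z2, Subgroup.mul_mem _ hz1 hz2, ?_⟩
    have hc : Commute z1 z2 := Subgroup.mem_centralizer_iff.mp hz2.2 z1 hz1.1
    exact (hc.mul_pow _).symm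
  | inv a _ ha =>
    obtain ⟨z, hz, rfl⟩ := ha
    exact ⟨z⁻¹, Subgroup.inv_mem _ hz, (inv_pow _ _).symm⟩

theorem exists_mem_normalizer_pow_mem [Finite S] {p : ℕ} [Fact p.Prime] (hS : IsPGroup p S)
    {R : Subgroup Ω} (hR : R < S) :
    ∃ x ∈ S, x ∈ Subgroup.normalizer (R : Set Ω) ∧ x ∉ R ∧ x ^ p ∈ R := by
  obtain ⟨g, hgS, hgN, hgR⟩ := exists_mem_normalizer_not_mem hS hR
  have hex : ∃ j : ℕ, g ^ (p ^ j) ∈ R := by
    obtain ⟨k, hk⟩ := hS ⟨g, hgS⟩
    refine ⟨k, ?_⟩
    have : g ^ (p ^ k) = 1 := congrArg Subtype.val hk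
    rw [this]
    exact R.one_mem
  classical
  have hj := Nat.find_spec hex
  have hj0 : Nat.find hex ≠ 0 := by
    intro h0
    rw [h0] at hj
    simp at hj
    exact hgR hj
  obtain ⟨j', hj'⟩ := Nat.exists_eq_succ_of_ne_zero hj0
  have hmin : g ^ (p ^ j') ∉ R := Nat.find_min hex (by omega)
  refine ⟨g ^ (p ^ j'), S.pow_mem hgS _, Subgroup.pow_mem _ hgN _, hmin, ?_⟩
  have hj'' : Nat.find hex = j' + 1 := hj'
  rw [← pow_mul, ← pow_succ, ← hj'']
  exact hj

/-- central elements of `S` lying in `R ≤ S` are central in `R`. -/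
theorem mem_center_of_mem_center_top {R : Subgroup Ω} (hRS : R ≤ S) {z : Ω}
    (hz : z ∈ S ⊓ Subgroup.centralizer (S : Set Ω)) (hzR : z ∈ R) :
    (⟨z, hzR⟩ : R) ∈ Subgroup.center R := by
  rw [Subgroup.mem_center_iff]
  intro y
  apply Subtype.ext
  exact Subgroup.mem_centralizer_iff.mp hz.2 y (hRS y.2)

/-- `Ω_n`-type subgroup: the `p^n`-th powers of the centre of `S`. -/
abbrev agemoCenter (p n : ℕ) (S : Subgroup Ω) : Subgroup Ω :=
  powerClosure p n (S ⊓ Subgroup.centralizer (S : Set Ω))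

theorem aut_preserves_agemo_top (p n : ℕ) (α : MulAut S) (x : S)
    (hx : (x : Ω) ∈ agemoCenter p n S) : ((α x : S) : Ω) ∈ agemoCenter p n S := by
  obtain ⟨z, hz, hxz⟩ := mem_powerClosure_center p n S hx
  have hzc : (⟨z, hz.1⟩ : S) ∈ Subgroup.center S := mem_center_of_mem_center_top le_rfl hz hz.1
  have hxe : x = (⟨z, hz.1⟩ : S) ^ (p ^ n) := Subtype.ext (by rw [hxz]; rfl)
  have h1 := map_mem_center α hzc
  rw [hxe, map_pow]
  apply Subgroup.subset_closure
  refine ⟨(α ⟨z, hz.1⟩ : S), Subgroup.mem_inf.mpr ⟨(α ⟨z, hz.1⟩).2, ?_⟩, rfl⟩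
  rw [Subgroup.mem_centralizer_iff]
  intro h hh
  exact congrArg Subtype.val (Subgroup.mem_center_iff.mp h1 ⟨h, hh⟩)

theorem aut_preserves_agemo_of_centric [Finite S] (p : ℕ) [Fact p.Prime] (hS : IsPGroup p S)
    (F : FusionSystem S) (hF : F.IsSaturated p) (n : ℕ)
    (hcl : S.lowerCentralSeries (n * (p - 1) + 1) = ⊥) (R : Subgroup Ω) (hRlt : R < S)
    (hcen : F.IsCentric R) (hRn : F.IsFullyNormalized R)
    (hbig : ∀ Q : Subgroup Ω, R < Q → ∀ φ ∈ F.Hom Q, ∀ x : Q,
      (x : Ω) ∈ agemoCenter p n S → φ x ∈ agemoCenter p n S) :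
    ∀ α ∈ F.autGroup R, ∀ x : R, (x : Ω) ∈ agemoCenter p n S →
      ((α x : R) : Ω) ∈ agemoCenter p n S := by
  have hp : p.Prime := Fact.out
  have hRS : R ≤ S := hRlt.le
  have props := fullyNormalized_props p hS F hF hRn
  have hrec := receptive_of_fullyCentralized p hS F hF props.1
  have : Finite R := finite_of_le_finite hRS
  have : Finite (MulAut R) := MulEquiv.finite_left
  have hCR : FusionSystem.centralizerIn S R ≤ R := hcen.2 R (isConj_refl F hRS)
  have hZR : ∀ z ∈ S ⊓ Subgroup.centralizer (S : Set Ω), z ∈ R := fun z hz =>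
    hCR ⟨hz.1, Subgroup.centralizer_le hRS hz.2⟩
  let C : Subgroup (F.autGroup R) :=
    { carrier := {α | ∀ v ∈ Subgroup.center R, (α : MulAut R) (v ^ (p ^ n)) = v ^ (p ^ n)}
      one_mem' := fun v _ => rfl
      mul_mem' := fun {a b} ha hb v hv => by
        show (a : MulAut R) ((b : MulAut R) (v ^ (p ^ n))) = _
        rw [hb v hv, ha v hv]
      inv_mem' := fun {a} ha v hv => by
        show (a : MulAut R)⁻¹ (v ^ (p ^ n)) = _
        have h := congrArg (fun y => (a : MulAut R)⁻¹ y) (ha v hv)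
        simp only [MulAut.inv_apply_self] at h
        exact h.symm }
  have hCn : C.Normal := ⟨fun a ha b v hv => by
    show (b : MulAut R) ((a : MulAut R) ((b : MulAut R)⁻¹ (v ^ (p ^ n)))) = _
    have h1 : (b : MulAut R)⁻¹ v ∈ Subgroup.center R := map_mem_center _ hv
    rw [map_pow, ha _ h1, ← map_pow, MulAut.apply_inv_self]⟩
  obtain ⟨g, hgS, hgN, hgR, hgp⟩ := exists_mem_normalizer_pow_mem hS hRlt
  have hcg : ∀ v ∈ Subgroup.center R, conjAut R g hgN (v ^ (p ^ n)) = v ^ (p ^ n) := by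
    intro v hv
    have key := commute_pow_of_class S p hp n hcl g hgS ((Subgroup.center R).map R.subtype)
      (by rintro _ ⟨v, -, rfl⟩; exact hRS v.2)
      (by
        rintro _ ⟨a, ha, rfl⟩ _ ⟨b, hb, rfl⟩
        exact congrArg Subtype.val (Subgroup.mem_center_iff.mp hb a))
      (by
        rintro _ ⟨v, hv, rfl⟩
        exact ⟨conjAut R g hgN v, map_mem_center _ hv, rfl⟩)
      (by
        rintro _ ⟨v, hv, rfl⟩
        exact congrArg Subtype.val (Subgroup.mem_center_iff.mp hv ⟨g ^ p, hgp⟩))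
      v ⟨v, hv, rfl⟩
    apply Subtype.ext
    show g * ((v ^ (p ^ n) : R) : Ω) * g⁻¹ = ((v ^ (p ^ n) : R) : Ω)
    rw [Subgroup.coe_pow, key]
    group
  obtain ⟨T, hT⟩ := props.2.2
  have hfr := normalizer_sylow_inf_sup_eq_top T C
  have hgA : conjAut R g hgN ∈ F.autGroup R :=
    autInducedBy_le_autGroup F hRS (conjAut_mem_autInducedBy R hgS hgN)
  have hgTC : (⟨conjAut R g hgN, hgA⟩ : F.autGroup R) ∈ (T : Subgroup (F.autGroup R)) ⊓ C := by
    refine Subgroup.mem_inf.mpr ⟨?_, hcg⟩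
    rw [hT, Subgroup.mem_subgroupOf]
    exact conjAut_mem_autInducedBy R hgS hgN
  intro α hα x hx
  have hmem : (⟨α, hα⟩ : F.autGroup R) ∈
      Subgroup.normalizer ((((T : Subgroup (F.autGroup R)) ⊓ C : Subgroup _)) : Set _) ⊔ C := by
    rw [hfr]
    exact Subgroup.mem_top _
  obtain ⟨ν, hν, c, hc, hνc⟩ := Subgroup.mem_sup_of_normal_right.mp hmem
  obtain ⟨z, hz, hxz⟩ := mem_powerClosure_center p n S hx
  have hzR := hZR z hz
  have hzc : (⟨z, hzR⟩ : R) ∈ Subgroup.center R := mem_center_of_mem_center_top hRS hz hzR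
  have hxe : x = (⟨z, hzR⟩ : R) ^ (p ^ n) := Subtype.ext (by rw [hxz]; rfl)
  have hcx : (c : MulAut R) x = x := by
    rw [hxe]
    exact hc _ hzc
  have hαx : α x = (ν : MulAut R) x := by
    have h1 : α = (ν : MulAut R) * (c : MulAut R) := (congrArg Subtype.val hνc).symm
    rw [h1, MulAut.mul_apply, hcx]
  rw [hαx]
  have hνext : g ∈ FusionSystem.extender S R (R.subtype.comp (ν : MulAut R).toMonoidHom) := by
    apply mem_extender_of_conj_mem S (ν : MulAut R) hgS hgN
    have h1 := (Subgroup.mem_normalizer_iff.mp hν ⟨conjAut R g hgN, hgA⟩).mp hgTC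
    have h2 := (Subgroup.mem_inf.mp h1).1
    rw [hT, Subgroup.mem_subgroupOf] at h2
    exact h2
  have hRN : R ≤ FusionSystem.extender S R (R.subtype.comp (ν : MulAut R).toMonoidHom) :=
    le_extender S R _ hRS (fun y => hRS ((ν : MulAut R) y).2)
  obtain ⟨ψ, hψ, hψext⟩ := exists_extension_of_receptive F hrec ν.2 hRN le_rfl
  have hlt : R < FusionSystem.extender S R (R.subtype.comp (ν : MulAut R).toMonoidHom) :=
    lt_of_le_of_ne hRN (fun h => hgR (h ▸ hνext))
  have h3 := hbig _ hlt ψ hψ (Subgroup.inclusion hRN x) hx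
  rw [hψext] at h3
  exact h3

/-- `S` of class at most `n(p-1)+1`, `F` saturated: the `p^n`-th powers of `Z(S)` form a normal
subgroup of `F`. -/
theorem agemo_center_normal [Finite S] (p : ℕ) [Fact p.Prime] (hS : IsPGroup p S)
    (F : FusionSystem S) (hF : F.IsSaturated p) (n : ℕ)
    (hcl : S.lowerCentralSeries (n * (p - 1) + 1) = ⊥) :
    F.IsNormal (agemoCenter p n S) := by
  have hWS : agemoCenter p n S ≤ S := by
    intro w hw
    obtain ⟨z, hz, rfl⟩ := mem_powerClosure_center p n S hw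
    exact S.pow_mem hz.1 _
  have hWc : ∀ w ∈ agemoCenter p n S, ∀ g ∈ S, g * w = w * g := by
    intro w hw g hg
    obtain ⟨z, hz, rfl⟩ := mem_powerClosure_center p n S hw
    have : Commute g z := Subgroup.mem_centralizer_iff.mp hz.2 g hg
    exact (this.pow_right _).eq
  have hWn : S ≤ Subgroup.normalizer ((agemoCenter p n S : Subgroup Ω) : Set Ω) := by
    intro g hg
    rw [Subgroup.mem_normalizer_iff]
    intro h
    constructor
    · intro hh
      rw [hWc h hh g hg, mul_inv_cancel_right]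
      exact hh
    · intro hh
      have h1 := hWc _ hh g hg
      have h2 : g * h * g⁻¹ = h := by
        have : g * (g * h * g⁻¹) = g * h := by
          rw [h1]
          group
        exact mul_left_cancel this
      rw [h2] at hh
      exact hh
  have hpres := hom_preserves_of_autGroups p hS F hF (agemoCenter p n S) hWn (by
    intro R hR hbig α hα x hx
    by_cases hRS : R = S
    · subst hRS
      exact aut_preserves_agemo_top p n α x hx
    · rcases hR with hR | hR
      · exact absurd hR hRS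
      · exact aut_preserves_agemo_of_centric p hS F hF n hcl R (lt_of_le_of_ne hR.1.1 hRS)
          hR.1 hR.2.1 hbig α hα x hx)
  rw [Cfsg.Agent.S5086.result p hS F hF (agemoCenter p n S)]
  refine ⟨⟨hWS, fun R hRW φ hφ x => hpres R φ hφ x (hRW x.2)⟩, fun P hc _ => ?_⟩
  intro w hw
  obtain ⟨z, hz, rfl⟩ := mem_powerClosure_center p n S hw
  have hPS := hc.1
  have : z ∈ P := hc.2 P (isConj_refl F hPS) ⟨hz.1, Subgroup.centralizer_le hPS hz.2⟩
  exact P.pow_mem this _

end Cfsg.Agent.Helper8
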