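import Mathlib

/-!
# Exponent of a nilpotent group from the exponent of its centre (of the quotients by the upper
central series)
-/

set_option autoImplicit false

namespace Cfsg.Agent.Helper8

open scoped commutatorElement

/-- If `⁅a, b⁆` commutes with `a` then `⁅a^j, b⁆ = ⁅a, b⁆^j`. -/
theorem commutatorElement_pow_left {G : Type*} [Group G] (a b : G) (h : Commute ⁅a, b⁆ a) (j : ℕ) :
    ⁅a ^ j, b⁆ = ⁅a, b⁆ ^ j := by
  induction j with
  | zero => simp
  | succ j ih =>
    have h1 : ⁅a ^ (j + 1), b⁆ = a * ⁅a ^ j, b⁆ * a⁻¹ * ⁅a, b⁆ := by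
      simp only [commutatorElement_def, pow_succ']
      group
    rw [h1, ih]
    have h2 : Commute (⁅a, b⁆ ^ j) a := h.pow_left j
    have h3 : a * ⁅a, b⁆ ^ j * a⁻¹ = ⁅a, b⁆ ^ j := by
      rw [← h2.eq, mul_inv_cancel_right]
    rw [h3, pow_succ]

/-- If the `e`-th power kills the centre of `G`, the `e`-th power maps each term of the upper
central series into the previous one. -/
theorem pow_mem_upperCentralSeries {G : Type*} [Group G] (e : ℕ)
    (he : ∀ z ∈ Subgroup.center G, z ^ e = 1) :
    ∀ (k : ℕ) (g : G), g ∈ Subgroup.upperCentralSeries G (k + 1) →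
      g ^ e ∈ Subgroup.upperCentralSeries G k := by
  intro k
  induction k with
  | zero =>
    intro g hg
    rw [zero_add, Subgroup.upperCentralSeries_one] at hg
    rw [he g hg]
    exact Subgroup.one_mem _
  | succ k ih =>
    intro g hg
    rw [Subgroup.mem_upperCentralSeries_succ_iff]
    intro y
    have hgy : ⁅g, y⁆ ∈ Subgroup.upperCentralSeries G (k + 1) :=
      (Subgroup.mem_upperCentralSeries_succ_iff.mp hg) y
    have hc : ⁅⁅g, y⁆, g⁆ ∈ Subgroup.upperCentralSeries G k :=
      (Subgroup.mem_upperCentralSeries_succ_iff.mp hgy) g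
    have hpow := ih _ hgy
    rw [← QuotientGroup.eq_one_iff] at hc hpow ⊢
    have hc' : Commute (⁅(g : G ⧸ Subgroup.upperCentralSeries G k), (y : G ⧸ _)⁆)
        (g : G ⧸ Subgroup.upperCentralSeries G k) := by
      rw [← commutatorElement_eq_one_iff_commute]
      exact hc
    have h1 := commutatorElement_pow_left (g : G ⧸ Subgroup.upperCentralSeries G k)
      (y : G ⧸ Subgroup.upperCentralSeries G k) hc' e
    have h2 : ((⁅g ^ e, y⁆ : G) : G ⧸ Subgroup.upperCentralSeries G k)
        = ⁅(g : G ⧸ Subgroup.upperCentralSeries G k) ^ e, (y : G ⧸ _)⁆ := rfl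
    rw [h2, h1]
    exact hpow

theorem pow_pow_eq_one_of_mem_upperCentralSeries {G : Type*} [Group G] (e : ℕ)
    (he : ∀ z ∈ Subgroup.center G, z ^ e = 1) :
    ∀ (k : ℕ) (g : G), g ∈ Subgroup.upperCentralSeries G k → g ^ (e ^ k) = 1 := by
  intro k
  induction k with
  | zero =>
    intro g hg
    rw [Subgroup.upperCentralSeries_zero, Subgroup.mem_bot] at hg
    rw [hg, one_pow]
  | succ k ih =>
    intro g hg
    rw [pow_succ, pow_mul']
    exact ih _ (pow_mem_upperCentralSeries e he k g hg)

/-- A group with `lowerCentralSeries m = ⊥` whose centre is killed by `e` has exponent dividing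
`e^m`. -/
theorem pow_pow_eq_one_of_lowerCentralSeries {G : Type*} [Group G] (e m : ℕ)
    (he : ∀ z ∈ Subgroup.center G, z ^ e = 1)
    (hm : (⊤ : Subgroup G).lowerCentralSeries m = ⊥) (g : G) : g ^ (e ^ m) = 1 := by
  have h := Subgroup.lowerCentralSeries_eq_bot_iff_upperCentralSeries_eq_top.mp hm
  exact pow_pow_eq_one_of_mem_upperCentralSeries e he m g (h ▸ Subgroup.mem_top g)

end Cfsg.Agent.Helper8
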