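import Cfsg.Agent.Helper8.FusionAgemo
import Cfsg.Agent.Helper8.GroupUCS

/-!
# Exponent bound for `S` of small class when `O_p(F) = 1`
-/

set_option autoImplicit false

namespace Cfsg.Agent.Helper8

open Cfsg

variable {Ω : Type*} [Group Ω] {S : Subgroup Ω}

theorem exponent_dvd_of_core_eq_bot [Finite S] (p : ℕ) [Fact p.Prime] (hS : IsPGroup p S)
    (F : FusionSystem S) (hF : F.IsSaturated p) (n : ℕ)
    (hcl : S.lowerCentralSeries (n * (p - 1) + 1) = ⊥) (hcore : F.core = ⊥) :
    Monoid.exponent ↥S ∣ p ^ (n ^ 2 * (p - 1) + n) := by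
  have hW := agemo_center_normal p hS F hF n hcl
  have hWbot : agemoCenter p n S = ⊥ := by
    rw [eq_bot_iff, ← hcore]
    exact le_sSup hW
  have he : ∀ z ∈ Subgroup.center S, z ^ (p ^ n) = 1 := by
    intro z hz
    have h1 : ((z : Ω)) ^ (p ^ n) ∈ agemoCenter p n S := by
      apply Subgroup.subset_closure
      refine ⟨z, Subgroup.mem_inf.mpr ⟨z.2, ?_⟩, rfl⟩
      rw [Subgroup.mem_centralizer_iff]
      intro h hh
      exact congrArg Subtype.val (Subgroup.mem_center_iff.mp hz ⟨h, hh⟩)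
    rw [hWbot, Subgroup.mem_bot] at h1
    exact Subtype.ext h1
  have hm : (⊤ : Subgroup S).lowerCentralSeries (n * (p - 1) + 1) = ⊥ := by
    have : ((⊤ : Subgroup S).lowerCentralSeries (n * (p - 1) + 1)).map S.subtype = ⊥ := by
      rw [Subgroup.top_subtype_lowerCentralSeries]
      exact hcl
    exact (Subgroup.map_eq_bot_iff_of_injective _ S.subtype_injective).mp this
  apply Monoid.exponent_dvd_of_forall_pow_eq_one
  intro g
  have h := pow_pow_eq_one_of_lowerCentralSeries (p ^ n) (n * (p - 1) + 1) he hm g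
  have e : (p ^ n) ^ (n * (p - 1) + 1) = p ^ (n ^ 2 * (p - 1) + n) := by
    rw [← pow_mul]
    congr 1
    ring
  rwa [e] at h

end Cfsg.Agent.Helper8
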