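import Cfsg.Agent.Helper8.FusionChain
import Cfsg.Agent.Helper8.CentralChain

set_option autoImplicit false

namespace Cfsg.Agent.Helper8

open Cfsg
open scoped commutatorElement

variable {Ω : Type*} [Group Ω] {S : Subgroup Ω}

/-- S5125: a strongly closed `Q` with a subgroup `Q₁` normal in the system such that `Q / Q₁` is
abelian and `Aut_F(Q₁)` is a `p`-group is normal in the system. -/
theorem normal_of_abelian_over_normal [Finite S] (p : ℕ) [Fact p.Prime] (hS : IsPGroup p S)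
    (F : FusionSystem S) (hF : F.IsSaturated p) (Q Q₁ : Subgroup Ω) (hQ : F.StronglyClosed Q)
    (hQ₁Q : Q₁ ≤ Q) (hQ₁ : F.IsNormal Q₁) (hab : ⁅Q, Q⁆ ≤ Q₁)
    (hAut : IsPGroup p ↥(F.autGroup Q₁)) : F.IsNormal Q := by
  have hQS := hQ.1
  have hQ₁S := hQ₁.1
  have : Finite Q₁ := finite_of_le_finite hQ₁S
  have : Finite (MulAut Q₁) := MulEquiv.finite_left
  obtain ⟨c, U, hU0, hUc, hU, hUinv⟩ := exists_central_chain (hS.to_le hQ₁S) (F.autGroup Q₁) hAut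
  have hSN : S ≤ Subgroup.normalizer (Q₁ : Set Ω) :=
    stronglyClosed_le_normalizer F (stronglyClosed_of_normal F hQ₁)
  have hVle : ∀ i, (U i).map Q₁.subtype ≤ Q₁ := fun i => Subgroup.map_subtype_le _
  have hVsc : ∀ i, F.StronglyClosed ((U i).map Q₁.subtype) := by
    intro i
    refine ⟨(hVle i).trans hQ₁S, ?_⟩
    intro P hP φ hφ x
    have hPQ₁ : P ≤ Q₁ := hP.trans (hVle i)
    obtain ⟨α, hα, hαφ⟩ := autGroup_controls_of_normal F hQ₁ P hPQ₁ φ hφ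
    rw [← hαφ x]
    obtain ⟨u, hu, hux⟩ := hP x.2
    have h1 : Subgroup.inclusion hPQ₁ x = u := Subtype.ext hux.symm
    rw [h1]
    exact ⟨α u, hUinv i u hu α hα, rfl⟩
  have hVcomm : ∀ i, ⁅Q, (U (i + 1)).map Q₁.subtype⁆ ≤ (U i).map Q₁.subtype := by
    intro i
    rw [Subgroup.commutator_le]
    rintro q hq _ ⟨u, hu, rfl⟩
    have hqS := hQS hq
    have hqN := hSN hqS
    have hαA : conjAut Q₁ q hqN ∈ F.autGroup Q₁ :=
      autInducedBy_le_autGroup F hQ₁S (conjAut_mem_autInducedBy Q₁ hqS hqN)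
    have h1 := hU i u⁻¹ (inv_mem hu) _ hαA
    refine ⟨((u⁻¹)⁻¹ * conjAut Q₁ q hqN u⁻¹)⁻¹, inv_mem h1, ?_⟩
    show (((u : Ω)⁻¹)⁻¹ * (q * (u : Ω)⁻¹ * q⁻¹))⁻¹ = ⁅q, (u : Ω)⁆
    rw [commutatorElement_def]
    group
  apply normal_of_chain p hS F hF Q (c + 1)
    (fun i => if (i : ℕ) ≤ c then (U i).map Q₁.subtype else Q)
  · show (if ((0 : Fin (c + 1 + 1)) : ℕ) ≤ c then (U ((0 : Fin (c + 1 + 1)) : ℕ)).map Q₁.subtype else Q) = ⊥
    rw [if_pos (by simp)]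
    simp [hU0]
  · show (if ((Fin.last (c + 1) : Fin (c + 1 + 1)) : ℕ) ≤ c then _ else Q) = Q
    rw [if_neg (by simp)]
  · intro i
    have hi : (i : ℕ) < c + 1 := i.2
    have h1 : ((Fin.castSucc i : Fin (c + 1 + 1)) : ℕ) = i := rfl
    have h2 : ((i.succ : Fin (c + 1 + 1)) : ℕ) = i + 1 := rfl
    show F.StronglyClosed (if ((i.succ : Fin (c + 1 + 1)) : ℕ) ≤ c then
        (U ((i.succ : Fin (c + 1 + 1)) : ℕ)).map Q₁.subtype else Q) ∧
      ⁅Q, (if ((i.succ : Fin (c + 1 + 1)) : ℕ) ≤ c then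
        (U ((i.succ : Fin (c + 1 + 1)) : ℕ)).map Q₁.subtype else Q)⁆ ≤
        (if ((Fin.castSucc i : Fin (c + 1 + 1)) : ℕ) ≤ c then
          (U ((Fin.castSucc i : Fin (c + 1 + 1)) : ℕ)).map Q₁.subtype else Q)
    rw [h1, h2, if_pos (by omega : (i : ℕ) ≤ c)]
    by_cases h3 : (i : ℕ) + 1 ≤ c
    · rw [if_pos h3]
      exact ⟨hVsc _, hVcomm _⟩
    · rw [if_neg h3]
      have h4 : (i : ℕ) = c := by omega
      refine ⟨hQ, ?_⟩
      rw [h4, hUc, ← MonoidHom.range_eq_map, Subgroup.range_subtype]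
      exact hab

end Cfsg.Agent.Helper8
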