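import Cfsg.Agent.Helper8.FusionOmega
import Cfsg.Agent.Helper8.FusionInv2
import Cfsg.Agent.Helper8.FusionTate
import Cfsg.Agent.Helper8.GroupMetacyclic
import Cfsg.Agent.S5086
import Cfsg.Prelude.Def_OddOrderLocal

set_option autoImplicit false

namespace Cfsg.Agent.Helper8

open Cfsg

variable {Ω : Type*} [Group Ω] {S : Subgroup Ω}

theorem zpow_eq_of_dvd {G : Type*} [Group G] {e : G} {p : ℕ} (he : e ^ p = 1) (m n : ℤ)
    (h : (p : ℤ) ∣ m - n) : e ^ m = e ^ n := by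
  obtain ⟨c, hc⟩ := h
  have h1 : m = n + p * c := by linarith
  rw [h1, zpow_add, zpow_mul, zpow_natCast, he, one_zpow, mul_one]

theorem bot_stronglyClosed (F : FusionSystem S) : F.StronglyClosed ⊥ := by
  refine ⟨bot_le, fun R hR φ hφ x => ?_⟩
  have hx : x = 1 := Subtype.ext (Subgroup.mem_bot.mp (hR x.2))
  rw [hx, map_one]
  exact Subgroup.one_mem _

theorem mem_omegaOne_iff_of_comm {p : ℕ} {P : Subgroup Ω}
    (hcomm : ∀ x ∈ P, ∀ y ∈ P, x ^ p = 1 → y ^ p = 1 → x * y = y * x) (v : Ω) :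
    v ∈ omegaOne p P ↔ v ∈ P ∧ v ^ p = 1 := by
  constructor
  · intro hv
    unfold omegaOne at hv
    induction hv using Subgroup.closure_induction with
    | mem x hx => exact hx
    | one => exact ⟨P.one_mem, one_pow _⟩
    | mul x y _ _ hx hy =>
      refine ⟨P.mul_mem hx.1 hy.1, ?_⟩
      rw [(show Commute x y from hcomm x hx.1 y hy.1 hx.2 hy.2).mul_pow, hx.2, hy.2, one_mul]
    | inv x _ hx => exact ⟨P.inv_mem hx.1, by rw [inv_pow, hx.2, inv_one]⟩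
  · intro hv
    exact Subgroup.subset_closure hv

theorem omegaOne_stronglyClosed_of_comm {p : ℕ} (F : FusionSystem S) {P : Subgroup Ω}
    (hP : F.StronglyClosed P)
    (hcomm : ∀ x ∈ P, ∀ y ∈ P, x ^ p = 1 → y ^ p = 1 → x * y = y * x) :
    F.StronglyClosed (omegaOne p P) := by
  have hVmem := mem_omegaOne_iff_of_comm hcomm
  have hVP : omegaOne p P ≤ P := omegaOne_le p P
  refine ⟨hVP.trans hP.1, fun R hR φ hφ x => ?_⟩
  rw [hVmem]
  refine ⟨hP.2 R (hR.trans hVP) φ hφ x, ?_⟩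
  rw [← map_pow]
  have h1 : x ^ p = 1 := Subtype.ext (by
    rw [Subgroup.coe_pow]
    exact ((hVmem x).mp (hR x.2)).2)
  rw [h1, map_one]

theorem center_omega_stronglyClosed [Finite S] {p : ℕ} [Fact p.Prime] (hp2 : p ≠ 2)
    (hS : IsPGroup p S) (F : FusionSystem S) (hF : F.IsSaturated p) {P : Subgroup Ω}
    (hP : F.StronglyClosed P) (Z : Subgroup Ω) (hZP : Z ≤ P)
    (hZc : ∀ z ∈ Z, ∀ g ∈ P, g * z = z * g) (hZp : ∀ z ∈ Z, z ^ p = 1)
    (hZcyc : ∀ u ∈ Z, ∀ w ∈ Z, w ≠ 1 → ∃ s : ℤ, u = w ^ s)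
    (hcomm : ∀ x ∈ P, ∀ y ∈ P, x ^ p = 1 → y ^ p = 1 → x * y = y * x)
    (hcZ : ∀ x ∈ P, ∀ g ∈ P, x ^ p = 1 → x * g * x⁻¹ * g⁻¹ ∈ Z)
    (hgen : ∀ e ∈ P, e ^ p = 1 → e ∉ Z → ∀ v ∈ P, v ^ p = 1 → ∃ t : ℤ, ∃ u ∈ Z, v = e ^ t * u)
    (hncen : ¬ ∀ v ∈ P, v ^ p = 1 → ∀ g ∈ P, g * v = v * g) : F.StronglyClosed Z := by
  classical
  have hp := (Fact.out : p.Prime)
  have hPS := hP.1
  have hZS : Z ≤ S := hZP.trans hPS
  have hfP : Finite P := finite_of_le_finite hPS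
  have hVmem := mem_omegaOne_iff_of_comm hcomm
  have hVsc := omegaOne_stronglyClosed_of_comm F hP hcomm
  have hVP : omegaOne p P ≤ P := omegaOne_le p P
  have hVS : omegaOne p P ≤ S := hVP.trans hPS
  have hZV : Z ≤ omegaOne p P := fun z hz => (hVmem z).mpr ⟨hZP hz, hZp z hz⟩
  have hVcomm : ∀ a b : omegaOne p P, a * b = b * a := fun a b =>
    Subtype.ext (hcomm a (hVP a.2) b (hVP b.2) ((hVmem a).mp a.2).2 ((hVmem b).mp b.2).2)
  by_contra hZsc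
  have hbad : ∃ (R : Subgroup Ω) (_ : R ≤ Z) (φ : R →* Ω) (_ : φ ∈ F.Hom R) (x : R),
      φ x ∉ Z := by
    by_contra h
    push_neg at h
    exact hZsc ⟨hZS, fun R hR φ hφ x => h R hR φ hφ x⟩
  obtain ⟨R, hR, φ, hφ, x, hxZ⟩ := hbad
  have hz1 : (x : Ω) ≠ 1 := by
    intro h1
    have h2 : x = 1 := Subtype.ext h1
    rw [h2, map_one] at hxZ
    exact hxZ Z.one_mem
  have hzZ : (x : Ω) ∈ Z := hR x.2
  have hRZ : Z = R := le_antisymm (fun u hu => by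
    obtain ⟨s, rfl⟩ := hZcyc u hu x hzZ hz1
    exact R.zpow_mem x.2 s) hR
  subst hRZ
  have heV : φ x ∈ omegaOne p P := hVsc.2 Z hZV φ hφ x
  have heP : φ x ∈ P := hVP heV
  have hep : (φ x) ^ p = 1 := ((hVmem _).mp heV).2
  -- Step 1: `Z` is fully normalized
  have hZchar : ∀ v ∈ P, v ^ p = 1 → (∀ g ∈ P, g * v = v * g) → v ∈ Z := by
    intro v hvP hvp hvc
    by_contra hvZ
    apply hncen
    intro w hwP hwp g hg
    obtain ⟨t, u, hu, rfl⟩ := hgen v hvP hvp hvZ w hwP hwp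
    have h1 : Commute g v := hvc g hg
    have h2 : Commute g u := hZc u hu g hg
    exact ((h1.zpow_right t).mul_right h2).eq
  have hSN : S ≤ Subgroup.normalizer (Z : Set Ω) := by
    have hPN := stronglyClosed_le_normalizer F hP
    have key : ∀ s ∈ S, ∀ v ∈ Z, s * v * s⁻¹ ∈ Z := by
      intro s hs v hv
      have hsP : ∀ y ∈ P, s * y * s⁻¹ ∈ P := fun y hy =>
        (Subgroup.mem_normalizer_iff.mp (hPN hs) y).mp hy
      have hsP' : ∀ y ∈ P, s⁻¹ * y * s ∈ P := fun y hy => by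
        have h0 := (Subgroup.mem_normalizer_iff.mp (hPN (S.inv_mem hs)) y).mp hy
        simpa using h0
      apply hZchar _ (hsP v (hZP hv)) (by rw [conj_pow, hZp v hv, mul_one, mul_inv_cancel])
      intro g hg
      have h1 := hZc v hv (s⁻¹ * g * s) (hsP' g hg)
      calc g * (s * v * s⁻¹) = s * ((s⁻¹ * g * s) * v) * s⁻¹ := by group
        _ = s * (v * (s⁻¹ * g * s)) * s⁻¹ := by rw [h1]
        _ = s * v * s⁻¹ * g := by group
    intro s hs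
    rw [Subgroup.mem_normalizer_iff]
    intro v
    constructor
    · exact key s hs v
    · intro hv
      have h0 := key s⁻¹ (S.inv_mem hs) _ hv
      have h2 : s⁻¹ * (s * v * s⁻¹) * s⁻¹⁻¹ = v := by group
      rwa [h2] at h0
  have hZfn : F.IsFullyNormalized Z := by
    refine ⟨hZS, fun Q' _ => ?_⟩
    have h1 : FusionSystem.normalizerIn S Z = S :=
      le_antisymm (normalizerIn_le_left S Z) (fun s hs => ⟨hs, hSN hs⟩)
    rw [h1]
    exact Subgroup.card_le_of_le (normalizerIn_le_left S Q')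
  have hrecZ := receptive_of_fullyCentralized p hS F hF (fullyNormalized_props p hS F hF hZfn).1
  -- Step 2: an automorphism of `V` moving `e` to `z`
  obtain ⟨ψ, hψ, hψinv, hψr⟩ := inv_mem' F hφ rfl
  obtain ⟨ψ', hψ', hψ'ext⟩ := hrecZ.2 φ.range ψ hψ hψr
  have hrV : φ.range ≤ omegaOne p P := by
    rintro _ ⟨y, rfl⟩
    exact hVsc.2 Z hZV φ hφ y
  have hVcen : omegaOne p P ≤ FusionSystem.centralizerIn S φ.range := by
    intro v hv
    refine Subgroup.mem_inf.mpr ⟨hVS hv, ?_⟩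
    rw [Subgroup.mem_centralizer_iff]
    intro y hy
    have hyV := hrV hy
    exact hcomm y (hVP hyV) v (hVP hv) ((hVmem y).mp hyV).2 ((hVmem v).mp hv).2
  have hVext := hVcen.trans (centralizerIn_le_extender S φ.range ψ)
  have hχ := restrict_mem F hψ' hVext
  obtain ⟨β₀, hβ₀, hβ₀χ⟩ := exists_aut_of_hom_range_le F hχ (fun y => hVsc.2 _ le_rfl _ hχ y)
  have hβ₀e : ((β₀ ⟨φ x, heV⟩ : omegaOne p P) : Ω) = x := by
    rw [hβ₀χ]
    show ψ' ⟨φ x, _⟩ = x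
    rw [hψ'ext (φ x) ⟨x, rfl⟩]
    exact hψinv x _
  -- Step 3: the two transvections
  obtain ⟨v₀, hv₀P, hv₀p, g₀, hg₀, hne⟩ : ∃ v ∈ P, v ^ p = 1 ∧ ∃ g ∈ P, g * v ≠ v * g := by
    by_contra h
    push_neg at h
    exact hncen (fun v hv hvp g hg => h v hv hvp g hg)
  have hPNV : P ≤ Subgroup.normalizer (omegaOne p P : Set Ω) := by
    have key : ∀ g ∈ P, ∀ v ∈ omegaOne p P, g * v * g⁻¹ ∈ omegaOne p P := by
      intro g hg v hv
      rw [hVmem]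
      exact ⟨P.mul_mem (P.mul_mem hg (hVP hv)) (P.inv_mem hg),
        by rw [conj_pow, ((hVmem v).mp hv).2, mul_one, mul_inv_cancel]⟩
    intro g hg
    rw [Subgroup.mem_normalizer_iff]
    intro v
    constructor
    · exact key g hg v
    · intro hv
      have h0 := key g⁻¹ (P.inv_mem hg) _ hv
      have h2 : g⁻¹ * (g * v * g⁻¹) * g⁻¹⁻¹ = v := by group
      rwa [h2] at h0
  have hg₀N := hPNV hg₀
  have hxgF : conjAut (omegaOne p P) g₀ hg₀N ∈ F.autGroup (omegaOne p P) :=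
    autInducedBy_le_autGroup F hVS (conjAut_mem_autInducedBy _ (hPS hg₀) hg₀N)
  have hyF : β₀⁻¹ * conjAut (omegaOne p P) g₀ hg₀N * β₀ ∈ F.autGroup (omegaOne p P) :=
    mul_mem (mul_mem (inv_mem hβ₀) hxgF) hβ₀
  have hzV : (x : Ω) ∈ omegaOne p P := hZV hzZ
  have hβe : β₀ ⟨φ x, heV⟩ = ⟨(x : Ω), hzV⟩ := Subtype.ext hβ₀e
  have hz'p : (⟨(x : Ω), hzV⟩ : omegaOne p P) ^ p = 1 := Subtype.ext (by
    rw [Subgroup.coe_pow]
    exact hZp _ hzZ)
  have he'p : (⟨φ x, heV⟩ : omegaOne p P) ^ p = 1 := Subtype.ext (by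
    rw [Subgroup.coe_pow]
    exact hep)
  have hgen' : ∀ v : omegaOne p P, ∃ m n : ℤ,
      v = (⟨φ x, heV⟩ : omegaOne p P) ^ m * (⟨(x : Ω), hzV⟩ : omegaOne p P) ^ n := by
    intro v
    obtain ⟨t, u, hu, hvu⟩ := hgen (φ x) heP hep hxZ v (hVP v.2) ((hVmem v).mp v.2).2
    obtain ⟨n, rfl⟩ := hZcyc u hu x hzZ hz1
    exact ⟨t, n, Subtype.ext (by rw [hvu]; rfl)⟩
  have hg₀e : g₀ * φ x ≠ φ x * g₀ := by
    intro h
    apply hne
    obtain ⟨t, u, hu, rfl⟩ := hgen (φ x) heP hep hxZ v₀ hv₀P hv₀p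
    have h1 : Commute g₀ (φ x) := h
    have h2 : Commute g₀ u := hZc u hu g₀ hg₀
    exact ((h1.zpow_right t).mul_right h2).eq
  have hCg : ∀ v ∈ omegaOne p P, g₀ * v = v * g₀ → v ∈ Z := by
    intro v hv hc
    obtain ⟨t, u, hu, rfl⟩ := hgen (φ x) heP hep hxZ v (hVP hv) ((hVmem v).mp hv).2
    have h2 : Commute g₀ u := hZc u hu g₀ hg₀
    have h3 : Commute g₀ ((φ x) ^ t) := by
      have h4 : Commute g₀ ((φ x) ^ t * u) := hc
      have h5 : (φ x) ^ t = ((φ x) ^ t * u) * u⁻¹ := by group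
      rw [h5]
      exact h4.mul_right h2.inv_right
    by_cases hpt : (p : ℤ) ∣ t
    · have h6 : (φ x) ^ t = 1 := by
        have h7 := zpow_eq_of_dvd hep t 0 (by simpa using hpt)
        simpa using h7
      rw [h6, one_mul]
      exact hu
    · exfalso
      obtain ⟨i, hi⟩ := exists_nat_inv hp t hpt 1
      have h6 : ((φ x) ^ t) ^ i = φ x := by
        rw [← zpow_natCast, ← zpow_mul, zpow_eq_of_dvd hep _ 1 hi, zpow_one]
      apply hg₀e
      have h7 : Commute g₀ (((φ x) ^ t) ^ i) := h3.pow_right i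
      rw [h6] at h7
      exact h7.eq
  have hxz : conjAut (omegaOne p P) g₀ hg₀N ⟨(x : Ω), hzV⟩ = ⟨(x : Ω), hzV⟩ := by
    apply Subtype.ext
    rw [conjAut_apply]
    show g₀ * (x : Ω) * g₀⁻¹ = x
    rw [hZc x hzZ g₀ hg₀, mul_inv_cancel_right]
  have hcZ' : (φ x)⁻¹ * g₀ * φ x * g₀⁻¹ ∈ Z := by
    have h0 := hcZ (φ x)⁻¹ (P.inv_mem heP) g₀ hg₀ (by rw [inv_pow, hep, inv_one])
    rwa [inv_inv] at h0
  obtain ⟨a, ha⟩ := hZcyc _ hcZ' x hzZ hz1
  have hpa : ¬ (p : ℤ) ∣ a := by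
    intro hpa
    have h1 : (x : Ω) ^ a = 1 := by
      simpa using zpow_eq_of_dvd (hZp x hzZ) a 0 (by simpa using hpa)
    rw [h1] at ha
    apply hg₀e
    have h2 : g₀ * φ x = φ x * ((φ x)⁻¹ * g₀ * φ x * g₀⁻¹) * g₀ := by group
    rw [h2, ha, mul_one]
  have hxe : conjAut (omegaOne p P) g₀ hg₀N ⟨φ x, heV⟩ =
      ⟨φ x, heV⟩ * (⟨(x : Ω), hzV⟩ : omegaOne p P) ^ a := by
    apply Subtype.ext
    rw [conjAut_apply]
    show g₀ * φ x * g₀⁻¹ = φ x * (x : Ω) ^ a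
    rw [← ha]
    group
  have hβinv : β₀⁻¹ ⟨(x : Ω), hzV⟩ = ⟨φ x, heV⟩ := by
    rw [← hβe, MulAut.inv_apply_self]
  have hye : (β₀⁻¹ * conjAut (omegaOne p P) g₀ hg₀N * β₀) ⟨φ x, heV⟩ = ⟨φ x, heV⟩ := by
    rw [MulAut.mul_apply, MulAut.mul_apply, hβe, hxz, hβinv]
  have hz₁V := (β₀ ⟨(x : Ω), hzV⟩).2
  have hc'Z : ((β₀ ⟨(x : Ω), hzV⟩ : omegaOne p P) : Ω)⁻¹ * g₀ *
      (β₀ ⟨(x : Ω), hzV⟩ : omegaOne p P) * g₀⁻¹ ∈ Z := by
    have h0 := hcZ ((β₀ ⟨(x : Ω), hzV⟩ : omegaOne p P) : Ω)⁻¹ (P.inv_mem (hVP hz₁V)) g₀ hg₀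
      (by rw [inv_pow, ((hVmem _).mp hz₁V).2, inv_one])
    rwa [inv_inv] at h0
  obtain ⟨s, hs⟩ := hZcyc _ hc'Z x hzZ hz1
  have hps : ¬ (p : ℤ) ∣ s := by
    intro hps
    have h1 : (x : Ω) ^ s = 1 := by
      simpa using zpow_eq_of_dvd (hZp x hzZ) s 0 (by simpa using hps)
    rw [h1] at hs
    have h2 : g₀ * ((β₀ ⟨(x : Ω), hzV⟩ : omegaOne p P) : Ω) =
        (β₀ ⟨(x : Ω), hzV⟩ : omegaOne p P) * g₀ := by
      have h3 : g₀ * ((β₀ ⟨(x : Ω), hzV⟩ : omegaOne p P) : Ω) =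
          (β₀ ⟨(x : Ω), hzV⟩ : omegaOne p P) *
            (((β₀ ⟨(x : Ω), hzV⟩ : omegaOne p P) : Ω)⁻¹ * g₀ *
              (β₀ ⟨(x : Ω), hzV⟩ : omegaOne p P) * g₀⁻¹) * g₀ := by group
      rw [h3, hs, mul_one]
    have h4 := hCg _ hz₁V h2
    obtain ⟨k, hk⟩ := hZcyc _ h4 x hzZ hz1
    have h5 : β₀ ⟨(x : Ω), hzV⟩ = β₀ ((⟨φ x, heV⟩ : omegaOne p P) ^ k) := by
      rw [map_zpow, hβe]
      exact Subtype.ext hk
    have h6 : (⟨(x : Ω), hzV⟩ : omegaOne p P) = (⟨φ x, heV⟩ : omegaOne p P) ^ k :=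
      β₀.injective h5
    have h7 : (x : Ω) = (φ x) ^ k := congrArg Subtype.val h6
    by_cases hpk : (p : ℤ) ∣ k
    · apply hz1
      rw [h7]
      simpa using zpow_eq_of_dvd hep k 0 (by simpa using hpk)
    · obtain ⟨i, hi⟩ := exists_nat_inv hp k hpk 1
      apply hxZ
      have h8 : ((φ x) ^ k) ^ i = φ x := by
        rw [← zpow_natCast, ← zpow_mul, zpow_eq_of_dvd hep _ 1 hi, zpow_one]
      rw [← h8, ← h7]
      exact Z.pow_mem hzZ i
  have hyz : (β₀⁻¹ * conjAut (omegaOne p P) g₀ hg₀N * β₀) ⟨(x : Ω), hzV⟩ =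
      ⟨(x : Ω), hzV⟩ * (⟨φ x, heV⟩ : omegaOne p P) ^ s := by
    have h1 : conjAut (omegaOne p P) g₀ hg₀N (β₀ ⟨(x : Ω), hzV⟩) =
        β₀ ⟨(x : Ω), hzV⟩ * (⟨(x : Ω), hzV⟩ : omegaOne p P) ^ s := by
      apply Subtype.ext
      rw [conjAut_apply]
      show g₀ * ((β₀ ⟨(x : Ω), hzV⟩ : omegaOne p P) : Ω) * g₀⁻¹ =
        (β₀ ⟨(x : Ω), hzV⟩ : omegaOne p P) * (x : Ω) ^ s
      rw [← hs]
      group
    rw [MulAut.mul_apply, MulAut.mul_apply, h1, map_mul, MulAut.inv_apply_self, map_zpow, hβinv]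
  obtain ⟨ι, hιmem, hι⟩ := inversion_word hp hVcomm ⟨(x : Ω), hzV⟩ ⟨φ x, heV⟩ hz'p he'p hgen'
    (conjAut (omegaOne p P) g₀ hg₀N) (β₀⁻¹ * conjAut (omegaOne p P) g₀ hg₀N * β₀) a s hpa hps
    hxz hxe hye hyz
  have hιF : ι ∈ F.autGroup (omegaOne p P) := by
    refine (Subgroup.closure_le _).mpr ?_ hιmem
    rintro w (rfl | rfl)
    · exact hxgF
    · exact hyF
  -- Step 4: extend the inversion to `S`
  have hrecV := receptive_of_fullyCentralized p hS F hF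
    (fullyNormalized_props p hS F hF (isFullyNormalized_of_stronglyClosed F hVsc)).1
  have hSNV := stronglyClosed_le_normalizer F hVsc
  have hSext : S ≤ FusionSystem.extender S (omegaOne p P)
      ((omegaOne p P).subtype.comp ι.toMonoidHom) := by
    intro g hg
    refine mem_extender_of S _ _ hg (hSNV hg) hg (fun v => ?_)
    show ((ι (conjAut (omegaOne p P) g (hSNV hg) v) : omegaOne p P) : Ω) =
      g * ((ι v : omegaOne p P) : Ω) * g⁻¹
    rw [hι, hι]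
    show (g * (v : Ω) * g⁻¹)⁻¹ = g * (v : Ω)⁻¹ * g⁻¹
    group
  obtain ⟨ψS, hψS, hψSext⟩ := exists_extension_of_receptive F hrecV hιF hVS hSext
  have hχP := restrict_mem F hψS hPS
  obtain ⟨θ, hθ, hθχ⟩ := exists_aut_of_hom_range_le F hχP (fun y => hP.2 P le_rfl _ hχP y)
  have hθinv : ∀ v : P, v ^ p = 1 → θ v = v⁻¹ := by
    intro v hv
    have hvV : (v : Ω) ∈ omegaOne p P := (hVmem v).mpr ⟨v.2, by
      rw [← Subgroup.coe_pow, hv]
      rfl⟩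
    apply Subtype.ext
    rw [hθχ]
    show ψS ⟨(v : Ω), hPS v.2⟩ = ((v⁻¹ : P) : Ω)
    have h1 := hψSext ⟨(v : Ω), hvV⟩
    have h2 : Subgroup.inclusion hVS ⟨(v : Ω), hvV⟩ = (⟨(v : Ω), hPS v.2⟩ : S) := Subtype.ext rfl
    rw [h2] at h1
    rw [h1, hι]
    rfl
  -- Step 5: contradiction
  have hPp : IsPGroup p P := hS.to_le hPS
  have hfin := central_of_inverting hp2 hPp (Z.subgroupOf P)
    (fun z hz g => Subtype.ext (hZc z.1 (Subgroup.mem_subgroupOf.mp hz) g.1 g.2))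
    (fun y g hy => Subgroup.mem_subgroupOf.mpr (hcZ y.1 y.2 g.1 g.2 (by
      rw [← Subgroup.coe_pow, hy]
      rfl)))
    (fun z hz => Subtype.ext (by
      rw [Subgroup.coe_pow]
      exact hZp z.1 (Subgroup.mem_subgroupOf.mp hz)))
    θ hθinv
  apply hncen
  intro v hvP hvp g hg
  have h1 := hfin ⟨v, hvP⟩ ⟨g, hg⟩ (Subtype.ext (by
    rw [Subgroup.coe_pow]
    exact hvp))
  exact (congrArg Subtype.val h1).symm

theorem normal_of_rank2_omega [Finite S] {p : ℕ} [Fact p.Prime] (hp2 : p ≠ 2)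
    (hS : IsPGroup p S) (F : FusionSystem S) (hF : F.IsSaturated p) {P : Subgroup Ω}
    (hP : F.StronglyClosed P) (Z : Subgroup Ω) (hZP : Z ≤ P)
    (hZc : ∀ z ∈ Z, ∀ g ∈ P, g * z = z * g) (hZp : ∀ z ∈ Z, z ^ p = 1)
    (hZcyc : ∀ u ∈ Z, ∀ w ∈ Z, w ≠ 1 → ∃ s : ℤ, u = w ^ s)
    (hcomm : ∀ x ∈ P, ∀ y ∈ P, x ^ p = 1 → y ^ p = 1 → x * y = y * x)
    (hcZ : ∀ x ∈ P, ∀ g ∈ P, x ^ p = 1 → x * g * x⁻¹ * g⁻¹ ∈ Z)
    (hgen : ∀ e ∈ P, e ^ p = 1 → e ∉ Z → ∀ v ∈ P, v ^ p = 1 → ∃ t : ℤ, ∃ u ∈ Z, v = e ^ t * u) :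
    F.IsNormal P := by
  have hVmem := mem_omegaOne_iff_of_comm hcomm
  have hVsc := omegaOne_stronglyClosed_of_comm F hP hcomm
  by_cases hcen : ∀ v ∈ P, v ^ p = 1 → ∀ g ∈ P, g * v = v * g
  · refine (Cfsg.Agent.S5086.result p hS F hF P).mpr ⟨hP, fun R hc hr =>
      le_centric_radical_of_omega_chain hp2 hS F hP 1 ![⊥, omegaOne p P] rfl rfl ?_ ?_ hc hr⟩
    · intro i
      fin_cases i
      · exact bot_stronglyClosed F
      · exact hVsc
    · intro i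
      fin_cases i
      show ⁅omegaOne p P, P⁆ ≤ ⊥
      rw [Subgroup.commutator_le]
      intro v hv g hg
      obtain ⟨hvP, hvp⟩ := (hVmem v).mp hv
      rw [Subgroup.mem_bot, commutatorElement_def, ← hcen v hvP hvp g hg]
      group
  · have hZsc := center_omega_stronglyClosed hp2 hS F hF hP Z hZP hZc hZp hZcyc hcomm hcZ hgen hcen
    refine (Cfsg.Agent.S5086.result p hS F hF P).mpr ⟨hP, fun R hc hr =>
      le_centric_radical_of_omega_chain hp2 hS F hP 2 ![⊥, Z, omegaOne p P] rfl rfl ?_ ?_ hc hr⟩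
    · intro i
      fin_cases i
      · exact bot_stronglyClosed F
      · exact hZsc
      · exact hVsc
    · intro i
      fin_cases i
      · show ⁅Z, P⁆ ≤ ⊥
        rw [Subgroup.commutator_le]
        intro z hz g hg
        rw [Subgroup.mem_bot, commutatorElement_def, ← hZc z hz g hg]
        group
      · show ⁅omegaOne p P, P⁆ ≤ Z
        rw [Subgroup.commutator_le]
        intro v hv g hg
        obtain ⟨hvP, hvp⟩ := (hVmem v).mp hv
        rw [commutatorElement_def]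
        exact hcZ v hvP g hg hvp

/-- A metacyclic strongly closed subgroup is normal, for odd `p`. -/
theorem normal_of_metacyclic [Finite S] {p : ℕ} [Fact p.Prime] (hp2 : p ≠ 2)
    (hS : IsPGroup p S) (F : FusionSystem S) (hF : F.IsSaturated p) {P : Subgroup Ω}
    (hP : F.StronglyClosed P) (hm : IsMetacyclic ↥P) : F.IsNormal P := by
  have hPS := hP.1
  have hfP : Finite P := finite_of_le_finite hPS
  have hPp : IsPGroup p P := hS.to_le hPS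
  obtain ⟨N, hNn, hNc, hQc⟩ := hm
  haveI := hNn
  obtain ⟨Z₀, h1, h2, h3, h4, h5, h6⟩ := metacyclic_structure hp2 hPp N hNc hQc
  apply normal_of_rank2_omega hp2 hS F hF hP (Z₀.map P.subtype)
  · rintro _ ⟨z, -, rfl⟩
    exact z.2
  · rintro _ ⟨z, hz, rfl⟩ g hg
    exact congrArg Subtype.val (h1 z hz ⟨g, hg⟩)
  · rintro _ ⟨z, hz, rfl⟩
    have h0 := congrArg Subtype.val (h2 z hz)
    simpa using h0
  · rintro _ ⟨u, hu, rfl⟩ _ ⟨w, hw, rfl⟩ hw1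
    obtain ⟨s, hs⟩ := h3 u hu w hw (fun h => hw1 (by rw [h]; rfl))
    exact ⟨s, by rw [hs]; rfl⟩
  · intro x hx y hy hxp hyp
    exact congrArg Subtype.val (h4 ⟨x, hx⟩ ⟨y, hy⟩ (Subtype.ext (by simpa using hxp))
      (Subtype.ext (by simpa using hyp)))
  · intro x hx g hg hxp
    exact ⟨_, h5 ⟨x, hx⟩ ⟨g, hg⟩ (Subtype.ext (by simpa using hxp)), rfl⟩
  · intro e he hep heZ v hv hvp
    obtain ⟨t, u, hu, hvu⟩ := h6 ⟨e, he⟩ (Subtype.ext (by simpa using hep))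
      (fun h => heZ ⟨_, h, rfl⟩) ⟨v, hv⟩ (Subtype.ext (by simpa using hvp))
    refine ⟨t, u, ⟨u, hu, rfl⟩, ?_⟩
    have h0 := congrArg Subtype.val hvu
    simpa using h0

end Cfsg.Agent.Helper8
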