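import Cfsg.Agent.Helper8.GroupGES
import Cfsg.Agent.Helper8.FusionMeta
import Cfsg.Agent.Helper8.FusionChain

/-!
# Generalized extraspecial strongly closed subgroups are normal

If `P` is strongly closed in a saturated fusion system, `Φ(P) = P'` has order `p`, and `P` is not
of the form `D₈ × A` (`p = 2`) or `p^{1+2}_+ × A` (`p` odd), then `P` is normal.
-/

set_option autoImplicit false

namespace Cfsg.Agent.Helper8

open Cfsg
open scoped commutatorElement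

variable {Ω : Type*} [Group Ω] {S : Subgroup Ω}

namespace GES

theorem le_normalizer {p : ℕ} [Fact p.Prime] (F : FusionSystem S) {P Z : Subgroup Ω}
    (hP : F.StronglyClosed P) (h : GES p P Z) : S ≤ Subgroup.normalizer (Z : Set Ω) := by
  have hPN := stronglyClosed_le_normalizer F hP
  obtain ⟨a, ha, b, hb, hab⟩ := h.nonab
  have hcZ : a * b * a⁻¹ * b⁻¹ ∈ Z := h.comm a ha b hb
  have hc1 : a * b * a⁻¹ * b⁻¹ ≠ 1 := by
    intro h1
    apply hab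
    have h2 : a * b = (a * b * a⁻¹ * b⁻¹) * (b * a) := by group
    rw [h2, h1, one_mul]
  have key : ∀ s ∈ S, ∀ v ∈ Z, s * v * s⁻¹ ∈ Z := by
    intro s hs v hv
    have hsP : ∀ y ∈ P, s * y * s⁻¹ ∈ P := fun y hy =>
      (Subgroup.mem_normalizer_iff.mp (hPN hs) y).mp hy
    obtain ⟨k, rfl⟩ := h.cyc hv hcZ hc1
    have h1 : s * (a * b * a⁻¹ * b⁻¹) ^ k * s⁻¹ = (s * (a * b * a⁻¹ * b⁻¹) * s⁻¹) ^ k := by
      rw [conj_pow]
    rw [h1]
    apply Z.pow_mem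
    have h2 : s * (a * b * a⁻¹ * b⁻¹) * s⁻¹ =
        (s * a * s⁻¹) * (s * b * s⁻¹) * (s * a * s⁻¹)⁻¹ * (s * b * s⁻¹)⁻¹ := by group
    rw [h2]
    exact h.comm _ (hsP a ha) _ (hsP b hb)
  intro s hs
  rw [Subgroup.mem_normalizer_iff]
  intro v
  constructor
  · exact key s hs v
  · intro hv
    have h0 := key s⁻¹ (S.inv_mem hs) _ hv
    have h2 : s⁻¹ * (s * v * s⁻¹) * s⁻¹⁻¹ = v := by group
    rwa [h2] at h0

/-- If some map of the system moves an element `u` of `Z` outside `Z`, then the centralizer in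
`P` of its image is elementary abelian, and it carries a map of the system sending the image back
to `u`. -/
theorem conj_structure [Finite S] (p : ℕ) [Fact p.Prime] (hS : IsPGroup p S)
    (F : FusionSystem S) (hF : F.IsSaturated p) {P Z : Subgroup Ω} (hP : F.StronglyClosed P)
    (h : GES p P Z) {φ : Z →* Ω} (hφ : φ ∈ F.Hom Z) (u : Z) (hu : φ u ∉ Z) :
    (∀ a ∈ P, ∀ b ∈ P, a * φ u = φ u * a → b * φ u = φ u * b → a * b = b * a) ∧
    (∀ a ∈ P, a * φ u = φ u * a → a ^ p = 1) ∧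
    ∃ χ ∈ F.Hom (P ⊓ Subgroup.centralizer {φ u}),
      ∀ hy : φ u ∈ P ⊓ Subgroup.centralizer {φ u}, χ ⟨φ u, hy⟩ = u := by
  have hPS := hP.1
  have hZS : Z ≤ S := h.le.trans hPS
  have hSN := h.le_normalizer F hP
  have hZfn : F.IsFullyNormalized Z := by
    refine ⟨hZS, fun Q' _ => ?_⟩
    have h1 : FusionSystem.normalizerIn S Z = S :=
      le_antisymm (normalizerIn_le_left S Z) (fun s hs => ⟨hs, hSN hs⟩)
    rw [h1]
    exact Subgroup.card_le_of_le (normalizerIn_le_left S Q')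
  have hrecZ := receptive_of_fullyCentralized p hS F hF (fullyNormalized_props p hS F hF hZfn).1
  have hu1 : (u : Ω) ≠ 1 := by
    intro h1
    have h2 : u = 1 := Subtype.ext h1
    rw [h2, map_one] at hu
    exact hu Z.one_mem
  have hyP : φ u ∈ P := hP.2 Z h.le φ hφ u
  obtain ⟨ψ, hψ, hψinv, hψr⟩ := inv_mem' F hφ rfl
  obtain ⟨ψ', hψ', hψ'ext⟩ := hrecZ.2 φ.range ψ hψ hψr
  have hMmem : ∀ g, g ∈ P ⊓ Subgroup.centralizer {φ u} ↔ g ∈ P ∧ g * φ u = φ u * g := by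
    intro g
    rw [Subgroup.mem_inf, Subgroup.mem_centralizer_iff]
    constructor
    · rintro ⟨h1, h2⟩
      exact ⟨h1, (h2 (φ u) rfl).symm⟩
    · rintro ⟨h1, h2⟩
      refine ⟨h1, fun x hx => ?_⟩
      rw [Set.mem_singleton_iff.mp hx]
      exact h2.symm
  have hMcen : P ⊓ Subgroup.centralizer {φ u} ≤ FusionSystem.centralizerIn S φ.range := by
    intro g hg
    refine Subgroup.mem_inf.mpr ⟨hPS hg.1, ?_⟩
    rw [Subgroup.mem_centralizer_iff]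
    rintro _ ⟨v, rfl⟩
    obtain ⟨k, hk⟩ := h.cyc v.2 u.2 hu1
    have hv : v = u ^ k := Subtype.ext hk
    rw [hv, map_pow]
    have h1 : Commute (φ u) g := ((hMmem g).mp hg).2.symm
    exact (h1.pow_left k).eq
  have hMext := hMcen.trans (centralizerIn_le_extender S φ.range ψ)
  have hχ := restrict_mem F hψ' hMext
  have hyM : φ u ∈ P ⊓ Subgroup.centralizer {φ u} := (hMmem _).mpr ⟨hyP, rfl⟩
  have hχy : (ψ'.comp (Subgroup.inclusion hMext)) ⟨φ u, hyM⟩ = u := by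
    show ψ' ⟨φ u, _⟩ = u
    rw [hψ'ext (φ u) ⟨u, rfl⟩]
    exact hψinv u _
  have hχP : ∀ m : ↥(P ⊓ Subgroup.centralizer {φ u}),
      (ψ'.comp (Subgroup.inclusion hMext)) m ∈ P :=
    fun m => hP.2 _ inf_le_left _ hχ m
  have hχinj := F.injective_of_mem hχ
  have key : ∀ c : ↥(P ⊓ Subgroup.centralizer {φ u}), (c : Ω) ∈ Z → (c : Ω) ≠ 1 →
      (ψ'.comp (Subgroup.inclusion hMext)) c ∈ Z → False := by
    intro c hcZ hc1 hχc
    have hχc1 : (ψ'.comp (Subgroup.inclusion hMext)) c ≠ 1 := by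
      intro h1
      apply hc1
      have h2 : c = 1 := hχinj (by rw [h1, map_one])
      rw [h2]
      rfl
    obtain ⟨k, hk⟩ := h.cyc u.2 hχc hχc1
    have h2 : (ψ'.comp (Subgroup.inclusion hMext)) ⟨φ u, hyM⟩ =
        (ψ'.comp (Subgroup.inclusion hMext)) (c ^ k) := by
      rw [hχy, map_pow, hk]
    have h3 := hχinj h2
    apply hu
    have h4 : φ u = (c : Ω) ^ k := congrArg Subtype.val h3
    rw [h4]
    exact Z.pow_mem hcZ k
  refine ⟨?_, ?_, ψ'.comp (Subgroup.inclusion hMext), hχ, fun _ => hχy⟩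
  · intro a ha b hb hay hby
    by_contra hab
    have haM : a ∈ P ⊓ Subgroup.centralizer {φ u} := (hMmem a).mpr ⟨ha, hay⟩
    have hbM : b ∈ P ⊓ Subgroup.centralizer {φ u} := (hMmem b).mpr ⟨hb, hby⟩
    apply key ((⟨a, haM⟩ : ↥(P ⊓ Subgroup.centralizer {φ u})) * ⟨b, hbM⟩ * ⟨a, haM⟩⁻¹ * ⟨b, hbM⟩⁻¹)
      (h.comm a ha b hb)
    · intro h1
      apply hab
      have h2 : a * b = (a * b * a⁻¹ * b⁻¹) * (b * a) := by group
      have h3 : a * b * a⁻¹ * b⁻¹ = 1 := h1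
      rw [h2, h3, one_mul]
    · rw [map_mul, map_mul, map_mul, map_inv, map_inv]
      exact h.comm _ (hχP _) _ (hχP _)
  · intro a ha hay
    by_contra hap
    have haM : a ∈ P ⊓ Subgroup.centralizer {φ u} := (hMmem a).mpr ⟨ha, hay⟩
    apply key ((⟨a, haM⟩ : ↥(P ⊓ Subgroup.centralizer {φ u})) ^ p) (h.pow a ha) hap
    rw [map_pow]
    exact h.pow _ (hχP _)

/-- The case where every element of `P` outside the centralizer of the image has order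
greater than `p` (`p` odd) is impossible. -/
theorem no_bad_conj [Finite S] (p : ℕ) [Fact p.Prime] (hp2 : p ≠ 2) (hS : IsPGroup p S)
    (F : FusionSystem S) (hF : F.IsSaturated p) {P Z : Subgroup Ω} (hP : F.StronglyClosed P)
    (h : GES p P Z) {φ : Z →* Ω} (hφ : φ ∈ F.Hom Z) (u : Z) (hu : φ u ∉ Z)
    (hexp : ∀ t ∈ P, t * φ u ≠ φ u * t → t ^ p ≠ 1) : False := by
  classical
  have hp := (Fact.out : p.Prime)
  have hPS := hP.1
  obtain ⟨hMc, hMp, χ, hχ, hχy⟩ := h.conj_structure p hS F hF hP hφ u hu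
  have hyP : φ u ∈ P := hP.2 Z h.le φ hφ u
  have hu1 : (u : Ω) ≠ 1 := by
    intro h1
    have h2 : u = 1 := Subtype.ext h1
    rw [h2, map_one] at hu
    exact hu Z.one_mem
  generalize φ u = y at hu hexp hMc hMp χ hχ hχy hyP
  have hVmem : ∀ g, g ∈ P ⊓ Subgroup.centralizer {y} ↔ g ∈ P ∧ g * y = y * g := by
    intro g
    rw [Subgroup.mem_inf, Subgroup.mem_centralizer_iff]
    constructor
    · rintro ⟨h1, h2⟩
      exact ⟨h1, (h2 y rfl).symm⟩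
    · rintro ⟨h1, h2⟩
      refine ⟨h1, fun x hx => ?_⟩
      rw [Set.mem_singleton_iff.mp hx]
      exact h2.symm
  have hVP : P ⊓ Subgroup.centralizer {y} ≤ P := inf_le_left
  have hVS : P ⊓ Subgroup.centralizer {y} ≤ S := hVP.trans hPS
  have hyV : y ∈ P ⊓ Subgroup.centralizer {y} := (hVmem y).mpr ⟨hyP, rfl⟩
  have hZV : Z ≤ P ⊓ Subgroup.centralizer {y} :=
    fun z hz => (hVmem z).mpr ⟨h.le hz, (h.central z hz y hyP).symm⟩
  have hVexp : ∀ v ∈ P ⊓ Subgroup.centralizer {y}, v ^ p = 1 :=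
    fun v hv => hMp v ((hVmem v).mp hv).1 ((hVmem v).mp hv).2
  have hVcomm : ∀ a b : ↥(P ⊓ Subgroup.centralizer {y}), a * b = b * a := fun a b =>
    Subtype.ext (hMc a ((hVmem a).mp a.2).1 b ((hVmem b).mp b.2).1 ((hVmem a).mp a.2).2
      ((hVmem b).mp b.2).2)
  have hVchar : ∀ g ∈ P, g ^ p = 1 → g ∈ P ⊓ Subgroup.centralizer {y} := by
    intro g hg hgp
    by_contra hgV
    exact hexp g hg (fun hc => hgV ((hVmem g).mpr ⟨hg, hc⟩)) hgp
  have hVsc : F.StronglyClosed (P ⊓ Subgroup.centralizer {y}) := by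
    refine ⟨hVS, fun R hR φ' hφ' x => ?_⟩
    apply hVchar _ (hP.2 R (hR.trans hVP) φ' hφ' x)
    rw [← map_pow]
    have h1 : x ^ p = 1 := Subtype.ext (by
      rw [Subgroup.coe_pow]
      exact hVexp x (hR x.2))
    rw [h1, map_one]
  obtain ⟨β, hβ, hβχ⟩ := exists_aut_of_hom_range_le F hχ (fun v => hVsc.2 _ le_rfl _ hχ v)
  have hzV : (u : Ω) ∈ P ⊓ Subgroup.centralizer {y} := hZV u.2
  have hβy : β ⟨y, hyV⟩ = ⟨(u : Ω), hzV⟩ := Subtype.ext (by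
    rw [hβχ]
    exact hχy hyV)
  obtain ⟨t, ht, hty⟩ : ∃ t ∈ P, t * y ≠ y * t := by
    by_contra hall
    push_neg at hall
    obtain ⟨a, ha, b, hb, hab⟩ := h.nonab
    exact hab (hMc a ha b hb (hall a ha) (hall b hb))
  have hSNV := stronglyClosed_le_normalizer F hVsc
  have htN : t ∈ Subgroup.normalizer ((P ⊓ Subgroup.centralizer {y} : Subgroup Ω) : Set Ω) :=
    hSNV (hPS ht)
  have hxF : conjAut (P ⊓ Subgroup.centralizer {y}) t htN ∈
      F.autGroup (P ⊓ Subgroup.centralizer {y}) :=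
    autInducedBy_le_autGroup F hVS (conjAut_mem_autInducedBy _ (hPS ht) htN)
  have hx'F : β⁻¹ * conjAut (P ⊓ Subgroup.centralizer {y}) t htN * β ∈
      F.autGroup (P ⊓ Subgroup.centralizer {y}) :=
    mul_mem (mul_mem (inv_mem hβ) hxF) hβ
  have hZvp : (⟨(u : Ω), hzV⟩ : ↥(P ⊓ Subgroup.centralizer {y})) ^ p = 1 := Subtype.ext (by
    rw [Subgroup.coe_pow]
    exact h.pow_eq_one u.2)
  have hYvp : (⟨y, hyV⟩ : ↥(P ⊓ Subgroup.centralizer {y})) ^ p = 1 := Subtype.ext (by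
    rw [Subgroup.coe_pow]
    exact hVexp y hyV)
  have hxact : ∀ v : ↥(P ⊓ Subgroup.centralizer {y}), ∃ k : ℕ,
      conjAut (P ⊓ Subgroup.centralizer {y}) t htN v =
        v * (⟨(u : Ω), hzV⟩ : ↥(P ⊓ Subgroup.centralizer {y})) ^ k := by
    intro v
    have hvP := hVP v.2
    have h1 : (v : Ω)⁻¹ * t * (v : Ω) * t⁻¹ ∈ Z := by
      have h0 := h.comm (v : Ω)⁻¹ (P.inv_mem hvP) t ht
      rwa [inv_inv] at h0
    obtain ⟨k, hk⟩ := h.cyc h1 u.2 hu1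
    refine ⟨k, Subtype.ext ?_⟩
    rw [conjAut_apply]
    show t * (v : Ω) * t⁻¹ = (v : Ω) * (u : Ω) ^ k
    rw [← hk]
    group
  have hxz : conjAut (P ⊓ Subgroup.centralizer {y}) t htN ⟨(u : Ω), hzV⟩ = ⟨(u : Ω), hzV⟩ := by
    apply Subtype.ext
    rw [conjAut_apply]
    show t * (u : Ω) * t⁻¹ = u
    rw [h.central u u.2 t ht, mul_inv_cancel_right]
  obtain ⟨a, ha⟩ := hxact ⟨y, hyV⟩
  have hpa : ¬ p ∣ a := by
    rintro ⟨m, rfl⟩
    rw [pow_mul, hZvp, one_pow, mul_one] at ha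
    apply hty
    have h1 : t * y * t⁻¹ = y := congrArg Subtype.val ha
    calc t * y = (t * y * t⁻¹) * t := by group
      _ = y * t := by rw [h1]
  have hβinvZ : β⁻¹ ⟨(u : Ω), hzV⟩ = ⟨y, hyV⟩ := by
    rw [← hβy, MulAut.inv_apply_self]
  have hx'act : ∀ v : ↥(P ⊓ Subgroup.centralizer {y}), ∃ k : ℕ,
      (β⁻¹ * conjAut (P ⊓ Subgroup.centralizer {y}) t htN * β) v =
        v * (⟨y, hyV⟩ : ↥(P ⊓ Subgroup.centralizer {y})) ^ k := by
    intro v
    obtain ⟨k, hk⟩ := hxact (β v)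
    refine ⟨k, ?_⟩
    rw [MulAut.mul_apply, MulAut.mul_apply, hk, map_mul, MulAut.inv_apply_self, map_pow, hβinvZ]
  have hx'y : (β⁻¹ * conjAut (P ⊓ Subgroup.centralizer {y}) t htN * β) ⟨y, hyV⟩ = ⟨y, hyV⟩ := by
    rw [MulAut.mul_apply, MulAut.mul_apply, hβy, hxz, hβinvZ]
  obtain ⟨s, hs⟩ := hx'act ⟨(u : Ω), hzV⟩
  have hps : ¬ p ∣ s := by
    rintro ⟨m, rfl⟩
    rw [pow_mul, hYvp, one_pow, mul_one] at hs
    have h1 : conjAut (P ⊓ Subgroup.centralizer {y}) t htN (β ⟨(u : Ω), hzV⟩) =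
        β ⟨(u : Ω), hzV⟩ := by
      have h0 := congrArg β hs
      rwa [MulAut.mul_apply, MulAut.mul_apply, MulAut.apply_inv_self] at h0
    have h2 : t * ((β ⟨(u : Ω), hzV⟩ : ↥(P ⊓ Subgroup.centralizer {y})) : Ω) * t⁻¹ =
        (β ⟨(u : Ω), hzV⟩ : ↥(P ⊓ Subgroup.centralizer {y})) := congrArg Subtype.val h1
    have hct : ((β ⟨(u : Ω), hzV⟩ : ↥(P ⊓ Subgroup.centralizer {y})) : Ω) * t =
        t * (β ⟨(u : Ω), hzV⟩ : ↥(P ⊓ Subgroup.centralizer {y})) := by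
      calc ((β ⟨(u : Ω), hzV⟩ : ↥(P ⊓ Subgroup.centralizer {y})) : Ω) * t
          = (t * ((β ⟨(u : Ω), hzV⟩ : ↥(P ⊓ Subgroup.centralizer {y})) : Ω) * t⁻¹) * t := by
            rw [h2]
        _ = t * (β ⟨(u : Ω), hzV⟩ : ↥(P ⊓ Subgroup.centralizer {y})) := by group
    have hy₁V := (β ⟨(u : Ω), hzV⟩).2
    have hy₁P := hVP hy₁V
    have hcen : ∀ g ∈ P, g * ((β ⟨(u : Ω), hzV⟩ : ↥(P ⊓ Subgroup.centralizer {y})) : Ω) =
        (β ⟨(u : Ω), hzV⟩ : ↥(P ⊓ Subgroup.centralizer {y})) * g :=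
      h.central_of hyP ht hty hMc hy₁P ((hVmem _).mp hy₁V).2 hct
    have hβF := (mem_autGroup_iff F hVS β).mp hβ
    have hφ₁ := restrict_mem F hβF hZV
    by_cases hy₁Z : ((β ⟨(u : Ω), hzV⟩ : ↥(P ⊓ Subgroup.centralizer {y})) : Ω) ∈ Z
    · obtain ⟨k, hk⟩ := h.cyc hy₁Z u.2 hu1
      have h5 : β ⟨(u : Ω), hzV⟩ = β ((⟨y, hyV⟩ : ↥(P ⊓ Subgroup.centralizer {y})) ^ k) := by
        rw [map_pow, hβy]
        exact Subtype.ext hk
      have h6 : (⟨(u : Ω), hzV⟩ : ↥(P ⊓ Subgroup.centralizer {y})) =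
          (⟨y, hyV⟩ : ↥(P ⊓ Subgroup.centralizer {y})) ^ k := β.injective h5
      have h7 : (u : Ω) = y ^ k := congrArg Subtype.val h6
      by_cases hpk : p ∣ k
      · obtain ⟨m, rfl⟩ := hpk
        apply hu1
        rw [h7, pow_mul, hVexp y hyV, one_pow]
      · obtain ⟨n, hn⟩ := exists_pow_pow_eq hp (hVexp y hyV) hpk
        apply hu
        rw [← hn, ← h7]
        exact Z.pow_mem u.2 n
    · obtain ⟨hMc', -, -⟩ := h.conj_structure p hS F hF hP hφ₁ u hy₁Z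
      obtain ⟨a', ha', b', hb', hab'⟩ := h.nonab
      exact hab' (hMc' a' ha' b' hb' (hcen a' ha') (hcen b' hb'))
  obtain ⟨ι, hιmem, hιz, hιy, hιfix⟩ := inversion_word' hp hVcomm ⟨(u : Ω), hzV⟩ ⟨y, hyV⟩ hZvp hYvp
    (conjAut (P ⊓ Subgroup.centralizer {y}) t htN)
    (β⁻¹ * conjAut (P ⊓ Subgroup.centralizer {y}) t htN * β) (a : ℤ) (s : ℤ)
    (by exact_mod_cast hpa) (by exact_mod_cast hps) hxz (by rw [ha, zpow_natCast]) hx'y
    (by rw [hs, zpow_natCast])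
  have hιF : ι ∈ F.autGroup (P ⊓ Subgroup.centralizer {y}) := by
    refine (Subgroup.closure_le _).mpr ?_ hιmem
    rintro w (rfl | rfl)
    · exact hxF
    · exact hx'F
  have hd := inversion_fix hp hVcomm ⟨(u : Ω), hzV⟩ ⟨y, hyV⟩ hZvp hYvp
    (conjAut (P ⊓ Subgroup.centralizer {y}) t htN)
    (β⁻¹ * conjAut (P ⊓ Subgroup.centralizer {y}) t htN * β) ι a s hpa hps hxz ha hs hxact hx'act
    hιz hιy hιfix
  have hdcomm : ∀ v : ↥(P ⊓ Subgroup.centralizer {y}), ∀ g ∈ P,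
      g * (((ι v : ↥(P ⊓ Subgroup.centralizer {y})) : Ω) * (v : Ω)) =
        (((ι v : ↥(P ⊓ Subgroup.centralizer {y})) : Ω) * (v : Ω)) * g := by
    intro v g hg
    have h1 := hd v
    have h2 : t * (((ι v : ↥(P ⊓ Subgroup.centralizer {y})) : Ω) * (v : Ω)) * t⁻¹ =
        ((ι v : ↥(P ⊓ Subgroup.centralizer {y})) : Ω) * (v : Ω) := congrArg Subtype.val h1
    have hdV : ((ι v : ↥(P ⊓ Subgroup.centralizer {y})) : Ω) * (v : Ω) ∈
        P ⊓ Subgroup.centralizer {y} := Subgroup.mul_mem _ (ι v).2 v.2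
    have hct : (((ι v : ↥(P ⊓ Subgroup.centralizer {y})) : Ω) * (v : Ω)) * t =
        t * (((ι v : ↥(P ⊓ Subgroup.centralizer {y})) : Ω) * (v : Ω)) := by
      calc (((ι v : ↥(P ⊓ Subgroup.centralizer {y})) : Ω) * (v : Ω)) * t
          = (t * (((ι v : ↥(P ⊓ Subgroup.centralizer {y})) : Ω) * (v : Ω)) * t⁻¹) * t := by
            rw [h2]
        _ = t * (((ι v : ↥(P ⊓ Subgroup.centralizer {y})) : Ω) * (v : Ω)) := by group
    exact h.central_of hyP ht hty hMc (hVP hdV) ((hVmem _).mp hdV).2 hct g hg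
  have hιinvZ : ∀ k : ℕ, ι ((⟨(u : Ω), hzV⟩ : ↥(P ⊓ Subgroup.centralizer {y})) ^ k) =
      ((⟨(u : Ω), hzV⟩ : ↥(P ⊓ Subgroup.centralizer {y})) ^ k)⁻¹ := fun k => by
    rw [map_pow, hιz, inv_pow]
  have hιconj : ∀ g ∈ P, ∀ (hgN : g ∈ Subgroup.normalizer
      ((P ⊓ Subgroup.centralizer {y} : Subgroup Ω) : Set Ω))
      (v : ↥(P ⊓ Subgroup.centralizer {y})),
      ((ι (conjAut (P ⊓ Subgroup.centralizer {y}) g hgN v) :
        ↥(P ⊓ Subgroup.centralizer {y})) : Ω) =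
        g * ((ι v : ↥(P ⊓ Subgroup.centralizer {y})) : Ω) * g⁻¹ := by
    intro g hg hgN v
    have h1 : (v : Ω)⁻¹ * g * (v : Ω) * g⁻¹ ∈ Z := by
      have h0 := h.comm (v : Ω)⁻¹ (P.inv_mem (hVP v.2)) g hg
      rwa [inv_inv] at h0
    obtain ⟨k, hk⟩ := h.cyc h1 u.2 hu1
    have hgv : g * (v : Ω) * g⁻¹ = (v : Ω) * (u : Ω) ^ k := by
      rw [← hk]
      group
    have h2 : conjAut (P ⊓ Subgroup.centralizer {y}) g hgN v =
        v * (⟨(u : Ω), hzV⟩ : ↥(P ⊓ Subgroup.centralizer {y})) ^ k := by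
      apply Subtype.ext
      rw [conjAut_apply]
      exact hgv
    rw [h2, map_mul, hιinvZ]
    show ((ι v : ↥(P ⊓ Subgroup.centralizer {y})) : Ω) * ((u : Ω) ^ k)⁻¹ =
      g * ((ι v : ↥(P ⊓ Subgroup.centralizer {y})) : Ω) * g⁻¹
    have h3 := hdcomm v g hg
    have hκc : (v : Ω) * ((u : Ω) ^ k)⁻¹ = ((u : Ω) ^ k)⁻¹ * (v : Ω) :=
      ((show Commute (v : Ω) ((u : Ω) ^ k) from
        h.central _ (Z.pow_mem u.2 k) v (hVP v.2)).inv_right).eq
    symm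
    calc g * ((ι v : ↥(P ⊓ Subgroup.centralizer {y})) : Ω) * g⁻¹
        = g * (((ι v : ↥(P ⊓ Subgroup.centralizer {y})) : Ω) * (v : Ω)) * (v : Ω)⁻¹ * g⁻¹ := by
          group
      _ = (((ι v : ↥(P ⊓ Subgroup.centralizer {y})) : Ω) * (v : Ω)) * g * (v : Ω)⁻¹ * g⁻¹ := by
          rw [h3]
      _ = ((ι v : ↥(P ⊓ Subgroup.centralizer {y})) : Ω) * (v : Ω) * (g * (v : Ω) * g⁻¹)⁻¹ := by
          group
      _ = ((ι v : ↥(P ⊓ Subgroup.centralizer {y})) : Ω) * (v : Ω) * ((v : Ω) * (u : Ω) ^ k)⁻¹ := by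
          rw [hgv]
      _ = ((ι v : ↥(P ⊓ Subgroup.centralizer {y})) : Ω) * ((v : Ω) * ((u : Ω) ^ k)⁻¹) *
            (v : Ω)⁻¹ := by group
      _ = ((ι v : ↥(P ⊓ Subgroup.centralizer {y})) : Ω) * (((u : Ω) ^ k)⁻¹ * (v : Ω)) *
            (v : Ω)⁻¹ := by rw [hκc]
      _ = ((ι v : ↥(P ⊓ Subgroup.centralizer {y})) : Ω) * ((u : Ω) ^ k)⁻¹ := by group
  have hrecV := receptive_of_fullyCentralized p hS F hF
    (fullyNormalized_props p hS F hF (isFullyNormalized_of_stronglyClosed F hVsc)).1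
  have hPext : P ≤ FusionSystem.extender S (P ⊓ Subgroup.centralizer {y})
      ((P ⊓ Subgroup.centralizer {y}).subtype.comp ι.toMonoidHom) := by
    intro g hg
    exact mem_extender_of S _ _ (hPS hg) (hSNV (hPS hg)) (hPS hg)
      (fun v => hιconj g hg _ v)
  obtain ⟨ψP, hψP, hψPext⟩ := exists_extension_of_receptive F hrecV hιF hVP hPext
  have ht'P : ψP ⟨t, ht⟩ ∈ P := hP.2 P le_rfl ψP hψP ⟨t, ht⟩
  have hcomm' : ∀ v : ↥(P ⊓ Subgroup.centralizer {y}),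
      (t⁻¹ * ψP ⟨t, ht⟩) * ((ι v : ↥(P ⊓ Subgroup.centralizer {y})) : Ω) =
        ((ι v : ↥(P ⊓ Subgroup.centralizer {y})) : Ω) * (t⁻¹ * ψP ⟨t, ht⟩) := by
    intro v
    have h1 : ψP ((⟨t, ht⟩ : P) * Subgroup.inclusion hVP v * (⟨t, ht⟩ : P)⁻¹) =
        ψP ⟨t, ht⟩ * ((ι v : ↥(P ⊓ Subgroup.centralizer {y})) : Ω) * (ψP ⟨t, ht⟩)⁻¹ := by
      rw [map_mul, map_mul, map_inv, hψPext]
    have h2 : ((⟨t, ht⟩ : P) * Subgroup.inclusion hVP v * (⟨t, ht⟩ : P)⁻¹) =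
        Subgroup.inclusion hVP (conjAut (P ⊓ Subgroup.centralizer {y}) t htN v) :=
      Subtype.ext rfl
    rw [h2, hψPext, hιconj t ht htN v] at h1
    calc t⁻¹ * ψP ⟨t, ht⟩ * ((ι v : ↥(P ⊓ Subgroup.centralizer {y})) : Ω)
        = t⁻¹ * (ψP ⟨t, ht⟩ * ((ι v : ↥(P ⊓ Subgroup.centralizer {y})) : Ω) *
            (ψP ⟨t, ht⟩)⁻¹) * ψP ⟨t, ht⟩ := by group
      _ = t⁻¹ * (t * ((ι v : ↥(P ⊓ Subgroup.centralizer {y})) : Ω) * t⁻¹) * ψP ⟨t, ht⟩ := by
          rw [h1]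
      _ = ((ι v : ↥(P ⊓ Subgroup.centralizer {y})) : Ω) * (t⁻¹ * ψP ⟨t, ht⟩) := by group
  have hv'V : t⁻¹ * ψP ⟨t, ht⟩ ∈ P ⊓ Subgroup.centralizer {y} := by
    rw [hVmem]
    refine ⟨P.mul_mem (P.inv_mem ht) ht'P, ?_⟩
    have h0 := hcomm' (ι⁻¹ ⟨y, hyV⟩)
    rw [MulAut.apply_inv_self] at h0
    exact h0
  obtain ⟨v', hv'def⟩ : ∃ v' : Ω, v' = t⁻¹ * ψP ⟨t, ht⟩ := ⟨_, rfl⟩
  have hv'V' : v' ∈ P ⊓ Subgroup.centralizer {y} := hv'def ▸ hv'V
  have hψt : ψP ⟨t, ht⟩ = t * v' := by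
    rw [hv'def]
    group
  have htpZ : t ^ p ∈ Z := h.pow t ht
  obtain ⟨k, hk⟩ := h.cyc htpZ u.2 hu1
  have h1 : ψP ((⟨t, ht⟩ : P) ^ p) = (t ^ p)⁻¹ := by
    have h2 : ((⟨t, ht⟩ : P) ^ p) = Subgroup.inclusion hVP
        ((⟨(u : Ω), hzV⟩ : ↥(P ⊓ Subgroup.centralizer {y})) ^ k) := Subtype.ext hk
    rw [h2, hψPext, hιinvZ]
    show ((u : Ω) ^ k)⁻¹ = (t ^ p)⁻¹
    rw [hk]
  have h3 : ψP ((⟨t, ht⟩ : P) ^ p) = t ^ p := by
    rw [map_pow, hψt]
    have hc : v' * t * v'⁻¹ * t⁻¹ ∈ Z := h.comm v' (hVP hv'V') t ht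
    rw [mul_pow_prime_class2 hp hp2 (a := t) (b := v') (c := v' * t * v'⁻¹ * t⁻¹) (by group)
      (h.central _ hc t ht).symm (h.central _ hc v' (hVP hv'V')).symm (h.pow_eq_one hc),
      hVexp v' hv'V', mul_one]
  have h5 : t ^ p = (t ^ p)⁻¹ := h3.symm.trans h1
  have h6 : (t ^ p) ^ 2 = 1 := by
    rw [pow_two]
    exact eq_inv_iff_mul_eq_one.mp h5
  have hp2' : ¬ p ∣ 2 := by
    intro hd
    have h7 := Nat.le_of_dvd (by norm_num) hd
    have h8 := hp.two_le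
    exact hp2 (by omega)
  obtain ⟨n, hn⟩ := exists_pow_pow_eq hp (h.pow_eq_one htpZ) hp2'
  apply hexp t ht hty
  rw [← hn, h6, one_pow]

end GES

/-- **Generalized extraspecial strongly closed subgroups are normal**, apart from the
exceptions `D₈ × A` and `p^{1+2}_+ × A`. -/
theorem normal_of_generalized_extraspecial [Finite S] (p : ℕ) [Fact p.Prime] (hS : IsPGroup p S)
    (F : FusionSystem S) (hF : F.IsSaturated p) (P : Subgroup Ω) (hP : F.StronglyClosed P)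
    (hge : frattini ↥P = commutator ↥P ∧ Nat.card ↥(commutator ↥P) = p)
    (h2 : p = 2 → ¬ ∃ (A : Type) (_ : CommGroup A), (∀ a : A, a ^ 2 = 1) ∧
      Nonempty (↥P ≃* DihedralGroup 4 × A))
    (hodd : p ≠ 2 → ¬ ∃ (E : Type) (_ : Group E) (A : Type) (_ : CommGroup A),
      Cfsg.IsExtraspecial p E ∧ Nat.card E = p ^ 3 ∧ Monoid.exponent E = p ∧
        (∀ a : A, a ^ p = 1) ∧ Nonempty (↥P ≃* E × A)) :
    F.IsNormal P := by
  have hp := (Fact.out : p.Prime)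
  have hPS := hP.1
  have hfP : Finite P := finite_of_le_finite hPS
  have hPp : IsPGroup p P := hS.to_le hPS
  have h := ges_of_frattini hPp hge
  generalize (commutator ↥P).map P.subtype = Z at h
  have hZsc : F.StronglyClosed Z := by
    by_contra hZsc
    obtain ⟨R, hR, φ, hφ, x, hxZ⟩ : ∃ (R : Subgroup Ω) (_ : R ≤ Z) (φ : R →* Ω)
        (_ : φ ∈ F.Hom R) (x : R), φ x ∉ Z := by
      by_contra hh
      push_neg at hh
      exact hZsc ⟨h.le.trans hPS, fun R hR φ hφ x => hh R hR φ hφ x⟩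
    have hx1 : (x : Ω) ≠ 1 := by
      intro h1
      have h2 : x = 1 := Subtype.ext h1
      rw [h2, map_one] at hxZ
      exact hxZ Z.one_mem
    have hRZ : Z = R := le_antisymm (fun v hv => by
      obtain ⟨k, rfl⟩ := h.cyc hv (hR x.2) hx1
      exact R.pow_mem x.2 k) hR
    subst hRZ
    obtain ⟨hMc, hMp, -⟩ := h.conj_structure p hS F hF hP hφ x hxZ
    have hyP : φ x ∈ P := hP.2 Z h.le φ hφ x
    obtain ⟨t, ht, hty⟩ : ∃ t ∈ P, t * φ x ≠ φ x * t := by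
      by_contra hall
      push_neg at hall
      obtain ⟨a, ha, b, hb, hab⟩ := h.nonab
      exact hab (hMc a ha b hb (hall a ha) (hall b hb))
    by_cases hex : ∃ t ∈ P, t * φ x ≠ φ x * t ∧ t ^ p = 1
    · obtain ⟨t', ht', ht'y, ht'p⟩ := hex
      obtain ⟨A, hAP, hAc, hAp, ⟨e⟩⟩ := h.split hyP ht' hMc hMp ht'y ht'p
      have hfA : Finite A := finite_of_le_finite (hAP.trans hPS)
      obtain ⟨A₀, instA₀, ⟨eA⟩⟩ :=
        exists_commGroup_model A (fun a b => Subtype.ext (hAc a a.2 b b.2))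
      have hA₀p : ∀ a : A₀, a ^ p = 1 := by
        intro a
        have h1 : (eA.symm a) ^ p = 1 := Subtype.ext (by
          rw [Subgroup.coe_pow]
          exact hAp _ (eA.symm a).2)
        have h2' := congrArg eA h1
        rwa [map_pow, MulEquiv.apply_symm_apply, map_one] at h2'
      by_cases hp2 : p = 2
      · subst hp2
        exact h2 rfl ⟨A₀, instA₀, hA₀p,
          ⟨e.trans (MulEquiv.prodCongr Heis.dihedralEquiv.symm eA)⟩⟩
      · exact hodd hp2 ⟨Heis p, inferInstance, A₀, instA₀, Heis.isExtraspecial, Heis.card p,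
          Heis.exponent hp2, hA₀p, ⟨e.trans (MulEquiv.prodCongr (MulEquiv.refl _) eA)⟩⟩
    · push_neg at hex
      by_cases hp2 : p = 2
      · subst hp2
        obtain ⟨t', ht', ht'y, ht'2⟩ := h.exists_involution_outside hyP ht hMp hty
        exact hex t' ht' ht'y ht'2
      · exact h.no_bad_conj p hp2 hS F hF hP hφ x hxZ (fun t ht hty => hex t ht hty)
  refine normal_of_chain p hS F hF P 2 ![⊥, Z, P] rfl rfl ?_
  intro i
  fin_cases i
  · refine ⟨hZsc, ?_⟩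
    show ⁅P, Z⁆ ≤ ⊥
    rw [Subgroup.commutator_le]
    intro g hg z hz
    rw [Subgroup.mem_bot, commutatorElement_def, h.central z hz g hg]
    group
  · refine ⟨hP, ?_⟩
    show ⁅P, P⁆ ≤ Z
    rw [Subgroup.commutator_le]
    intro a ha b hb
    rw [commutatorElement_def]
    exact h.comm a ha b hb

end Cfsg.Agent.Helper8
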