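import Cfsg.Agent.Helper8.FusionCong
import Cfsg.Agent.Helper8.FusionHyperfocal
import Cfsg.Agent.Helper8.PResidual
import Cfsg.Agent.Helper8.FusionChain3

set_option autoImplicit false

namespace Cfsg.Agent.Helper8

open Cfsg

variable {Ω : Type*} [Group Ω] {S : Subgroup Ω}

/-- The subgroup `O^p(Aut_F(T))·Inn(T)` of `Aut(T)`. -/
def hypAut (F : FusionSystem S) (p : ℕ) (T : Subgroup Ω) : Subgroup (MulAut T) :=
  (pResidual p (F.autGroup T)).map (F.autGroup T).subtype ⊔ Inn T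

/-- The elements normalizing `T` and acting on it as elements of `O^p(Aut_F(T))·Inn(T)`. -/
def hypActors (F : FusionSystem S) (p : ℕ) (T : Subgroup Ω) : Subgroup Ω :=
  ((hypAut F p T).comap T.normalizerMonoidHom).map (Subgroup.normalizer (T : Set Ω)).subtype

theorem mem_hypActors (F : FusionSystem S) (p : ℕ) (T : Subgroup Ω) (y : Ω) :
    y ∈ hypActors F p T ↔
      ∃ hy : y ∈ Subgroup.normalizer (T : Set Ω), conjAut T y hy ∈ hypAut F p T := by
  constructor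
  · rintro ⟨n, hn, rfl⟩
    exact ⟨n.2, hn⟩
  · rintro ⟨hy, h⟩
    exact ⟨⟨y, hy⟩, h, rfl⟩

theorem le_normalizer_of_stronglyClosed (F : FusionSystem S) {T : Subgroup Ω}
    (hT : F.StronglyClosed T) : S ≤ Subgroup.normalizer (T : Set Ω) := by
  have key : ∀ s ∈ S, ∀ y ∈ T, s * y * s⁻¹ ∈ T := by
    intro s hs y hy
    exact hT.2 T le_rfl _ (F.conj_mem hT.1 hs) ⟨y, hy⟩
  intro s hs
  rw [Subgroup.mem_normalizer_iff]
  intro y
  constructor
  · exact key s hs y
  · intro hy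
    have := key s⁻¹ (S.inv_mem hs) _ hy
    simpa [mul_assoc] using this

theorem le_hypActors (F : FusionSystem S) (p : ℕ) (T : Subgroup Ω) : T ≤ hypActors F p T := by
  intro t ht
  refine (mem_hypActors F p T t).mpr ⟨Subgroup.le_normalizer ht, ?_⟩
  apply Subgroup.mem_sup_right
  refine ⟨⟨t, ht⟩, ?_⟩
  apply MulEquiv.ext
  intro x
  apply Subtype.ext
  rfl

/-- Extension of an automorphism of `P` to an automorphism of `P ⊔ T`, modulo `T`. -/
theorem exists_aut_cong_extension [Finite S] (p : ℕ) [Fact p.Prime] (hS : IsPGroup p S)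
    (F : FusionSystem S) (hF : F.IsSaturated p) {T : Subgroup Ω} (hT : F.StronglyClosed T)
    {P : Subgroup Ω} (hP : P ≤ S) (β : MulAut P) (hβ : β ∈ F.autGroup P) :
    ∃ ψ : MulAut ↥(P ⊔ T), ψ ∈ F.autGroup (P ⊔ T) ∧ ∀ x : P,
      ((β x : P) : Ω)⁻¹ * ((ψ (Subgroup.inclusion le_sup_left x) : ↥(P ⊔ T)) : Ω) ∈ T := by
  have hβF : P.subtype.comp β.toMonoidHom ∈ F.Hom P := (mem_autGroup_iff F hP β).mp hβ
  obtain ⟨ψ, hψ, hc⟩ := exists_cong_extension p hS F hF hT hβF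
  have hsup : P ⊔ T ≤ S := sup_le hP hT.1
  haveI : Finite ↥(P ⊔ T) := finite_of_le_finite hsup
  have hval : ∀ y : ↥(P ⊔ T), ψ y ∈ P ⊔ T := by
    apply sup_induction_map
    · intro y hy
      have h1 := hc ⟨y, hy⟩
      have h2 : Subgroup.inclusion le_sup_left (⟨(y : Ω), hy⟩ : P) = y := Subtype.ext rfl
      rw [h2] at h1
      have h3 : ψ y = ((β ⟨y, hy⟩ : P) : Ω)
          * ((P.subtype.comp β.toMonoidHom) ⟨y, hy⟩)⁻¹ * ψ y := by
        show ψ y = ((β ⟨y, hy⟩ : P) : Ω) * ((β ⟨y, hy⟩ : P) : Ω)⁻¹ * ψ y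
        group
      rw [h3, mul_assoc]
      exact Subgroup.mul_mem _ (Subgroup.mem_sup_left (β ⟨y, hy⟩).2) (Subgroup.mem_sup_right h1)
    · intro y hy
      exact Subgroup.mem_sup_right (map_mem_of_stronglyClosed F hT hψ y hy)
  have hrange : ψ.range = P ⊔ T := by
    apply Subgroup.eq_of_le_of_card_ge
    · rintro _ ⟨y, rfl⟩
      exact hval y
    · exact le_of_eq (Nat.card_congr (Equiv.ofInjective _ (F.injective_of_mem hψ)))
  refine ⟨equivOfRange ψ (F.injective_of_mem hψ) hrange,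
    (mem_autGroup_iff F hsup _).mpr (isIso_equivOfRange F hψ hrange), fun x => ?_⟩
  exact hc x

/-- Replace the extension by a power which has order prime to `p`. -/
theorem exists_aut_cong_extension_coprime [Finite S] (p : ℕ) [Fact p.Prime] (hS : IsPGroup p S)
    (F : FusionSystem S) (hF : F.IsSaturated p) {T : Subgroup Ω} (hT : F.StronglyClosed T)
    {P : Subgroup Ω} (hP : P ≤ S) (β : MulAut P) (hβ : β ∈ F.autGroup P)
    (hβp : Nat.Coprime (orderOf β) p) :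
    ∃ χ : MulAut ↥(P ⊔ T), χ ∈ F.autGroup (P ⊔ T) ∧ (∃ m : ℕ, Nat.Coprime m p ∧ χ ^ m = 1) ∧
      ∀ x : P, ((β x : P) : Ω)⁻¹ * ((χ (Subgroup.inclusion le_sup_left x) : ↥(P ⊔ T)) : Ω) ∈ T := by
  obtain ⟨ψ, hψ, hc⟩ := exists_aut_cong_extension p hS F hF hT hP β hβ
  have hsup : P ⊔ T ≤ S := sup_le hP hT.1
  haveI : Finite ↥(P ⊔ T) := finite_of_le_finite hsup
  haveI : Finite (MulAut ↥(P ⊔ T)) := inferInstance
  have hpp : p.Prime := Fact.out
  obtain ⟨a, m, hm, hn⟩ := Nat.exists_eq_pow_mul_and_not_dvd (orderOf_pos ψ).ne' p hpp.ne_one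
  have hcop : Nat.Coprime (p ^ a) (orderOf β) := (Nat.Coprime.pow_right a hβp).symm
  obtain ⟨N, hN0, hN1⟩ := Nat.chineseRemainder hcop 0 1
  have hψF : (P ⊔ T).subtype.comp ψ.toMonoidHom ∈ F.Hom (P ⊔ T) :=
    (mem_autGroup_iff F hsup ψ).mp hψ
  have hψT : ∀ y : ↥(P ⊔ T), (y : Ω) ∈ T → ((ψ y : ↥(P ⊔ T)) : Ω) ∈ T :=
    fun y hy => map_mem_of_stronglyClosed F hT hψF y hy
  have hiter : ∀ (j : ℕ) (x : P), (((β ^ j) x : P) : Ω)⁻¹
      * (((ψ ^ j) (Subgroup.inclusion le_sup_left x) : ↥(P ⊔ T)) : Ω) ∈ T := by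
    intro j
    induction j with
    | zero =>
      intro x
      have : ((x : P) : Ω)⁻¹ * ((Subgroup.inclusion (le_sup_left : P ≤ P ⊔ T) x : ↥(P ⊔ T)) : Ω)
          = 1 := by
        show (x : Ω)⁻¹ * (x : Ω) = 1
        group
      simp only [pow_zero, MulAut.one_apply]
      rw [this]
      exact T.one_mem
    | succ j ih =>
      intro x
      rw [pow_succ', pow_succ', MulAut.mul_apply, MulAut.mul_apply]
      have h1 := ih x
      have h2 := hc ((β ^ j) x)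
      have hmem : (Subgroup.inclusion (le_sup_left : P ≤ P ⊔ T) ((β ^ j) x))⁻¹
          * (ψ ^ j) (Subgroup.inclusion le_sup_left x) ∈ T.subgroupOf (P ⊔ T) := h1
      have h3 := hψT _ (Subgroup.mem_subgroupOf.mp hmem)
      have h4 : (ψ ^ j) (Subgroup.inclusion le_sup_left x)
          = Subgroup.inclusion (le_sup_left : P ≤ P ⊔ T) ((β ^ j) x)
            * ((Subgroup.inclusion (le_sup_left : P ≤ P ⊔ T) ((β ^ j) x))⁻¹
              * (ψ ^ j) (Subgroup.inclusion le_sup_left x)) := by group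
      rw [h4, map_mul, Subgroup.coe_mul, ← mul_assoc]
      exact T.mul_mem h2 h3
  have hβN : β ^ N = β := by
    have h1 : β ^ N = β ^ 1 := pow_eq_pow_iff_modEq.mpr hN1
    rw [h1, pow_one]
  refine ⟨ψ ^ N, Subgroup.pow_mem _ hψ N, ⟨m, ?_, ?_⟩, fun x => ?_⟩
  · exact (Nat.Coprime.symm ((Nat.Prime.coprime_iff_not_dvd hpp).mpr hm))
  · rw [← pow_mul]
    apply orderOf_dvd_iff_pow_eq_one.mp
    rw [hn]
    exact Nat.mul_dvd_mul_right ((Nat.modEq_zero_iff_dvd).mp hN0) m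
  · have := hiter N x
    rw [hβN] at this
    exact this

/-- Restriction of an automorphism of `P ⊔ T` in the system to the strongly closed `T`. -/
theorem exists_res_aut [Finite S] (F : FusionSystem S) {T : Subgroup Ω} (hT : F.StronglyClosed T)
    {P : Subgroup Ω} (hP : P ≤ S) (χ : MulAut ↥(P ⊔ T)) (hχ : χ ∈ F.autGroup (P ⊔ T)) :
    ∃ χT : MulAut T, χT ∈ F.autGroup T ∧ ∀ t : T,
      ((χT t : T) : Ω) = ((χ (Subgroup.inclusion le_sup_right t) : ↥(P ⊔ T)) : Ω) := by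
  have hsup : P ⊔ T ≤ S := sup_le hP hT.1
  have hχF : (P ⊔ T).subtype.comp χ.toMonoidHom ∈ F.Hom (P ⊔ T) :=
    (mem_autGroup_iff F hsup χ).mp hχ
  have hρ := restrict_mem F hχF (le_sup_right : T ≤ P ⊔ T)
  have hrange := (weaklyClosed_of_stronglyClosed F hT).2 _ hρ
  exact ⟨equivOfRange _ (F.injective_of_mem hρ) hrange,
    (mem_autGroup_iff F hT.1 _).mpr (isIso_equivOfRange F hρ hrange), fun t => rfl⟩

theorem conjAut_inv_apply (T : Subgroup Ω) (g : Ω) (hg : g ∈ Subgroup.normalizer (T : Set Ω))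
    (y : T) : (((conjAut T g hg)⁻¹ y : T) : Ω) = g⁻¹ * (y : Ω) * g := by
  have h1 : (conjAut T g hg)⁻¹ = conjAut T g⁻¹ (Subgroup.inv_mem _ hg) :=
    (map_inv T.normalizerMonoidHom ⟨g, hg⟩).symm
  rw [h1]
  show g⁻¹ * (y : Ω) * g⁻¹⁻¹ = _
  rw [inv_inv]

/-- For a `p'`-automorphism `β` of `P ≤ S` in the system and `x ∈ P`, the element `x⁻¹ β(x)` acts
on the strongly closed subgroup `T` as an element of `O^p(Aut_F(T))·Inn(T)`. -/
theorem commutator_mem_hypActors [Finite S] (p : ℕ) [Fact p.Prime] (hS : IsPGroup p S)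
    (F : FusionSystem S) (hF : F.IsSaturated p) {T : Subgroup Ω} (hT : F.StronglyClosed T)
    {P : Subgroup Ω} (hP : P ≤ S) (β : MulAut P) (hβ : β ∈ F.autGroup P)
    (hβp : Nat.Coprime (orderOf β) p) (x : P) :
    (x : Ω)⁻¹ * ((β x : P) : Ω) ∈ hypActors F p T := by
  obtain ⟨χ, hχ, ⟨m, hm, hχm⟩, hc⟩ := exists_aut_cong_extension_coprime p hS F hF hT hP β hβ hβp
  obtain ⟨χT, hχT, hres⟩ := exists_res_aut F hT hP χ hχ
  have hSN := le_normalizer_of_stronglyClosed F hT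
  have hsup : P ⊔ T ≤ S := sup_le hP hT.1
  have hx'S : ((χ (Subgroup.inclusion le_sup_left x) : ↥(P ⊔ T)) : Ω) ∈ S := hsup (χ _).2
  have hxS : (x : Ω) ∈ S := hP x.2
  have hdecomp : (x : Ω)⁻¹ * ((β x : P) : Ω)
      = ((x : Ω)⁻¹ * ((χ (Subgroup.inclusion le_sup_left x) : ↥(P ⊔ T)) : Ω))
        * (((β x : P) : Ω)⁻¹ * ((χ (Subgroup.inclusion le_sup_left x) : ↥(P ⊔ T)) : Ω))⁻¹ := by
    group
  rw [hdecomp]
  apply Subgroup.mul_mem
  · have hu : (x : Ω)⁻¹ * ((χ (Subgroup.inclusion le_sup_left x) : ↥(P ⊔ T)) : Ω)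
        ∈ Subgroup.normalizer (T : Set Ω) := hSN (S.mul_mem (S.inv_mem hxS) hx'S)
    refine (mem_hypActors F p T _).mpr ⟨hu, ?_⟩
    apply Subgroup.mem_sup_left
    have hpow : ∀ (j : ℕ) (t : T), (((χT ^ j) t : T) : Ω)
        = (((χ ^ j) (Subgroup.inclusion le_sup_right t) : ↥(P ⊔ T)) : Ω) := by
      intro j
      induction j with
      | zero =>
        intro t
        rfl
      | succ j ih =>
        intro t
        rw [pow_succ', pow_succ', MulAut.mul_apply, MulAut.mul_apply, hres]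
        have h3 : Subgroup.inclusion (le_sup_right : T ≤ P ⊔ T) ((χT ^ j) t)
            = (χ ^ j) (Subgroup.inclusion le_sup_right t) := Subtype.ext (ih t)
        rw [h3]
    have hχTm : χT ^ m = 1 := by
      apply MulEquiv.ext
      intro t
      apply Subtype.ext
      rw [hpow, hχm]
      rfl
    have hA : (⟨χT, hχT⟩ : F.autGroup T) ∈ pResidual p (F.autGroup T) := by
      apply Subgroup.subset_closure
      show Nat.Coprime (orderOf (⟨χT, hχT⟩ : F.autGroup T)) p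
      have h1 : (⟨χT, hχT⟩ : F.autGroup T) ^ m = 1 := Subtype.ext hχTm
      exact Nat.Coprime.coprime_dvd_left (orderOf_dvd_of_pow_eq_one h1) hm
    have hcA : conjAut T (x : Ω) (hSN hxS) ∈ F.autGroup T :=
      autInducedBy_le_autGroup F hT.1 (conjAut_mem_autInducedBy T hxS (hSN hxS))
    have h2 : (⟨conjAut T (x : Ω) (hSN hxS), hcA⟩ : F.autGroup T)⁻¹ * ⟨χT, hχT⟩
        * (⟨conjAut T (x : Ω) (hSN hxS), hcA⟩ : F.autGroup T)
        * (⟨χT, hχT⟩ : F.autGroup T)⁻¹ ∈ pResidual p (F.autGroup T) := by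
      have h3 := (pResidual_normal p (F.autGroup T)).conj_mem _ hA
        (⟨conjAut T (x : Ω) (hSN hxS), hcA⟩ : F.autGroup T)⁻¹
      rw [inv_inv] at h3
      exact Subgroup.mul_mem _ h3 (Subgroup.inv_mem _ hA)
    refine ⟨_, h2, ?_⟩
    have hcs : ∀ s : T, ((χT (conjAut T (x : Ω) (hSN hxS) s) : T) : Ω)
        = ((χ (Subgroup.inclusion le_sup_left x) : ↥(P ⊔ T)) : Ω) * ((χT s : T) : Ω)
          * ((χ (Subgroup.inclusion le_sup_left x) : ↥(P ⊔ T)) : Ω)⁻¹ := by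
      intro s
      rw [hres, hres]
      have h3 : Subgroup.inclusion (le_sup_right : T ≤ P ⊔ T) (conjAut T (x : Ω) (hSN hxS) s)
          = Subgroup.inclusion (le_sup_left : P ≤ P ⊔ T) x * Subgroup.inclusion le_sup_right s
            * (Subgroup.inclusion (le_sup_left : P ≤ P ⊔ T) x)⁻¹ := Subtype.ext rfl
      rw [h3, map_mul, map_mul, map_inv]
      rfl
    apply MulEquiv.ext
    intro t
    apply Subtype.ext
    show (((conjAut T (x : Ω) (hSN hxS))⁻¹ (χT (conjAut T (x : Ω) (hSN hxS) (χT⁻¹ t))) : T) : Ω)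
      = ((x : Ω)⁻¹ * ((χ (Subgroup.inclusion le_sup_left x) : ↥(P ⊔ T)) : Ω)) * (t : Ω)
        * ((x : Ω)⁻¹ * ((χ (Subgroup.inclusion le_sup_left x) : ↥(P ⊔ T)) : Ω))⁻¹
    rw [conjAut_inv_apply, hcs, MulAut.apply_inv_self]
    group
  · exact le_hypActors F p T (T.inv_mem (hc x))

theorem pResidual_commutator_mem_hypActors [Finite S] (p : ℕ) [Fact p.Prime] (hS : IsPGroup p S)
    (F : FusionSystem S) (hF : F.IsSaturated p) {T : Subgroup Ω} (hT : F.StronglyClosed T)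
    {P : Subgroup Ω} (hP : P ≤ S) (α : F.autGroup P) (hα : α ∈ pResidual p (F.autGroup P)) :
    ∀ x : P, (x : Ω)⁻¹ * (((α : MulAut P) x : P) : Ω) ∈ hypActors F p T := by
  unfold pResidual at hα
  induction hα using Subgroup.closure_induction with
  | mem a ha =>
    intro x
    apply commutator_mem_hypActors p hS F hF hT hP (a : MulAut P) a.2 _ x
    rw [Subgroup.orderOf_coe]
    exact ha
  | one =>
    intro x
    have h1 : (x : Ω)⁻¹ * ((((1 : F.autGroup P) : MulAut P) x : P) : Ω) = 1 := by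
      show (x : Ω)⁻¹ * (x : Ω) = 1
      group
    rw [h1]
    exact Subgroup.one_mem _
  | mul a b _ _ ha hb =>
    intro x
    have h1 := hb x
    have h2 := ha ((b : MulAut P) x)
    have h3 : (x : Ω)⁻¹ * ((((a * b : F.autGroup P) : MulAut P) x : P) : Ω)
        = ((x : Ω)⁻¹ * (((b : MulAut P) x : P) : Ω))
          * ((((b : MulAut P) x : P) : Ω)⁻¹ * (((a : MulAut P) ((b : MulAut P) x) : P) : Ω)) := by
      show (x : Ω)⁻¹ * (((a : MulAut P) ((b : MulAut P) x) : P) : Ω) = _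
      group
    rw [h3]
    exact Subgroup.mul_mem _ h1 h2
  | inv a _ ha =>
    intro x
    have h1 := ha ((a : MulAut P)⁻¹ x)
    rw [MulAut.apply_inv_self] at h1
    have h3 : (x : Ω)⁻¹ * ((((a⁻¹ : F.autGroup P) : MulAut P) x : P) : Ω)
        = ((((a : MulAut P)⁻¹ x : P) : Ω)⁻¹ * (x : Ω))⁻¹ := by
      show (x : Ω)⁻¹ * ((((a : MulAut P)⁻¹ x : P) : Ω)) = _
      group
    rw [h3]
    exact Subgroup.inv_mem _ h1

theorem hyperfocal_le_hypActors [Finite S] (p : ℕ) [Fact p.Prime] (hS : IsPGroup p S)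
    (F : FusionSystem S) (hF : F.IsSaturated p) {T : Subgroup Ω} (hT : F.StronglyClosed T) :
    F.hyperfocalSubgroup p ≤ hypActors F p T := by
  unfold FusionSystem.hyperfocalSubgroup
  rw [Subgroup.closure_le]
  rintro y ⟨P, α, x, hPS, hα, rfl⟩
  exact pResidual_commutator_mem_hypActors p hS F hF hT hPS α hα x

/-- Every element of the hyperfocal subgroup acts on a strongly closed subgroup `T` as an element
of `O^p(Aut_F(T))·Inn(T)`. -/
theorem hyperfocal_acts [Finite S] (p : ℕ) [Fact p.Prime] (hS : IsPGroup p S)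
    (F : FusionSystem S) (hF : F.IsSaturated p) (T : Subgroup Ω) (hT : F.StronglyClosed T) :
    ∀ x ∈ F.hyperfocalSubgroup p,
      ∃ α ∈ ((pResidual p ↥(F.autGroup T)).map (F.autGroup T).subtype ⊔ Inn ↥T :
        Subgroup (MulAut ↥T)), ∀ t : ↥T, ((α t : ↥T) : Ω) = x * (t : Ω) * x⁻¹ := by
  intro x hx
  obtain ⟨hxN, h⟩ := (mem_hypActors F p T x).mp (hyperfocal_le_hypActors p hS F hF hT hx)
  exact ⟨conjAut T x hxN, h, fun t => rfl⟩

end Cfsg.Agent.Helper8
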