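import Cfsg.Agent.Helper8.FusionSat2
import Cfsg.Agent.Helper8.FusionCong
import Cfsg.Agent.Helper8.FusionChain
import Cfsg.Agent.Helper8.ChainStab
import Cfsg.Agent.Helper8.StronglyEmbedded
import Cfsg.Agent.Helper8.FusionNormal

set_option autoImplicit false

namespace Cfsg.Agent.Helper8

open Cfsg

variable {Ω : Type*} [Group Ω] {S : Subgroup Ω}

theorem le_normalizer_of_conj_mem {H K : Subgroup Ω} (h : ∀ u ∈ H, ∀ d ∈ K, u * d * u⁻¹ ∈ K) :
    H ≤ Subgroup.normalizer (K : Set Ω) := by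
  intro u hu
  rw [Subgroup.mem_normalizer_iff]
  intro d
  constructor
  · exact h u hu d
  · intro hd
    have := h u⁻¹ (H.inv_mem hu) _ hd
    simpa [mul_assoc] using this

theorem mem_pCore_map_of {G : Type*} [Group G] {p : ℕ} {H N : Subgroup G} (hNH : N ≤ H)
    (hnorm : ∀ h ∈ H, ∀ n ∈ N, h * n * h⁻¹ ∈ N) (hN : IsPGroup p N) {x : G} (hx : x ∈ N) :
    x ∈ (pCore p H).map H.subtype := by
  have h1 : (N.subgroupOf H).Normal := ⟨fun n hn g => by
    rw [Subgroup.mem_subgroupOf] at hn ⊢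
    exact hnorm g g.2 n hn⟩
  have h2 : IsPGroup p (N.subgroupOf H) := hN.comap_subtype
  exact ⟨⟨x, hNH hx⟩, le_pCore h1 h2 (Subgroup.mem_subgroupOf.mpr hx), rfl⟩

theorem pCore_map_conj_mem {G : Type*} [Group G] (p : ℕ) (H : Subgroup G) :
    ∀ h ∈ H, ∀ n ∈ (pCore p H).map H.subtype, h * n * h⁻¹ ∈ (pCore p H).map H.subtype := by
  rintro h hh _ ⟨n, hn, rfl⟩
  exact ⟨⟨h, hh⟩ * n * ⟨h, hh⟩⁻¹, (pCore_normal p H).conj_mem n hn ⟨h, hh⟩, rfl⟩

theorem pCore_map_le {G : Type*} [Group G] (p : ℕ) (H : Subgroup G) :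
    (pCore p H).map H.subtype ≤ H := by
  rintro _ ⟨n, -, rfl⟩
  exact n.2

theorem pCore_map_equiv {G G' : Type*} [Group G] [Group G'] (p : ℕ) (c : G ≃* G')
    {H : Subgroup G} {H' : Subgroup G'} (hH : H.map c.toMonoidHom = H') {x : G}
    (hx : x ∈ (pCore p H).map H.subtype) : c x ∈ (pCore p H').map H'.subtype := by
  apply mem_pCore_map_of (N := ((pCore p H).map H.subtype).map c.toMonoidHom)
  · rw [← hH]
    exact Subgroup.map_mono (pCore_map_le p H)
  · rintro h' hh' _ ⟨n, hn, rfl⟩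
    rw [← hH] at hh'
    obtain ⟨h, hh, rfl⟩ := hh'
    refine ⟨h * n * h⁻¹, pCore_map_conj_mem p H h hh n hn, ?_⟩
    simp
  · exact ((pCore_isPGroup p H).map _).map _
  · exact ⟨x, hx, rfl⟩

theorem pCore_le_inn_of_iso (F : FusionSystem S) (p : ℕ) {P Q : Subgroup Ω} {e : P ≃* Q}
    (he : IsIso F e)
    (hr : (pCore p (F.autGroup P)).map (F.autGroup P).subtype ≤ Inn P) :
    (pCore p (F.autGroup Q)).map (F.autGroup Q).subtype ≤ Inn Q := by
  intro β hβ
  have h1 := pCore_map_equiv p (MulAut.congr e.symm) (map_congr_autGroup F (isIso_symm F he)) hβ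
  obtain ⟨u, hu⟩ := hr h1
  refine ⟨e u, ?_⟩
  apply MulEquiv.ext
  intro y
  have h2 : MulAut.conj u (e.symm y) = MulAut.congr e.symm β (e.symm y) := by rw [hu]
  have h3 : MulAut.congr e.symm β (e.symm y) = e.symm (β y) := by
    show e.symm (β (e.symm.symm (e.symm y))) = e.symm (β y)
    rw [MulEquiv.symm_symm, MulEquiv.apply_symm_apply]
  rw [h3] at h2
  have h4 : β y = e (MulAut.conj u (e.symm y)) := by
    rw [h2, MulEquiv.apply_symm_apply]
  rw [h4]
  show e u * y * (e u)⁻¹ = e (u * e.symm y * u⁻¹)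
  rw [map_mul, map_mul, map_inv, MulEquiv.apply_symm_apply]

/-- If some element of `C_T(P ∩ T)` lies outside `P` (`T` strongly closed), then some element of
`N_S(P)` outside `P` induces an automorphism of `P` lying in `O_p(Aut_F(P))`. -/
theorem exists_normalizer_elt_in_pCore [Finite S] (p : ℕ) [Fact p.Prime] (hS : IsPGroup p S)
    (F : FusionSystem S) {T : Subgroup Ω} (hT : F.StronglyClosed T) {P : Subgroup Ω} (hPS : P ≤ S)
    (c : Ω) (hcT : c ∈ T) (hcC : c ∈ Subgroup.centralizer ((P ⊓ T : Subgroup Ω) : Set Ω))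
    (hcP : c ∉ P) :
    ∃ x ∈ S ⊓ Subgroup.normalizer (P : Set Ω), x ∉ P ∧
      ∃ α ∈ ((pCore p ↥(F.autGroup P)).map (F.autGroup P).subtype : Subgroup (MulAut ↥P)),
        ∀ y : ↥P, ((α y : ↥P) : Ω) = x * (y : Ω) * x⁻¹ := by
  have hSN := stronglyClosed_le_normalizer F hT
  have hDS : T ⊓ Subgroup.centralizer ((P ⊓ T : Subgroup Ω) : Set Ω) ≤ S := inf_le_left.trans hT.1
  have hPD : P ≤ Subgroup.normalizer
      ((T ⊓ Subgroup.centralizer ((P ⊓ T : Subgroup Ω) : Set Ω) : Subgroup Ω) : Set Ω) := by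
    apply le_normalizer_of_conj_mem
    intro u hu d hd
    refine ⟨(Subgroup.mem_normalizer_iff.mp (hSN (hPS hu)) d).mp hd.1, ?_⟩
    show u * d * u⁻¹ ∈ Subgroup.centralizer ((P ⊓ T : Subgroup Ω) : Set Ω)
    rw [Subgroup.mem_centralizer_iff]
    intro z hz
    have hz' : u⁻¹ * z * u ∈ (P ⊓ T : Subgroup Ω) := by
      refine ⟨P.mul_mem (P.mul_mem (P.inv_mem hu) hz.1) hu, ?_⟩
      have := (Subgroup.mem_normalizer_iff.mp (hSN (S.inv_mem (hPS hu))) z).mp hz.2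
      simpa using this
    have h1 := Subgroup.mem_centralizer_iff.mp hd.2 _ hz'
    calc z * (u * d * u⁻¹) = u * ((u⁻¹ * z * u) * d) * u⁻¹ := by group
      _ = u * (d * (u⁻¹ * z * u)) * u⁻¹ := by rw [h1]
      _ = u * d * u⁻¹ * z := by group
  have hlt : P < P ⊔ (T ⊓ Subgroup.centralizer ((P ⊓ T : Subgroup Ω) : Set Ω)) := by
    apply lt_of_le_of_ne le_sup_left
    intro heq
    apply hcP
    rw [heq]
    exact Subgroup.mem_sup_right ⟨hcT, hcC⟩
  have hsupS : P ⊔ (T ⊓ Subgroup.centralizer ((P ⊓ T : Subgroup Ω) : Set Ω)) ≤ S :=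
    sup_le hPS hDS
  haveI : Finite ↥(P ⊔ (T ⊓ Subgroup.centralizer ((P ⊓ T : Subgroup Ω) : Set Ω))) :=
    finite_of_le_finite hsupS
  obtain ⟨g, hg, hgN, hgP⟩ := exists_mem_normalizer_not_mem (hS.to_le hsupS) hlt
  obtain ⟨u, hu, d, hd, rfl⟩ := mem_sup_of_le_normalizer hPD hg
  have hdN : d ∈ Subgroup.normalizer (P : Set Ω) := by
    have : d = u⁻¹ * (u * d) := by group
    rw [this]
    exact Subgroup.mul_mem _ (Subgroup.inv_mem _ (Subgroup.le_normalizer hu)) hgN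
  have hdP : d ∉ P := fun h => hgP (P.mul_mem hu h)
  refine ⟨d, ⟨hDS hd, hdN⟩, hdP, conjAut P d hdN, ?_, fun y => rfl⟩
  haveI : Finite P := finite_of_le_finite hPS
  have hinv : ∀ i, ∀ a ∈ F.autGroup P, ∀ x ∈ (fun i : ℕ => match i with
      | 0 => (⊥ : Subgroup P)
      | 1 => T.subgroupOf P
      | _ + 2 => ⊤) i, a x ∈ (fun i : ℕ => match i with
      | 0 => (⊥ : Subgroup P)
      | 1 => T.subgroupOf P
      | _ + 2 => ⊤) i := by
    intro i a ha x hx
    match i with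
    | 0 =>
      have : x = 1 := Subgroup.mem_bot.mp hx
      rw [this, map_one]
      exact Subgroup.one_mem _
    | 1 =>
      exact Subgroup.mem_subgroupOf.mpr
        (stronglyClosed_invariant F hT hPS ha x (Subgroup.mem_subgroupOf.mp hx))
    | _ + 2 => exact Subgroup.mem_top _
  have hVn := chainStab_normal (F.autGroup P) _ hinv
  have hVp := chainStab_isPGroup (hS.to_le hPS) (F.autGroup P) _ hinv rfl 2 rfl
  have hle := le_pCore hVn hVp
  have hcA : conjAut P d hdN ∈ F.autGroup P :=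
    autInducedBy_le_autGroup F hPS (conjAut_mem_autInducedBy P (hDS hd) hdN)
  refine ⟨⟨conjAut P d hdN, hcA⟩, hle ?_, rfl⟩
  rw [mem_chainStab]
  intro i x hx
  match i with
  | 0 =>
    have hxT : (x : Ω) ∈ T := Subgroup.mem_subgroupOf.mp hx
    have hcomm := Subgroup.mem_centralizer_iff.mp hd.2 (x : Ω) ⟨x.2, hxT⟩
    apply Subgroup.mem_bot.mpr
    apply Subtype.ext
    show (x : Ω)⁻¹ * (d * (x : Ω) * d⁻¹) = 1
    rw [← hcomm]
    group
  | 1 =>
    apply Subgroup.mem_subgroupOf.mpr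
    show (x : Ω)⁻¹ * (d * (x : Ω) * d⁻¹) ∈ T
    have h1 : (x : Ω)⁻¹ * d * (x : Ω) ∈ T := by
      have := (Subgroup.mem_normalizer_iff.mp (hSN (S.inv_mem (hPS x.2))) d).mp hd.1
      simpa using this
    have h2 : (x : Ω)⁻¹ * (d * (x : Ω) * d⁻¹) = ((x : Ω)⁻¹ * d * (x : Ω)) * d⁻¹ := by group
    rw [h2]
    exact T.mul_mem h1 (T.inv_mem hd.1)
  | _ + 2 => exact Subgroup.mem_top _

/-- S5251. -/
theorem noncentric_meet [Finite S] (p : ℕ) [Fact p.Prime] (hS : IsPGroup p S)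
    (F : FusionSystem S) (hF : F.IsSaturated p) {T : Subgroup Ω} (E : FusionSystem T)
    (hEF : E.IsSubsystemOf F) (hT : F.StronglyClosed T) (P : Subgroup Ω) (hP : F.IsCentric P)
    (hPT : ¬ E.IsCentric (P ⊓ T)) :
    (∃ φ ∈ F.Hom P, ∃ x ∈ S ⊓ Subgroup.normalizer (φ.range : Set Ω), x ∉ φ.range ∧
      ∃ α ∈ ((pCore p ↥(F.autGroup φ.range)).map (F.autGroup φ.range).subtype :
        Subgroup (MulAut ↥φ.range)), ∀ y : ↥φ.range, ((α y : ↥φ.range) : Ω) = x * (y : Ω) * x⁻¹) ∧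
      ¬ F.IsRadical p P := by
  have hPS := hP.1
  have hPTS : P ⊓ T ≤ S := inf_le_left.trans hPS
  have part1 : ∃ φ ∈ F.Hom P, ∃ x ∈ S ⊓ Subgroup.normalizer (φ.range : Set Ω), x ∉ φ.range ∧
      ∃ α ∈ ((pCore p ↥(F.autGroup φ.range)).map (F.autGroup φ.range).subtype :
        Subgroup (MulAut ↥φ.range)),
        ∀ y : ↥φ.range, ((α y : ↥φ.range) : Ω) = x * (y : Ω) * x⁻¹ := by
    have h1 : ∃ Q, E.IsConj (P ⊓ T) Q ∧ ¬ FusionSystem.centralizerIn T Q ≤ Q := by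
      by_contra hcon
      apply hPT
      refine ⟨inf_le_right, fun Q hQ => ?_⟩
      by_contra hnot
      exact hcon ⟨Q, hQ, hnot⟩
    obtain ⟨Q, ⟨χ, hχ, hχr⟩, hQ⟩ := h1
    have hconjQ : F.IsConj (P ⊓ T) Q := ⟨χ, hEF _ hχ, hχr⟩
    obtain ⟨Q', hconjQ', hQ'n⟩ := exists_fullyNormalized F hPTS
    have props := fullyNormalized_props p hS F hF hQ'n
    have hrec := receptive_of_fullyCentralized p hS F hF props.1
    obtain ⟨ψ, hψ, hψN, hψmap⟩ := exists_normalizer_map p hS F props.2 hrec hconjQ'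
    have hSNT := stronglyClosed_le_normalizer F hT
    have hPN : P ≤ FusionSystem.normalizerIn S (P ⊓ T) := by
      intro x hx
      refine ⟨hPS hx, ?_⟩
      have : P ≤ Subgroup.normalizer ((P ⊓ T : Subgroup Ω) : Set Ω) := by
        apply le_normalizer_of_conj_mem
        intro u hu d hd
        exact ⟨P.mul_mem (P.mul_mem hu hd.1) (P.inv_mem hu),
          (Subgroup.mem_normalizer_iff.mp (hSNT (hPS hu)) d).mp hd.2⟩
      exact this hx
    have hφ := restrict_mem F hψ hPN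
    -- the intersection of the image with T lies in Q'
    have hb : (ψ.comp (Subgroup.inclusion hPN)).range ⊓ T ≤ Q' := by
      rintro _ ⟨⟨x, rfl⟩, hz⟩
      obtain ⟨ρ, hρ, hρinv⟩ := F.inv_mem hφ
      have h2 := map_mem_of_stronglyClosed' F hT hρ
        ⟨(ψ.comp (Subgroup.inclusion hPN)) x, ⟨x, rfl⟩⟩ hz
      rw [hρinv x] at h2
      exact mem_of_map_eq hψmap (x := Subgroup.inclusion hPN x) ⟨x.2, h2⟩
    obtain ⟨ψ₂, hψ₂, hψ₂N, hψ₂map⟩ := exists_normalizer_map p hS F props.2 hrec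
      (isConj_trans F (isConj_symm F hconjQ) hconjQ')
    obtain ⟨c, hc, hcQ⟩ := SetLike.not_le_iff_exists.mp hQ
    have hcN : c ∈ FusionSystem.normalizerIn S Q :=
      centralizerIn_le_normalizerIn S Q ⟨hT.1 hc.1, hc.2⟩
    have hc'T : ψ₂ ⟨c, hcN⟩ ∈ T := map_mem_of_stronglyClosed' F hT hψ₂ ⟨c, hcN⟩ hc.1
    have hc'notQ' : ψ₂ ⟨c, hcN⟩ ∉ Q' := by
      intro h
      obtain ⟨q, hq, hqc⟩ := exists_of_map_eq hψ₂map h
      have h3 := F.injective_of_mem hψ₂ hqc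
      apply hcQ
      have h4 : (q : Ω) = c := congrArg Subtype.val h3
      rw [← h4]
      exact hq
    have hc'C : ψ₂ ⟨c, hcN⟩ ∈ Subgroup.centralizer
        (((ψ.comp (Subgroup.inclusion hPN)).range ⊓ T : Subgroup Ω) : Set Ω) := by
      rw [Subgroup.mem_centralizer_iff]
      intro z hz
      obtain ⟨q, hq, hqz⟩ := exists_of_map_eq hψ₂map (hb hz)
      rw [← hqz, ← map_mul, ← map_mul]
      congr 1
      apply Subtype.ext
      exact Subgroup.mem_centralizer_iff.mp hc.2 (q : Ω) hq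
    have hc'notP : ψ₂ ⟨c, hcN⟩ ∉ (ψ.comp (Subgroup.inclusion hPN)).range :=
      fun h => hc'notQ' (hb ⟨h, hc'T⟩)
    exact ⟨_, hφ, exists_normalizer_elt_in_pCore p hS F hT (range_le F hφ) _ hc'T hc'C hc'notP⟩
  refine ⟨part1, ?_⟩
  intro hr
  obtain ⟨φ, hφ, x, hx, hxP, α, hα, hαx⟩ := part1
  have he := isIso_equivOfRange F hφ (rfl : φ.range = φ.range)
  have hle := pCore_le_inn_of_iso F p he (le_of_eq hr.2)
  have hα' : α = conjAut φ.range x hx.2 := by
    apply MulEquiv.ext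
    intro y
    apply Subtype.ext
    exact hαx y
  have hinn : conjAut φ.range x hx.2 ∈ Inn ↥φ.range := by
    rw [← hα']
    exact hle hα
  exact conjAut_not_mem_inn (hP.2 φ.range ⟨φ, hφ, rfl⟩) (range_le F hφ) hx.1 hx.2 hxP hinn

end Cfsg.Agent.Helper8
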