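import Cfsg.Agent.Helper8.FusionChain
import Cfsg.Agent.Helper4.CoprimeOmega
import Cfsg.Prelude.Def_PLocal

set_option autoImplicit false

namespace Cfsg.Agent.Helper8

open Cfsg
open scoped commutatorElement

variable {Ω : Type*} [Group Ω] {S : Subgroup Ω}

theorem isPGroup_of_coprime_trivial {G : Type*} [Group G] [Finite G] {p : ℕ} [Fact p.Prime]
    (H : Subgroup G) (h : ∀ x ∈ H, Nat.Coprime (orderOf x) p → x = 1) : IsPGroup p H := by
  rintro ⟨x, hx⟩
  obtain ⟨k, m, hm, hkm⟩ := Nat.exists_eq_pow_mul_and_not_dvd (orderOf_pos x).ne' p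
    (Fact.out : p.Prime).ne_one
  refine ⟨k, Subtype.ext ?_⟩
  show x ^ p ^ k = 1
  apply h _ (pow_mem hx _)
  have h1 : (x ^ p ^ k) ^ m = 1 := by rw [← pow_mul, ← hkm, pow_orderOf_eq_one]
  have h2 : orderOf (x ^ p ^ k) ∣ m := orderOf_dvd_of_pow_eq_one h1
  have h3 : Nat.Coprime m p := ((Nat.Prime.coprime_iff_not_dvd Fact.out).mpr hm).symm
  exact Nat.Coprime.coprime_dvd_left h2 h3

theorem aut_iterate {R : Type*} [Group R] (a : MulAut R) (k : ℕ) (g : R) :
    (a ^ k) g = (⇑a.toMonoidHom)^[k] g := by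
  induction k generalizing g with
  | zero => rfl
  | succ k ih =>
    rw [pow_succ, MulAut.mul_apply, ih, Function.iterate_succ_apply]
    rfl

theorem omegaOne_le (p : ℕ) (P : Subgroup Ω) : omegaOne p P ≤ P := by
  unfold omegaOne
  rw [Subgroup.closure_le]
  exact fun x hx => hx.1

theorem omegaOne_aut_invariant (p : ℕ) {P : Subgroup Ω} (φ : MulAut P) :
    ∀ y ∈ omegaOne p P, ∀ h : y ∈ P, ((φ ⟨y, h⟩ : P) : Ω) ∈ omegaOne p P := by
  intro y hy
  unfold omegaOne at hy
  induction hy using Subgroup.closure_induction with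
  | mem x hx =>
    intro h
    apply Subgroup.subset_closure
    refine ⟨(φ ⟨x, h⟩).2, ?_⟩
    have h1 : (⟨x, h⟩ : P) ^ p = 1 := Subtype.ext hx.2
    have h2 : (φ ⟨x, h⟩) ^ p = 1 := by rw [← map_pow, h1, map_one]
    exact congrArg Subtype.val h2
  | one =>
    intro h
    have h1 : (⟨1, h⟩ : P) = 1 := rfl
    rw [h1, map_one]
    exact one_mem _
  | mul x y hx hy ihx ihy =>
    intro h
    have hxP : x ∈ P := omegaOne_le p P hx
    have hyP : y ∈ P := omegaOne_le p P hy
    have h1 : (⟨x * y, h⟩ : P) = ⟨x, hxP⟩ * ⟨y, hyP⟩ := rfl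
    rw [h1, map_mul]
    exact mul_mem (ihx hxP) (ihy hyP)
  | inv x hx ih =>
    intro h
    have hxP : x ∈ P := omegaOne_le p P hx
    have h1 : (⟨x⁻¹, h⟩ : P) = ⟨x, hxP⟩⁻¹ := rfl
    rw [h1, map_inv]
    exact inv_mem (ih hxP)

/-- For `p` odd: a strongly closed subgroup `P` whose `Ω₁(P)` has a series of strongly closed
subgroups centralized modulo each other by `P` lies in every centric radical subgroup. -/
theorem le_centric_radical_of_omega_chain [Finite S] {p : ℕ} [Fact p.Prime] (hp : p ≠ 2)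
    (hS : IsPGroup p S) (F : FusionSystem S) {P R : Subgroup Ω} (hP : F.StronglyClosed P) (n : ℕ)
    (Q : Fin (n + 1) → Subgroup Ω) (h0 : Q 0 = ⊥) (hn : Q (Fin.last n) = omegaOne p P)
    (hsc : ∀ i, F.StronglyClosed (Q i)) (hcomm : ∀ i : Fin n, ⁅Q i.succ, P⁆ ≤ Q i.castSucc)
    (hc : F.IsCentric R) (hr : F.IsRadical p R) : P ≤ R := by
  have hRS := hc.1
  have hPS := hP.1
  have hSN := stronglyClosed_le_normalizer F hP
  have hCR := hc.2 R (isConj_refl F hRS)
  have : Finite R := finite_of_le_finite hRS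
  have : Finite (MulAut R) := MulEquiv.finite_left
  have hRp : IsPGroup p R := hS.to_le hRS
  let K : ℕ → Subgroup R := fun j =>
    if h : j ≤ n then (Q ⟨j, Nat.lt_succ_of_le h⟩).subgroupOf R else (Q (Fin.last n)).subgroupOf R
  let L : ℕ → Subgroup R := fun j => if j = 0 then P.subgroupOf R else ⊤
  have hinvK : ∀ i, ∀ a ∈ F.autGroup R, ∀ x ∈ K i, a x ∈ K i := by
    intro i a ha x hx
    by_cases h : i ≤ n
    · simp only [K, dif_pos h] at hx ⊢
      exact stronglyClosed_invariant F (hsc _) hRS ha x hx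
    · simp only [K, dif_neg h] at hx ⊢
      exact stronglyClosed_invariant F (hsc _) hRS ha x hx
  have hinvL : ∀ i, ∀ a ∈ F.autGroup R, ∀ x ∈ L i, a x ∈ L i := by
    intro i a ha x hx
    by_cases h : i = 0
    · simp only [L, if_pos h] at hx ⊢
      exact stronglyClosed_invariant F hP hRS ha x hx
    · simp only [L, if_neg h]
      trivial
  have hN1 := chainStab_normal (F.autGroup R) K hinvK
  have hN2 := chainStab_normal (F.autGroup R) L hinvL
  have hXn : (chainStab (F.autGroup R) K hinvK ⊓ chainStab (F.autGroup R) L hinvL).Normal :=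
    inferInstance
  have hXp : IsPGroup p ↥(chainStab (F.autGroup R) K hinvK ⊓ chainStab (F.autGroup R) L hinvL) := by
    apply isPGroup_of_coprime_trivial
    intro b hb hbo
    obtain ⟨hb1, hb2⟩ := Subgroup.mem_inf.mp hb
    have hm : Nat.Coprime (orderOf (b : MulAut R)) p := by
      rw [Subgroup.orderOf_coe]
      exact hbo
    have hf : ∀ g : R, (⇑(b : MulAut R).toMonoidHom)^[orderOf (b : MulAut R)] g = g := by
      intro g
      rw [← aut_iterate, pow_orderOf_eq_one, MulAut.one_apply]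
    have s1 : ∀ j : ℕ, ∀ (h : j ≤ n), ∀ x : R, (x : Ω) ∈ Q ⟨j, Nat.lt_succ_of_le h⟩ →
        (b : MulAut R) x = x := by
      intro j
      induction j with
      | zero =>
        intro h x hx
        have h1 : (⟨0, Nat.lt_succ_of_le h⟩ : Fin (n + 1)) = 0 := rfl
        rw [h1, h0, Subgroup.mem_bot] at hx
        have h2 : x = 1 := Subtype.ext hx
        rw [h2, map_one]
      | succ j ih =>
        intro h x hx
        have hj : j ≤ n := by omega
        have hz : x⁻¹ * (b : MulAut R) x ∈ K j :=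
          (mem_chainStab.mp hb1) j x (by simp only [K, dif_pos h]; exact hx)
        simp only [K, dif_pos hj] at hz
        exact Cfsg.Agent.Helper4.fix_of_comm_fix hRp (b : MulAut R).toMonoidHom _ hm hf x
          (ih hj _ hz)
    have hKinv : ∀ k ∈ P.subgroupOf R, (b : MulAut R).toMonoidHom k ∈ P.subgroupOf R :=
      fun k hk => stronglyClosed_invariant F hP hRS b.2 k hk
    have s3 : ∀ x : R, (x : Ω) ∈ P → (b : MulAut R) x = x := by
      intro x hx
      have hKp : IsPGroup p ↥(P.subgroupOf R) := hRp.to_subgroup _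
      have h1 := Cfsg.Agent.Helper4.coprime_end_trivial_aux hp _ hm (Nat.card ↥(P.subgroupOf R))
        ↥(P.subgroupOf R) le_rfl hKp
        (((b : MulAut R).toMonoidHom.domRestrict (P.subgroupOf R)).codRestrict (P.subgroupOf R)
          (fun y => hKinv y.1 y.2))
        (fun k => Subtype.ext (by
          rw [Cfsg.Agent.Helper4.restrict_iterate _ _ hKinv]
          exact hf k))
        (fun y hy => Subtype.ext (s1 n le_rfl y.1 (by
          have h2 : (⟨n, Nat.lt_succ_of_le le_rfl⟩ : Fin (n + 1)) = Fin.last n := rfl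
          rw [h2, hn]
          apply Subgroup.subset_closure
          refine ⟨y.2, ?_⟩
          have h3 := congrArg (fun t : ↥(P.subgroupOf R) => ((t : R) : Ω)) hy
          simpa using h3)))
        ⟨x, hx⟩
      exact congrArg Subtype.val h1
    apply Subtype.ext
    apply MulEquiv.ext
    intro x
    have hz : x⁻¹ * (b : MulAut R) x ∈ L 0 := (mem_chainStab.mp hb2) 0 x (by simp [L])
    simp only [L, if_pos rfl] at hz
    exact Cfsg.Agent.Helper4.fix_of_comm_fix hRp (b : MulAut R).toMonoidHom _ hm hf x (s3 _ hz)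
  have hXle := le_pCore hXn hXp
  have hNQ : ∀ q ∈ P, q ∈ Subgroup.normalizer (R : Set Ω) → q ∈ R := by
    intro q hq hqN
    by_contra hqR
    apply conjAut_not_mem_inn hCR hRS (hPS hq) hqN hqR
    rw [← hr.2]
    have hqA : conjAut R q hqN ∈ F.autGroup R :=
      autInducedBy_le_autGroup F hRS (conjAut_mem_autInducedBy R (hPS hq) hqN)
    refine ⟨⟨conjAut R q hqN, hqA⟩, hXle (Subgroup.mem_inf.mpr ⟨?_, ?_⟩), rfl⟩
    · rw [mem_chainStab]
      intro i x hx
      by_cases h1 : i + 1 ≤ n
      · have h2 : i ≤ n := by omega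
        simp only [K, dif_pos h1] at hx
        simp only [K, dif_pos h2]
        rw [Subgroup.mem_subgroupOf] at hx ⊢
        apply hcomm ⟨i, h1⟩
        have h4 : ((x⁻¹ * conjAut R q hqN x : R) : Ω) = ⁅(x : Ω)⁻¹, q⁆ := by
          rw [commutatorElement_def]
          show (x : Ω)⁻¹ * (q * (x : Ω) * q⁻¹) = _
          group
        rw [h4]
        exact Subgroup.commutator_mem_commutator (inv_mem hx) hq
      · have hxW : (x : Ω) ∈ Q (Fin.last n) := by
          simp only [K, dif_neg h1] at hx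
          exact hx
        have hgoal : ((x⁻¹ * conjAut R q hqN x : R) : Ω) ∈ Q (Fin.last n) := by
          show (x : Ω)⁻¹ * (q * x * q⁻¹) ∈ Q (Fin.last n)
          have hWN := stronglyClosed_le_normalizer F (hsc (Fin.last n))
          have h5 : q * (x : Ω) * q⁻¹ ∈ Q (Fin.last n) :=
            (Subgroup.mem_normalizer_iff.mp (hWN (hPS hq)) x).mp hxW
          exact mul_mem (inv_mem hxW) h5
        by_cases h2 : i ≤ n
        · have h3 : i = n := by omega
          subst h3
          simp only [K, dif_pos h2]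
          exact hgoal
        · simp only [K, dif_neg h2]
          exact hgoal
    · rw [mem_chainStab]
      intro i x hx
      by_cases h : i = 0
      · simp only [L, if_pos h]
        rw [Subgroup.mem_subgroupOf]
        show (x : Ω)⁻¹ * (q * x * q⁻¹) ∈ P
        have h5 : (x : Ω)⁻¹ * q * ((x : Ω)⁻¹)⁻¹ ∈ P :=
          (Subgroup.mem_normalizer_iff.mp (hSN (S.inv_mem (hRS x.2))) q).mp hq
        have h6 := P.mul_mem h5 (P.inv_mem hq)
        have h7 : (x : Ω)⁻¹ * q * ((x : Ω)⁻¹)⁻¹ * q⁻¹ = (x : Ω)⁻¹ * (q * x * q⁻¹) := by group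
        rw [h7] at h6
        exact h6
      · simp only [L, if_neg h]
        trivial
  by_contra hPR
  have hRPS : R ⊔ P ≤ S := sup_le hRS hPS
  have hlt : R < R ⊔ P := by
    refine lt_of_le_of_ne le_sup_left ?_
    intro h
    apply hPR
    have h2 : P ≤ R ⊔ P := le_sup_right
    rw [← h] at h2
    exact h2
  have : Finite ↥(R ⊔ P) := finite_of_le_finite hRPS
  obtain ⟨g, hg, hgN, hgR⟩ := exists_mem_normalizer_not_mem (hS.to_le hRPS) hlt
  obtain ⟨y, hy, q, hq, rfl⟩ := mem_sup_of_le_normalizer (hRS.trans hSN) hg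
  have hqN : q ∈ Subgroup.normalizer (R : Set Ω) := by
    have h1 := Subgroup.mul_mem _ (Subgroup.inv_mem _ (Subgroup.le_normalizer hy)) hgN
    have h2 : y⁻¹ * (y * q) = q := by group
    rw [h2] at h1
    exact h1
  exact hgR (R.mul_mem hy (hNQ q hq hqN))

theorem omega_chain_of_normal [Finite S] {p : ℕ} [Fact p.Prime] (hS : IsPGroup p S)
    (F : FusionSystem S) {P : Subgroup Ω} (hP : F.IsNormal P) :
    ∃ (n : ℕ) (Q : Fin (n + 1) → Subgroup Ω), Q 0 = ⊥ ∧ Q (Fin.last n) = omegaOne p P ∧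
      Monotone Q ∧ (∀ i : Fin (n + 1), F.StronglyClosed (Q i)) ∧
      ∀ i : Fin n, ⁅Q i.succ, P⁆ ≤ Q i.castSucc := by
  have hPS := hP.1
  have : Finite P := finite_of_le_finite hPS
  have : Group.IsNilpotent P := (hS.to_le hPS).isNilpotent
  obtain ⟨n, hn⟩ := Group.IsNilpotent.nilpotent P
  refine ⟨n, fun i => (Subgroup.upperCentralSeries P i).map P.subtype ⊓ omegaOne p P,
    ?_, ?_, ?_, ?_, ?_⟩
  · show (Subgroup.upperCentralSeries P 0).map P.subtype ⊓ omegaOne p P = ⊥
    simp
  · show (Subgroup.upperCentralSeries P n).map P.subtype ⊓ omegaOne p P = omegaOne p P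
    rw [hn, ← MonoidHom.range_eq_map, Subgroup.range_subtype]
    exact inf_eq_right.mpr (omegaOne_le p P)
  · intro i j hij
    exact inf_le_inf_right _ (Subgroup.map_mono (Subgroup.upperCentralSeries_mono P hij))
  · intro i
    apply stronglyClosed_of_normal
    apply Cfsg.Agent.S5085.result F P _ hP (inf_le_right.trans (omegaOne_le p P))
    rw [Subgroup.characteristic_iff_map_le]
    intro φ
    rintro _ ⟨x, hx, rfl⟩
    obtain ⟨hx1, hx2⟩ := Subgroup.mem_inf.mp (Subgroup.mem_subgroupOf.mp hx)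
    refine Subgroup.mem_subgroupOf.mpr (Subgroup.mem_inf.mpr
      ⟨?_, omegaOne_aut_invariant p φ _ hx2 x.2⟩)
    obtain ⟨z, hz, hzx⟩ := hx1
    have hzx' : z = x := Subtype.ext hzx
    subst hzx'
    have h2 : (Subgroup.upperCentralSeries P (i : ℕ)).map φ.toMonoidHom
        = Subgroup.upperCentralSeries P (i : ℕ) :=
      Subgroup.characteristic_iff_map_eq.mp inferInstance φ
    refine ⟨φ z, ?_, rfl⟩
    rw [← h2]
    exact ⟨z, hz, rfl⟩
  · intro i
    apply le_inf
    · have h1 := ucs_comm_le P (i : ℕ)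
      rw [Subgroup.commutator_comm]
      exact (Subgroup.commutator_mono le_rfl inf_le_left).trans h1
    · rw [Subgroup.commutator_le]
      intro w hw g hg
      have hwW := (Subgroup.mem_inf.mp hw).2
      have h1 : g * w⁻¹ * g⁻¹ ∈ omegaOne p P :=
        omegaOne_aut_invariant p (MulAut.conj (⟨g, hg⟩ : P)) w⁻¹ (inv_mem hwW)
          (P.inv_mem (omegaOne_le p P hwW))
      rw [commutatorElement_def]
      have h2 : w * g * w⁻¹ * g⁻¹ = w * (g * w⁻¹ * g⁻¹) := by group
      rw [h2]
      exact mul_mem hwW h1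

end Cfsg.Agent.Helper8
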