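import Cfsg.Agent.Helper8.FusionAlperin2
import Cfsg.Agent.Helper8.FusionHyperfocal
import Cfsg.Agent.Helper8.PResidual
import Cfsg.Agent.Helper8.FusionMisc
import Cfsg.Agent.Helper8.FusionSat2

set_option autoImplicit false

namespace Cfsg.Agent.Helper8

open Cfsg

variable {Ω : Type*} [Group Ω] {S : Subgroup Ω}

/-- The full subsystem of `F` on a subgroup `T ≤ S`: the maps of `F` between subgroups of `T`. -/
def fullSubsystem (F : FusionSystem S) (T : Subgroup Ω) (hTS : T ≤ S) : FusionSystem T where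
  Hom P := {φ | φ ∈ F.Hom P ∧ P ≤ T ∧ ∀ x : P, φ x ∈ T}
  le_of_mem := fun h => ⟨h.2.1, h.2.2⟩
  injective_of_mem := fun h => F.injective_of_mem h.1
  conj_mem := by
    intro P g hP hg
    refine ⟨F.conj_mem (hP.trans hTS) (hTS hg), hP, fun x => ?_⟩
    show g * (x : Ω) * g⁻¹ ∈ T
    exact T.mul_mem (T.mul_mem hg (hP x.2)) (T.inv_mem hg)
  comp_mem := by
    intro P Q φ ψ hφ hψ h
    exact ⟨F.comp_mem hφ.1 hψ.1 h, hφ.2.1, fun x => hψ.2.2 _⟩
  inv_mem := by
    intro P φ hφ
    obtain ⟨ψ, hψ, hinv⟩ := F.inv_mem hφ.1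
    refine ⟨ψ, ⟨hψ, ?_, ?_⟩, hinv⟩
    · rintro _ ⟨x, rfl⟩
      exact hφ.2.2 x
    · rintro ⟨_, x, rfl⟩
      rw [hinv x]
      exact hφ.2.1 x.2

theorem fullSubsystem_le (F : FusionSystem S) (T : Subgroup Ω) (hTS : T ≤ S) (P : Subgroup Ω) :
    (fullSubsystem F T hTS).Hom P ⊆ F.Hom P := fun _ h => h.1

theorem autGroup_le_fullSubsystem (F : FusionSystem S) (T : Subgroup Ω) (hTS : T ≤ S)
    {P : Subgroup Ω} (hPT : P ≤ T) : F.autGroup P ≤ (fullSubsystem F T hTS).autGroup P := by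
  intro α hα
  have h1 : P.subtype.comp α.toMonoidHom ∈ F.Hom P := (mem_autGroup_iff F (hPT.trans hTS) α).mp hα
  exact (mem_autGroup_iff (fullSubsystem F T hTS) hPT α).mpr ⟨h1, hPT, fun x => hPT (α x).2⟩

theorem autGroup_le_of_subsystem {T : Subgroup Ω} (E : FusionSystem T) (F : FusionSystem S)
    (h : E.IsSubsystemOf F) (P : Subgroup Ω) : E.autGroup P ≤ F.autGroup P :=
  Subgroup.closure_mono (fun _ hα => h P hα)

/-- S5199: a normal (indeed any saturated) subsystem `E` of `F` over `T` lies in every subsystem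
`F₀` of `p`-power index over a subgroup containing `T`. -/
theorem subsystem_of_pPowerIndex {T U : Subgroup Ω} (p : ℕ) [Fact p.Prime] [Finite T]
    (hT : IsPGroup p T) (F : FusionSystem S) (E : FusionSystem T) (hEsat : E.IsSaturated p)
    (hEF : E.IsSubsystemOf F) (F₀ : FusionSystem U) (hTU : T ≤ U)
    (hidx : F₀.HasPPowerIndexIn F p) : E.IsSubsystemOf F₀ := by
  intro P φ hφ
  apply fullSubsystem_le F₀ T hTU P
  revert φ
  apply alperin p hT E hEsat (fullSubsystem F₀ T hTU)
  intro P hP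
  have hPn : E.IsFullyNormalized P := by
    rcases hP with h | h
    · rw [h]
      exact isFullyNormalized_top E
    · exact h.2.1
  have hPT : P ≤ T := hPn.1
  haveI : Finite P := finite_of_le_finite hPT
  haveI : Finite (MulAut P) := MulEquiv.finite_left
  obtain ⟨R, hR⟩ := (fullyNormalized_props p hT E hEsat hPn).2.2
  intro α hα
  obtain ⟨b, hb, c, hc, hbc⟩ := exists_mul_of_sylow R (⟨α, hα⟩ : E.autGroup P)
  have hα' : α = (b : MulAut P) * (c : MulAut P) := congrArg Subtype.val hbc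
  rw [hα']
  apply Subgroup.mul_mem
  · apply autGroup_le_fullSubsystem F₀ T hTU hPT
    apply hidx.2.2 P (hPT.trans hTU)
    have hle := autGroup_le_of_subsystem E F hEF P
    have h1 := map_mem_pResidual p (Subgroup.inclusion hle) (Subgroup.inclusion_injective hle) hb
    exact ⟨_, h1, rfl⟩
  · rw [hR, Subgroup.mem_subgroupOf] at hc
    exact autInducedBy_le_autGroup (fullSubsystem F₀ T hTU) hPT hc

end Cfsg.Agent.Helper8
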