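import Cfsg.Agent.Helper8.FusionIso
import Cfsg.Agent.Helper8.FusionMisc
import Cfsg.Prelude.Def_FusionComponents

set_option autoImplicit false

namespace Cfsg.Agent.Helper8

open Cfsg

variable {Ω₁ Ω₂ : Type*} [Group Ω₁] [Group Ω₂] {S₁ : Subgroup Ω₁} {S₂ : Subgroup Ω₂}

/-- The restriction to `P` of the product of two maps on the projections of `P`. -/
def pairHom (P : Subgroup (Ω₁ × Ω₂)) (φ₁ : ↥(P.map (MonoidHom.fst Ω₁ Ω₂)) →* Ω₁)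
    (φ₂ : ↥(P.map (MonoidHom.snd Ω₁ Ω₂)) →* Ω₂) : P →* Ω₁ × Ω₂ :=
  (φ₁.comp ((MonoidHom.fst Ω₁ Ω₂).subgroupMap P)).prod
    (φ₂.comp ((MonoidHom.snd Ω₁ Ω₂).subgroupMap P))

theorem map_fst_le {P : Subgroup (Ω₁ × Ω₂)} (hP : P ≤ S₁.prod S₂) :
    P.map (MonoidHom.fst Ω₁ Ω₂) ≤ S₁ := by
  rintro _ ⟨x, hx, rfl⟩
  exact (Subgroup.mem_prod.mp (hP hx)).1

theorem map_snd_le {P : Subgroup (Ω₁ × Ω₂)} (hP : P ≤ S₁.prod S₂) :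
    P.map (MonoidHom.snd Ω₁ Ω₂) ≤ S₂ := by
  rintro _ ⟨x, hx, rfl⟩
  exact (Subgroup.mem_prod.mp (hP hx)).2

/-- The direct product of two fusion systems. -/
def productSystem (F₁ : FusionSystem S₁) (F₂ : FusionSystem S₂) : FusionSystem (S₁.prod S₂) where
  Hom P := {φ | P ≤ S₁.prod S₂ ∧ ∃ φ₁ ∈ F₁.Hom (P.map (MonoidHom.fst Ω₁ Ω₂)),
    ∃ φ₂ ∈ F₂.Hom (P.map (MonoidHom.snd Ω₁ Ω₂)), φ = pairHom P φ₁ φ₂}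
  le_of_mem := by
    rintro P φ ⟨hP, φ₁, hφ₁, φ₂, hφ₂, rfl⟩
    exact ⟨hP, fun x => Subgroup.mem_prod.mpr ⟨hom_mem F₁ hφ₁ _, hom_mem F₂ hφ₂ _⟩⟩
  injective_of_mem := by
    rintro P φ ⟨hP, φ₁, hφ₁, φ₂, hφ₂, rfl⟩ x y hxy
    have h1 := F₁.injective_of_mem hφ₁ (congrArg Prod.fst hxy)
    have h2 := F₂.injective_of_mem hφ₂ (congrArg Prod.snd hxy)
    exact Subtype.ext (Prod.ext (congrArg Subtype.val h1) (congrArg Subtype.val h2))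
  conj_mem := by
    intro P g hP hg
    refine ⟨hP, conjHom _ g.1, F₁.conj_mem (map_fst_le hP) (Subgroup.mem_prod.mp hg).1,
      conjHom _ g.2, F₂.conj_mem (map_snd_le hP) (Subgroup.mem_prod.mp hg).2, ?_⟩
    apply MonoidHom.ext
    intro x
    rfl
  comp_mem := by
    rintro P Q φ ψ ⟨hP, φ₁, hφ₁, φ₂, hφ₂, rfl⟩ ⟨hQ, ψ₁, hψ₁, ψ₂, hψ₂, rfl⟩ h
    have h₁ : ∀ y : ↥(P.map (MonoidHom.fst Ω₁ Ω₂)), φ₁ y ∈ Q.map (MonoidHom.fst Ω₁ Ω₂) := by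
      rintro ⟨_, x, hx, rfl⟩
      exact ⟨_, h ⟨x, hx⟩, rfl⟩
    have h₂ : ∀ y : ↥(P.map (MonoidHom.snd Ω₁ Ω₂)), φ₂ y ∈ Q.map (MonoidHom.snd Ω₁ Ω₂) := by
      rintro ⟨_, x, hx, rfl⟩
      exact ⟨_, h ⟨x, hx⟩, rfl⟩
    refine ⟨hP, _, F₁.comp_mem hφ₁ hψ₁ h₁, _, F₂.comp_mem hφ₂ hψ₂ h₂, ?_⟩
    apply MonoidHom.ext
    intro x
    rfl
  inv_mem := by
    rintro P φ ⟨hP, φ₁, hφ₁, φ₂, hφ₂, rfl⟩
    obtain ⟨ψ₁, hψ₁, hψ₁'⟩ := F₁.inv_mem hφ₁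
    obtain ⟨ψ₂, hψ₂, hψ₂'⟩ := F₂.inv_mem hφ₂
    have hle₁ : (pairHom P φ₁ φ₂).range.map (MonoidHom.fst Ω₁ Ω₂) ≤ φ₁.range := by
      rintro _ ⟨_, ⟨x, rfl⟩, rfl⟩
      exact ⟨_, rfl⟩
    have hle₂ : (pairHom P φ₁ φ₂).range.map (MonoidHom.snd Ω₁ Ω₂) ≤ φ₂.range := by
      rintro _ ⟨_, ⟨x, rfl⟩, rfl⟩
      exact ⟨_, rfl⟩
    have hR : (pairHom P φ₁ φ₂).range ≤ S₁.prod S₂ := by
      rintro _ ⟨x, rfl⟩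
      exact Subgroup.mem_prod.mpr ⟨hom_mem F₁ hφ₁ _, hom_mem F₂ hφ₂ _⟩
    refine ⟨pairHom _ (ψ₁.comp (Subgroup.inclusion hle₁)) (ψ₂.comp (Subgroup.inclusion hle₂)),
      ⟨hR, _, restrict_mem F₁ hψ₁ hle₁, _, restrict_mem F₂ hψ₂ hle₂, rfl⟩, fun x => ?_⟩
    exact Prod.ext (hψ₁' _) (hψ₂' _)

theorem isProductSystem_productSystem (F₁ : FusionSystem S₁) (F₂ : FusionSystem S₂) :
    FusionSystem.IsProductSystem F₁ F₂ (productSystem F₁ F₂) := by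
  intro P φ
  constructor
  · rintro ⟨hP, φ₁, hφ₁, φ₂, hφ₂, rfl⟩
    exact ⟨hP, φ₁, hφ₁, φ₂, hφ₂, fun x h₁ h₂ => rfl⟩
  · rintro ⟨hP, φ₁, hφ₁, φ₂, hφ₂, h⟩
    refine ⟨hP, φ₁, hφ₁, φ₂, hφ₂, ?_⟩
    apply MonoidHom.ext
    intro x
    exact h x ⟨x, x.2, rfl⟩ ⟨x, x.2, rfl⟩

theorem eq_productSystem {F₁ : FusionSystem S₁} {F₂ : FusionSystem S₂}
    {E : FusionSystem (S₁.prod S₂)} (hE : FusionSystem.IsProductSystem F₁ F₂ E) :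
    E = productSystem F₁ F₂ := by
  apply fusionSystem_ext
  intro P
  ext φ
  exact (hE P φ).trans (isProductSystem_productSystem F₁ F₂ P φ).symm

/-- Membership in the product system, with the projections of the source given abstractly. -/
theorem mem_productSystem_iff (F₁ : FusionSystem S₁) (F₂ : FusionSystem S₂)
    {Q : Subgroup (Ω₁ × Ω₂)} {P₁ : Subgroup Ω₁} {P₂ : Subgroup Ω₂}
    (h₁ : Q.map (MonoidHom.fst Ω₁ Ω₂) = P₁) (h₂ : Q.map (MonoidHom.snd Ω₁ Ω₂) = P₂)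
    (φ : Q →* Ω₁ × Ω₂) :
    φ ∈ (productSystem F₁ F₂).Hom Q ↔ Q ≤ S₁.prod S₂ ∧ ∃ φ₁ ∈ F₁.Hom P₁, ∃ φ₂ ∈ F₂.Hom P₂,
      ∀ (x : Q) (hx₁ : (x : Ω₁ × Ω₂).1 ∈ P₁) (hx₂ : (x : Ω₁ × Ω₂).2 ∈ P₂),
        φ x = (φ₁ ⟨(x : Ω₁ × Ω₂).1, hx₁⟩, φ₂ ⟨(x : Ω₁ × Ω₂).2, hx₂⟩) := by
  subst h₁ h₂
  exact isProductSystem_productSystem F₁ F₂ Q φ

end Cfsg.Agent.Helper8
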