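import Cfsg.Agent.Helper8.FusionProd
import Cfsg.Agent.Helper8.FusionTate
import Cfsg.Agent.Helper8.GroupFusion

set_option autoImplicit false

namespace Cfsg.Agent.Helper8

open Cfsg

variable {Ω₁ Ω₂ : Type*} [Group Ω₁] [Group Ω₂] {S₁ : Subgroup Ω₁} {S₂ : Subgroup Ω₂}

section twist

variable {P₁ : Subgroup Ω₁} {P₂ : Subgroup Ω₂}

/-- The image of `Q` under a pair of automorphisms of `P₁` and `P₂`. -/
def twist (a : MulAut P₁ × MulAut P₂) (Q : Subgroup (Ω₁ × Ω₂)) : Subgroup (Ω₁ × Ω₂) :=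
  (Q.comap (P₁.subtype.prodMap P₂.subtype)).map
    ((P₁.subtype.comp a.1.toMonoidHom).prodMap (P₂.subtype.comp a.2.toMonoidHom))

theorem mem_twist {a : MulAut P₁ × MulAut P₂} {Q : Subgroup (Ω₁ × Ω₂)} {z : Ω₁ × Ω₂} :
    z ∈ twist a Q ↔ ∃ (y₁ : P₁) (y₂ : P₂), ((y₁ : Ω₁), (y₂ : Ω₂)) ∈ Q ∧
      z = (((a.1 y₁ : P₁) : Ω₁), ((a.2 y₂ : P₂) : Ω₂)) := by
  constructor
  · rintro ⟨⟨y₁, y₂⟩, hy, rfl⟩
    exact ⟨y₁, y₂, hy, rfl⟩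
  · rintro ⟨y₁, y₂, hy, rfl⟩
    exact ⟨(y₁, y₂), hy, rfl⟩

theorem mem_twist_iff (a : MulAut P₁ × MulAut P₂) (Q : Subgroup (Ω₁ × Ω₂)) (z₁ : P₁) (z₂ : P₂) :
    ((z₁ : Ω₁), (z₂ : Ω₂)) ∈ twist a Q ↔
      (((a.1⁻¹ z₁ : P₁) : Ω₁), ((a.2⁻¹ z₂ : P₂) : Ω₂)) ∈ Q := by
  rw [mem_twist]
  constructor
  · rintro ⟨y₁, y₂, hy, h⟩
    have h1 : z₁ = a.1 y₁ := Subtype.ext (congrArg Prod.fst h)
    have h2 : z₂ = a.2 y₂ := Subtype.ext (congrArg Prod.snd h)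
    rw [h1, h2, MulAut.inv_apply_self, MulAut.inv_apply_self]
    exact hy
  · intro h
    exact ⟨a.1⁻¹ z₁, a.2⁻¹ z₂, h, by rw [MulAut.apply_inv_self, MulAut.apply_inv_self]⟩

theorem twist_map_fst {Q : Subgroup (Ω₁ × Ω₂)} (h₁ : Q.map (MonoidHom.fst Ω₁ Ω₂) = P₁)
    (h₂ : Q.map (MonoidHom.snd Ω₁ Ω₂) = P₂) (a : MulAut P₁ × MulAut P₂) :
    (twist a Q).map (MonoidHom.fst Ω₁ Ω₂) = P₁ := by
  apply le_antisymm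
  · rintro _ ⟨z, hz, rfl⟩
    obtain ⟨y₁, y₂, -, rfl⟩ := mem_twist.mp hz
    exact (a.1 y₁).2
  · intro w hw
    have h3 : ((a.1⁻¹ ⟨w, hw⟩ : P₁) : Ω₁) ∈ Q.map (MonoidHom.fst Ω₁ Ω₂) := by
      rw [h₁]
      exact (a.1⁻¹ ⟨w, hw⟩).2
    obtain ⟨x, hx, hx1⟩ := h3
    have hx2 : x.2 ∈ P₂ := by
      rw [← h₂]
      exact ⟨x, hx, rfl⟩
    refine ⟨(w, ((a.2 ⟨x.2, hx2⟩ : P₂) : Ω₂)),
      mem_twist.mpr ⟨a.1⁻¹ ⟨w, hw⟩, ⟨x.2, hx2⟩, ?_, ?_⟩, rfl⟩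
    · have h4 : (((a.1⁻¹ ⟨w, hw⟩ : P₁) : Ω₁), x.2) = x := Prod.ext hx1.symm rfl
      rw [h4]
      exact hx
    · rw [MulAut.apply_inv_self]

theorem twist_map_snd {Q : Subgroup (Ω₁ × Ω₂)} (h₁ : Q.map (MonoidHom.fst Ω₁ Ω₂) = P₁)
    (h₂ : Q.map (MonoidHom.snd Ω₁ Ω₂) = P₂) (a : MulAut P₁ × MulAut P₂) :
    (twist a Q).map (MonoidHom.snd Ω₁ Ω₂) = P₂ := by
  apply le_antisymm
  · rintro _ ⟨z, hz, rfl⟩
    obtain ⟨y₁, y₂, -, rfl⟩ := mem_twist.mp hz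
    exact (a.2 y₂).2
  · intro w hw
    have h3 : ((a.2⁻¹ ⟨w, hw⟩ : P₂) : Ω₂) ∈ Q.map (MonoidHom.snd Ω₁ Ω₂) := by
      rw [h₂]
      exact (a.2⁻¹ ⟨w, hw⟩).2
    obtain ⟨x, hx, hx1⟩ := h3
    have hx2 : x.1 ∈ P₁ := by
      rw [← h₁]
      exact ⟨x, hx, rfl⟩
    refine ⟨(((a.1 ⟨x.1, hx2⟩ : P₁) : Ω₁), w),
      mem_twist.mpr ⟨⟨x.1, hx2⟩, a.2⁻¹ ⟨w, hw⟩, ?_, ?_⟩, rfl⟩
    · have h4 : (x.1, ((a.2⁻¹ ⟨w, hw⟩ : P₂) : Ω₂)) = x := Prod.ext rfl hx1.symm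
      rw [h4]
      exact hx
    · rw [MulAut.apply_inv_self]

/-- The pairs of automorphisms of `P₁` and `P₂` stabilizing `Q`. -/
def stabProd (P₁ : Subgroup Ω₁) (P₂ : Subgroup Ω₂) (Q : Subgroup (Ω₁ × Ω₂)) :
    Subgroup (MulAut P₁ × MulAut P₂) where
  carrier := {a | ∀ (y₁ : P₁) (y₂ : P₂), ((y₁ : Ω₁), (y₂ : Ω₂)) ∈ Q ↔
    (((a.1 y₁ : P₁) : Ω₁), ((a.2 y₂ : P₂) : Ω₂)) ∈ Q}
  one_mem' := fun y₁ y₂ => Iff.rfl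
  mul_mem' := by
    intro a b ha hb y₁ y₂
    exact (hb y₁ y₂).trans (ha (b.1 y₁) (b.2 y₂))
  inv_mem' := by
    intro a ha y₁ y₂
    have h := ha (a.1⁻¹ y₁) (a.2⁻¹ y₂)
    rw [MulAut.apply_inv_self, MulAut.apply_inv_self] at h
    exact h.symm

theorem mem_stabProd {Q : Subgroup (Ω₁ × Ω₂)} {a : MulAut P₁ × MulAut P₂} :
    a ∈ stabProd P₁ P₂ Q ↔ ∀ (y₁ : P₁) (y₂ : P₂), ((y₁ : Ω₁), (y₂ : Ω₂)) ∈ Q ↔
      (((a.1 y₁ : P₁) : Ω₁), ((a.2 y₂ : P₂) : Ω₂)) ∈ Q := Iff.rfl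

theorem stabProd_twist (a : MulAut P₁ × MulAut P₂) (Q : Subgroup (Ω₁ × Ω₂)) :
    stabProd P₁ P₂ (twist a Q) = cj a (stabProd P₁ P₂ Q) := by
  ext b
  rw [mem_cj, mem_stabProd, mem_stabProd]
  constructor
  · intro hb y₁ y₂
    have h := hb (a.1 y₁) (a.2 y₂)
    rw [mem_twist_iff, mem_twist_iff, MulAut.inv_apply_self, MulAut.inv_apply_self] at h
    exact h
  · intro hb z₁ z₂
    rw [mem_twist_iff, mem_twist_iff]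
    have h := hb (a.1⁻¹ z₁) (a.2⁻¹ z₂)
    have e1 : (a⁻¹ * b * a).1 (a.1⁻¹ z₁) = a.1⁻¹ (b.1 z₁) := by
      show a.1⁻¹ (b.1 (a.1 (a.1⁻¹ z₁))) = _
      rw [MulAut.apply_inv_self]
    have e2 : (a⁻¹ * b * a).2 (a.2⁻¹ z₂) = a.2⁻¹ (b.2 z₂) := by
      show a.2⁻¹ (b.2 (a.2 (a.2⁻¹ z₂))) = _
      rw [MulAut.apply_inv_self]
    rw [e1, e2] at h
    exact h

variable {Q : Subgroup (Ω₁ × Ω₂)}

/-- Restriction to `Q` of a pair of automorphisms stabilizing `Q`. -/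
def resProd (hQ₁ : ∀ x ∈ Q, x.1 ∈ P₁) (hQ₂ : ∀ x ∈ Q, x.2 ∈ P₂) :
    stabProd P₁ P₂ Q →* MulAut Q where
  toFun a :=
    { toFun := fun x => ⟨((((a : MulAut P₁ × MulAut P₂).1 ⟨x.1.1, hQ₁ _ x.2⟩ : P₁) : Ω₁),
          (((a : MulAut P₁ × MulAut P₂).2 ⟨x.1.2, hQ₂ _ x.2⟩ : P₂) : Ω₂)), (a.2 _ _).mp x.2⟩
      invFun := fun x => ⟨((((a : MulAut P₁ × MulAut P₂).1⁻¹ ⟨x.1.1, hQ₁ _ x.2⟩ : P₁) : Ω₁),
          (((a : MulAut P₁ × MulAut P₂).2⁻¹ ⟨x.1.2, hQ₂ _ x.2⟩ : P₂) : Ω₂)),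
          ((a⁻¹).2 _ _).mp x.2⟩
      left_inv := fun x => Subtype.ext (Prod.ext
        (congrArg Subtype.val ((a : MulAut P₁ × MulAut P₂).1.symm_apply_apply ⟨x.1.1, hQ₁ _ x.2⟩))
        (congrArg Subtype.val ((a : MulAut P₁ × MulAut P₂).2.symm_apply_apply ⟨x.1.2, hQ₂ _ x.2⟩)))
      right_inv := fun x => Subtype.ext (Prod.ext
        (congrArg Subtype.val ((a : MulAut P₁ × MulAut P₂).1.apply_symm_apply ⟨x.1.1, hQ₁ _ x.2⟩))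
        (congrArg Subtype.val ((a : MulAut P₁ × MulAut P₂).2.apply_symm_apply ⟨x.1.2, hQ₂ _ x.2⟩)))
      map_mul' := fun x y => Subtype.ext (Prod.ext
        (congrArg Subtype.val (map_mul (a : MulAut P₁ × MulAut P₂).1 ⟨x.1.1, hQ₁ _ x.2⟩
          ⟨y.1.1, hQ₁ _ y.2⟩))
        (congrArg Subtype.val (map_mul (a : MulAut P₁ × MulAut P₂).2 ⟨x.1.2, hQ₂ _ x.2⟩
          ⟨y.1.2, hQ₂ _ y.2⟩))) }
  map_one' := by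
    apply MulEquiv.ext
    intro x
    rfl
  map_mul' := by
    intro a b
    apply MulEquiv.ext
    intro x
    rfl

theorem resProd_apply (hQ₁ : ∀ x ∈ Q, x.1 ∈ P₁) (hQ₂ : ∀ x ∈ Q, x.2 ∈ P₂)
    (a : stabProd P₁ P₂ Q) (x : Q) :
    ((resProd hQ₁ hQ₂ a x : Q) : Ω₁ × Ω₂) =
      ((((a : MulAut P₁ × MulAut P₂).1 ⟨x.1.1, hQ₁ _ x.2⟩ : P₁) : Ω₁),
        (((a : MulAut P₁ × MulAut P₂).2 ⟨x.1.2, hQ₂ _ x.2⟩ : P₂) : Ω₂)) := rfl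

/-- The automorphism group of `Q` in the product system is the image of the stabilizer of `Q`
in `Aut_{F₁}(P₁) × Aut_{F₂}(P₂)`. -/
theorem mem_autGroup_productSystem [Finite S₁] [Finite S₂] (F₁ : FusionSystem S₁)
    (F₂ : FusionSystem S₂) (hQS : Q ≤ S₁.prod S₂)
    (h₁ : Q.map (MonoidHom.fst Ω₁ Ω₂) = P₁) (h₂ : Q.map (MonoidHom.snd Ω₁ Ω₂) = P₂)
    (hQ₁ : ∀ x ∈ Q, x.1 ∈ P₁) (hQ₂ : ∀ x ∈ Q, x.2 ∈ P₂) (β : MulAut Q) :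
    β ∈ (productSystem F₁ F₂).autGroup Q ↔ ∃ a : stabProd P₁ P₂ Q,
      (a : MulAut P₁ × MulAut P₂).1 ∈ F₁.autGroup P₁ ∧
      (a : MulAut P₁ × MulAut P₂).2 ∈ F₂.autGroup P₂ ∧ resProd hQ₁ hQ₂ a = β := by
  have hP₁S : P₁ ≤ S₁ := by
    rw [← h₁]
    exact map_fst_le hQS
  have hP₂S : P₂ ≤ S₂ := by
    rw [← h₂]
    exact map_snd_le hQS
  constructor
  · intro hβ
    have hiso : Q.subtype.comp β.toMonoidHom ∈ (productSystem F₁ F₂).Hom Q :=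
      (mem_autGroup_iff _ hQS β).mp hβ
    obtain ⟨-, φ₁, hφ₁, φ₂, hφ₂, h⟩ := (mem_productSystem_iff F₁ F₂ h₁ h₂ _).mp hiso
    have hr₁ : ∀ y : P₁, φ₁ y ∈ P₁ := by
      intro y
      have hy : (y : Ω₁) ∈ Q.map (MonoidHom.fst Ω₁ Ω₂) := by
        rw [h₁]
        exact y.2
      obtain ⟨x, hx, hxy⟩ := hy
      have h3 := h ⟨x, hx⟩ (hQ₁ x hx) (hQ₂ x hx)
      have h4 : y = ⟨x.1, hQ₁ x hx⟩ := Subtype.ext hxy.symm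
      rw [h4]
      have h5 : φ₁ ⟨x.1, hQ₁ x hx⟩ = ((β ⟨x, hx⟩ : Q) : Ω₁ × Ω₂).1 := (congrArg Prod.fst h3).symm
      rw [h5]
      exact hQ₁ _ (β ⟨x, hx⟩).2
    have hr₂ : ∀ y : P₂, φ₂ y ∈ P₂ := by
      intro y
      have hy : (y : Ω₂) ∈ Q.map (MonoidHom.snd Ω₁ Ω₂) := by
        rw [h₂]
        exact y.2
      obtain ⟨x, hx, hxy⟩ := hy
      have h3 := h ⟨x, hx⟩ (hQ₁ x hx) (hQ₂ x hx)
      have h4 : y = ⟨x.2, hQ₂ x hx⟩ := Subtype.ext hxy.symm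
      rw [h4]
      have h5 : φ₂ ⟨x.2, hQ₂ x hx⟩ = ((β ⟨x, hx⟩ : Q) : Ω₁ × Ω₂).2 := (congrArg Prod.snd h3).symm
      rw [h5]
      exact hQ₂ _ (β ⟨x, hx⟩).2
    obtain ⟨α₁, hα₁, hα₁'⟩ := exists_aut_of_hom_range_le F₁ hφ₁ hr₁
    obtain ⟨α₂, hα₂, hα₂'⟩ := exists_aut_of_hom_range_le F₂ hφ₂ hr₂
    have hβ' : ∀ x : Q, ((β x : Q) : Ω₁ × Ω₂) =
        (((α₁ ⟨x.1.1, hQ₁ _ x.2⟩ : P₁) : Ω₁), ((α₂ ⟨x.1.2, hQ₂ _ x.2⟩ : P₂) : Ω₂)) := by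
      intro x
      rw [hα₁', hα₂']
      exact h x _ _
    have ha : (α₁, α₂) ∈ stabProd P₁ P₂ Q := by
      rw [mem_stabProd]
      intro y₁ y₂
      constructor
      · intro hy
        have h3 : (((α₁ y₁ : P₁) : Ω₁), ((α₂ y₂ : P₂) : Ω₂)) =
            ((β ⟨((y₁ : Ω₁), (y₂ : Ω₂)), hy⟩ : Q) : Ω₁ × Ω₂) :=
          (hβ' ⟨((y₁ : Ω₁), (y₂ : Ω₂)), hy⟩).symm
        show (((α₁ y₁ : P₁) : Ω₁), ((α₂ y₂ : P₂) : Ω₂)) ∈ Q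
        rw [h3]
        exact (β _).2
      · intro hy
        have hy' : (((α₁ y₁ : P₁) : Ω₁), ((α₂ y₂ : P₂) : Ω₂)) ∈ Q := hy
        have h3 := hβ' (β⁻¹ ⟨_, hy'⟩)
        rw [MulAut.apply_inv_self] at h3
        have h4 : α₁ y₁ = α₁ ⟨(β⁻¹ ⟨_, hy'⟩ : Q).1.1, hQ₁ _ (β⁻¹ ⟨_, hy'⟩ : Q).2⟩ :=
          Subtype.ext (congrArg Prod.fst h3)
        have h5 : α₂ y₂ = α₂ ⟨(β⁻¹ ⟨_, hy'⟩ : Q).1.2, hQ₂ _ (β⁻¹ ⟨_, hy'⟩ : Q).2⟩ :=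
          Subtype.ext (congrArg Prod.snd h3)
        have h6 := congrArg Subtype.val (α₁.injective h4)
        have h7 := congrArg Subtype.val (α₂.injective h5)
        have h8 : ((y₁ : Ω₁), (y₂ : Ω₂)) = ((β⁻¹ ⟨_, hy'⟩ : Q) : Ω₁ × Ω₂) := Prod.ext h6 h7
        rw [h8]
        exact (β⁻¹ ⟨_, hy'⟩ : Q).2
    refine ⟨⟨(α₁, α₂), ha⟩, hα₁, hα₂, ?_⟩
    apply MulEquiv.ext
    intro x
    exact Subtype.ext (hβ' x).symm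
  · rintro ⟨a, ha₁, ha₂, rfl⟩
    rw [mem_autGroup_iff _ hQS]
    show Q.subtype.comp (resProd hQ₁ hQ₂ a).toMonoidHom ∈ (productSystem F₁ F₂).Hom Q
    rw [mem_productSystem_iff F₁ F₂ h₁ h₂]
    exact ⟨hQS, _, (mem_autGroup_iff F₁ hP₁S _).mp ha₁, _, (mem_autGroup_iff F₂ hP₂S _).mp ha₂,
      fun x hx₁ hx₂ => rfl⟩

/-- The automorphisms of `Q` induced by `S₁ × S₂`. -/
theorem mem_autInducedBy_prod (h₁ : Q.map (MonoidHom.fst Ω₁ Ω₂) = P₁)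
    (h₂ : Q.map (MonoidHom.snd Ω₁ Ω₂) = P₂)
    (hQ₁ : ∀ x ∈ Q, x.1 ∈ P₁) (hQ₂ : ∀ x ∈ Q, x.2 ∈ P₂) (β : MulAut Q) :
    β ∈ autInducedBy (S₁.prod S₂) Q ↔ ∃ a : stabProd P₁ P₂ Q,
      (a : MulAut P₁ × MulAut P₂).1 ∈ autInducedBy S₁ P₁ ∧
      (a : MulAut P₁ × MulAut P₂).2 ∈ autInducedBy S₂ P₂ ∧ resProd hQ₁ hQ₂ a = β := by
  constructor
  · intro hβ
    obtain ⟨g, hg, hgβ⟩ := (mem_autInducedBy_iff _ _ β).mp hβ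
    have hgN : g ∈ Subgroup.normalizer (Q : Set (Ω₁ × Ω₂)) := mem_normalizer_of_conj_eq hgβ
    have hg₁N : g.1 ∈ Subgroup.normalizer (P₁ : Set Ω₁) := by
      have h3 := Subgroup.le_normalizer_map (H := Q) (MonoidHom.fst Ω₁ Ω₂) ⟨g, hgN, rfl⟩
      rw [h₁] at h3
      exact h3
    have hg₂N : g.2 ∈ Subgroup.normalizer (P₂ : Set Ω₂) := by
      have h3 := Subgroup.le_normalizer_map (H := Q) (MonoidHom.snd Ω₁ Ω₂) ⟨g, hgN, rfl⟩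
      rw [h₂] at h3
      exact h3
    have ha : (conjAut P₁ g.1 hg₁N, conjAut P₂ g.2 hg₂N) ∈ stabProd P₁ P₂ Q := by
      rw [mem_stabProd]
      intro y₁ y₂
      exact Subgroup.mem_normalizer_iff.mp hgN ((y₁ : Ω₁), (y₂ : Ω₂))
    refine ⟨⟨_, ha⟩, conjAut_mem_autInducedBy P₁ (Subgroup.mem_prod.mp hg).1 hg₁N,
      conjAut_mem_autInducedBy P₂ (Subgroup.mem_prod.mp hg).2 hg₂N, ?_⟩
    apply MulEquiv.ext
    intro x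
    exact Subtype.ext (hgβ x).symm
  · rintro ⟨a, ha₁, ha₂, rfl⟩
    obtain ⟨g₁, hg₁, hg₁'⟩ := (mem_autInducedBy_iff S₁ P₁ _).mp ha₁
    obtain ⟨g₂, hg₂, hg₂'⟩ := (mem_autInducedBy_iff S₂ P₂ _).mp ha₂
    rw [mem_autInducedBy_iff]
    exact ⟨(g₁, g₂), Subgroup.mem_prod.mpr ⟨hg₁, hg₂⟩, fun x => Prod.ext (hg₁' _) (hg₂' _)⟩

/-- `Q` is fully automized in the product system as soon as the pairs induced by `S₁ × S₂` form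
a Sylow subgroup of the stabilizer of `Q` in `Aut_{F₁}(P₁) × Aut_{F₂}(P₂)`. -/
theorem fullyAutomized_productSystem [Finite S₁] [Finite S₂] (p : ℕ) [Fact p.Prime]
    (F₁ : FusionSystem S₁) (F₂ : FusionSystem S₂) (hQS : Q ≤ S₁.prod S₂)
    (h₁ : Q.map (MonoidHom.fst Ω₁ Ω₂) = P₁) (h₂ : Q.map (MonoidHom.snd Ω₁ Ω₂) = P₂)
    (hsyl : ∃ R : Sylow p ↥(stabProd P₁ P₂ Q ⊓ (F₁.autGroup P₁).prod (F₂.autGroup P₂)),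
      (R : Subgroup ↥(stabProd P₁ P₂ Q ⊓ (F₁.autGroup P₁).prod (F₂.autGroup P₂))) =
        (stabProd P₁ P₂ Q ⊓ (autInducedBy S₁ P₁).prod (autInducedBy S₂ P₂)).subgroupOf
          (stabProd P₁ P₂ Q ⊓ (F₁.autGroup P₁).prod (F₂.autGroup P₂))) :
    (productSystem F₁ F₂).IsFullyAutomized p Q := by
  refine ⟨hQS, ?_⟩
  have hP₁S : P₁ ≤ S₁ := by
    rw [← h₁]
    exact map_fst_le hQS
  have hP₂S : P₂ ≤ S₂ := by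
    rw [← h₂]
    exact map_snd_le hQS
  have hQ₁ : ∀ x ∈ Q, x.1 ∈ P₁ := fun x hx => by
    rw [← h₁]
    exact ⟨x, hx, rfl⟩
  have hQ₂ : ∀ x ∈ Q, x.2 ∈ P₂ := fun x hx => by
    rw [← h₂]
    exact ⟨x, hx, rfl⟩
  have : Finite P₁ := finite_of_le_finite hP₁S
  have : Finite P₂ := finite_of_le_finite hP₂S
  have : Finite (MulAut P₁) := MulEquiv.finite_left
  have : Finite (MulAut P₂) := MulEquiv.finite_left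
  obtain ⟨R, hR⟩ := hsyl
  obtain ⟨R', hR'⟩ := exists_sylow_map_eq
    ((resProd hQ₁ hQ₂).comp (Subgroup.inclusion (inf_le_left :
      stabProd P₁ P₂ Q ⊓ (F₁.autGroup P₁).prod (F₂.autGroup P₂) ≤ stabProd P₁ P₂ Q)))
    R ((productSystem F₁ F₂).autGroup Q) (by
      ext β
      rw [mem_autGroup_productSystem F₁ F₂ hQS h₁ h₂ hQ₁ hQ₂]
      constructor
      · rintro ⟨a, ha₁, ha₂, rfl⟩
        exact ⟨⟨a, a.2, Subgroup.mem_prod.mpr ⟨ha₁, ha₂⟩⟩, rfl⟩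
      · rintro ⟨⟨a, ha, haA⟩, rfl⟩
        exact ⟨⟨a, ha⟩, (Subgroup.mem_prod.mp haA).1, (Subgroup.mem_prod.mp haA).2, rfl⟩)
  refine ⟨R', ?_⟩
  rw [hR', hR]
  congr 1
  ext β
  rw [mem_autInducedBy_prod h₁ h₂ hQ₁ hQ₂]
  constructor
  · rintro ⟨⟨a, haA⟩, hT, rfl⟩
    have hT' : a ∈ stabProd P₁ P₂ Q ⊓ (autInducedBy S₁ P₁).prod (autInducedBy S₂ P₂) := hT
    exact ⟨⟨a, haA.1⟩, (Subgroup.mem_prod.mp hT'.2).1, (Subgroup.mem_prod.mp hT'.2).2, rfl⟩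
  · rintro ⟨a, ha₁, ha₂, rfl⟩
    have haA : (a : MulAut P₁ × MulAut P₂) ∈
        stabProd P₁ P₂ Q ⊓ (F₁.autGroup P₁).prod (F₂.autGroup P₂) :=
      ⟨a.2, Subgroup.mem_prod.mpr ⟨autInducedBy_le_autGroup F₁ hP₁S ha₁,
        autInducedBy_le_autGroup F₂ hP₂S ha₂⟩⟩
    have hT : (⟨a, haA⟩ : ↥(stabProd P₁ P₂ Q ⊓ (F₁.autGroup P₁).prod (F₂.autGroup P₂))) ∈
        (stabProd P₁ P₂ Q ⊓ (autInducedBy S₁ P₁).prod (autInducedBy S₂ P₂)).subgroupOf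
          (stabProd P₁ P₂ Q ⊓ (F₁.autGroup P₁).prod (F₂.autGroup P₂)) :=
      ⟨a.2, Subgroup.mem_prod.mpr ⟨ha₁, ha₂⟩⟩
    exact ⟨⟨a, haA⟩, hT, rfl⟩

theorem isPGroup_prod' {A B : Type*} [Group A] [Group B] {p : ℕ} {H : Subgroup A}
    {K : Subgroup B} (hH : IsPGroup p H) (hK : IsPGroup p K) : IsPGroup p ↥(H.prod K) := by
  rintro ⟨⟨x, y⟩, hxy⟩
  obtain ⟨k, hk⟩ := hH ⟨x, (Subgroup.mem_prod.mp hxy).1⟩
  obtain ⟨l, hl⟩ := hK ⟨y, (Subgroup.mem_prod.mp hxy).2⟩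
  have hk' : x ^ p ^ k = 1 := congrArg Subtype.val hk
  have hl' : y ^ p ^ l = 1 := congrArg Subtype.val hl
  refine ⟨k + l, Subtype.ext ?_⟩
  show (x, y) ^ p ^ (k + l) = 1
  rw [Prod.pow_mk, pow_add, pow_mul, hk', one_pow, mul_comm, pow_mul, hl', one_pow]
  rfl

theorem card_prod' {A B : Type*} [Group A] [Group B] (H : Subgroup A) (K : Subgroup B) :
    Nat.card ↥(H.prod K) = Nat.card H * Nat.card K := by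
  rw [Nat.card_congr (Subgroup.prodEquiv H K).toEquiv, Nat.card_prod]

/-- A product of Sylow subgroups is a Sylow subgroup of the product. -/
theorem isSylowIn_prod {A B : Type*} [Group A] [Group B] [Finite A] [Finite B] {p : ℕ}
    [Fact p.Prime] {H₁ K₁ : Subgroup A} {H₂ K₂ : Subgroup B} (h₁ : H₁ ≤ K₁) (h₂ : H₂ ≤ K₂)
    (hH₁ : IsPGroup p H₁) (hH₂ : IsPGroup p H₂)
    (hs₁ : ∃ R : Sylow p K₁, (R : Subgroup K₁) = H₁.subgroupOf K₁)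
    (hs₂ : ∃ R : Sylow p K₂, (R : Subgroup K₂) = H₂.subgroupOf K₂) :
    ∃ R : Sylow p ↥(K₁.prod K₂), (R : Subgroup ↥(K₁.prod K₂)) =
      (H₁.prod H₂).subgroupOf (K₁.prod K₂) := by
  rw [isSylowIn_iff (Subgroup.prod_mono h₁ h₂) (isPGroup_prod' hH₁ hH₂)]
  intro T hT hTp
  have hm₁ := (isSylowIn_iff h₁ hH₁).mp hs₁ (T.map (MonoidHom.fst A B)) (by
    rintro _ ⟨x, hx, rfl⟩
    exact (Subgroup.mem_prod.mp (hT hx)).1) (hTp.map _)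
  have hm₂ := (isSylowIn_iff h₂ hH₂).mp hs₂ (T.map (MonoidHom.snd A B)) (by
    rintro _ ⟨x, hx, rfl⟩
    exact (Subgroup.mem_prod.mp (hT hx)).2) (hTp.map _)
  have hle : T ≤ (T.map (MonoidHom.fst A B)).prod (T.map (MonoidHom.snd A B)) := by
    intro x hx
    exact Subgroup.mem_prod.mpr ⟨⟨x, hx, rfl⟩, ⟨x, hx, rfl⟩⟩
  calc Nat.card T ≤ Nat.card ↥((T.map (MonoidHom.fst A B)).prod (T.map (MonoidHom.snd A B))) :=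
        Subgroup.card_le_of_le hle
    _ = Nat.card (T.map (MonoidHom.fst A B)) * Nat.card (T.map (MonoidHom.snd A B)) :=
        card_prod' _ _
    _ ≤ Nat.card H₁ * Nat.card H₂ := Nat.mul_le_mul hm₁ hm₂
    _ = Nat.card ↥(H₁.prod H₂) := (card_prod' _ _).symm

/-- Some twist of `Q` has the Sylow property needed for full automization. -/
theorem exists_twist_sylow [Finite S₁] [Finite S₂] (p : ℕ) [Fact p.Prime]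
    (hS₁ : IsPGroup p S₁) (hS₂ : IsPGroup p S₂)
    (F₁ : FusionSystem S₁) (F₂ : FusionSystem S₂)
    (ha₁ : F₁.IsFullyAutomized p P₁) (ha₂ : F₂.IsFullyAutomized p P₂)
    (Q : Subgroup (Ω₁ × Ω₂)) :
    ∃ a : MulAut P₁ × MulAut P₂, a.1 ∈ F₁.autGroup P₁ ∧ a.2 ∈ F₂.autGroup P₂ ∧
      ∃ R : Sylow p ↥(stabProd P₁ P₂ (twist a Q) ⊓ (F₁.autGroup P₁).prod (F₂.autGroup P₂)),
        (R : Subgroup ↥(stabProd P₁ P₂ (twist a Q) ⊓ (F₁.autGroup P₁).prod (F₂.autGroup P₂))) =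
          (stabProd P₁ P₂ (twist a Q) ⊓
            (autInducedBy S₁ P₁).prod (autInducedBy S₂ P₂)).subgroupOf
              (stabProd P₁ P₂ (twist a Q) ⊓ (F₁.autGroup P₁).prod (F₂.autGroup P₂)) := by
  have hP₁S := ha₁.1
  have hP₂S := ha₂.1
  have : Finite P₁ := finite_of_le_finite hP₁S
  have : Finite P₂ := finite_of_le_finite hP₂S
  have : Finite (MulAut P₁) := MulEquiv.finite_left
  have : Finite (MulAut P₂) := MulEquiv.finite_left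
  have hT₁p : IsPGroup p (autInducedBy S₁ P₁) := isPGroup_autInducedBy hS₁ P₁
  have hT₂p : IsPGroup p (autInducedBy S₂ P₂) := isPGroup_autInducedBy hS₂ P₂
  have hTA : (autInducedBy S₁ P₁).prod (autInducedBy S₂ P₂) ≤
      (F₁.autGroup P₁).prod (F₂.autGroup P₂) :=
    Subgroup.prod_mono (autInducedBy_le_autGroup F₁ hP₁S) (autInducedBy_le_autGroup F₂ hP₂S)
  have hTp := isPGroup_prod' hT₁p hT₂p
  have hTsyl := isSylowIn_prod (autInducedBy_le_autGroup F₁ hP₁S)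
    (autInducedBy_le_autGroup F₂ hP₂S) hT₁p hT₂p ha₁.2 ha₂.2
  obtain ⟨R₀⟩ : Nonempty (Sylow p ↥(stabProd P₁ P₂ Q ⊓
    (F₁.autGroup P₁).prod (F₂.autGroup P₂))) := inferInstance
  have hR'H : (R₀ : Subgroup ↥(stabProd P₁ P₂ Q ⊓
      (F₁.autGroup P₁).prod (F₂.autGroup P₂))).map (Subgroup.subtype _) ≤
        stabProd P₁ P₂ Q ⊓ (F₁.autGroup P₁).prod (F₂.autGroup P₂) :=
    Subgroup.map_subtype_le _
  have hR'p : IsPGroup p ↥((R₀ : Subgroup ↥(stabProd P₁ P₂ Q ⊓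
      (F₁.autGroup P₁).prod (F₂.autGroup P₂))).map (Subgroup.subtype _)) := R₀.isPGroup'.map _
  have hmax := (isSylowIn_iff hR'H hR'p).mp ⟨R₀, by
    ext x
    constructor
    · intro hx
      exact ⟨x, hx, rfl⟩
    · rintro ⟨y, hy, hyx⟩
      have h3 : y = x := Subtype.ext hyx
      rw [← h3]
      exact hy⟩
  obtain ⟨a, haA, hcj⟩ := exists_cj_le_of_isSylowIn hTsyl (hR'H.trans inf_le_right) hR'p
  refine ⟨a, (Subgroup.mem_prod.mp haA).1, (Subgroup.mem_prod.mp haA).2, ?_⟩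
  rw [stabProd_twist]
  rw [isSylowIn_iff (inf_le_inf_left _ hTA) (hTp.to_le inf_le_right)]
  intro T' hT' hT'p
  have hcjA : cj a⁻¹ ((F₁.autGroup P₁).prod (F₂.autGroup P₂)) =
      (F₁.autGroup P₁).prod (F₂.autGroup P₂) :=
    cj_eq_of_mem_normalizer (Subgroup.le_normalizer (inv_mem haA))
  have h1 : cj a⁻¹ T' ≤ stabProd P₁ P₂ Q ⊓ (F₁.autGroup P₁).prod (F₂.autGroup P₂) := by
    have h2 := cj_mono a⁻¹ hT'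
    rw [cj_inf, cj_inv_cj, hcjA] at h2
    exact h2
  have h2 := hmax _ h1 (isPGroup_cj _ hT'p)
  have h3 : cj a ((R₀ : Subgroup ↥(stabProd P₁ P₂ Q ⊓
      (F₁.autGroup P₁).prod (F₂.autGroup P₂))).map (Subgroup.subtype _)) ≤
        cj a (stabProd P₁ P₂ Q) ⊓ (autInducedBy S₁ P₁).prod (autInducedBy S₂ P₂) :=
    le_inf (cj_mono a (hR'H.trans inf_le_left)) hcj
  calc Nat.card T' = Nat.card (cj a⁻¹ T') := (card_cj _ _).symm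
    _ ≤ _ := h2
    _ = Nat.card (cj a ((R₀ : Subgroup ↥(stabProd P₁ P₂ Q ⊓
      (F₁.autGroup P₁).prod (F₂.autGroup P₂))).map (Subgroup.subtype _))) := (card_cj _ _).symm
    _ ≤ _ := Subgroup.card_le_of_le h3

/-- A twist by automorphisms of the two systems is a conjugate in the product system. -/
theorem isConj_twist (F₁ : FusionSystem S₁) (F₂ : FusionSystem S₂) (hQS : Q ≤ S₁.prod S₂)
    (h₁ : Q.map (MonoidHom.fst Ω₁ Ω₂) = P₁) (h₂ : Q.map (MonoidHom.snd Ω₁ Ω₂) = P₂)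
    (a : MulAut P₁ × MulAut P₂) (ha₁ : a.1 ∈ F₁.autGroup P₁) (ha₂ : a.2 ∈ F₂.autGroup P₂) :
    (productSystem F₁ F₂).IsConj Q (twist a Q) := by
  have hP₁S : P₁ ≤ S₁ := by
    rw [← h₁]
    exact map_fst_le hQS
  have hP₂S : P₂ ≤ S₂ := by
    rw [← h₂]
    exact map_snd_le hQS
  have hQ₁ : ∀ x ∈ Q, x.1 ∈ P₁ := fun x hx => by
    rw [← h₁]
    exact ⟨x, hx, rfl⟩
  have hQ₂ : ∀ x ∈ Q, x.2 ∈ P₂ := fun x hx => by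
    rw [← h₂]
    exact ⟨x, hx, rfl⟩
  refine ⟨((P₁.subtype.comp a.1.toMonoidHom).prodMap (P₂.subtype.comp a.2.toMonoidHom)).comp
    ((((MonoidHom.fst Ω₁ Ω₂).comp Q.subtype).codRestrict P₁ (fun x => hQ₁ _ x.2)).prod
      (((MonoidHom.snd Ω₁ Ω₂).comp Q.subtype).codRestrict P₂ (fun x => hQ₂ _ x.2))), ?_, ?_⟩
  · rw [mem_productSystem_iff F₁ F₂ h₁ h₂]
    exact ⟨hQS, _, (mem_autGroup_iff F₁ hP₁S _).mp ha₁, _, (mem_autGroup_iff F₂ hP₂S _).mp ha₂,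
      fun x hx₁ hx₂ => rfl⟩
  · ext z
    rw [mem_twist]
    constructor
    · rintro ⟨x, rfl⟩
      exact ⟨⟨x.1.1, hQ₁ _ x.2⟩, ⟨x.1.2, hQ₂ _ x.2⟩, x.2, rfl⟩
    · rintro ⟨y₁, y₂, hy, rfl⟩
      exact ⟨⟨_, hy⟩, rfl⟩

/-- `Q` is receptive in the product system when its projections are receptive. -/
theorem receptive_productSystem (F₁ : FusionSystem S₁) (F₂ : FusionSystem S₂)
    (hQS : Q ≤ S₁.prod S₂)
    (h₁ : Q.map (MonoidHom.fst Ω₁ Ω₂) = P₁) (h₂ : Q.map (MonoidHom.snd Ω₁ Ω₂) = P₂)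
    (hr₁ : F₁.IsReceptive P₁) (hr₂ : F₂.IsReceptive P₂) :
    (productSystem F₁ F₂).IsReceptive Q := by
  refine ⟨hQS, fun R φ hφ hrange => ?_⟩
  obtain ⟨hRS, φ₁, hφ₁, φ₂, hφ₂, rfl⟩ := hφ
  have hrange₁ : φ₁.range = P₁ := by
    rw [← h₁, ← hrange]
    apply le_antisymm
    · rintro _ ⟨⟨_, x, hx, rfl⟩, rfl⟩
      exact ⟨_, ⟨⟨x, hx⟩, rfl⟩, rfl⟩
    · rintro _ ⟨_, ⟨x, rfl⟩, rfl⟩
      exact ⟨_, rfl⟩
  have hrange₂ : φ₂.range = P₂ := by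
    rw [← h₂, ← hrange]
    apply le_antisymm
    · rintro _ ⟨⟨_, x, hx, rfl⟩, rfl⟩
      exact ⟨_, ⟨⟨x, hx⟩, rfl⟩, rfl⟩
    · rintro _ ⟨_, ⟨x, rfl⟩, rfl⟩
      exact ⟨_, rfl⟩
  obtain ⟨ψ₁, hψ₁, hψ₁'⟩ := hr₁.2 _ φ₁ hφ₁ hrange₁
  obtain ⟨ψ₂, hψ₂, hψ₂'⟩ := hr₂.2 _ φ₂ hφ₂ hrange₂
  have hN₁ : (FusionSystem.extender (S₁.prod S₂) R (pairHom R φ₁ φ₂)).map (MonoidHom.fst Ω₁ Ω₂) ≤
      FusionSystem.extender S₁ (R.map (MonoidHom.fst Ω₁ Ω₂)) φ₁ := by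
    rintro _ ⟨g, hg, rfl⟩
    obtain ⟨hgS, hgN, h, hhS, hgh⟩ := (mem_extender_iff _ _ _ g).mp hg
    refine mem_extender_of S₁ _ φ₁ (Subgroup.mem_prod.mp hgS).1
      (Subgroup.le_normalizer_map (H := R) (MonoidHom.fst Ω₁ Ω₂) ⟨g, hgN, rfl⟩)
      (Subgroup.mem_prod.mp hhS).1 ?_
    rintro ⟨_, x, hx, rfl⟩
    exact congrArg Prod.fst (hgh ⟨x, hx⟩)
  have hN₂ : (FusionSystem.extender (S₁.prod S₂) R (pairHom R φ₁ φ₂)).map (MonoidHom.snd Ω₁ Ω₂) ≤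
      FusionSystem.extender S₂ (R.map (MonoidHom.snd Ω₁ Ω₂)) φ₂ := by
    rintro _ ⟨g, hg, rfl⟩
    obtain ⟨hgS, hgN, h, hhS, hgh⟩ := (mem_extender_iff _ _ _ g).mp hg
    refine mem_extender_of S₂ _ φ₂ (Subgroup.mem_prod.mp hgS).2
      (Subgroup.le_normalizer_map (H := R) (MonoidHom.snd Ω₁ Ω₂) ⟨g, hgN, rfl⟩)
      (Subgroup.mem_prod.mp hhS).2 ?_
    rintro ⟨_, x, hx, rfl⟩
    exact congrArg Prod.snd (hgh ⟨x, hx⟩)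
  have hNS : FusionSystem.extender (S₁.prod S₂) R (pairHom R φ₁ φ₂) ≤ S₁.prod S₂ :=
    (extender_le_normalizerIn _ _ _).trans (normalizerIn_le_left _ _)
  refine ⟨pairHom _ (ψ₁.comp (Subgroup.inclusion hN₁)) (ψ₂.comp (Subgroup.inclusion hN₂)),
    ⟨hNS, _, restrict_mem F₁ hψ₁ hN₁, _, restrict_mem F₂ hψ₂ hN₂, rfl⟩, fun x hP hN => ?_⟩
  exact Prod.ext (hψ₁' x.1 ⟨x, hP, rfl⟩ _) (hψ₂' x.2 ⟨x, hP, rfl⟩ _)

end twist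

/-- S5137: the product of two saturated fusion systems is saturated. -/
theorem productSystem_saturated [Finite S₁] [Finite S₂] (p : ℕ) [Fact p.Prime]
    (hS₁ : IsPGroup p S₁) (hS₂ : IsPGroup p S₂)
    (F₁ : FusionSystem S₁) (F₂ : FusionSystem S₂) (hF₁ : F₁.IsSaturated p)
    (hF₂ : F₂.IsSaturated p) : (productSystem F₁ F₂).IsSaturated p := by
  intro P hP
  obtain ⟨Q₁, ⟨φ₁, hφ₁, hr₁⟩, hQ₁a, hQ₁r⟩ := hF₁ _ (map_fst_le hP)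
  obtain ⟨Q₂, ⟨φ₂, hφ₂, hr₂⟩, hQ₂a, hQ₂r⟩ := hF₂ _ (map_snd_le hP)
  have hφ : pairHom P φ₁ φ₂ ∈ (productSystem F₁ F₂).Hom P := ⟨hP, φ₁, hφ₁, φ₂, hφ₂, rfl⟩
  have h₁ : (pairHom P φ₁ φ₂).range.map (MonoidHom.fst Ω₁ Ω₂) = Q₁ := by
    rw [← hr₁]
    apply le_antisymm
    · rintro _ ⟨_, ⟨x, rfl⟩, rfl⟩
      exact ⟨_, rfl⟩
    · rintro _ ⟨⟨_, x, hx, rfl⟩, rfl⟩
      exact ⟨_, ⟨⟨x, hx⟩, rfl⟩, rfl⟩
  have h₂ : (pairHom P φ₁ φ₂).range.map (MonoidHom.snd Ω₁ Ω₂) = Q₂ := by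
    rw [← hr₂]
    apply le_antisymm
    · rintro _ ⟨_, ⟨x, rfl⟩, rfl⟩
      exact ⟨_, rfl⟩
    · rintro _ ⟨⟨_, x, hx, rfl⟩, rfl⟩
      exact ⟨_, ⟨⟨x, hx⟩, rfl⟩, rfl⟩
  have hP'S := range_le _ hφ
  obtain ⟨a, ha₁, ha₂, hsyl⟩ := exists_twist_sylow p hS₁ hS₂ F₁ F₂ hQ₁a hQ₂a
    (pairHom P φ₁ φ₂).range
  have hc := isConj_twist F₁ F₂ hP'S h₁ h₂ a ha₁ ha₂
  have ht₁ := twist_map_fst h₁ h₂ a
  have ht₂ := twist_map_snd h₁ h₂ a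
  have hQS : twist a (pairHom P φ₁ φ₂).range ≤ S₁.prod S₂ := by
    obtain ⟨χ, hχ, hχr⟩ := hc
    rw [← hχr]
    exact range_le _ hχ
  exact ⟨twist a _, isConj_trans _ ⟨_, hφ, rfl⟩ hc,
    fullyAutomized_productSystem p F₁ F₂ hQS ht₁ ht₂ hsyl,
    receptive_productSystem F₁ F₂ hQS ht₁ ht₂ hQ₁r hQ₂r⟩

end Cfsg.Agent.Helper8
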