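import Cfsg.Agent.Helper8.FusionFocalChain
import Cfsg.Agent.Helper8.FusionSolvable
import Cfsg.Agent.Helper9.FusionAbelian2
import Cfsg.Prelude.Def_FusionComponents

set_option autoImplicit false

namespace Cfsg.Agent.Helper8

open Cfsg

variable {Ω : Type*} [Group Ω] {S : Subgroup Ω}

theorem central_fix (F : FusionSystem S) {Z : Subgroup Ω} (hZ : F.IsCentral Z) (P : Subgroup Ω)
    (φ : P →* Ω) (hφ : φ ∈ F.Hom P) (x : P) (hx : (x : Ω) ∈ Z) : φ x = x := by
  obtain ⟨ψ, -, hext, hfix⟩ := hZ.2 P φ hφ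
  have h1 := hext x
  have h2 := hfix ⟨x, hx⟩
  have h12 : Subgroup.inclusion (le_sup_left : P ≤ P ⊔ Z) x
      = Subgroup.inclusion (le_sup_right : Z ≤ P ⊔ Z) ⟨(x : Ω), hx⟩ := Subtype.ext rfl
  rw [h12, h2] at h1
  exact h1.symm

theorem stronglyClosed_of_central (F : FusionSystem S) {Z : Subgroup Ω} (hZ : F.IsCentral Z) :
    F.StronglyClosed Z := by
  refine ⟨hZ.1, fun R hR φ hφ x => ?_⟩
  rw [central_fix F hZ R φ hφ x (hR x.2)]
  exact hR x.2

theorem stronglyClosed_top' (F : FusionSystem S) : F.StronglyClosed S :=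
  ⟨le_rfl, fun _ _ _ hφ x => hom_mem F hφ x⟩

/-- If the factor system modulo a central subgroup `Z` consists of inclusions only, then every
automorphism in the system of order prime to `p` is trivial. -/
theorem aut_eq_one_of_central_factor_trivial {p : ℕ} [Fact p.Prime] (hS : IsPGroup p S)
    (F : FusionSystem S) {Z : Subgroup Ω} (hZ : F.IsCentral Z)
    (hmod : ∀ (P : Subgroup Ω) (φ : P →* Ω), φ ∈ F.Hom P → ∀ x : P, (x : Ω)⁻¹ * φ x ∈ Z)
    {P : Subgroup Ω} (hP : P ≤ S) (β : MulAut P) (hβ : β ∈ F.autGroup P) (m : ℕ)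
    (hm : Nat.Coprime m p) (hβm : β ^ m = 1) : β = 1 := by
  have key := aut_eq_one_of_focal_chain hS F 2 ![S, Z, ⊥] rfl (by
    intro i
    rw [Subgroup.closure_le]
    rintro y ⟨x, hx, φ, hφ, rfl⟩
    fin_cases i
    · exact hmod _ φ hφ ⟨x, Subgroup.mem_zpowers x⟩
    · have hxZ : x ∈ Z := hx
      have h1 := central_fix F hZ _ φ hφ ⟨x, Subgroup.mem_zpowers x⟩ hxZ
      rw [h1]
      show x⁻¹ * x ∈ (⊥ : Subgroup Ω)
      rw [inv_mul_cancel]
      exact Subgroup.one_mem _) hP β hβ m hm hβm 2 0 rfl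
  apply MulEquiv.ext
  intro x
  exact key x (hP x.2)

theorem hyperfocal_eq_bot_of_auts_trivial {p : ℕ} (F : FusionSystem S)
    (h : ∀ (P : Subgroup Ω), P ≤ S → ∀ β : MulAut P, β ∈ F.autGroup P →
      Nat.Coprime (orderOf β) p → β = 1) : F.hyperfocalSubgroup p = ⊥ := by
  rw [eq_bot_iff]
  unfold FusionSystem.hyperfocalSubgroup
  rw [Subgroup.closure_le]
  rintro y ⟨P, α, x, hPS, hα, rfl⟩
  have hα1 : α = 1 := by
    have hbot : pResidual p ↥(F.autGroup P) ≤ ⊥ := by
      unfold pResidual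
      rw [Subgroup.closure_le]
      intro a ha
      have ha' : Nat.Coprime (orderOf (a : MulAut P)) p := by
        rw [Subgroup.orderOf_coe]
        exact ha
      have h1 := h P hPS (a : MulAut P) a.2 ha'
      exact Subgroup.mem_bot.mpr (Subtype.ext h1)
    exact Subgroup.mem_bot.mp (hbot hα)
  rw [hα1]
  show (x : Ω)⁻¹ * (x : Ω) ∈ (⊥ : Subgroup Ω)
  rw [inv_mul_cancel]
  exact Subgroup.one_mem _

/-- S5148: the underlying group of a quasisimple fusion system is nonabelian. -/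
theorem not_comm_of_quasisimple [Finite S] (p : ℕ) [Fact p.Prime] (hS : IsPGroup p S)
    (F : FusionSystem S) (hq : F.Quasisimple p) : ¬ IsMulCommutative S := by
  intro hcomm
  obtain ⟨hF, hhyp, hfac⟩ := hq
  have hZc := isCentral_center F
  have hZsc := stronglyClosed_of_central F hZc
  obtain ⟨E, hE⟩ := exists_factorSystem F F.center hZsc
  obtain ⟨hEsat, hne, hnorm⟩ := hfac E hE
  have hsurj := factor_isSurjectiveMorphism p hS F hF F.center hZsc _ E hE
  have hS' : IsPGroup p ↥(⊤ : Subgroup (S ⧸ (F.center).subgroupOf S)) :=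
    (hS.to_quotient _).to_subgroup _
  have hab : ∀ x ∈ (⊤ : Subgroup (S ⧸ (F.center).subgroupOf S)),
      ∀ y ∈ (⊤ : Subgroup (S ⧸ (F.center).subgroupOf S)), x * y = y * x := by
    intro x _ y _
    induction x using QuotientGroup.induction_on with
    | H a =>
      induction y using QuotientGroup.induction_on with
      | H b =>
        rw [← QuotientGroup.mk_mul, ← QuotientGroup.mk_mul, hcomm.is_comm.comm a b]
  have hEn := Helper9.abelian_normal_top p hS' E hEsat hab
  have hinn := Helper9.inner_normalIn_of_abelian p E hEsat ⊤ hab (stronglyClosed_top' E)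
    (Helper9.frattini_of_normal_top E hEn)
  have hEq : ∀ P, (innerFusionSystem (⊤ : Subgroup (S ⧸ (F.center).subgroupOf S))).Hom P
      = E.Hom P := by
    rcases hnorm ⊤ _ hinn with h | h
    · exact absurd h hne
    · exact h.2
  have hmod : ∀ (P : Subgroup Ω) (φ : P →* Ω), φ ∈ F.Hom P →
      ∀ x : P, (x : Ω)⁻¹ * φ x ∈ F.center := by
    intro P φ hφ x
    obtain ⟨φ', hφ', hP, hφS, hP', hind⟩ := hsurj.1.2 P φ hφ
    rw [← hEq] at hφ'
    have h0 := Helper9.inner_abelian_eq_subtype hab hφ'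
    have h1 := hind x
    rw [h0] at h1
    have h2 : (QuotientGroup.mk' ((F.center).subgroupOf S))
        ((⟨x, hP x.2⟩ : S)⁻¹ * ⟨φ x, hφS x⟩) = 1 := by
      rw [map_mul, map_inv, ← h1]
      exact inv_mul_cancel _
    exact (hE.2.1 _).mp h2
  have hhyp0 : F.hyperfocalSubgroup p = ⊥ := by
    apply hyperfocal_eq_bot_of_auts_trivial
    intro P hP β hβ hβp
    exact aut_eq_one_of_central_factor_trivial hS F hZc hmod hP β hβ (orderOf β) hβp
      (pow_orderOf_eq_one β)
  apply hne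
  rw [hhyp0] at hhyp
  rw [eq_bot_iff]
  intro x _
  induction x using QuotientGroup.induction_on with
  | H a =>
    have ha : (a : Ω) ∈ (⊥ : Subgroup Ω) := by
      rw [hhyp]
      exact a.2
    have ha1 : a = 1 := Subtype.ext (Subgroup.mem_bot.mp ha)
    rw [ha1]
    exact Subgroup.one_mem _

end Cfsg.Agent.Helper8
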