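import Cfsg.Agent.Helper8.FusionModel2
import Cfsg.Agent.Helper8.FusionMisc
import Cfsg.Agent.Helper8.FusionKNorm4
import Cfsg.Agent.Helper8.FusionHyperfocal
import Cfsg.Agent.Helper8.FusionTate

set_option autoImplicit false

namespace Cfsg.Agent.Helper8

open Cfsg

variable {Ω : Type*} [Group Ω] {S : Subgroup Ω}

theorem realized_injective {G : Type*} [Group G] {R : Subgroup Ω} (ι : R →* G)
    (hι : Function.Injective ι) {P : Subgroup Ω} {φ : P →* Ω} (hP : P ≤ R)
    (hφ : ∀ x : P, φ x ∈ R) (g : G)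
    (hg : ∀ x : P, ι ⟨φ x, hφ x⟩ = g * ι ⟨x, hP x.2⟩ * g⁻¹) : Function.Injective φ := by
  intro a b hab
  have h1 : ι ⟨φ a, hφ a⟩ = ι ⟨φ b, hφ b⟩ := by
    congr 1
    exact Subtype.ext hab
  rw [hg a, hg b] at h1
  have h2 : ι ⟨a, hP a.2⟩ = ι ⟨b, hP b.2⟩ := mul_left_cancel (mul_right_cancel h1)
  have h3 : (a : Ω) = b := congrArg (fun y : R => (y : Ω)) (hι h2)
  exact Subtype.ext h3

/-- The fusion system on `R` induced by an injective homomorphism of `R` into a group `G`: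
its maps are the homomorphisms that become conjugations in `G`. -/
noncomputable def realizedSystem {G : Type*} [Group G] (R : Subgroup Ω) (ι : R →* G)
    (hι : Function.Injective ι) : FusionSystem R where
  Hom P := {φ | ∃ (hP : P ≤ R) (hφ : ∀ x : P, φ x ∈ R) (g : G),
    ∀ x : P, ι ⟨φ x, hφ x⟩ = g * ι ⟨x, hP x.2⟩ * g⁻¹}
  le_of_mem := by
    rintro P φ ⟨hP, hφ, -, -⟩
    exact ⟨hP, hφ⟩
  injective_of_mem := by
    rintro P φ ⟨hP, hφ, g, hg⟩
    exact realized_injective ι hι hP hφ g hg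
  conj_mem := by
    intro P g hP hg
    refine ⟨hP, fun x => R.mul_mem (R.mul_mem hg (hP x.2)) (R.inv_mem hg), ι ⟨g, hg⟩, fun x => ?_⟩
    rw [← map_inv, ← map_mul, ← map_mul]
    rfl
  comp_mem := by
    rintro P Q φ ψ ⟨hP, hφR, g, hg⟩ ⟨hQ, hψR, k, hk⟩ h
    refine ⟨hP, fun x => hψR _, k * g, fun x => ?_⟩
    have h1 := hk ⟨φ x, h x⟩
    have h2 := hg x
    show ι ⟨ψ ⟨φ x, h x⟩, _⟩ = _
    rw [h1]
    show k * ι ⟨φ x, hφR x⟩ * k⁻¹ = _
    rw [h2, mul_inv_rev]
    simp only [mul_assoc]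
  inv_mem := by
    rintro P φ ⟨hP, hφR, g, hg⟩
    have hinj := realized_injective ι hι hP hφR g hg
    have hr : φ.range ≤ R := by
      rintro _ ⟨x, rfl⟩
      exact hφR x
    refine ⟨P.subtype.comp (MonoidHom.ofInjective hinj).symm.toMonoidHom,
      ⟨hr, fun y => hP ((MonoidHom.ofInjective hinj).symm y).2, g⁻¹, ?_⟩, ?_⟩
    · intro y
      obtain ⟨x, rfl⟩ := (MonoidHom.ofInjective hinj).surjective y
      have h1 : ι ⟨((MonoidHom.ofInjective hinj x : φ.range) : Ω), hr (MonoidHom.ofInjective hinj x).2⟩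
          = g * ι ⟨x, hP x.2⟩ * g⁻¹ := hg x
      rw [h1]
      show ι ⟨(((MonoidHom.ofInjective hinj).symm (MonoidHom.ofInjective hinj x) : P) : Ω), _⟩ = _
      have h2 : (MonoidHom.ofInjective hinj).symm (MonoidHom.ofInjective hinj x) = x :=
        MulEquiv.symm_apply_apply _ x
      simp only [h2]
      group
    · intro x
      show (((MonoidHom.ofInjective hinj).symm ⟨φ x, ⟨x, rfl⟩⟩ : P) : Ω) = x
      have h2 : (⟨φ x, ⟨x, rfl⟩⟩ : φ.range) = MonoidHom.ofInjective hinj x := rfl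
      rw [h2, MulEquiv.symm_apply_apply]

theorem realizedSystem_isRealizedBy {G : Type*} [Group G] (R : Subgroup Ω) (ι : R →* G)
    (hι : Function.Injective ι) : (realizedSystem R ι hι).IsRealizedBy ι := by
  refine ⟨hι, fun P hP φ hφ => ?_⟩
  constructor
  · rintro ⟨_, _, g, hg⟩
    exact ⟨g, hg⟩
  · rintro ⟨g, hg⟩
    exact ⟨hP, hφ, g, hg⟩

theorem semidirect_conj {N K : Type*} [Group N] [Group K] (φ : K →* MulAut N)
    (g : N ⋊[φ] K) (x : N) :
    g * SemidirectProduct.inl x * g⁻¹ = SemidirectProduct.inl (g.left * φ g.right x * g.left⁻¹) := by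
  ext <;> simp

/-- The saturated subsystem on `R` generated by the inner automorphisms and a `p'`-automorphism
`β` of the system. -/
theorem exists_cyclic_extension_system [Finite S] (p : ℕ) [Fact p.Prime] (hS : IsPGroup p S)
    (F : FusionSystem S) {R : Subgroup Ω} (hRS : R ≤ S) (β : MulAut R) (hβ : β ∈ F.autGroup R)
    (hcop : (orderOf β).Coprime p) :
    ∃ E : FusionSystem R, E.IsSaturated p ∧ E.IsSubsystemOf F ∧
      R.subtype.comp β.toMonoidHom ∈ E.Hom R ∧ E.autGroup R ≤ Inn R ⊔ Subgroup.zpowers β := by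
  have hp := (Fact.out : p.Prime)
  have hfR : Finite R := finite_of_le_finite hRS
  have hfA : Finite (MulAut R) := MulEquiv.finite_left
  have hfG : Finite (R ⋊[(Subgroup.zpowers β).subtype] (Subgroup.zpowers β)) :=
    Finite.of_equiv _ SemidirectProduct.equivProd.symm
  have hι : Function.Injective
      (SemidirectProduct.inl : R →* R ⋊[(Subgroup.zpowers β).subtype] (Subgroup.zpowers β)) :=
    SemidirectProduct.inl_injective
  have hp1 : IsPGroup p (SemidirectProduct.inl :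
      R →* R ⋊[(Subgroup.zpowers β).subtype] (Subgroup.zpowers β)).range :=
    IsPGroup.of_surjective (hS.to_le hRS) _ (MonoidHom.rangeRestrict_surjective _)
  have hp2 : ¬ p ∣ (SemidirectProduct.inl :
      R →* R ⋊[(Subgroup.zpowers β).subtype] (Subgroup.zpowers β)).range.index := by
    have hcard : Nat.card (R ⋊[(Subgroup.zpowers β).subtype] (Subgroup.zpowers β)) =
        Nat.card R * Nat.card (Subgroup.zpowers β) := SemidirectProduct.card
    have hr : Nat.card (SemidirectProduct.inl :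
        R →* R ⋊[(Subgroup.zpowers β).subtype] (Subgroup.zpowers β)).range = Nat.card R :=
      Nat.card_congr (MonoidHom.ofInjective hι).toEquiv.symm
    have hidx := Subgroup.index_mul_card (SemidirectProduct.inl :
      R →* R ⋊[(Subgroup.zpowers β).subtype] (Subgroup.zpowers β)).range
    rw [hr, hcard, mul_comm (Nat.card R)] at hidx
    have hpos : 0 < Nat.card R := Nat.card_pos
    have h1 := Nat.eq_of_mul_eq_mul_right hpos hidx
    rw [h1, Nat.card_zpowers]
    exact (Nat.Prime.coprime_iff_not_dvd hp).mp hcop.symm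
  have hconjF : ∀ g : R ⋊[(Subgroup.zpowers β).subtype] (Subgroup.zpowers β),
      MulAut.conj g.left * (g.right : MulAut R) ∈ F.autGroup R := by
    intro g
    refine mul_mem ?_ ((Subgroup.zpowers_le.mpr hβ) g.right.2)
    exact autInducedBy_le_autGroup F hRS
      ((mem_autInducedBy_iff S R _).mpr ⟨(g.left : Ω), hRS g.left.2, fun x => rfl⟩)
  refine ⟨realizedSystem R _ hι,
    saturated_of_realized p _ _ (realizedSystem_isRealizedBy R _ hι) (hp1.toSylow hp2)
      (IsPGroup.toSylow_coe hp1 hp2), ?_, ?_, ?_⟩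
  · rintro P φ ⟨hP, hφR, g, hg⟩
    refine restrict_mem' F ((mem_autGroup_iff F hRS _).mp (hconjF g)) hP (fun x => ?_)
    have h1 := hg x
    rw [semidirect_conj] at h1
    have h2 := congrArg Subtype.val (hι h1)
    exact h2
  · refine ⟨le_rfl, fun x => (β x).2,
      SemidirectProduct.inr ⟨β, Subgroup.mem_zpowers β⟩, fun x => ?_⟩
    rw [semidirect_conj]
    congr 1
    apply Subtype.ext
    simp
  · intro α hα
    have h1 : R.subtype.comp α.toMonoidHom ∈ (realizedSystem R _ hι).Hom R :=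
      (mem_autGroup_iff _ le_rfl α).mp hα
    obtain ⟨_, _, g, hg⟩ := h1
    have h2 : α = MulAut.conj g.left * (g.right : MulAut R) := by
      apply MulEquiv.ext
      intro x
      have h3 := hg x
      rw [semidirect_conj] at h3
      have h4 := hι h3
      apply Subtype.ext
      exact congrArg Subtype.val h4
    rw [h2]
    exact Subgroup.mul_mem_sup ⟨g.left, rfl⟩ g.right.2

theorem aut_eq_one_of_comm_fixed {R : Type*} [Group R] {p : ℕ} (hR : IsPGroup p R)
    (β : MulAut R) (hcop : (orderOf β).Coprime p)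
    (h : ∀ x : R, β (x⁻¹ * β x) = x⁻¹ * β x) : β = 1 := by
  have key : ∀ k : ℕ, ∀ x : R, (β ^ k) x = x * (x⁻¹ * β x) ^ k := by
    intro k
    induction k with
    | zero => intro x; simp
    | succ k ih =>
      intro x
      rw [pow_succ', MulAut.mul_apply, ih x, map_mul, map_pow, h x, pow_succ', ← mul_assoc,
        mul_inv_cancel_left]
  apply MulEquiv.ext
  intro x
  have h1 := key (orderOf β) x
  rw [pow_orderOf_eq_one] at h1
  have h2 : (x⁻¹ * β x) ^ orderOf β = 1 := by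
    have h3 : x = x * (x⁻¹ * β x) ^ orderOf β := h1
    exact (mul_eq_left.mp h3.symm)
  obtain ⟨j, hj⟩ := hR (x⁻¹ * β x)
  have h4 : orderOf (x⁻¹ * β x) ∣ orderOf β := orderOf_dvd_of_pow_eq_one h2
  have h5 : orderOf (x⁻¹ * β x) ∣ p ^ j := orderOf_dvd_of_pow_eq_one hj
  have h6 : orderOf (x⁻¹ * β x) = 1 :=
    Nat.Coprime.eq_one_of_dvd ((hcop.pow_right j).coprime_dvd_left h4) h5
  have h7 : x⁻¹ * β x = 1 := orderOf_eq_one_iff.mp h6
  show β x = x
  exact (inv_mul_eq_one.mp h7).symm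

theorem not_inner_of_coprime_aut {p : ℕ} [Fact p.Prime] (hS : IsPGroup p S)
    {T : Subgroup Ω} (hTS : T ≤ S) (β : MulAut T) (E : FusionSystem T)
    (hc : (orderOf β).Coprime p) (hβ1 : β ≠ 1) (hβE : T.subtype.comp β.toMonoidHom ∈ E.Hom T) :
    ¬ (∀ P : Subgroup Ω, E.Hom P = (innerFusionSystem T).Hom P) := by
  intro hin
  rw [hin T] at hβE
  obtain ⟨-, g, hg, h2⟩ := hβE
  have h3 : β = MulAut.conj (⟨g, hg⟩ : T) := MulEquiv.ext (fun x => Subtype.ext (h2 x))
  have hTp : IsPGroup p T := hS.to_le hTS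
  obtain ⟨k, hk⟩ := hTp ⟨g, hg⟩
  have h4 : β ^ (p ^ k) = 1 := by rw [h3, ← map_pow, hk, map_one]
  have h5 : orderOf β ∣ p ^ k := orderOf_dvd_of_pow_eq_one h4
  have h6 : orderOf β = 1 := Nat.Coprime.eq_one_of_dvd (hc.pow_right k) h5
  exact hβ1 (orderOf_eq_one_iff.mp h6)

theorem extremely_sparse [Finite S] (p : ℕ) [Fact p.Prime] (hS : IsPGroup p S)
    (F : FusionSystem S) (hF : F.IsSaturated p)
    (hne : ¬ (∀ P : Subgroup Ω, F.Hom P = (innerFusionSystem S).Hom P))
    (hxs : ∀ (T : Subgroup Ω) (E : FusionSystem T), E.IsSaturated p → E.IsSubsystemOf F →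
      (T = S ∧ ∀ P : Subgroup Ω, E.Hom P = F.Hom P) ∨
        (∀ P : Subgroup Ω, E.Hom P = (innerFusionSystem T).Hom P)) :
    F.IsNormal S ∧ F.focalSubgroup = S ∧ F.hyperfocalSubgroup p = S ∧
      ∃ (q : ℕ) (β : MulAut ↥S), q.Prime ∧ q ≠ p ∧ β ∈ F.autGroup S ∧ orderOf β = q ∧
        (F.autGroup S : Subgroup (MulAut ↥S)) = Inn ↥S ⊔ Subgroup.zpowers β := by
  have hp := (Fact.out : p.Prime)
  obtain ⟨P, hPS, hPnp⟩ : ∃ P, P ≤ S ∧ ¬ IsPGroup p (F.autGroup P) := by
    by_contra h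
    push_neg at h
    exact hne (fun P => by rw [eq_inner_of_autGroups_pGroups p hS F hF h])
  obtain ⟨R, hPR, hRfn⟩ := exists_fullyNormalized F hPS
  have hRS := hRfn.1
  have hRnp : ¬ IsPGroup p (F.autGroup R) := by
    intro h
    obtain ⟨φ, hφ, hr⟩ := hPR
    have he := isIso_equivOfRange F hφ hr
    exact hPnp (IsPGroup.of_injective h (autGroupMap F _ he) (autGroupMap_injective F _ he))
  have hNsat := normalizerSystem_saturated p hS F hF R hRfn (normalizerSystem F R hRS)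
    (isNormalizerSystem_normalizerSystem F R hRS)
  have hNsub : (normalizerSystem F R hRS).IsSubsystemOf F := fun P' φ hφ => hφ.1
  have hRnormal : F.IsNormal R := by
    rcases hxs _ _ hNsat hNsub with ⟨-, hN⟩ | hN
    · refine ⟨hRS, fun P' φ hφ => ?_⟩
      rw [← hN P'] at hφ
      obtain ⟨-, -, -, ψ, hψ, hext, hmap⟩ := hφ
      exact ⟨ψ, hψ, hext, hmap⟩
    · exfalso
      apply hRnp
      apply (isPGroup_autInducedBy hS R).to_le
      intro β hβ
      have h1 := autGroup_mem_normalizerSystem F hRS _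
        (isNormalizerSystem_normalizerSystem F R hRS) hβ
      rw [hN R] at h1
      obtain ⟨-, g, hg, h2⟩ := h1
      exact (mem_autInducedBy_iff S R β).mpr ⟨g, (normalizerIn_le_left S R) hg, fun x => h2 x⟩
  have hfR : Finite R := finite_of_le_finite hRS
  have hfA : Finite (MulAut R) := MulEquiv.finite_left
  obtain ⟨q, hq, hqd, hqp⟩ : ∃ q, q.Prime ∧ q ∣ Nat.card (F.autGroup R) ∧ q ≠ p := by
    by_contra h
    push_neg at h
    apply hRnp
    have hpos : Nat.card (F.autGroup R) ≠ 0 := Nat.card_pos.ne'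
    have h1 := Nat.eq_prime_pow_of_unique_prime_dvd hpos (fun {d} hd hdd => h d hd hdd)
    exact IsPGroup.of_card h1
  haveI : Fact q.Prime := ⟨hq⟩
  obtain ⟨β', hβ'⟩ := exists_prime_orderOf_dvd_card' q hqd
  have hβ₀ : (β' : MulAut R) ∈ F.autGroup R := β'.2
  have hoβ₀ : orderOf (β' : MulAut R) = q := by rw [← hβ', Subgroup.orderOf_coe]
  have hcop : (orderOf (β' : MulAut R)).Coprime p := by
    rw [hoβ₀]
    exact (Nat.coprime_primes hq hp).mpr hqp
  have hβ₀1 : (β' : MulAut R) ≠ 1 := by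
    intro h
    rw [h, orderOf_one] at hoβ₀
    exact hq.one_lt.ne hoβ₀
  obtain ⟨E, hEsat, hEsub, hβE, hEaut⟩ :=
    exists_cyclic_extension_system p hS F hRS (β' : MulAut R) hβ₀ hcop
  rcases hxs R E hEsat hEsub with ⟨hRS', hEF⟩ | hin
  swap
  · exact absurd hin (not_inner_of_coprime_aut hS hRS (β' : MulAut R) E hcop hβ₀1 hβE)
  obtain rfl : S = R := hRS'.symm
  have hautS : F.autGroup S = Inn S ⊔ Subgroup.zpowers (β' : MulAut S) := by
    apply le_antisymm
    · intro α hα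
      apply hEaut
      rw [mem_autGroup_iff E le_rfl]
      have h1 := (mem_autGroup_iff F le_rfl α).mp hα
      unfold IsIso at h1 ⊢
      rw [hEF S]
      exact h1
    · apply sup_le
      · rintro _ ⟨s, rfl⟩
        exact autInducedBy_le_autGroup F le_rfl
          ((mem_autInducedBy_iff S S _).mpr ⟨s, s.2, fun x => rfl⟩)
      · exact Subgroup.zpowers_le.mpr hβ₀
  -- the commutator subgroup `[S, β]`
  have hT₀S : Subgroup.closure {y : Ω | ∃ x : S, y = (x : Ω)⁻¹ * ((β' : MulAut S) x : S)} ≤ S := by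
    rw [Subgroup.closure_le]
    rintro y ⟨x, rfl⟩
    exact S.mul_mem (S.inv_mem x.2) ((β' : MulAut S) x).2
  have hinv : ∀ y ∈ Subgroup.closure {y : Ω | ∃ x : S, y = (x : Ω)⁻¹ * ((β' : MulAut S) x : S)},
      ∀ hy : y ∈ S, (((β' : MulAut S) ⟨y, hy⟩ : S) : Ω) ∈
        Subgroup.closure {y : Ω | ∃ x : S, y = (x : Ω)⁻¹ * ((β' : MulAut S) x : S)} := by
    intro y hy
    induction hy using Subgroup.closure_induction with
    | mem y hy =>
      intro hyS
      obtain ⟨x, rfl⟩ := hy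
      apply Subgroup.subset_closure
      refine ⟨(β' : MulAut S) x, ?_⟩
      have h1 : (⟨(x : Ω)⁻¹ * ((β' : MulAut S) x : S), hyS⟩ : S) = x⁻¹ * (β' : MulAut S) x :=
        Subtype.ext rfl
      rw [h1, map_mul, map_inv]
      rfl
    | one =>
      intro h1
      have h2 : (⟨1, h1⟩ : S) = 1 := Subtype.ext rfl
      rw [h2, map_one]
      exact Subgroup.one_mem _
    | mul a b ha hb iha ihb =>
      intro hab
      have haS := hT₀S ha
      have hbS := hT₀S hb
      have h2 : (⟨a * b, hab⟩ : S) = ⟨a, haS⟩ * ⟨b, hbS⟩ := Subtype.ext rfl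
      rw [h2, map_mul]
      exact Subgroup.mul_mem _ (iha haS) (ihb hbS)
    | inv a ha iha =>
      intro hinv
      have haS := hT₀S ha
      have h2 : (⟨a⁻¹, hinv⟩ : S) = (⟨a, haS⟩ : S)⁻¹ := Subtype.ext rfl
      rw [h2, map_inv]
      exact Subgroup.inv_mem _ (iha haS)
  have hχ := restrict_mem F ((mem_autGroup_iff F le_rfl _).mp hβ₀) hT₀S
  obtain ⟨β₁, hβ₁, hβ₁χ⟩ := exists_aut_of_hom_range_le F hχ (fun y => hinv y y.2 (hT₀S y.2))
  have hβ₁ext : ∀ y : ↥(Subgroup.closure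
      {y : Ω | ∃ x : S, y = (x : Ω)⁻¹ * ((β' : MulAut S) x : S)}),
      (((β' : MulAut S) ⟨y, hT₀S y.2⟩ : S) : Ω) = ((β₁ y : _) : Ω) := fun y => (hβ₁χ y).symm
  have hβ₁q : β₁ ^ q = 1 := by
    apply pow_eq_one_of_extend hT₀S β₁ (β' : MulAut S) hβ₁ext q
    rw [← hoβ₀]
    exact pow_orderOf_eq_one _
  have hcop₁ : (orderOf β₁).Coprime p :=
    Nat.Coprime.coprime_dvd_left (orderOf_dvd_of_pow_eq_one hβ₁q) ((Nat.coprime_primes hq hp).mpr hqp)
  have hβ₁1 : β₁ ≠ 1 := by
    intro h1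
    apply hβ₀1
    apply aut_eq_one_of_comm_fixed hS (β' : MulAut S) hcop
    intro x
    have hmem : (x : Ω)⁻¹ * ((β' : MulAut S) x : S) ∈ Subgroup.closure
        {y : Ω | ∃ x : S, y = (x : Ω)⁻¹ * ((β' : MulAut S) x : S)} :=
      Subgroup.subset_closure ⟨x, rfl⟩
    have h2 := hβ₁ext ⟨_, hmem⟩
    rw [h1] at h2
    apply Subtype.ext
    have h3 : (⟨(x : Ω)⁻¹ * ((β' : MulAut S) x : S), hT₀S hmem⟩ : S) = x⁻¹ * (β' : MulAut S) x :=
      Subtype.ext rfl
    rw [h3] at h2
    exact h2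
  obtain ⟨E₁, hE₁sat, hE₁sub, hβE₁, -⟩ :=
    exists_cyclic_extension_system p hS F hT₀S β₁ hβ₁ hcop₁
  rcases hxs _ E₁ hE₁sat hE₁sub with ⟨hT₀eq, -⟩ | hin₁
  swap
  · exact absurd hin₁ (not_inner_of_coprime_aut hS hT₀S β₁ E₁ hcop₁ hβ₁1 hβE₁)
  have hhyp : F.hyperfocalSubgroup p = S := by
    apply le_antisymm (hyperfocal_le F p)
    refine (le_of_eq hT₀eq.symm).trans ?_
    rw [Subgroup.closure_le]
    rintro y ⟨x, rfl⟩
    apply Subgroup.subset_closure
    refine ⟨S, β', x, le_rfl, ?_, rfl⟩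
    apply Subgroup.subset_closure
    show Nat.Coprime (orderOf β') p
    rw [hβ']
    exact (Nat.coprime_primes hq hp).mpr hqp
  have hfoc : F.focalSubgroup = S := by
    apply le_antisymm
    · unfold FusionSystem.focalSubgroup
      rw [Subgroup.closure_le]
      rintro y ⟨P', φ, x, hφ, rfl⟩
      exact S.mul_mem (S.inv_mem (hom_le F hφ x.2)) (hom_mem F hφ x)
    · refine (le_of_eq hT₀eq.symm).trans ?_
      rw [Subgroup.closure_le]
      rintro y ⟨x, rfl⟩
      apply Subgroup.subset_closure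
      exact ⟨S, S.subtype.comp (β' : MulAut S).toMonoidHom, x,
        (mem_autGroup_iff F le_rfl _).mp hβ₀, rfl⟩
  exact ⟨hRnormal, hfoc, hhyp, q, (β' : MulAut S), hq, hqp, hβ₀, hoβ₀, hautS⟩

end Cfsg.Agent.Helper8
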