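import Cfsg.Agent.Helper8.FusionSat2
import Cfsg.Agent.Helper8.FusionCong
import Cfsg.Prelude.Def_FusionComponents

set_option autoImplicit false

namespace Cfsg.Agent.Helper8

open Cfsg

variable {Ω : Type*} [Group Ω] {S : Subgroup Ω}

/-- A fully `F`-normalized subgroup of a strongly closed `T` is fully normalized in every
subsystem of `F` over `T`. -/
theorem fullyNormalized_subsystem [Finite S] (p : ℕ) [Fact p.Prime] (hS : IsPGroup p S)
    (F : FusionSystem S) (hF : F.IsSaturated p) {T : Subgroup Ω} (E : FusionSystem T)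
    (hE : E.IsSubsystemOf F) (hT : F.StronglyClosed T) {P : Subgroup Ω} (hPT : P ≤ T)
    (hP : F.IsFullyNormalized P) : E.IsFullyNormalized P := by
  refine ⟨hPT, ?_⟩
  rintro Q ⟨χ, hχ, hχr⟩
  have hconj : F.IsConj P Q := ⟨χ, hE P hχ, hχr⟩
  have props := fullyNormalized_props p hS F hF hP
  have hrec := receptive_of_fullyCentralized p hS F hF props.1
  obtain ⟨φ, hφ, hφN, -⟩ := exists_normalizer_map p hS F props.2 hrec (isConj_symm F hconj)
  have hle : FusionSystem.normalizerIn T Q ≤ FusionSystem.normalizerIn S Q :=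
    fun x hx => ⟨hT.1 hx.1, hx.2⟩
  haveI : Finite ↥(FusionSystem.normalizerIn T P) :=
    finite_of_le_finite (fun x hx => hT.1 hx.1)
  have hval : ∀ x : ↥(FusionSystem.normalizerIn T Q),
      φ (Subgroup.inclusion hle x) ∈ FusionSystem.normalizerIn T P := by
    intro x
    refine ⟨?_, (hφN _).2⟩
    exact map_mem_of_stronglyClosed' F hT hφ (Subgroup.inclusion hle x) x.2.1
  apply Nat.card_le_card_of_injective
    (fun x : ↥(FusionSystem.normalizerIn T Q) =>
      (⟨φ (Subgroup.inclusion hle x), hval x⟩ : ↥(FusionSystem.normalizerIn T P)))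
  intro a b hab
  have h1 : φ (Subgroup.inclusion hle a) = φ (Subgroup.inclusion hle b) :=
    congrArg Subtype.val hab
  have h2 := F.injective_of_mem hφ h1
  exact Subgroup.inclusion_injective hle h2

theorem le_of_isSubsystemOf {T : Subgroup Ω} (E : FusionSystem T) (F : FusionSystem S)
    (h : E.IsSubsystemOf F) : T ≤ S :=
  (F.le_of_mem (h T (E.conj_mem le_rfl T.one_mem))).1

theorem le_of_isSubnormalIn {T : Subgroup Ω} (E : FusionSystem T) (F : FusionSystem S) (p : ℕ)
    (h : E.IsSubnormalIn F p) : T ≤ S := by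
  induction h with
  | refl F p => exact le_rfl
  | step _ hDF ih => exact ih.trans (le_of_isSubsystemOf _ _ hDF.1.2.2.1)

theorem fullyNormalized_subnormal_aux : ∀ {T : Subgroup Ω} (E : FusionSystem T) {S : Subgroup Ω}
    (F : FusionSystem S) (p : ℕ), E.IsSubnormalIn F p → ∀ [Finite S] [Fact p.Prime],
    IsPGroup p S → F.IsSaturated p → ∀ P : Subgroup Ω, P ≤ T → F.IsFullyNormalized P →
    E.IsFullyNormalized P := by
  intro T E S F p h
  induction h with
  | refl F p =>
    intro _ _ _ _ P _ hP
    exact hP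
  | step hED hDF ih =>
    intro _ _ hS hF P hPT hP
    have hUS := le_of_isSubsystemOf _ _ hDF.1.2.2.1
    have hTU := le_of_isSubnormalIn _ _ _ hED
    haveI := finite_of_le_finite hUS
    have hU := hS.to_le hUS
    have hPD := fullyNormalized_subsystem _ hS _ hF _ hDF.1.2.2.1 hDF.1.2.2.2.1 (hPT.trans hTU) hP
    exact ih hU hDF.1.1 P hPT hPD

/-- A fully `F`-normalized subgroup of `T` is fully normalized in every subnormal subsystem of `F`
over `T`. -/
theorem fullyNormalized_subnormal {T : Subgroup Ω} (E : FusionSystem T) (F : FusionSystem S)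
    (p : ℕ) (hE : E.IsSubnormalIn F p) [Finite S] [Fact p.Prime] (hS : IsPGroup p S)
    (hF : F.IsSaturated p) (P : Subgroup Ω) (hPT : P ≤ T) (hP : F.IsFullyNormalized P) :
    E.IsFullyNormalized P :=
  fullyNormalized_subnormal_aux E F p hE hS hF P hPT hP

end Cfsg.Agent.Helper8
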