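import Cfsg.Agent.Helper8.FusionTate
import Cfsg.Agent.Helper8.FusionKNorm4
import Cfsg.Agent.Helper8.FusionModel2
import Cfsg.Agent.Helper8.FusionMisc

set_option autoImplicit false

namespace Cfsg.Agent.Helper8

open Cfsg

open scoped commutatorElement

variable {Ω : Type*} [Group Ω] {S : Subgroup Ω}

theorem frattini_map_congr {S' S : Subgroup Ω} (h : S' = S) :
    (frattini ↥S').map S'.subtype = (frattini ↥S).map S.subtype := by
  subst h
  rfl

/-- If the normalizer system of `S` in `F` is inner, then `Aut_F(S)` is a `p`-group. -/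
theorem isPGroup_autGroup_top_of_normalizer_inner {p : ℕ} (hS : IsPGroup p S)
    (F : FusionSystem S)
    (hN : ∀ N : FusionSystem (FusionSystem.normalizerIn S S), F.IsNormalizerSystem S N →
      ∀ P : Subgroup Ω, N.Hom P = (innerFusionSystem (FusionSystem.normalizerIn S S)).Hom P) :
    IsPGroup p (F.autGroup S) := by
  apply (isPGroup_autInducedBy hS S).to_le
  intro α hα
  have h1 := autGroup_mem_normalizerSystem F le_rfl (normalizerSystem F S le_rfl)
    (isNormalizerSystem_normalizerSystem F S le_rfl) hα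
  rw [hN _ (isNormalizerSystem_normalizerSystem F S le_rfl) S] at h1
  obtain ⟨-, g, hg, h2⟩ := h1
  exact (mem_autInducedBy_iff S S α).mpr ⟨g, hg.1, fun x => h2 x⟩

/-- **Tate-type control of fusion**: if `Aut_F(S)` is a `p`-group and `[S,S] ≤ Q ≤ Φ(S)`, then
the normalizer system of `Q` in the saturated system `F` is the inner system. -/
theorem normalizerSystem_inner_of_tate [Finite S] (p : ℕ) [Fact p.Prime] (hS : IsPGroup p S)
    (F : FusionSystem S) (hF : F.IsSaturated p) (hAutS : IsPGroup p (F.autGroup S))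
    (Q : Subgroup Ω) (h1 : (commutator ↥S).map S.subtype ≤ Q)
    (h2 : Q ≤ (frattini ↥S).map S.subtype)
    (N : FusionSystem (FusionSystem.normalizerIn S Q)) (hN : F.IsNormalizerSystem Q N) :
    N = innerFusionSystem (FusionSystem.normalizerIn S Q) := by
  have hQS : Q ≤ S := h2.trans (Subgroup.map_subtype_le _)
  have hcomm : ∀ s ∈ S, ∀ t ∈ S, s * t * s⁻¹ * t⁻¹ ∈ Q := by
    intro s hs t ht
    apply h1
    refine ⟨⁅(⟨s, hs⟩ : S), (⟨t, ht⟩ : S)⁆, ?_, rfl⟩
    rw [commutator_def]
    exact Subgroup.commutator_mem_commutator (Subgroup.mem_top _) (Subgroup.mem_top _)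
  have hSN : S ≤ Subgroup.normalizer (Q : Set Ω) := by
    intro s hs
    rw [Subgroup.mem_normalizer_iff]
    intro x
    constructor
    · intro hx
      have h3 := hcomm s hs x (hQS hx)
      have h4 : s * x * s⁻¹ = (s * x * s⁻¹ * x⁻¹) * x := by group
      rw [h4]; exact Q.mul_mem h3 hx
    · intro hx
      have hxS : x ∈ S := by
        have h5 : x = s⁻¹ * (s * x * s⁻¹) * s := by group
        rw [h5]
        exact S.mul_mem (S.mul_mem (S.inv_mem hs) (hQS hx)) hs
      have h3 := hcomm s⁻¹ (S.inv_mem hs) (s * x * s⁻¹) (hQS hx)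
      have h4 : x = (s⁻¹ * (s * x * s⁻¹) * s⁻¹⁻¹ * (s * x * s⁻¹)⁻¹) * (s * x * s⁻¹) := by group
      rw [h4]; exact Q.mul_mem h3 hx
  have hEq : FusionSystem.normalizerIn S Q = S :=
    le_antisymm (normalizerIn_le_left S Q) (fun s hs => ⟨hs, hSN hs⟩)
  have hQfn : F.IsFullyNormalized Q := by
    refine ⟨hQS, fun Q' _ => ?_⟩
    rw [hEq]
    exact Subgroup.card_le_of_le (normalizerIn_le_left S Q')
  have hfin : Finite ↥(FusionSystem.normalizerIn S Q) :=
    finite_of_le_finite (normalizerIn_le_left S Q)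
  have hS' : IsPGroup p ↥(FusionSystem.normalizerIn S Q) :=
    hS.to_le (normalizerIn_le_left S Q)
  have hNsat := normalizerSystem_saturated p hS F hF Q hQfn N hN
  have hQnormal := normal_in_normalizerSystem F hQS N hN
  have hAut' : IsPGroup p (N.autGroup (FusionSystem.normalizerIn S Q)) := by
    have hFaut : IsPGroup p (F.autGroup (FusionSystem.normalizerIn S Q)) := by
      rw [hEq]; exact hAutS
    apply hFaut.to_le
    intro β hβ
    have h3 : (FusionSystem.normalizerIn S Q).subtype.comp β.toMonoidHom ∈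
        N.Hom (FusionSystem.normalizerIn S Q) := (mem_autGroup_iff N le_rfl β).mp hβ
    rw [hN _] at h3
    exact (mem_autGroup_iff F (normalizerIn_le_left S Q) β).mpr h3.1
  apply eq_inner_of_autGroups_pGroups p hS' N hNsat
  exact autGroups_pGroups_of_tate p hS' N hNsat Q hQnormal
    (fun s hs t ht => hcomm s hs.1 t ht.1) (h2.trans (frattini_map_congr hEq).ge) hAut'

end Cfsg.Agent.Helper8
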