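import Cfsg.Agent.Helper8.FusionFactor
import Cfsg.Agent.Helper8.GroupFusion

set_option autoImplicit false

namespace Cfsg.Agent.Helper8

open Cfsg

/-- The fusion system of `G/H` on the image of a Sylow subgroup is the factor system. -/
theorem group_factor_system {G : Type*} [Group G] [Finite G] (p : ℕ) [Fact p.Prime] (S : Sylow p G)
    (H : Subgroup G) [H.Normal] :
    (groupFusionSystem (S : Subgroup G)).IsFactorSystem ((S : Subgroup G) ⊓ H)
      ((QuotientGroup.mk' H).comp (S : Subgroup G).subtype)
      (groupFusionSystem ((S : Subgroup G).map (QuotientGroup.mk' H))) := by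
  have hrange : ((QuotientGroup.mk' H).comp (S : Subgroup G).subtype).range
      = (S : Subgroup G).map (QuotientGroup.mk' H) := by
    rw [MonoidHom.range_comp, Subgroup.range_subtype]
  refine ⟨inf_le_left, fun s => ?_, hrange, fun P' φ' => ?_⟩
  · show QuotientGroup.mk' H (s : G) = 1 ↔ _
    rw [QuotientGroup.mk'_apply, QuotientGroup.eq_one_iff]
    exact ⟨fun h => ⟨s.2, h⟩, fun h => h.2⟩
  · constructor
    · rintro ⟨hP', hφ'S, gbar, hg⟩
      refine ⟨hP', ?_⟩
      obtain ⟨g, rfl⟩ := QuotientGroup.mk'_surjective H gbar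
      have hPS : FusionSystem.preimageAlong ((QuotientGroup.mk' H).comp (S : Subgroup G).subtype) P'
          ≤ S := preimageAlong_le _ P'
      have h1 : cj g (FusionSystem.preimageAlong
          ((QuotientGroup.mk' H).comp (S : Subgroup G).subtype) P') ≤ (S : Subgroup G) ⊔ H := by
        rintro _ ⟨x, hx, rfl⟩
        obtain ⟨hxS, hxP'⟩ := (mem_preimageAlong _ P' x).mp hx
        have h2 := hφ'S ⟨_, hxP'⟩
        rw [hg] at h2
        obtain ⟨s, hs, hs2⟩ := h2
        have h3 : s⁻¹ * (g * x * g⁻¹) ∈ H := by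
          rw [← QuotientGroup.eq]
          exact hs2
        have h4 : g * x * g⁻¹ = s * (s⁻¹ * (g * x * g⁻¹)) := by group
        show g * x * g⁻¹ ∈ _
        rw [h4]
        exact Subgroup.mul_mem _ (Subgroup.mem_sup_left hs) (Subgroup.mem_sup_right h3)
      have hsyl : ∃ R' : Sylow p ↥((S : Subgroup G) ⊔ H),
          (R' : Subgroup ↥((S : Subgroup G) ⊔ H))
            = (S : Subgroup G).subgroupOf ((S : Subgroup G) ⊔ H) :=
        (isSylowIn_iff le_sup_left S.isPGroup').mpr (fun T _ hT => card_le_card_sylow hT S)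
      have hPp : IsPGroup p ↥(FusionSystem.preimageAlong
          ((QuotientGroup.mk' H).comp (S : Subgroup G).subtype) P') := S.isPGroup'.to_le hPS
      obtain ⟨n, hn, hnle⟩ := exists_cj_le_of_isSylowIn hsyl h1 (isPGroup_cj g hPp)
      have hSN : (S : Subgroup G) ≤ Subgroup.normalizer (H : Set G) := by
        rw [Subgroup.normalizer_eq_top]
        exact le_top
      obtain ⟨s, hs, h, hh, rfl⟩ := mem_sup_of_le_normalizer hSN hn
      have hφS : ∀ x : ↥(FusionSystem.preimageAlong
          ((QuotientGroup.mk' H).comp (S : Subgroup G).subtype) P'),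
          conjHom _ (h * g) x ∈ (S : Subgroup G) := by
        intro x
        have h5 : (s * h) * (g * (x : G) * g⁻¹) * (s * h)⁻¹ ∈ (S : Subgroup G) :=
          hnle (conj_mem_cj (conj_mem_cj x.2))
        have h6 : conjHom (FusionSystem.preimageAlong
            ((QuotientGroup.mk' H).comp (S : Subgroup G).subtype) P') (h * g) x
            = s⁻¹ * ((s * h) * (g * (x : G) * g⁻¹) * (s * h)⁻¹) * s := by
          show h * g * (x : G) * (h * g)⁻¹ = _
          group
        rw [h6]
        exact Subgroup.mul_mem _ (Subgroup.mul_mem _ (Subgroup.inv_mem _ hs) h5) hs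
      refine ⟨conjHom _ (h * g), ⟨hPS, hφS, h * g, fun x => rfl⟩, hPS, hφS,
        fun x => map_mem_preimageAlong _ x, fun x => ?_⟩
      rw [hg]
      have hh1 : (QuotientGroup.mk' H) h = 1 := (QuotientGroup.eq_one_iff h).mpr hh
      show (QuotientGroup.mk' H) g * (QuotientGroup.mk' H) (x : G) * ((QuotientGroup.mk' H) g)⁻¹
        = (QuotientGroup.mk' H) (h * g * (x : G) * (h * g)⁻¹)
      simp only [map_mul, map_inv, hh1, one_mul]
    · rintro ⟨hP', φ, ⟨hPS, hφS, g, hg⟩, hPS', hφS', hP'mem, hind⟩
      have hP'r : P' ≤ ((QuotientGroup.mk' H).comp (S : Subgroup G).subtype).range := by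
        rw [hrange]
        exact hP'
      refine ⟨hP', fun y => ?_, QuotientGroup.mk' H g, fun y => ?_⟩
      · obtain ⟨x, hx⟩ := exists_preimageAlong _ hP'r y
        have h1 := hind x
        have e : (⟨_, hP'mem x⟩ : P') = y := Subtype.ext hx
        rw [e] at h1
        rw [h1]
        exact ⟨φ x, hφS x, rfl⟩
      · obtain ⟨x, hx⟩ := exists_preimageAlong _ hP'r y
        have h1 := hind x
        have e : (⟨_, hP'mem x⟩ : P') = y := Subtype.ext hx
        rw [e] at h1
        rw [h1, ← hx]
        show (QuotientGroup.mk' H) (φ x) = (QuotientGroup.mk' H) g * (QuotientGroup.mk' H) (x : G)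
          * ((QuotientGroup.mk' H) g)⁻¹
        rw [hg x]
        simp only [map_mul, map_inv]

end Cfsg.Agent.Helper8
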