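import Mathlib

set_option autoImplicit false

namespace Cfsg.Agent.Helper8.Hamming

open MulAction
open scoped Pointwise

variable {X : Type*} {ι : Type*} {m : ℕ}

/-- agree off one coordinate -/
def D (x y : ι → Fin m) : Prop := ∃ i, ∀ j, j ≠ i → x j = y j

/-- the subgroup of perms of `X` preserving `D` (in coordinates `c`) -/
def Gsub (c : X ≃ (ι → Fin m)) : Subgroup (Equiv.Perm X) where
  carrier := {σ | ∀ a b, D (c (σ a)) (c (σ b)) ↔ D (c a) (c b)}
  mul_mem' := by
    intro σ τ hσ hτ a b
    simp only [Equiv.Perm.coe_mul, Function.comp_apply]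
    rw [hσ, hτ]
  one_mem' := by intro a b; simp
  inv_mem' := by
    intro σ hσ a b
    have := hσ (σ⁻¹ a) (σ⁻¹ b)
    have e : ∀ a, σ (σ⁻¹ a) = a := fun a => by simp
    rw [e, e] at this
    exact this.symm

lemma mem_Gsub (c : X ≃ (ι → Fin m)) (σ : Equiv.Perm X) :
    σ ∈ Gsub c ↔ ∀ a b, D (c (σ a)) (c (σ b)) ↔ D (c a) (c b) := Iff.rfl

def lift (c : X ≃ (ι → Fin m)) (f : Equiv.Perm (ι → Fin m)) : Equiv.Perm X :=
  c.trans (f.trans c.symm)

lemma lift_apply (c : X ≃ (ι → Fin m)) (f : Equiv.Perm (ι → Fin m)) (a : X) :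
    lift c f a = c.symm (f (c a)) := rfl

lemma lift_mem (c : X ≃ (ι → Fin m)) (f : Equiv.Perm (ι → Fin m))
    (hf : ∀ x y, D (f x) (f y) ↔ D x y) : lift c f ∈ Gsub c := by
  intro a b
  simp only [lift_apply, Equiv.apply_symm_apply]
  exact hf _ _

/-- coordinatewise perm -/
def cw (π : ι → Equiv.Perm (Fin m)) : Equiv.Perm (ι → Fin m) := Equiv.piCongrRight π

lemma cw_apply (π : ι → Equiv.Perm (Fin m)) (x : ι → Fin m) (i : ι) : cw π x i = π i (x i) := rfl

lemma cw_D (π : ι → Equiv.Perm (Fin m)) (x y : ι → Fin m) : D (cw π x) (cw π y) ↔ D x y := by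
  constructor
  · rintro ⟨i, hi⟩
    exact ⟨i, fun j hj => (π j).injective (hi j hj)⟩
  · rintro ⟨i, hi⟩
    exact ⟨i, fun j hj => by rw [cw_apply, cw_apply, hi j hj]⟩

/-- coordinate perm -/
def cp (τ : Equiv.Perm ι) : Equiv.Perm (ι → Fin m) where
  toFun x := fun k => x (τ k)
  invFun x := fun k => x (τ.symm k)
  left_inv x := by funext k; simp
  right_inv x := by funext k; simp

lemma cp_apply (τ : Equiv.Perm ι) (x : ι → Fin m) (k : ι) : cp τ x k = x (τ k) := rfl

lemma cp_D (τ : Equiv.Perm ι) (x y : ι → Fin m) : D (cp τ x) (cp τ y) ↔ D x y := by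
  constructor
  · rintro ⟨i, hi⟩
    refine ⟨τ i, fun j hj => ?_⟩
    have := hi (τ.symm j) (by intro h; apply hj; rw [← h]; simp)
    simpa [cp_apply] using this
  · rintro ⟨i, hi⟩
    refine ⟨τ.symm i, fun j hj => ?_⟩
    rw [cp_apply, cp_apply]
    exact hi _ (by intro h; apply hj; rw [← h]; simp)

lemma exists_perm_two {α : Type*} [DecidableEq α] (a b c d : α) (hab : a ≠ b) (hcd : c ≠ d) :
    ∃ π : Equiv.Perm α, π a = c ∧ π b = d := by
  have hpa : Equiv.swap a c a = c := Equiv.swap_apply_left a c
  have hp : Equiv.swap a c b ≠ c := by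
    intro h
    have : Equiv.swap a c b = Equiv.swap a c a := by rw [h, hpa]
    exact hab ((Equiv.swap a c).injective this).symm
  refine ⟨Equiv.swap (Equiv.swap a c b) d * Equiv.swap a c, ?_, ?_⟩
  · simp only [Equiv.Perm.coe_mul, Function.comp_apply]
    rw [hpa]
    exact Equiv.swap_apply_of_ne_of_ne hp.symm hcd
  · simp only [Equiv.Perm.coe_mul, Function.comp_apply]
    exact Equiv.swap_apply_left _ _

theorem preprimitive [Fintype ι] [DecidableEq ι] (hm : 3 ≤ m) (c : X ≃ (ι → Fin m))
    (htrans : IsPretransitive (Gsub c) X) : IsPreprimitive (Gsub c) X := by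
  refine { toIsPretransitive := htrans, isTrivialBlock_of_isBlock := ?_ }
  intro B hB
  rw [isBlock_iff_smul_eq_of_mem] at hB
  by_cases hs : B.Subsingleton
  · exact Or.inl hs
  right
  rw [Set.not_subsingleton_iff] at hs
  obtain ⟨a, ha, b, hb, hab⟩ := hs
  have F : ∀ (f : Equiv.Perm (ι → Fin m)), (∀ x y, D (f x) (f y) ↔ D x y) →
      ∀ x, c.symm x ∈ B → c.symm (f x) ∈ B → ∀ y, c.symm y ∈ B → c.symm (f y) ∈ B := by
    intro f hf x hx hfx y hy
    have h1 := @hB ⟨lift c f, lift_mem c f hf⟩ (c.symm x) hx (by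
      show lift c f (c.symm x) ∈ B
      rw [lift_apply, Equiv.apply_symm_apply]; exact hfx)
    have h2 : (⟨lift c f, lift_mem c f hf⟩ : Gsub c) • c.symm y ∈
        (⟨lift c f, lift_mem c f hf⟩ : Gsub c) • B := Set.smul_mem_smul_set hy
    rw [h1] at h2
    have h3 : (⟨lift c f, lift_mem c f hf⟩ : Gsub c) • c.symm y = c.symm (f y) := by
      show lift c f (c.symm y) = _
      rw [lift_apply, Equiv.apply_symm_apply]
    rw [h3] at h2; exact h2
  have huB : c.symm (c a) ∈ B := by simpa using ha
  have hvB : c.symm (c b) ∈ B := by simpa using hb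
  have huv : c a ≠ c b := fun h => hab (c.injective h)
  generalize c a = u at huB huv
  generalize c b = v at hvB huv
  obtain ⟨i₀, hi₀⟩ : ∃ i, u i ≠ v i := by
    by_contra hcon
    push_neg at hcon
    exact huv (funext hcon)
  obtain ⟨t, ht1, ht2⟩ : ∃ t : Fin m, t ≠ u i₀ ∧ t ≠ v i₀ := by
    by_contra hcon
    push_neg at hcon
    have : Fintype.card (Fin m) ≤ 2 := by
      have hsub : (Finset.univ : Finset (Fin m)) ⊆ {u i₀, v i₀} := by
        intro t _
        by_cases h : t = u i₀
        · simp [h]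
        · simp [hcon t h]
      calc Fintype.card (Fin m) = (Finset.univ : Finset (Fin m)).card := rfl
        _ ≤ ({u i₀, v i₀} : Finset (Fin m)).card := Finset.card_le_card hsub
        _ ≤ 2 := Finset.card_le_two
    rw [Fintype.card_fin] at this
    omega
  -- Step 1
  have hwB : c.symm (Function.update v i₀ t) ∈ B := by
    have h1 : cw (fun i => if i = i₀ then Equiv.swap (v i₀) t else 1) u = u := by
      funext i
      rw [cw_apply]
      by_cases h : i = i₀
      · subst h; simp only [if_true]; exact Equiv.swap_apply_of_ne_of_ne hi₀ ht1.symm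
      · simp [h]
    have h2 : cw (fun i => if i = i₀ then Equiv.swap (v i₀) t else 1) v = Function.update v i₀ t := by
      funext i
      rw [cw_apply]
      by_cases h : i = i₀
      · subst h; simp
      · simp [h]
    have := F (cw (fun i => if i = i₀ then Equiv.swap (v i₀) t else 1)) (cw_D _) u huB
      (by rw [h1]; exact huB) v hvB
    rwa [h2] at this
  -- Step 2
  have step : ∀ y : ι → Fin m, c.symm y ∈ B → ∀ (i : ι) (s : Fin m),
      c.symm (Function.update y i s) ∈ B := by
    intro y hy i s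
    by_cases hs : s = y i
    · rw [hs, Function.update_eq_self]; exact hy
    obtain ⟨π₀, hπ1, hπ2⟩ := exists_perm_two (v i₀) t (y i) s ht2.symm (Ne.symm hs)
    have hτi : Equiv.swap i₀ i i = i₀ := Equiv.swap_apply_right _ _
    have hτne : ∀ k, k ≠ i → Equiv.swap i₀ i k ≠ i₀ := by
      intro k hk h
      exact hk ((Equiv.swap i₀ i).injective (h.trans hτi.symm))
    have hg : ∀ x y', D (((cp (Equiv.swap i₀ i)).trans (cw (fun k => if k = i then π₀ else
        Equiv.swap (v (Equiv.swap i₀ i k)) (y k)))) x) (((cp (Equiv.swap i₀ i)).trans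
        (cw (fun k => if k = i then π₀ else Equiv.swap (v (Equiv.swap i₀ i k)) (y k)))) y') ↔
        D x y' := fun x y' => (cw_D _ _ _).trans (cp_D _ _ _)
    have e1 : ((cp (Equiv.swap i₀ i)).trans (cw (fun k => if k = i then π₀ else
        Equiv.swap (v (Equiv.swap i₀ i k)) (y k)))) v = y := by
      funext k
      simp only [Equiv.trans_apply, cw_apply, cp_apply]
      by_cases hk : k = i
      · subst hk; simp only [if_true]; rw [hτi]; exact hπ1
      · simp only [if_neg hk]; exact Equiv.swap_apply_left _ _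
    have e2 : ((cp (Equiv.swap i₀ i)).trans (cw (fun k => if k = i then π₀ else
        Equiv.swap (v (Equiv.swap i₀ i k)) (y k)))) (Function.update v i₀ t) =
        Function.update y i s := by
      funext k
      simp only [Equiv.trans_apply, cw_apply, cp_apply]
      by_cases hk : k = i
      · subst hk; simp only [if_true]; rw [hτi]; simp [hπ2]
      · simp only [if_neg hk]
        rw [Function.update_of_ne (hτne k hk), Function.update_of_ne hk]
        exact Equiv.swap_apply_left _ _
    have := F _ hg v hvB (by rw [e1]; exact hy) _ hwB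
    rwa [e2] at this
  -- Step 3
  apply Set.eq_univ_of_forall
  intro z
  have key : ∀ S : Finset ι, c.symm (fun k => if k ∈ S then c z k else u k) ∈ B := by
    intro S
    induction S using Finset.induction_on with
    | empty => simpa using huB
    | insert i S hiS ih =>
      have := step _ ih i (c z i)
      convert this using 2
      funext k
      by_cases hk : k = i
      · subst hk; simp
      · simp [hk]
  have := key Finset.univ
  simpa using this

theorem not_two [Fintype ι] [DecidableEq ι] (hm : 2 ≤ m) (hr : 2 ≤ Fintype.card ι)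
    (c : X ≃ (ι → Fin m)) : ¬ IsMultiplyPretransitive (Gsub c) X 2 := by
  intro h
  rw [is_two_pretransitive_iff] at h
  obtain ⟨i, j, hij⟩ : ∃ i j : ι, i ≠ j := by
    have : 1 < Fintype.card ι := hr
    rw [Fintype.one_lt_card_iff] at this; exact this
  have hzo : (⟨0, by omega⟩ : Fin m) ≠ ⟨1, by omega⟩ := by simp [Fin.ext_iff]
  generalize (⟨0, by omega⟩ : Fin m) = z at hzo
  generalize (⟨1, by omega⟩ : Fin m) = o at hzo
  have hi' : (fun _ : ι => z) i ≠ Function.update (Function.update (fun _ : ι => z) i o) j o i := by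
    rw [Function.update_of_ne hij]; simp [hzo]
  have hj' : (fun _ : ι => z) j ≠ Function.update (Function.update (fun _ : ι => z) i o) j o j := by
    simp [hzo]
  have hi'' : (fun _ : ι => z) i ≠ Function.update (fun _ : ι => z) i o i := by simp [hzo]
  have hxy : c.symm (fun _ : ι => z) ≠ c.symm (Function.update (fun _ : ι => z) i o) := by
    intro h
    exact hi'' (congrFun (c.symm.injective h) i)
  have hxy' : c.symm (fun _ : ι => z) ≠
      c.symm (Function.update (Function.update (fun _ : ι => z) i o) j o) := by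
    intro h
    exact hi' (congrFun (c.symm.injective h) i)
  obtain ⟨g, hg1, hg2⟩ := h hxy hxy'
  have := g.2 (c.symm (fun _ : ι => z)) (c.symm (Function.update (fun _ : ι => z) i o))
  have e1 : (g : Equiv.Perm X) (c.symm (fun _ : ι => z)) = c.symm (fun _ : ι => z) := hg1
  have e2 : (g : Equiv.Perm X) (c.symm (Function.update (fun _ : ι => z) i o)) =
      c.symm (Function.update (Function.update (fun _ : ι => z) i o) j o) := hg2
  rw [e1, e2] at this
  simp only [Equiv.apply_symm_apply] at this
  have hD : D (fun _ : ι => z) (Function.update (fun _ : ι => z) i o) :=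
    ⟨i, fun k hk => by rw [Function.update_of_ne hk]⟩
  obtain ⟨l, hl⟩ := this.mpr hD
  have h1 : i = l := by by_contra hne; exact hi' (hl i hne)
  have h2 : j = l := by by_contra hne; exact hj' (hl j hne)
  exact hij (h1.trans h2.symm)

/-- translation by `g` in coordinates `c'`. -/
def transl {Ω : Type*} [Group Ω] (c' : X ≃ Ω) (g : Ω) : Equiv.Perm X :=
  c'.trans ((Equiv.mulLeft g).trans c'.symm)

lemma transl_apply {Ω : Type*} [Group Ω] (c' : X ≃ Ω) (g : Ω) (a : X) :
    transl c' g a = c'.symm (g * c' a) := rfl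

def translHom {Ω : Type*} [Group Ω] (c' : X ≃ Ω) : Ω →* Equiv.Perm X where
  toFun := transl c'
  map_one' := by
    apply Equiv.ext; intro a
    simp [transl_apply]
  map_mul' g h := by
    apply Equiv.ext; intro a
    simp [transl_apply, mul_assoc]

lemma translHom_apply {Ω : Type*} [Group Ω] (c' : X ≃ Ω) (g : Ω) (a : X) :
    translHom c' g a = c'.symm (g * c' a) := rfl

lemma translHom_injective {Ω : Type*} [Group Ω] (c' : X ≃ Ω) :
    Function.Injective (translHom c') := by
  intro g h hgh
  have := congrArg (fun σ : Equiv.Perm X => σ (c'.symm 1)) hgh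
  simp only [translHom_apply, Equiv.apply_symm_apply, mul_one] at this
  exact c'.symm.injective this

theorem main3560 {K : Type*} [Group K] [Finite K] {ι : Type*} [Fintype ι] (F : ι → Type*)
    [∀ i, Group (F i)]
    (hr : 2 ≤ Fintype.card ι) (m : ℕ) (hm : 3 ≤ m) (hcard : ∀ i, Nat.card (F i) = m)
    (e : K ≃* (∀ i, F i)) :
    ∃ (n : ℕ) (G R : Subgroup (Equiv.Perm (Fin n))), R ≤ G ∧ Nonempty (↥R ≃* K) ∧
      MulAction.IsPretransitive ↥R (Fin n) ∧ (∀ a : Fin n, MulAction.stabilizer ↥R a = ⊥) ∧
      MulAction.IsPreprimitive ↥G (Fin n) ∧ ¬ MulAction.IsMultiplyPretransitive ↥G (Fin n) 2 := by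
  classical
  have hfin : ∀ i, Finite (F i) := fun i => Nat.finite_of_card_ne_zero (by rw [hcard i]; omega)
  have β : ∀ i, F i ≃ Fin m := fun i => by
    haveI := hfin i
    exact (Finite.equivFinOfCardEq (hcard i))
  obtain ⟨c⟩ : Nonempty (Fin (Fintype.card (ι → Fin m)) ≃ (ι → Fin m)) :=
    ⟨(Fintype.equivFin (ι → Fin m)).symm⟩
  generalize Fintype.card (ι → Fin m) = n at c
  -- c' : Fin n ≃ ∀ i, F i
  obtain ⟨c', hc'⟩ : ∃ c' : Fin n ≃ (∀ i, F i), ∀ a i, c a i = β i (c' a i) :=
    ⟨c.trans (Equiv.piCongrRight β).symm, fun a i => by simp⟩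
  have hc'symm : ∀ (x : ∀ i, F i) i, c (c'.symm x) i = β i (x i) := by
    intro x i
    rw [hc', Equiv.apply_symm_apply]
  have hRG : (translHom c').range ≤ Gsub c := by
    rintro _ ⟨g, rfl⟩
    rw [mem_Gsub]
    intro a b
    constructor
    · rintro ⟨i, hi⟩
      refine ⟨i, fun j hj => ?_⟩
      have := hi j hj
      rw [translHom_apply, translHom_apply, hc'symm, hc'symm] at this
      have h2 := mul_left_cancel ((β j).injective this)
      rw [hc', hc', h2]
    · rintro ⟨i, hi⟩
      refine ⟨i, fun j hj => ?_⟩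
      have := hi j hj
      rw [hc', hc'] at this
      have h2 := (β j).injective this
      rw [translHom_apply, translHom_apply, hc'symm, hc'symm]
      show (β j) (g j * c' a j) = (β j) (g j * c' b j)
      rw [h2]
  have hRtrans : MulAction.IsPretransitive ↥(translHom c').range (Fin n) := by
    refine ⟨fun a b => ⟨⟨translHom c' (c' b * (c' a)⁻¹), ⟨_, rfl⟩⟩, ?_⟩⟩
    show translHom c' (c' b * (c' a)⁻¹) a = b
    rw [translHom_apply]
    simp
  have hGtrans : MulAction.IsPretransitive ↥(Gsub c) (Fin n) := by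
    refine ⟨fun a b => ⟨⟨translHom c' (c' b * (c' a)⁻¹), hRG ⟨_, rfl⟩⟩, ?_⟩⟩
    show translHom c' (c' b * (c' a)⁻¹) a = b
    rw [translHom_apply]
    simp
  refine ⟨n, Gsub c, (translHom c').range, hRG, ?_, hRtrans, ?_, preprimitive hm c hGtrans,
    not_two (by omega) hr c⟩
  · exact ⟨(MonoidHom.ofInjective (translHom_injective c')).symm.trans e.symm⟩
  · intro a
    rw [Subgroup.eq_bot_iff_forall]
    rintro ⟨_, ⟨g, rfl⟩⟩ hg
    rw [MulAction.mem_stabilizer_iff] at hg
    have h1 : translHom c' g a = a := hg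
    rw [translHom_apply] at h1
    have h2 : g * c' a = c' a := by
      have := congrArg c' h1
      rwa [Equiv.apply_symm_apply] at this
    have h3 : g = 1 := by
      have : g * c' a = 1 * c' a := by rw [h2, one_mul]
      exact mul_right_cancel this
    subst h3
    exact Subtype.ext (map_one _)

end Cfsg.Agent.Helper8.Hamming
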