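import Mathlib

set_option autoImplicit false

namespace Cfsg.Agent.Helper8.NormSurj

variable {F : Type*} [Field F] [Finite F]

/-- the norm of an involutive automorphism of a finite field is onto the fixed field -/
theorem norm_surj (σ : F →+* F) (hσ : σ ≠ RingHom.id F) (hσ2 : ∀ a : F, σ (σ a) = a)
    {a : F} (ha0 : a ≠ 0) (ha : σ a = a) : ∃ l : F, l * σ l = a := by
  classical
  have := Fintype.ofFinite F
  obtain ⟨θ, hθ⟩ : ∃ θ, σ θ ≠ θ := by
    by_contra hcon
    push Not at hcon
    exact hσ (RingHom.ext hcon)
  set F0 : Finset F := Finset.univ.filter (fun x => σ x = x) with hF0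
  have hmem : ∀ x, x ∈ F0 ↔ σ x = x := fun x => by simp [hF0]
  set q := F0.card with hq
  have h0 : (0 : F) ∈ F0 := (hmem 0).mpr (map_zero σ)
  have h1 : (1 : F) ∈ F0 := (hmem 1).mpr (map_one σ)
  have hq2 : 2 ≤ q := by
    have hsub : ({0, 1} : Finset F) ⊆ F0 := by
      intro x hx
      rcases Finset.mem_insert.mp hx with rfl | hx
      · exact h0
      · rw [Finset.mem_singleton.mp hx]
        exact h1
    have := Finset.card_le_card hsub
    rwa [Finset.card_pair zero_ne_one] at this
  -- (a) `q² ≤ |F|`
  have hcardF : q * q ≤ Fintype.card F := by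
    have hinj : Function.Injective (fun p : F0 × F0 => (p.1 : F) + (p.2 : F) * θ) := by
      rintro ⟨⟨x, hx⟩, ⟨y, hy⟩⟩ ⟨⟨x', hx'⟩, ⟨y', hy'⟩⟩ h
      simp only at h
      have hx1 := (hmem x).mp hx
      have hy1 := (hmem y).mp hy
      have hx1' := (hmem x').mp hx'
      have hy1' := (hmem y').mp hy'
      by_cases hyy : y = y'
      · subst hyy
        have hxx : x = x' := add_right_cancel h
        subst hxx
        rfl
      · exfalso
        have hne : y' - y ≠ 0 := sub_ne_zero.mpr (Ne.symm hyy)
        have hθ' : θ = (x - x') / (y' - y) := by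
          rw [eq_div_iff hne]
          linear_combination (-1 : F) * h
        apply hθ
        rw [hθ', map_div₀, map_sub, map_sub, hx1, hx1', hy1, hy1']
    have h3 := Fintype.card_le_of_injective _ hinj
    simpa [Fintype.card_prod, Fintype.card_coe] using h3
  -- the norm on units
  let N : Fˣ →* Fˣ := (MonoidHom.id Fˣ) * (Units.map (σ : F →* F))
  have hN : ∀ u : Fˣ, ((N u : Fˣ) : F) = (u : F) * σ u := fun u => rfl
  let G0 : Subgroup Fˣ := (Units.map (σ : F →* F)).eqLocus (MonoidHom.id Fˣ)
  have hG0mem : ∀ u : Fˣ, u ∈ G0 ↔ σ (u : F) = u := by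
    intro u
    constructor
    · intro h
      have h4 : Units.map (σ : F →* F) u = u := h
      exact congrArg Units.val h4
    · intro h
      show Units.map (σ : F →* F) u = (MonoidHom.id Fˣ) u
      ext
      exact h
  have hrange : N.range ≤ G0 := by
    rintro _ ⟨u, rfl⟩
    rw [hG0mem, hN, map_mul, hσ2, mul_comm]
  -- `|G0| ≤ q - 1`
  have hG0card : Nat.card G0 + 1 ≤ q := by
    have hinj : Function.Injective (fun u : G0 => (⟨((u : Fˣ) : F), by
        rw [Finset.mem_erase]
        exact ⟨Units.ne_zero _, (hmem _).mpr ((hG0mem _).mp u.2)⟩⟩ : {x // x ∈ F0.erase 0})) := by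
      intro u v h
      have h4 : ((u : Fˣ) : F) = ((v : Fˣ) : F) := congrArg Subtype.val h
      exact Subtype.ext (Units.ext h4)
    have h3 := Nat.card_le_card_of_injective _ hinj
    rw [Nat.card_eq_fintype_card (α := {x // x ∈ F0.erase 0}), Fintype.card_coe,
      Finset.card_erase_of_mem h0] at h3
    omega
  -- `|ker N| ≤ 2 q`
  set K : Finset F := Finset.univ.filter (fun l => l * σ l = 1) with hK
  have hKcard : K.card ≤ 2 * q := by
    have h3 := Finset.card_le_mul_card_image (f := fun l => l + σ l) K 2 (by
      intro t ht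
      obtain ⟨l0, hl0, rfl⟩ := Finset.mem_image.mp ht
      have hl0' : l0 * σ l0 = 1 := (Finset.mem_filter.mp hl0).2
      have hsub : K.filter (fun l => l + σ l = l0 + σ l0) ⊆ {l0, σ l0} := by
        intro l hl
        rw [Finset.mem_filter] at hl
        have hl' : l * σ l = 1 := (Finset.mem_filter.mp hl.1).2
        have hprod : (l - l0) * (l - σ l0) = 0 := by
          have e1 : σ l = l0 + σ l0 - l := by linear_combination hl.2
          rw [e1] at hl'
          linear_combination -hl' + hl0'
        rcases mul_eq_zero.mp hprod with h | h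
        · rw [sub_eq_zero.mp h]
          exact Finset.mem_insert_self _ _
        · rw [sub_eq_zero.mp h]
          exact Finset.mem_insert_of_mem (Finset.mem_singleton_self _)
      exact (Finset.card_le_card hsub).trans Finset.card_le_two)
    have h4 : (K.image (fun l => l + σ l)).card ≤ q := by
      apply Finset.card_le_card
      intro t ht
      obtain ⟨l0, _, rfl⟩ := Finset.mem_image.mp ht
      rw [hmem, map_add, hσ2, add_comm]
    calc K.card ≤ 2 * (K.image (fun l => l + σ l)).card := h3
      _ ≤ 2 * q := Nat.mul_le_mul_left 2 h4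
  have hkercard : Nat.card N.ker ≤ 2 * q := by
    have hinj : Function.Injective (fun u : N.ker => (⟨((u : Fˣ) : F), by
        rw [hK, Finset.mem_filter]
        refine ⟨Finset.mem_univ _, ?_⟩
        have h5 : N (u : Fˣ) = 1 := u.2
        have h6 := congrArg Units.val h5
        rw [hN] at h6
        exact h6⟩ : {x // x ∈ K})) := by
      intro u v h
      have h4 : ((u : Fˣ) : F) = ((v : Fˣ) : F) := congrArg Subtype.val h
      exact Subtype.ext (Units.ext h4)
    have h3 := Nat.card_le_card_of_injective _ hinj
    rw [Nat.card_eq_fintype_card (α := {x // x ∈ K}), Fintype.card_coe] at h3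
    exact h3.trans hKcard
  -- counting
  have hcount : Nat.card N.ker * Nat.card N.range = Nat.card Fˣ := by
    rw [← Subgroup.index_ker]
    exact Subgroup.card_mul_index N.ker
  have hunits : Nat.card Fˣ = Fintype.card F - 1 := by
    rw [Nat.card_units, Nat.card_eq_fintype_card]
  have hEq : N.range = G0 := by
    by_contra hne
    have hdvd := Subgroup.card_dvd_of_le hrange
    obtain ⟨j, hj⟩ := hdvd
    have hG0pos : 0 < Nat.card G0 := Nat.card_pos
    have hj2 : 2 ≤ j := by
      rcases j with _ | _ | j
      · rw [mul_zero] at hj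
        omega
      · exfalso
        apply hne
        exact Subgroup.eq_of_le_of_card_ge hrange (by rw [hj]; simp)
      · omega
    have h5 : 2 * Nat.card N.range ≤ Nat.card G0 := by
      rw [hj]
      calc 2 * Nat.card N.range = Nat.card N.range * 2 := by ring
        _ ≤ Nat.card N.range * j := Nat.mul_le_mul_left _ hj2
    have h6 : Fintype.card F - 1 ≤ q * (q - 1) := by
      rw [← hunits, ← hcount]
      calc Nat.card N.ker * Nat.card N.range ≤ (2 * q) * Nat.card N.range :=
            Nat.mul_le_mul_right _ hkercard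
        _ = q * (2 * Nat.card N.range) := by ring
        _ ≤ q * (q - 1) := Nat.mul_le_mul_left _ (by omega)
    have h7 : q * (q - 1) = q * q - q := Nat.mul_sub_one q q
    rw [h7] at h6
    have h8 : q ≤ q * q := Nat.le_mul_self q
    generalize q * q = Q at h6 hcardF h8
    omega
  have hamem : Units.mk0 a ha0 ∈ N.range := by
    rw [hEq, hG0mem]
    exact ha
  obtain ⟨u, hu⟩ := hamem
  refine ⟨(u : F), ?_⟩
  have h8 := congrArg Units.val hu
  rw [hN] at h8
  exact h8

end Cfsg.Agent.Helper8.NormSurj
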