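import Mathlib
import Cfsg.Agent.Helper8.NormSurj

set_option autoImplicit false

namespace Cfsg.Agent.Helper8.Hermitian

open Cfsg.Agent.Helper8.NormSurj

variable {F V : Type*} [Field F] [AddCommGroup V] [Module F V] {σ : F →+* F}

/-- orthonormal family -/
def ON (B : V →ₛₗ[σ] V →ₗ[F] F) {m : ℕ} (e : Fin m → V) : Prop :=
  ∀ i j, B (e i) (e j) = if i = j then 1 else 0

/-- projection off an orthonormal family -/
noncomputable def proj (B : V →ₛₗ[σ] V →ₗ[F] F) {m : ℕ} (e : Fin m → V) (u : V) : V :=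
  u - ∑ i, B (e i) u • e i

theorem proj_orth {B : V →ₛₗ[σ] V →ₗ[F] F} {m : ℕ} {e : Fin m → V} (h : ON B e) (u : V)
    (j : Fin m) : B (e j) (proj B e u) = 0 := by
  classical
  unfold proj
  simp only [map_sub, map_sum, map_smul, smul_eq_mul, h j, mul_ite, mul_one, mul_zero,
    Finset.sum_ite_eq, Finset.mem_univ, if_true, sub_self]

theorem orth_symm {B : V →ₛₗ[σ] V →ₗ[F] F} (hS : B.IsSymm) {x w : V} (h : B x w = 0) :
    B w x = 0 := by
  rw [← hS.eq x w, h, map_zero]

theorem proj_pair {B : V →ₛₗ[σ] V →ₗ[F] F} {m : ℕ} {e : Fin m → V} (w : V)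
    (hw : ∀ i, B w (e i) = 0) (u : V) : B w (proj B e u) = B w u := by
  unfold proj
  simp only [map_sub, map_sum, map_smul, smul_eq_mul, hw, mul_zero, Finset.sum_const_zero,
    sub_zero]

theorem exists_trace_ne (hσ : σ ≠ RingHom.id F) : ∃ ν : F, ν + σ ν ≠ 0 := by
  by_cases h2 : (1 : F) + 1 = 0
  · obtain ⟨θ, hθ⟩ : ∃ θ, σ θ ≠ θ := by
      by_contra hcon
      push Not at hcon
      exact hσ (RingHom.ext hcon)
    refine ⟨θ, ?_⟩
    intro h
    apply hθ
    have h3 : θ + θ = 0 := by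
      have h4 : θ * (1 + 1) = 0 := by rw [h2, mul_zero]
      linear_combination h4
    linear_combination h - h3
  · exact ⟨1, by rw [map_one]; exact h2⟩

theorem exists_nonisotropic (hσ : σ ≠ RingHom.id F) (hσ2 : ∀ a : F, σ (σ a) = a)
    {B : V →ₛₗ[σ] V →ₗ[F] F} (hS : B.IsSymm) {x y : V} (hxy : B x y ≠ 0) :
    ∃ a b : F, B (a • x + b • y) (a • x + b • y) ≠ 0 := by
  by_cases hx : B x x = 0
  swap
  · exact ⟨1, 0, by simpa using hx⟩
  by_cases hy : B y y = 0
  swap
  · exact ⟨0, 1, by simpa using hy⟩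
  obtain ⟨ν, hν⟩ := exists_trace_ne hσ
  have ht : σ (B x y) ≠ 0 := by
    intro h
    apply hxy
    have h3 := congrArg σ h
    rw [hσ2, map_zero] at h3
    exact h3
  have hyx : B y x = σ (B x y) := (hS.eq x y).symm
  refine ⟨σ ν / σ (B x y), 1, ?_⟩
  have hval : B ((σ ν / σ (B x y)) • x + (1 : F) • y) ((σ ν / σ (B x y)) • x + (1 : F) • y)
      = ν + σ ν := by
    simp only [map_add, LinearMap.add_apply, map_smulₛₗ, LinearMap.smul_apply, map_smul,
      smul_eq_mul, hx, hy, hyx, mul_zero, add_zero, zero_add, map_div₀, hσ2, map_one, one_mul,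
      mul_one, RingHom.id_apply]
    field_simp <;> ring
  rw [hval]
  exact hν

theorem extend [Finite F] (hσ : σ ≠ RingHom.id F) (hσ2 : ∀ a : F, σ (σ a) = a)
    {B : V →ₛₗ[σ] V →ₗ[F] F} (hS : B.IsSymm) (hB : B.Nondegenerate) {m : ℕ} {e : Fin m → V}
    (h : ON B e) (hsp : Submodule.span F (Set.range e) ≠ ⊤) :
    ∃ e' : Fin (m + 1) → V, ON B e' := by
  classical
  obtain ⟨u, hu⟩ : ∃ u, u ∉ Submodule.span F (Set.range e) := by
    by_contra hcon
    push Not at hcon
    exact hsp (eq_top_iff.mpr (fun x _ => hcon x))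
  have hx0 : proj B e u ≠ 0 := by
    intro h0
    apply hu
    have h3 : u = ∑ i, B (e i) u • e i := sub_eq_zero.mp h0
    rw [h3]
    exact Submodule.sum_mem _ (fun i _ => Submodule.smul_mem _ _ (Submodule.subset_span ⟨i, rfl⟩))
  have hxe : ∀ i, B (e i) (proj B e u) = 0 := proj_orth h u
  have hxe' : ∀ i, B (proj B e u) (e i) = 0 := fun i => orth_symm hS (hxe i)
  obtain ⟨y0, hy0⟩ : ∃ y0, B (proj B e u) y0 ≠ 0 := by
    by_contra hcon
    push Not at hcon
    exact hx0 (hB.1 _ hcon)
  have hye : ∀ i, B (e i) (proj B e y0) = 0 := proj_orth h y0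
  have hxy : B (proj B e u) (proj B e y0) ≠ 0 := by
    rw [proj_pair _ hxe' y0]
    exact hy0
  obtain ⟨a, b, hz⟩ := exists_nonisotropic hσ hσ2 hS hxy
  have hze : ∀ i, B (e i) (a • proj B e u + b • proj B e y0) = 0 := by
    intro i
    simp only [map_add, map_smul, smul_eq_mul, hxe i, hye i, mul_zero, add_zero]
  have hzz := hS.eq (a • proj B e u + b • proj B e y0) (a • proj B e u + b • proj B e y0)
  obtain ⟨l, hl⟩ := norm_surj σ hσ hσ2 (inv_ne_zero hz) (by rw [map_inv₀, hzz])
  have hvv : B (l • (a • proj B e u + b • proj B e y0)) (l • (a • proj B e u + b • proj B e y0))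
      = 1 := by
    simp only [map_smulₛₗ, LinearMap.smul_apply, map_smul, smul_eq_mul, RingHom.id_apply]
    first
      | (rw [hl, inv_mul_cancel₀ hz])
      | (rw [mul_comm (σ l) l, hl, inv_mul_cancel₀ hz])
      | (rw [← mul_assoc, hl, inv_mul_cancel₀ hz])
      | (rw [← mul_assoc, mul_comm (σ l) l, hl, inv_mul_cancel₀ hz])
  have hve : ∀ i, B (e i) (l • (a • proj B e u + b • proj B e y0)) = 0 := by
    intro i
    rw [map_smul, hze i, smul_zero]
  have hve' : ∀ i, B (l • (a • proj B e u + b • proj B e y0)) (e i) = 0 :=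
    fun i => orth_symm hS (hve i)
  refine ⟨Fin.cons (l • (a • proj B e u + b • proj B e y0)) e, ?_⟩
  intro i j
  refine Fin.cases ?_ (fun i => ?_) i <;> refine Fin.cases ?_ (fun j => ?_) j
  · simp only [Fin.cons_zero, if_true]
    exact hvv
  · simp only [Fin.cons_zero, Fin.cons_succ]
    rw [hve' j]
    have : ¬ (0 : Fin (m + 1)) = j.succ := (Fin.succ_ne_zero j).symm
    simp [this]
  · simp only [Fin.cons_zero, Fin.cons_succ]
    rw [hve i]
    simp [Fin.succ_ne_zero]
  · simp only [Fin.cons_succ]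
    rw [h i j]
    simp [Fin.succ_inj]

theorem ON.linInd {B : V →ₛₗ[σ] V →ₗ[F] F} {m : ℕ} {e : Fin m → V} (h : ON B e) :
    LinearIndependent F e := by
  classical
  rw [Fintype.linearIndependent_iff]
  intro c hc j
  have h1 := congrArg (fun x => B (e j) x) hc
  simp only [map_sum, map_smul, smul_eq_mul, h j, mul_ite, mul_one, mul_zero,
    Finset.sum_ite_eq, Finset.mem_univ, if_true, map_zero] at h1
  exact h1

theorem main [Finite F] [FiniteDimensional F V] (σ : F →+* F) (hσ : σ ≠ RingHom.id F)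
    (hσ2 : ∀ a : F, σ (σ a) = a) (B : V →ₛₗ[σ] V →ₗ[F] F) (hS : B.IsSymm)
    (hB : B.Nondegenerate) :
    ∃ b : Module.Basis (Fin (Module.finrank F V)) F V,
      ∀ i j, B (b i) (b j) = if i = j then 1 else 0 := by
  have key : ∀ m, m ≤ Module.finrank F V → ∃ e : Fin m → V, ON B e := by
    intro m
    induction m with
    | zero =>
      intro _
      exact ⟨Fin.elim0, fun i => i.elim0⟩
    | succ m ih =>
      intro hm
      obtain ⟨e, he⟩ := ih (by omega)
      apply extend hσ hσ2 hS hB he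
      intro htop
      have h1 : Module.finrank F (Submodule.span F (Set.range e)) ≤ m := by
        have h2 : Module.finrank F (Submodule.span F (Set.range e)) ≤ Fintype.card (Fin m) :=
          finrank_range_le_card (R := F) e
        rwa [Fintype.card_fin] at h2
      rw [htop, finrank_top] at h1
      omega
  obtain ⟨e, he⟩ := key _ le_rfl
  by_cases hzero : Module.finrank F V = 0
  · refine ⟨Module.finBasis F V, ?_⟩
    intro i
    have hi := i.2
    omega
  have hne : Nonempty (Fin (Module.finrank F V)) := ⟨⟨0, Nat.pos_of_ne_zero hzero⟩⟩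
  refine ⟨basisOfLinearIndependentOfCardEqFinrank he.linInd (by rw [Fintype.card_fin]), ?_⟩
  intro i j
  simp only [coe_basisOfLinearIndependentOfCardEqFinrank]
  exact he i j

end Cfsg.Agent.Helper8.Hermitian
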