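import Cfsg.Agent.Helper3.Local
import Cfsg.Agent.Helper4.Cores

/-!
# Automorphisms fixing a Sylow `p`-subgroup and the layer are inner (when `O_{p'}(G) = 1`)
-/

set_option autoImplicit false

namespace Cfsg.Agent.Helper8.InnerAut

open Cfsg

universe u

theorem inner_of_fix {G : Type u} [Group G] [Finite G] {p : ℕ} [Fact p.Prime]
    (hcore : pPrimeCore p G = ⊥) (T : Sylow p G) (α : MulAut G)
    (hfixT : ∀ x ∈ (T : Subgroup G), α x = x) (hfixE : ∀ x ∈ layer G, α x = x) :
    ∃ g : G, ∀ x : G, α x = g * x * g⁻¹ := by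
  classical
  have hp := (Fact.out : p.Prime)
  letI : Fintype (G ⧸ (T : Subgroup G)) := Fintype.ofFinite _
  have hFit : fittingSubgroup G ≤ (T : Subgroup G) := by
    rw [Cfsg.Agent.Helper3.fitting_eq_pCore_of_pPrimeCore_eq_bot p hcore]
    exact Cfsg.Agent.Helper4.pCore_le_sylow T
  have hFs : ∀ x ∈ generalizedFittingSubgroup G, α x = x := by
    have h1 : generalizedFittingSubgroup G ≤
        MonoidHom.eqLocus α.toMonoidHom (MonoidHom.id G) :=
      sup_le (fun x hx => hfixE x hx) (fun x hx => hfixT x (hFit hx))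
    exact fun x hx => h1 hx
  haveI hFsC : (generalizedFittingSubgroup G).Characteristic :=
    Cfsg.Agent.Helper3.fstar_characteristic G
  haveI hFsN : (generalizedFittingSubgroup G).Normal := Subgroup.normal_of_characteristic _
  haveI hZN : (Subgroup.centralizer (generalizedFittingSubgroup G : Set G)).Normal :=
    inferInstance
  have hZle : Subgroup.centralizer (generalizedFittingSubgroup G : Set G) ≤
      generalizedFittingSubgroup G := Cfsg.Agent.Helper3.centralizer_fstar_le G
  have hZcomm : ∀ x ∈ Subgroup.centralizer (generalizedFittingSubgroup G : Set G),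
      ∀ y ∈ Subgroup.centralizer (generalizedFittingSubgroup G : Set G), x * y = y * x := by
    intro x hx y hy
    exact (Subgroup.mem_centralizer_iff.mp hx y (hZle hy)).symm
  letI : CommGroup ↥(Subgroup.centralizer (generalizedFittingSubgroup G : Set G)) :=
    { (inferInstance : Group ↥(Subgroup.centralizer (generalizedFittingSubgroup G : Set G))) with
      mul_comm := fun x y => Subtype.ext (hZcomm x x.2 y y.2) }
  have hZT : Subgroup.centralizer (generalizedFittingSubgroup G : Set G) ≤ (T : Subgroup G) := by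
    have hnil : Group.IsNilpotent ↥(Subgroup.centralizer (generalizedFittingSubgroup G : Set G)) :=
      CommGroup.isNilpotent
    exact le_trans (Cfsg.Agent.Helper3.le_fitting _ hnil) hFit
  have hφ : ∀ g : G, α g * g⁻¹ ∈ Subgroup.centralizer (generalizedFittingSubgroup G : Set G) := by
    intro g
    rw [Subgroup.mem_centralizer_iff]
    intro x hx
    have h0 : g⁻¹ * x * g ∈ generalizedFittingSubgroup G := by
      have := hFsN.conj_mem x hx g⁻¹
      simpa using this
    have h1 : α (g⁻¹ * x * g) = g⁻¹ * x * g := hFs _ h0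
    rw [map_mul, map_mul, map_inv, hFs x hx] at h1
    have h2 : x * (α g * g⁻¹) = α g * ((α g)⁻¹ * x * α g) * g⁻¹ := by group
    rw [h2, h1]
    group
  have hφmul : ∀ h g : G, α (h * g) * (h * g)⁻¹ = (α h * h⁻¹) * (h * (α g * g⁻¹) * h⁻¹) := by
    intro h g
    rw [map_mul]
    group
  have hφT : ∀ g : G, ∀ t ∈ (T : Subgroup G), α (g * t) * (g * t)⁻¹ = α g * g⁻¹ := by
    intro g t ht
    rw [map_mul, hfixT t ht]
    group
  have hΦout : ∀ g : G, α ((g : G ⧸ (T : Subgroup G)).out) * ((g : G ⧸ (T : Subgroup G)).out)⁻¹ =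
      α g * g⁻¹ := by
    intro g
    obtain ⟨t, ht⟩ := QuotientGroup.mk_out_eq_mul (T : Subgroup G) g
    rw [ht]
    exact hφT g t t.2
  have hkey : ∀ h : G,
      (⟨α h * h⁻¹, hφ h⟩ : ↥(Subgroup.centralizer (generalizedFittingSubgroup G : Set G))) ^
        (T : Subgroup G).index *
      MulAut.conjNormal h (∏ q : G ⧸ (T : Subgroup G),
        (⟨α q.out * q.out⁻¹, hφ q.out⟩ :
          ↥(Subgroup.centralizer (generalizedFittingSubgroup G : Set G)))) =
      ∏ q : G ⧸ (T : Subgroup G),
        (⟨α q.out * q.out⁻¹, hφ q.out⟩ :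
          ↥(Subgroup.centralizer (generalizedFittingSubgroup G : Set G))) := by
    intro h
    have h1 := Equiv.prod_comp (MulAction.toPerm h : Equiv.Perm (G ⧸ (T : Subgroup G)))
      (fun q : G ⧸ (T : Subgroup G) => (⟨α q.out * q.out⁻¹, hφ q.out⟩ :
          ↥(Subgroup.centralizer (generalizedFittingSubgroup G : Set G))))
    have h2 : ∀ q : G ⧸ (T : Subgroup G),
        (⟨α ((MulAction.toPerm h : Equiv.Perm (G ⧸ (T : Subgroup G))) q).out *
          ((MulAction.toPerm h : Equiv.Perm (G ⧸ (T : Subgroup G))) q).out⁻¹, hφ _⟩ :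
          ↥(Subgroup.centralizer (generalizedFittingSubgroup G : Set G))) =
        (⟨α h * h⁻¹, hφ h⟩ : ↥(Subgroup.centralizer (generalizedFittingSubgroup G : Set G))) *
          MulAut.conjNormal h (⟨α q.out * q.out⁻¹, hφ q.out⟩ :
          ↥(Subgroup.centralizer (generalizedFittingSubgroup G : Set G))) := by
      intro q
      obtain ⟨g, rfl⟩ := QuotientGroup.mk_surjective q
      apply Subtype.ext
      rw [Subgroup.coe_mul, MulAut.conjNormal_apply]
      show α ((h • (g : G ⧸ (T : Subgroup G))).out) * ((h • (g : G ⧸ (T : Subgroup G))).out)⁻¹ =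
        α h * h⁻¹ * (h * (α ((g : G ⧸ (T : Subgroup G)).out) *
          ((g : G ⧸ (T : Subgroup G)).out)⁻¹) * h⁻¹)
      rw [MulAction.Quotient.smul_mk, hΦout, hΦout, smul_eq_mul]
      exact hφmul h g
    have h3 : ∏ q : G ⧸ (T : Subgroup G),
        ((⟨α h * h⁻¹, hφ h⟩ : ↥(Subgroup.centralizer (generalizedFittingSubgroup G : Set G))) *
          MulAut.conjNormal h (⟨α q.out * q.out⁻¹, hφ q.out⟩ :
          ↥(Subgroup.centralizer (generalizedFittingSubgroup G : Set G)))) =
        ∏ q : G ⧸ (T : Subgroup G),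
        (⟨α q.out * q.out⁻¹, hφ q.out⟩ :
          ↥(Subgroup.centralizer (generalizedFittingSubgroup G : Set G))) := by
      rw [← h1]
      exact Finset.prod_congr rfl (fun q _ => (h2 q).symm)
    rw [Finset.prod_mul_distrib, Finset.prod_const, Finset.card_univ, ← map_prod,
      ← Nat.card_eq_fintype_card] at h3
    exact h3
  have hcop : (Nat.card ↥(Subgroup.centralizer (generalizedFittingSubgroup G : Set G))).Coprime
      (T : Subgroup G).index :=
    Nat.Coprime.coprime_dvd_left (Subgroup.card_dvd_of_le hZT) T.card_coprime_index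
  obtain ⟨E, hE⟩ := (powCoprime hcop).surjective (∏ q : G ⧸ (T : Subgroup G),
        (⟨α q.out * q.out⁻¹, hφ q.out⟩ :
          ↥(Subgroup.centralizer (generalizedFittingSubgroup G : Set G))))
  rw [powCoprime_apply] at hE
  refine ⟨(E : G), fun x => ?_⟩
  have h3 := hkey x
  rw [← hE, map_pow, ← mul_pow] at h3
  have h4 : (⟨α x * x⁻¹, hφ x⟩ : ↥(Subgroup.centralizer (generalizedFittingSubgroup G : Set G))) *
      MulAut.conjNormal x E = E := (powCoprime hcop).injective (by
    rw [powCoprime_apply, powCoprime_apply]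
    exact h3)
  have h5 := congrArg Subtype.val h4
  rw [Subgroup.coe_mul, MulAut.conjNormal_apply] at h5
  have h6 : α x = (α x * x⁻¹ * (x * (E : G) * x⁻¹)) * x * (E : G)⁻¹ := by group
  rw [h6, h5]

end Cfsg.Agent.Helper8.InnerAut
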