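import Mathlib
import Cfsg.Prelude.Def_Local
import Cfsg.Agent.Helper4.Cores
import Cfsg.Agent.Helper3.Cores

set_option autoImplicit false

namespace Cfsg.Agent.Helper8.IsoZ

open Cfsg

section Q

variable {H : Type*} [Group H] {p : ℕ}

/-- the abelian normal subgroup `Z(O_p(H))` -/
def Abar (p : ℕ) (H : Type*) [Group H] : Subgroup H :=
  pCore p H ⊓ Subgroup.centralizer (pCore p H : Set H)

theorem Abar_normal (p : ℕ) (H : Type*) [Group H] : (Abar p H).Normal := by
  constructor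
  intro a ha g
  have hn := Cfsg.Agent.Helper4.pCore_normal p H
  rw [Abar, Subgroup.mem_inf] at ha ⊢
  refine ⟨hn.conj_mem a ha.1 g, ?_⟩
  rw [Subgroup.mem_centralizer_iff]
  intro q hq
  have h1 : g⁻¹ * q * g ∈ pCore p H := by
    have := hn.conj_mem q hq g⁻¹
    simpa using this
  have h2 := Subgroup.mem_centralizer_iff.mp ha.2 _ h1
  calc q * (g * a * g⁻¹) = g * ((g⁻¹ * q * g) * a) * g⁻¹ := by group
    _ = g * (a * (g⁻¹ * q * g)) * g⁻¹ := by rw [h2]
    _ = g * a * g⁻¹ * q := by group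

theorem Abar_comm (a b : H) (ha : a ∈ Abar p H) (hb : b ∈ Abar p H) : a * b = b * a := by
  rw [Abar, Subgroup.mem_inf] at ha hb
  exact Subgroup.mem_centralizer_iff.mp hb.2 a ha.1

theorem lemQ [Finite H] [Fact p.Prime] (P : Sylow p H)
    (hZ : (P : Subgroup H) ⊓ Subgroup.centralizer ((P : Subgroup H) : Set H) ≤ pCore p H) :
    ∃ K : Subgroup H, K ≤ (P : Subgroup H) ⊓ Subgroup.centralizer ((P : Subgroup H) : Set H) ∧
      (((P : Subgroup H) ⊓ Subgroup.centralizer ((P : Subgroup H) : Set H)) ⊓ Subgroup.center H)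
        ⊓ K = ⊥ ∧
      ∀ z ∈ (P : Subgroup H) ⊓ Subgroup.centralizer ((P : Subgroup H) : Set H),
        ∃ w ∈ ((P : Subgroup H) ⊓ Subgroup.centralizer ((P : Subgroup H) : Set H))
            ⊓ Subgroup.center H, ∃ k ∈ K, z = w * k := by
  classical
  haveI hAn : (Abar p H).Normal := Abar_normal p H
  letI : CommGroup ↥(Abar p H) := { (inferInstance : Group ↥(Abar p H)) with
    mul_comm := fun a b => Subtype.ext (Abar_comm (a : H) (b : H) a.2 b.2) }
  haveI : Fintype (H ⧸ (P : Subgroup H)) := Fintype.ofFinite _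
  have hQP : pCore p H ≤ (P : Subgroup H) := Cfsg.Agent.Helper4.pCore_le_sylow P
  have hZA : (P : Subgroup H) ⊓ Subgroup.centralizer ((P : Subgroup H) : Set H) ≤ Abar p H := by
    intro z hz
    refine Subgroup.mem_inf.mpr ⟨hZ hz, ?_⟩
    rw [Subgroup.mem_centralizer_iff]
    intro q hq
    exact Subgroup.mem_centralizer_iff.mp (Subgroup.mem_inf.mp hz).2 q (hQP hq)
  have hAP : Abar p H ≤ (P : Subgroup H) := fun a ha => hQP (Subgroup.mem_inf.mp ha).1
  -- the averaging map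
  set T : ↥(Abar p H) →* ↥(Abar p H) :=
    ∏ c : H ⧸ (P : Subgroup H), (MulAut.conjNormal (c.out : H) : MulAut ↥(Abar p H)).toMonoidHom
    with hT
  have hT_apply : ∀ a : ↥(Abar p H),
      T a = ∏ c : H ⧸ (P : Subgroup H), MulAut.conjNormal (c.out : H) a := by
    intro a
    rw [hT, MonoidHom.finset_prod_apply]
    rfl
  have hT1 : ∀ a : ↥(Abar p H), (a : H) ∈ Subgroup.centralizer ((P : Subgroup H) : Set H) →
      ∀ g : H, MulAut.conjNormal g (T a) = T a := by
    intro a ha g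
    rw [hT_apply, map_prod]
    have key : ∀ c : H ⧸ (P : Subgroup H),
        MulAut.conjNormal g (MulAut.conjNormal (c.out : H) a)
          = MulAut.conjNormal ((g • c).out : H) a := by
      intro c
      have h1 : ((g * c.out : H) : H ⧸ (P : Subgroup H)) = (((g • c).out : H) : H ⧸ (P : Subgroup H)) := by
        rw [QuotientGroup.out_eq']
        conv_rhs => rw [← QuotientGroup.out_eq' c]
        rfl
      have h2 := QuotientGroup.eq.mp h1
      have hsa : ((g * c.out)⁻¹ * (g • c).out) * (a : H) * ((g * c.out)⁻¹ * (g • c).out)⁻¹ = a := by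
        have := Subgroup.mem_centralizer_iff.mp ha _ h2
        rw [this]; group
      have hs' : ((g • c).out : H) = g * c.out * ((g * c.out)⁻¹ * (g • c).out) := by group
      apply Subtype.ext
      rw [MulAut.conjNormal_apply, MulAut.conjNormal_apply, MulAut.conjNormal_apply]
      calc g * (c.out * (a : H) * (c.out : H)⁻¹) * g⁻¹
          = g * c.out * (a : H) * (g * c.out)⁻¹ := by group
        _ = g * c.out * (((g * c.out)⁻¹ * (g • c).out) * (a : H)
              * ((g * c.out)⁻¹ * (g • c).out)⁻¹) * (g * c.out)⁻¹ := by rw [hsa]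
        _ = (g * c.out * ((g * c.out)⁻¹ * (g • c).out)) * (a : H)
              * (g * c.out * ((g * c.out)⁻¹ * (g • c).out))⁻¹ := by group
        _ = ((g • c).out : H) * (a : H) * ((g • c).out : H)⁻¹ := by rw [← hs']
    simp only [key]
    exact Fintype.prod_equiv (MulAction.toPerm g) _ _ (fun c => rfl)
  have hT2 : ∀ a : ↥(Abar p H), (a : H) ∈ Subgroup.center H →
      T a = a ^ Fintype.card (H ⧸ (P : Subgroup H)) := by
    intro a ha
    rw [hT_apply]
    have : ∀ c : H ⧸ (P : Subgroup H), MulAut.conjNormal (c.out : H) a = a := by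
      intro c
      apply Subtype.ext
      rw [MulAut.conjNormal_apply, Subgroup.mem_center_iff.mp ha (c.out : H)]
      group
    simp only [this, Finset.prod_const, Finset.card_univ]
  have hcop : p.Coprime (Fintype.card (H ⧸ (P : Subgroup H))) := by
    rw [Nat.Prime.coprime_iff_not_dvd (Fact.out : p.Prime)]
    have := P.not_dvd_index
    rwa [Subgroup.index_eq_card, Nat.card_eq_fintype_card] at this
  have hTcent : ∀ a : ↥(Abar p H),
      (a : H) ∈ Subgroup.centralizer ((P : Subgroup H) : Set H) →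
      ((T a : ↥(Abar p H)) : H) ∈ Subgroup.center H := by
    intro a ha
    rw [Subgroup.mem_center_iff]
    intro g
    have := congrArg Subtype.val (hT1 a ha g)
    rw [MulAut.conjNormal_apply] at this
    calc g * ((T a : ↥(Abar p H)) : H) = (g * ((T a : ↥(Abar p H)) : H) * g⁻¹) * g := by group
      _ = ((T a : ↥(Abar p H)) : H) * g := by rw [this]
  have hcentZP : ∀ w : H, w ∈ Abar p H → w ∈ Subgroup.center H →
      w ∈ (P : Subgroup H) ⊓ Subgroup.centralizer ((P : Subgroup H) : Set H) := by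
    intro w hwA hwc
    refine Subgroup.mem_inf.mpr ⟨hAP hwA, ?_⟩
    rw [Subgroup.mem_centralizer_iff]
    intro q _
    exact Subgroup.mem_center_iff.mp hwc q
  have hpA : IsPGroup p ↥(Abar p H) := P.isPGroup'.to_le hAP
  refine ⟨(T.ker ⊓ ((P : Subgroup H) ⊓ Subgroup.centralizer
      ((P : Subgroup H) : Set H)).subgroupOf (Abar p H)).map (Abar p H).subtype, ?_, ?_, ?_⟩
  · rintro _ ⟨a, ha, rfl⟩
    exact Subgroup.mem_subgroupOf.mp (Subgroup.mem_inf.mp ha).2
  · rw [eq_bot_iff]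
    rintro z ⟨⟨hzZ, hzc⟩, ⟨a, ha, rfl⟩⟩
    rw [Subgroup.mem_bot]
    have hTa : T a = 1 := MonoidHom.mem_ker.mp (Subgroup.mem_inf.mp ha).1
    rw [hT2 a hzc] at hTa
    have h1 : ((a : ↥(Abar p H)) : H) ^ Fintype.card (H ⧸ (P : Subgroup H)) = 1 := by
      have := congrArg Subtype.val hTa
      simpa using this
    obtain ⟨k, hk⟩ := hpA a
    have h2 : ((a : ↥(Abar p H)) : H) ^ p ^ k = 1 := by
      have := congrArg Subtype.val hk
      simpa using this
    have h3 := pow_gcd_eq_one.mpr ⟨h1, h2⟩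
    have hg : Nat.gcd (Fintype.card (H ⧸ (P : Subgroup H))) (p ^ k) = 1 :=
      Nat.Coprime.pow_right k hcop.symm
    rw [hg, pow_one] at h3
    exact h3
  · intro z hz
    have hzc : z ∈ Subgroup.centralizer ((P : Subgroup H) : Set H) := (Subgroup.mem_inf.mp hz).2
    set a : ↥(Abar p H) := ⟨z, hZA hz⟩ with ha
    have htc : ((T a : ↥(Abar p H)) : H) ∈ Subgroup.center H := hTcent a hzc
    -- central elements of A form a p-group; take an m-th root of T a
    have hpC : IsPGroup p ↥((Subgroup.center H).subgroupOf (Abar p H)) :=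
      hpA.to_subgroup _
    set w := (hpC.powEquiv hcop).symm ⟨T a, Subgroup.mem_subgroupOf.mpr htc⟩ with hw
    have hwpow : w ^ Fintype.card (H ⧸ (P : Subgroup H)) = ⟨T a, Subgroup.mem_subgroupOf.mpr htc⟩ := by
      rw [← IsPGroup.powEquiv_apply hpC hcop, hw, Equiv.apply_symm_apply]
    have hwc : (((w : ↥(Abar p H)) : ↥(Abar p H)) : H) ∈ Subgroup.center H :=
      Subgroup.mem_subgroupOf.mp w.2
    have hTw : T (w : ↥(Abar p H)) = T a := by
      rw [hT2 _ hwc]
      have := congrArg Subtype.val hwpow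
      simpa using this
    have hwZP := hcentZP _ (w : ↥(Abar p H)).2 hwc
    refine ⟨((w : ↥(Abar p H)) : H), Subgroup.mem_inf.mpr ⟨hwZP, hwc⟩,
      ((a * (w : ↥(Abar p H))⁻¹ : ↥(Abar p H)) : H), ?_, ?_⟩
    · refine ⟨a * (w : ↥(Abar p H))⁻¹, Subgroup.mem_inf.mpr ⟨?_, ?_⟩, rfl⟩
      · rw [MonoidHom.mem_ker, map_mul, map_inv, hTw, mul_inv_cancel]
      · rw [Subgroup.mem_subgroupOf]
        exact Subgroup.mul_mem _ hz (Subgroup.inv_mem _ hwZP)
    · show z = ((w : ↥(Abar p H)) : H) * (z * ((w : ↥(Abar p H)) : H)⁻¹)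
      rw [← mul_assoc, ← Subgroup.mem_center_iff.mp hwc z]
      group

end Q

section Main

open scoped Pointwise

variable {G : Type*} [Group G] [Finite G] {p : ℕ} [Fact p.Prime]

theorem sylow_inf_pPrimeCore (S : Sylow p G) (x : G) (hxS : x ∈ (S : Subgroup G))
    (hxO : x ∈ pPrimeCore p G) : x = 1 := by
  obtain ⟨k, hk⟩ := S.isPGroup' ⟨x, hxS⟩
  have h1 : x ^ p ^ k = 1 := by
    have := congrArg Subtype.val hk
    simpa using this
  have h2 : x ^ Nat.card (pPrimeCore p G) = 1 :=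
    congrArg Subtype.val (pow_card_eq_one' (G := ↥(pPrimeCore p G)) (x := ⟨x, hxO⟩))
  have h3 := pow_gcd_eq_one.mpr ⟨h2, h1⟩
  have hg : Nat.gcd (Nat.card (pPrimeCore p G)) (p ^ k) = 1 :=
    Nat.Coprime.pow_right k (Cfsg.Agent.Helper3.pPrimeCore_coprime p G)
  rw [hg, pow_one] at h3
  exact h3

theorem main1944 (S : Sylow p G)
    (hZ : ((S : Subgroup G) ⊓ Subgroup.centralizer ((S : Subgroup G) : Set G))
      ≤ Cfsg.pPrimePCore p G) :
    ∃ W K : Subgroup G,
      (∀ x : G, x ∈ W ↔ (x ∈ (S : Subgroup G) ∧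
        ∀ g : G, g * x * g⁻¹ ∈ (S : Subgroup G) → g * x * g⁻¹ = x)) ∧
      K ≤ ((S : Subgroup G) ⊓ Subgroup.centralizer ((S : Subgroup G) : Set G)) ∧ W ⊓ K = ⊥ ∧
      W ⊔ K = ((S : Subgroup G) ⊓ Subgroup.centralizer ((S : Subgroup G) : Set G)) := by
  classical
  haveI hOn : (pPrimeCore p G).Normal := Cfsg.Agent.Helper4.pPrimeCore_normal p G
  set π : G →* G ⧸ pPrimeCore p G := QuotientGroup.mk' (pPrimeCore p G) with hπdef
  have hπ : Function.Surjective π := QuotientGroup.mk'_surjective _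
  set P : Sylow p (G ⧸ pPrimeCore p G) := S.mapSurjective hπ with hP
  have hPmem : ∀ y : G ⧸ pPrimeCore p G, y ∈ (P : Subgroup (G ⧸ pPrimeCore p G)) ↔
      ∃ s ∈ (S : Subgroup G), π s = y := fun y => Subgroup.mem_map
  have hker : ∀ x : G, π x = 1 ↔ x ∈ pPrimeCore p G := fun x => QuotientGroup.eq_one_iff x
  have hinj : ∀ x y : G, x ∈ (S : Subgroup G) → y ∈ (S : Subgroup G) → π x = π y → x = y := by
    intro x y hx hy hxy
    have h1 : x⁻¹ * y ∈ pPrimeCore p G := by
      rw [← hker, map_mul, map_inv, hxy, inv_mul_cancel]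
    have h2 := sylow_inf_pPrimeCore S (x⁻¹ * y) (Subgroup.mul_mem _ (Subgroup.inv_mem _ hx) hy) h1
    exact inv_mul_eq_one.mp h2
  -- Z(P) = π(Z(S))
  have hZP1 : ∀ z : G,
      z ∈ (S : Subgroup G) ⊓ Subgroup.centralizer ((S : Subgroup G) : Set G) →
      π z ∈ (P : Subgroup (G ⧸ pPrimeCore p G))
        ⊓ Subgroup.centralizer ((P : Subgroup (G ⧸ pPrimeCore p G)) : Set (G ⧸ pPrimeCore p G)) := by
    intro z hz
    refine Subgroup.mem_inf.mpr ⟨(hPmem _).mpr ⟨z, (Subgroup.mem_inf.mp hz).1, rfl⟩, ?_⟩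
    rw [Subgroup.mem_centralizer_iff]
    intro q hq
    obtain ⟨s, hs, rfl⟩ := (hPmem q).mp hq
    rw [← map_mul, ← map_mul,
      Subgroup.mem_centralizer_iff.mp (Subgroup.mem_inf.mp hz).2 s hs]
  have hZP2 : ∀ y : G ⧸ pPrimeCore p G,
      y ∈ (P : Subgroup (G ⧸ pPrimeCore p G))
        ⊓ Subgroup.centralizer ((P : Subgroup (G ⧸ pPrimeCore p G)) : Set (G ⧸ pPrimeCore p G)) →
      ∃ z ∈ (S : Subgroup G) ⊓ Subgroup.centralizer ((S : Subgroup G) : Set G), π z = y := by
    intro y hy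
    obtain ⟨s, hs, rfl⟩ := (hPmem y).mp (Subgroup.mem_inf.mp hy).1
    refine ⟨s, Subgroup.mem_inf.mpr ⟨hs, ?_⟩, rfl⟩
    rw [Subgroup.mem_centralizer_iff]
    intro s' hs'
    apply hinj _ _ (Subgroup.mul_mem _ hs' hs) (Subgroup.mul_mem _ hs hs')
    rw [map_mul, map_mul]
    exact Subgroup.mem_centralizer_iff.mp (Subgroup.mem_inf.mp hy).2 (π s')
      ((hPmem _).mpr ⟨s', hs', rfl⟩)
  have hZ' : (P : Subgroup (G ⧸ pPrimeCore p G))
        ⊓ Subgroup.centralizer ((P : Subgroup (G ⧸ pPrimeCore p G)) : Set (G ⧸ pPrimeCore p G))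
      ≤ pCore p (G ⧸ pPrimeCore p G) := by
    intro y hy
    obtain ⟨z, hz, rfl⟩ := hZP2 y hy
    exact Subgroup.mem_comap.mp (hZ hz)
  obtain ⟨KH, hKH1, hKH2, hKH3⟩ := lemQ P hZ'
  refine ⟨((S : Subgroup G) ⊓ Subgroup.centralizer ((S : Subgroup G) : Set G))
      ⊓ (Subgroup.center (G ⧸ pPrimeCore p G)).comap π,
    ((S : Subgroup G) ⊓ Subgroup.centralizer ((S : Subgroup G) : Set G)) ⊓ KH.comap π,
    ?_, inf_le_left, ?_, ?_⟩
  · -- characterization of W
    intro x
    constructor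
    · rintro ⟨hxZ, hxc⟩
      have hxc' : π x ∈ Subgroup.center (G ⧸ pPrimeCore p G) := Subgroup.mem_comap.mp hxc
      refine ⟨(Subgroup.mem_inf.mp hxZ).1, fun g hg => ?_⟩
      apply hinj _ _ hg (Subgroup.mem_inf.mp hxZ).1
      rw [map_mul, map_mul, map_inv, Subgroup.mem_center_iff.mp hxc' (π g)]
      group
    · rintro ⟨hxS, hiso⟩
      have hxcent : x ∈ Subgroup.centralizer ((S : Subgroup G) : Set G) := by
        rw [Subgroup.mem_centralizer_iff]
        intro s hs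
        have h1 := hiso s (Subgroup.mul_mem _ (Subgroup.mul_mem _ hs hxS) (Subgroup.inv_mem _ hs))
        calc s * x = (s * x * s⁻¹) * s := by group
          _ = x * s := by rw [h1]
      have hxZ : x ∈ (S : Subgroup G) ⊓ Subgroup.centralizer ((S : Subgroup G) : Set G) :=
        Subgroup.mem_inf.mpr ⟨hxS, hxcent⟩
      refine Subgroup.mem_inf.mpr ⟨hxZ, Subgroup.mem_comap.mpr ?_⟩
      rw [Subgroup.mem_center_iff]
      intro gbar
      obtain ⟨g, rfl⟩ := hπ gbar
      -- F3: some O-conjugate of g x g⁻¹ lies in S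
      have hxcore : π x ∈ pCore p (G ⧸ pPrimeCore p G) := Subgroup.mem_comap.mp (hZ hxZ)
      have hycore : π (g * x * g⁻¹) ∈ pCore p (G ⧸ pPrimeCore p G) := by
        rw [map_mul, map_mul, map_inv]
        exact (Cfsg.Agent.Helper4.pCore_normal p _).conj_mem _ hxcore _
      have hyP : π (g * x * g⁻¹) ∈ (P : Subgroup (G ⧸ pPrimeCore p G)) :=
        Cfsg.Agent.Helper4.pCore_le_sylow P hycore
      have hSM : (S : Subgroup G) ≤ (P : Subgroup (G ⧸ pPrimeCore p G)).comap π :=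
        fun s hs => Subgroup.mem_comap.mpr ((hPmem _).mpr ⟨s, hs, rfl⟩)
      obtain ⟨k, hk⟩ := S.isPGroup' ⟨x, hxS⟩
      have hxk : x ^ p ^ k = 1 := by
        have := congrArg Subtype.val hk
        simpa using this
      have hyk : (g * x * g⁻¹) ^ p ^ k = 1 := by
        rw [conj_pow, hxk]; group
      set y' : ↥((P : Subgroup (G ⧸ pPrimeCore p G)).comap π) :=
        ⟨g * x * g⁻¹, Subgroup.mem_comap.mpr hyP⟩ with hy'
      have hy'k : y' ^ p ^ k = 1 := Subtype.ext (by show (g * x * g⁻¹) ^ p ^ k = 1; exact hyk)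
      have hpz : IsPGroup p ↥(Subgroup.zpowers y') := by
        rintro ⟨_, ⟨i, rfl⟩⟩
        refine ⟨k, Subtype.ext ?_⟩
        show (y' ^ i) ^ p ^ k = 1
        rw [← zpow_natCast, ← zpow_mul, mul_comm, zpow_mul, zpow_natCast, hy'k, one_zpow]
      obtain ⟨Q, hQ⟩ := hpz.exists_le_sylow
      obtain ⟨m, hm⟩ := MulAction.exists_smul_eq
        ↥((P : Subgroup (G ⧸ pPrimeCore p G)).comap π) (S.subtype hSM) Q
      have hyQ : y' ∈ (Q : Subgroup ↥((P : Subgroup (G ⧸ pPrimeCore p G)).comap π)) :=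
        hQ (Subgroup.mem_zpowers y')
      rw [← hm, Sylow.smul_subtype] at hyQ
      have hy2 : g * x * g⁻¹ ∈ ((m • S : Sylow p G) : Subgroup G) := by
        have := hyQ
        rw [Sylow.coe_subtype, Subgroup.mem_subgroupOf] at this
        exact this
      have hy3 : (m : G)⁻¹ * (g * x * g⁻¹) * (m : G) ∈ (S : Subgroup G) := by
        have h' : g * x * g⁻¹ ∈ MulAut.conj (m : G) • (S : Subgroup G) := hy2
        rw [Subgroup.mem_pointwise_smul_iff_inv_smul_mem] at h'
        have e : (MulAut.conj (m : G))⁻¹ • (g * x * g⁻¹)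
            = (m : G)⁻¹ * (g * x * g⁻¹) * (m : G) := by
          rw [MulAut.smul_def, MulAut.conj_inv_apply]
        rw [e] at h'
        exact h'
      obtain ⟨s₁, hs₁, hs₁π⟩ := (hPmem _).mp
        (Subgroup.mem_comap.mp (Subgroup.inv_mem _ m.2))
      have ho : s₁⁻¹ * (m : G)⁻¹ ∈ pPrimeCore p G := by
        rw [← hker, map_mul, map_inv, hs₁π, inv_mul_cancel]
      have hconj : (s₁⁻¹ * (m : G)⁻¹ * g) * x * (s₁⁻¹ * (m : G)⁻¹ * g)⁻¹ ∈ (S : Subgroup G) := by
        have e : (s₁⁻¹ * (m : G)⁻¹ * g) * x * (s₁⁻¹ * (m : G)⁻¹ * g)⁻¹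
            = s₁⁻¹ * ((m : G)⁻¹ * (g * x * g⁻¹) * (m : G)) * s₁ := by group
        rw [e]
        exact Subgroup.mul_mem _ (Subgroup.mul_mem _ (Subgroup.inv_mem _ hs₁) hy3) hs₁
      have hfix := hiso _ hconj
      have hπfix := congrArg π hfix
      rw [map_mul, map_mul, map_inv, map_mul, (hker _).mpr ho, one_mul] at hπfix
      calc π g * π x = (π g * π x * (π g)⁻¹) * π g := by group
        _ = π x * π g := by rw [hπfix]
  · -- W ⊓ K = ⊥
    rw [eq_bot_iff]
    rintro x ⟨⟨hxZ, hxc⟩, ⟨_, hxK⟩⟩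
    rw [Subgroup.mem_bot]
    have h1 : π x ∈ (((P : Subgroup (G ⧸ pPrimeCore p G))
        ⊓ Subgroup.centralizer ((P : Subgroup (G ⧸ pPrimeCore p G)) : Set (G ⧸ pPrimeCore p G)))
        ⊓ Subgroup.center (G ⧸ pPrimeCore p G)) ⊓ KH :=
      Subgroup.mem_inf.mpr ⟨Subgroup.mem_inf.mpr ⟨hZP1 x hxZ, Subgroup.mem_comap.mp hxc⟩,
        Subgroup.mem_comap.mp hxK⟩
    rw [hKH2, Subgroup.mem_bot] at h1
    exact sylow_inf_pPrimeCore S x (Subgroup.mem_inf.mp hxZ).1 ((hker x).mp h1)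
  · -- W ⊔ K = Z(S)
    apply le_antisymm (sup_le inf_le_left inf_le_left)
    intro z hz
    obtain ⟨w', hw', k', hk', hzwk⟩ := hKH3 (π z) (hZP1 z hz)
    obtain ⟨k, hkZ, hkπ⟩ := hZP2 k' (hKH1 hk')
    have hw : z * k⁻¹ ∈ ((S : Subgroup G) ⊓ Subgroup.centralizer ((S : Subgroup G) : Set G))
        ⊓ (Subgroup.center (G ⧸ pPrimeCore p G)).comap π := by
      refine Subgroup.mem_inf.mpr ⟨Subgroup.mul_mem _ hz (Subgroup.inv_mem _ hkZ),
        Subgroup.mem_comap.mpr ?_⟩
      rw [map_mul, map_inv, hkπ, hzwk, mul_inv_cancel_right]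
      exact (Subgroup.mem_inf.mp hw').2
    have hk : k ∈ ((S : Subgroup G) ⊓ Subgroup.centralizer ((S : Subgroup G) : Set G))
        ⊓ KH.comap π :=
      Subgroup.mem_inf.mpr ⟨hkZ, Subgroup.mem_comap.mpr (by rw [hkπ]; exact hk')⟩
    have : z = (z * k⁻¹) * k := by group
    rw [this]
    exact Subgroup.mul_mem_sup hw hk

end Main

end Cfsg.Agent.Helper8.IsoZ
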