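import Cfsg.Agent.Helper8.RegularP

set_option autoImplicit false

namespace Cfsg.Agent.Helper8.RegP

open Cfsg
open scoped commutatorElement

variable {G : Type*} [Group G]

/-- The regularity identity at level `n`. -/
def RegAt (p n : ℕ) (G : Type*) [Group G] : Prop :=
  ∀ a b : G, ∃ c ∈ powerClosure p n
      ⁅Subgroup.closure ({a, b} : Set G), Subgroup.closure ({a, b} : Set G)⁆,
    (a * b) ^ (p ^ n) = a ^ (p ^ n) * b ^ (p ^ n) * c

/-- The three basic properties of `p^n`-th powers for the pair `a, b`. -/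
def Stmt (p n : ℕ) (a b : G) : Prop :=
  (a ^ (p ^ n) = 1 → b ^ (p ^ n) = 1 → (a * b) ^ (p ^ n) = 1) ∧
  (a ^ (p ^ n) = b ^ (p ^ n) ↔ (a * b⁻¹) ^ (p ^ n) = 1) ∧
  (∃ z ∈ Subgroup.closure ({a, b} : Set G), a ^ (p ^ n) * b ^ (p ^ n) = z ^ (p ^ n))

variable [Finite G] {p : ℕ} [Fact p.Prime]

theorem reg_main (hG : IsPGroup p G) {n : ℕ} (hreg : RegAt p n G) : ∀ N : ℕ, ∀ a b : G,
    Nat.card (Subgroup.closure ({a, b} : Set G)) ≤ N → Stmt p n a b := by
  intro N
  induction N with
  | zero =>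
    intro a b h
    have h1 := Nat.card_pos (α := Subgroup.closure ({a, b} : Set G))
    omega
  | succ N ih =>
    intro a b hcard
    obtain ⟨K, hK⟩ : ∃ K : Subgroup G, K = Subgroup.closure ({a, b} : Set G) := ⟨_, rfl⟩
    have haK : a ∈ K := hK ▸ mem_closure_pair_left a b
    have hbK : b ∈ K := hK ▸ mem_closure_pair_right a b
    by_cases hcomm : a * b = b * a
    · have hc : Commute a b := hcomm
      refine ⟨?_, ?_, ?_⟩
      · intro ha hb
        rw [hc.mul_pow, ha, hb, one_mul]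
      · have hc' : Commute a b⁻¹ := hc.inv_right
        rw [hc'.mul_pow, inv_pow, mul_inv_eq_one]
      · exact ⟨a * b, Subgroup.mul_mem _ (mem_closure_pair_left a b) (mem_closure_pair_right a b),
          (hc.mul_pow _).symm⟩
    · have hsmall : ∀ M : Subgroup G, M < K → ∀ x ∈ M, ∀ y ∈ M, Stmt p n x y := by
        intro M hM x hx y hy
        apply ih
        have h2 : Nat.card (Subgroup.closure ({x, y} : Set G)) ≤ Nat.card M :=
          Subgroup.card_le_of_le (closure_pair_le hx hy)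
        have h3 : Nat.card M < Nat.card K := by
          by_contra hcon
          exact (ne_of_lt hM) (Subgroup.eq_of_le_of_card_ge hM.le (not_lt.1 hcon))
        rw [← hK] at hcard
        omega
      have hX : ∀ u ∈ K, ∃ M : Subgroup G, M < K ∧ u ∈ M ∧ ⁅K, K⁆ ≤ M := by
        intro u hu
        apply exists_lt_of_mem hG K hu
        intro h
        apply hcomm
        have ha' : a ∈ Subgroup.zpowers u := h ▸ haK
        have hb' : b ∈ Subgroup.zpowers u := h ▸ hbK
        obtain ⟨i, rfl⟩ := Subgroup.mem_zpowers_iff.1 ha'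
        obtain ⟨j, rfl⟩ := Subgroup.mem_zpowers_iff.1 hb'
        exact (Commute.zpow_zpow_self u i j)
      obtain ⟨M1, hM1lt, -, hDM1⟩ := hX 1 K.one_mem
      let Ω : Subgroup G :=
        { carrier := {x | x ∈ ⁅K, K⁆ ∧ x ^ (p ^ n) = 1}
          mul_mem' := fun {x y} hx hy => ⟨Subgroup.mul_mem _ hx.1 hy.1,
            (hsmall M1 hM1lt x (hDM1 hx.1) y (hDM1 hy.1)).1 hx.2 hy.2⟩
          one_mem' := ⟨Subgroup.one_mem _, one_pow _⟩
          inv_mem' := fun {x} hx => ⟨Subgroup.inv_mem _ hx.1, by rw [inv_pow, hx.2, inv_one]⟩ }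
      have hII : ∀ u v : G, Subgroup.closure ({u, v} : Set G) = K → ⁅u, v⁆ ^ (p ^ n) = 1 →
          ∀ x ∈ ⁅K, K⁆, x ^ (p ^ n) = 1 := by
        intro u v huv hw x hx
        have huK : u ∈ K := huv ▸ mem_closure_pair_left u v
        have hvK : v ∈ K := huv ▸ mem_closure_pair_right u v
        have hle : ⁅Subgroup.closure ({u, v} : Set G), Subgroup.closure ({u, v} : Set G)⁆ ≤ Ω := by
          apply comm_closure_le
          · intro k hk m hm
            rw [huv] at hk
            refine ⟨comm_conj_mem hk hm.1, ?_⟩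
            rw [conj_pow, hm.2, mul_one, mul_inv_cancel]
          · intro x hx y hy
            have hwmem : ⁅u, v⁆ ∈ Ω := ⟨Subgroup.commutator_mem_commutator huK hvK, hw⟩
            rcases hx with rfl | rfl <;> rcases hy with rfl | rfl
            · rw [commutatorElement_self]
              exact Ω.one_mem
            · exact hwmem
            · rw [← commutatorElement_inv]
              exact Ω.inv_mem hwmem
            · rw [commutatorElement_self]
              exact Ω.one_mem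
        rw [huv] at hle
        exact (hle hx).2
      have hprod : (∀ x ∈ ⁅K, K⁆, x ^ (p ^ n) = 1) → ∀ u v : G,
          Subgroup.closure ({u, v} : Set G) = K →
          (u * v) ^ (p ^ n) = u ^ (p ^ n) * v ^ (p ^ n) := by
        intro hexp u v huv
        obtain ⟨c, hc, e⟩ := hreg u v
        rw [huv, powerClosure_eq_bot hexp, Subgroup.mem_bot] at hc
        rw [e, hc, mul_one]
      have hconj : ∀ u v : G, Subgroup.closure ({u, v} : Set G) = K →
          u ^ (p ^ n) = (v * u * v⁻¹) ^ (p ^ n) → ⁅u, v⁆ ^ (p ^ n) = 1 := by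
        intro u v huv h
        have huK : u ∈ K := huv ▸ mem_closure_pair_left u v
        have hvK : v ∈ K := huv ▸ mem_closure_pair_right u v
        obtain ⟨M, hMlt, huM, hDM⟩ := hX u huK
        have hu'M : v * u * v⁻¹ ∈ M := by
          have e : v * u * v⁻¹ = ⁅v, u⁆ * u := by
            simp only [commutatorElement_def]
            group
          rw [e]
          exact M.mul_mem (hDM (Subgroup.commutator_mem_commutator hvK huK)) huM
        have h1 := (hsmall M hMlt u huM _ hu'M).2.1.1 h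
        have e : u * (v * u * v⁻¹)⁻¹ = ⁅u, v⁆ := by
          simp only [commutatorElement_def]
          group
        rwa [e] at h1
      refine ⟨?_, ⟨?_, ?_⟩, ?_⟩
      · intro ha hb
        have h1 : ⁅a, b⁆ ^ (p ^ n) = 1 := by
          apply hconj a b hK.symm
          rw [conj_pow, ha, mul_one, mul_inv_cancel]
        rw [hprod (hII a b hK.symm h1) a b hK.symm, ha, hb, one_mul]
      · intro hab
        have h1 : ⁅a, b⁆ ^ (p ^ n) = 1 := by
          apply hconj a b hK.symm
          rw [conj_pow, hab]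
          have e0 : b * b ^ (p ^ n) * b⁻¹ = b ^ (p ^ n) := by
            rw [← pow_succ', pow_succ, mul_inv_cancel_right]
          exact e0.symm
        have hcl : Subgroup.closure ({a, b⁻¹} : Set G) = K := by
          rw [hK]
          apply closure_pair_eq (mem_closure_pair_left a b)
            (Subgroup.inv_mem _ (mem_closure_pair_right a b)) (mem_closure_pair_left a b⁻¹)
          have h2 := Subgroup.inv_mem _ (mem_closure_pair_right a b⁻¹)
          rwa [inv_inv] at h2
        rw [hprod (hII a b hK.symm h1) a b⁻¹ hcl, inv_pow, hab, mul_inv_cancel]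
      · intro h
        have hcl : Subgroup.closure ({a * b⁻¹, b} : Set G) = K := by
          rw [hK]
          apply closure_pair_eq (Subgroup.mul_mem _ (mem_closure_pair_left a b)
            (Subgroup.inv_mem _ (mem_closure_pair_right a b))) (mem_closure_pair_right a b) _
            (mem_closure_pair_right (a * b⁻¹) b)
          have h2 := Subgroup.mul_mem _ (mem_closure_pair_left (a * b⁻¹) b)
            (mem_closure_pair_right (a * b⁻¹) b)
          rwa [inv_mul_cancel_right] at h2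
        have h1 : ⁅a * b⁻¹, b⁆ ^ (p ^ n) = 1 := by
          apply hconj (a * b⁻¹) b hcl
          rw [conj_pow, h, mul_one, mul_inv_cancel]
        have h2 := hprod (hII _ _ hcl h1) (a * b⁻¹) b hcl
        rw [inv_mul_cancel_right, h, one_mul] at h2
        exact h2
      · obtain ⟨c, hc, e⟩ := hreg a b
        rw [← hK] at hc
        have hpow : ∀ c ∈ powerClosure p n ⁅K, K⁆, ∃ d ∈ ⁅K, K⁆, c = d ^ (p ^ n) := by
          intro c hc
          unfold powerClosure at hc
          induction hc using Subgroup.closure_induction with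
          | mem y hy =>
            obtain ⟨x, hx, rfl⟩ := hy
            exact ⟨x, hx, rfl⟩
          | one => exact ⟨1, Subgroup.one_mem _, (one_pow _).symm⟩
          | mul x y _ _ ihx ihy =>
            obtain ⟨d₁, hd₁, rfl⟩ := ihx
            obtain ⟨d₂, hd₂, rfl⟩ := ihy
            obtain ⟨z, hz, ez⟩ := (hsmall M1 hM1lt d₁ (hDM1 hd₁) d₂ (hDM1 hd₂)).2.2
            exact ⟨z, closure_pair_le hd₁ hd₂ hz, ez⟩
          | inv x _ ihx =>
            obtain ⟨d, hd, rfl⟩ := ihx
            exact ⟨d⁻¹, Subgroup.inv_mem _ hd, (inv_pow _ _).symm⟩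
        obtain ⟨d, hd, ed⟩ := hpow c⁻¹ (Subgroup.inv_mem _ hc)
        obtain ⟨M, hMlt, habM, hDM⟩ := hX (a * b) (K.mul_mem haK hbK)
        obtain ⟨z, hz, ez⟩ := (hsmall M hMlt (a * b) habM d (hDM hd)).2.2
        refine ⟨z, ?_, ?_⟩
        · rw [← hK]
          exact closure_pair_le (K.mul_mem haK hbK) (commutator_le_self K hd) hz
        · rw [← ez, ← ed, e, mul_inv_cancel_right]

theorem reg_stmt (hG : IsPGroup p G) {n : ℕ} (hreg : RegAt p n G) (a b : G) : Stmt p n a b :=
  reg_main hG hreg _ a b le_rfl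

/-- In a regular `p`-group, the elements of order dividing `p^n` are closed under products. -/
theorem reg_pow_mul_eq_one (hG : IsPGroup p G) {n : ℕ} (hreg : RegAt p n G) {a b : G}
    (ha : a ^ (p ^ n) = 1) (hb : b ^ (p ^ n) = 1) : (a * b) ^ (p ^ n) = 1 :=
  (reg_stmt hG hreg a b).1 ha hb

theorem reg_pow_eq_iff (hG : IsPGroup p G) {n : ℕ} (hreg : RegAt p n G) (a b : G) :
    a ^ (p ^ n) = b ^ (p ^ n) ↔ (a * b⁻¹) ^ (p ^ n) = 1 :=
  (reg_stmt hG hreg a b).2.1

theorem reg_pow_mul_pow (hG : IsPGroup p G) {n : ℕ} (hreg : RegAt p n G) (a b : G) :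
    ∃ z ∈ Subgroup.closure ({a, b} : Set G), a ^ (p ^ n) * b ^ (p ^ n) = z ^ (p ^ n) :=
  (reg_stmt hG hreg a b).2.2

/-- In a regular `p`-group, the elements of `℧_n(H)` are exactly the `p^n`-th powers of elements
of `H`. -/
theorem mem_powerClosure_iff (hG : IsPGroup p G) {n : ℕ} (hreg : RegAt p n G) (H : Subgroup G)
    (c : G) : c ∈ powerClosure p n H ↔ ∃ x ∈ H, c = x ^ (p ^ n) := by
  constructor
  · intro hc
    unfold powerClosure at hc
    induction hc using Subgroup.closure_induction with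
    | mem y hy => exact hy
    | one => exact ⟨1, Subgroup.one_mem _, (one_pow _).symm⟩
    | mul x y _ _ ihx ihy =>
      obtain ⟨d₁, hd₁, rfl⟩ := ihx
      obtain ⟨d₂, hd₂, rfl⟩ := ihy
      obtain ⟨z, hz, ez⟩ := reg_pow_mul_pow hG hreg d₁ d₂
      exact ⟨z, closure_pair_le hd₁ hd₂ hz, ez⟩
    | inv x _ ihx =>
      obtain ⟨d, hd, rfl⟩ := ihx
      exact ⟨d⁻¹, Subgroup.inv_mem _ hd, (inv_pow _ _).symm⟩
  · rintro ⟨x, hx, rfl⟩
    exact pow_mem_powerClosure hx

omit [Finite G] [Fact p.Prime] in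
/-- `⁅x^(p^n), y⁆ ∈ ℧_n(H')` for `x, y ∈ H`. -/
theorem comm_pow_mem {n : ℕ} (hreg : RegAt p n G) {H : Subgroup G} {x y : G} (hx : x ∈ H)
    (hy : y ∈ H) : ⁅x ^ (p ^ n), y⁆ ∈ powerClosure p n ⁅H, H⁆ := by
  -- x = x' * e with x' = y x y⁻¹, e = ⁅y⁻¹, ... ⁆
  have hx' : y * x * y⁻¹ ∈ H := H.mul_mem (H.mul_mem hy hx) (H.inv_mem hy)
  have he : (y * x * y⁻¹)⁻¹ * x ∈ ⁅H, H⁆ := by
    have e1 : (y * x * y⁻¹)⁻¹ * x = ⁅y, x⁻¹⁆ := by
      simp only [commutatorElement_def]
      group
    rw [e1]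
    exact Subgroup.commutator_mem_commutator hy (H.inv_mem hx)
  obtain ⟨c, hc, e⟩ := hreg (y * x * y⁻¹) ((y * x * y⁻¹)⁻¹ * x)
  rw [mul_inv_cancel_left] at e
  have hcH : c ∈ powerClosure p n ⁅H, H⁆ := by
    refine powerClosure_mono (Subgroup.commutator_mono ?_ ?_) hc
    · exact closure_pair_le hx' (commutator_le_self H he)
    · exact closure_pair_le hx' (commutator_le_self H he)
  have e2 : ⁅x ^ (p ^ n), y⁆ = x ^ (p ^ n) * ((y * x * y⁻¹) ^ (p ^ n))⁻¹ := by
    rw [conj_pow, commutatorElement_def]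
    group
  rw [e2, e]
  have e3 : (y * x * y⁻¹) ^ (p ^ n) * ((y * x * y⁻¹)⁻¹ * x) ^ (p ^ n) * c *
      ((y * x * y⁻¹) ^ (p ^ n))⁻¹ = (y * x * y⁻¹) ^ (p ^ n) *
      (((y * x * y⁻¹)⁻¹ * x) ^ (p ^ n) * c) * ((y * x * y⁻¹) ^ (p ^ n))⁻¹ := by group
  rw [e3]
  apply powerClosure_conj_mem (H.pow_mem hx' _)
  exact Subgroup.mul_mem _ (pow_mem_powerClosure he) hcH

omit [Finite G] [Fact p.Prime] in
theorem comm_closure_pow_le (h1 : RegAt p 1 G) {K : Subgroup G} {x y : G} (hx : x ∈ K)
    (hy : y ∈ K) :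
    ⁅Subgroup.closure ({x ^ (p ^ 1), y} : Set G), Subgroup.closure ({x ^ (p ^ 1), y} : Set G)⁆ ≤
      powerClosure p 1 ⁅K, K⁆ := by
  apply comm_closure_le
  · intro k hk m hm
    exact powerClosure_conj_mem (closure_pair_le (K.pow_mem hx _) hy hk) hm
  · intro u hu v hv
    have hw : ⁅x ^ (p ^ 1), y⁆ ∈ powerClosure p 1 ⁅K, K⁆ := comm_pow_mem h1 hx hy
    rcases hu with rfl | rfl <;> rcases hv with rfl | rfl
    · rw [commutatorElement_self]
      exact Subgroup.one_mem _
    · exact hw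
    · rw [← commutatorElement_inv]
      exact Subgroup.inv_mem _ hw
    · rw [commutatorElement_self]
      exact Subgroup.one_mem _

theorem powerClosure_powerClosure_le (hG : IsPGroup p G) (h1 : RegAt p 1 G) (n : ℕ)
    (D : Subgroup G) : powerClosure p n (powerClosure p 1 D) ≤ powerClosure p (n + 1) D := by
  apply (Subgroup.closure_le _).2
  rintro y ⟨w, hw, rfl⟩
  obtain ⟨d, hd, rfl⟩ := (mem_powerClosure_iff hG h1 D w).1 hw
  have e : (d ^ (p ^ 1)) ^ (p ^ n) = d ^ (p ^ (n + 1)) := by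
    rw [← pow_mul, pow_one, ← pow_succ']
  rw [e]
  exact pow_mem_powerClosure hd

/-- The regularity identity at level `1` implies it at all levels. -/
theorem regAt_of_one (hG : IsPGroup p G) (h1 : RegAt p 1 G) : ∀ n, RegAt p n G := by
  intro n
  induction n with
  | zero =>
    intro a b
    exact ⟨1, Subgroup.one_mem _, by simp⟩
  | succ n ih =>
    intro a b
    obtain ⟨K, hK⟩ : ∃ K : Subgroup G, K = Subgroup.closure ({a, b} : Set G) := ⟨_, rfl⟩
    rw [← hK]
    have haK : a ∈ K := hK ▸ mem_closure_pair_left a b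
    have hbK : b ∈ K := hK ▸ mem_closure_pair_right a b
    obtain ⟨c₁', hc₁', e₁⟩ := h1 a b
    rw [← hK] at hc₁'
    obtain ⟨c₁, hc₁, rfl⟩ := (mem_powerClosure_iff hG h1 _ c₁').1 hc₁'
    have hc₁K : c₁ ∈ K := commutator_le_self K hc₁
    obtain ⟨e₁', he₁', eq₁⟩ := ih (a ^ (p ^ 1)) (b ^ (p ^ 1) * c₁ ^ (p ^ 1))
    obtain ⟨e₂', he₂', eq₂⟩ := ih (b ^ (p ^ 1)) (c₁ ^ (p ^ 1))
    have hmem₁ : e₁' ∈ powerClosure p (n + 1) ⁅K, K⁆ :=
      powerClosure_powerClosure_le hG h1 n _ (powerClosure_mono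
        (comm_closure_pow_le h1 haK (K.mul_mem (K.pow_mem hbK _) (K.pow_mem hc₁K _))) he₁')
    have hmem₂ : e₂' ∈ powerClosure p (n + 1) ⁅K, K⁆ :=
      powerClosure_powerClosure_le hG h1 n _ (powerClosure_mono
        (comm_closure_pow_le h1 hbK (K.pow_mem hc₁K _)) he₂')
    refine ⟨c₁ ^ (p ^ (n + 1)) * e₂' * e₁', Subgroup.mul_mem _ (Subgroup.mul_mem _
      (pow_mem_powerClosure hc₁) hmem₂) hmem₁, ?_⟩
    have e4 : ∀ g : G, (g ^ (p ^ 1)) ^ (p ^ n) = g ^ (p ^ (n + 1)) := fun g => by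
      rw [← pow_mul, pow_one, ← pow_succ']
    rw [← e4 (a * b), e₁, mul_assoc, eq₁, eq₂, e4, e4, e4]
    group

end Cfsg.Agent.Helper8.RegP
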