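import Mathlib
import Cfsg.Agent.Helper8.RegularP2
import Cfsg.Agent.Helper8.GroupGES
import Cfsg.Agent.Lead.PGroupFrattini

/-!
# Metacyclic `p`-groups for odd `p`: regularity and commutation of powers
-/

set_option autoImplicit false

namespace Cfsg.Agent.Helper8.Meta

open Cfsg Cfsg.Agent.Helper8 Cfsg.Agent.Helper8.RegP
open scoped commutatorElement

variable {G : Type*} [Group G] [Finite G] {p : ℕ} [Fact p.Prime]

/-- A `p`-element acts on a cyclic normal subgroup of a `p`-group as a power map congruent to `1`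
modulo `p`. -/
theorem conj_comm_eq_pow (hG : IsPGroup p G) (N : Subgroup G) [N.Normal] (hN : IsCyclic N) (g : G)
    {u : G} (hu : u ∈ N) : ∃ w ∈ Subgroup.zpowers u, g * u * g⁻¹ * u⁻¹ = w ^ p := by
  have hp := (Fact.out : p.Prime)
  obtain ⟨a, haN, hgen⟩ := exists_gen_of_isCyclic N hN
  obtain ⟨r, hr⟩ := hgen (g * a * g⁻¹) (Subgroup.Normal.conj_mem inferInstance a haN g)
  have hpow : ∀ j : ℕ, g ^ j * a * (g ^ j)⁻¹ = a ^ (r ^ j) := by
    intro j
    induction j with
    | zero => simp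
    | succ j ih =>
      have h1 : g ^ (j + 1) * a * (g ^ (j + 1))⁻¹ = g * (g ^ j * a * (g ^ j)⁻¹) * g⁻¹ := by
        rw [pow_succ']
        group
      rw [h1, ih, ← conj_zpow, hr, ← zpow_mul, pow_succ']
  obtain ⟨k, hk⟩ := (IsPGroup.iff_orderOf.mp hG) g
  have h1 : a ^ (r ^ (p ^ k)) = a := by
    rw [← hpow, ← hk, pow_orderOf_eq_one]
    simp
  have h2 : (orderOf a : ℤ) ∣ r ^ (p ^ k) - 1 := by
    apply orderOf_dvd_iff_zpow_eq_one.mpr
    rw [zpow_sub, zpow_one, h1, mul_inv_cancel]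
  obtain ⟨k', rfl⟩ := hgen u hu
  by_cases ha1 : a = 1
  · refine ⟨1, Subgroup.one_mem _, ?_⟩
    rw [ha1]
    simp
  · have h3 : p ∣ orderOf a := by
      obtain ⟨m, hm⟩ := (IsPGroup.iff_orderOf.mp hG) a
      rw [hm]
      cases m with
      | zero =>
        exfalso
        rw [pow_zero, orderOf_eq_one_iff] at hm
        exact ha1 hm
      | succ m => exact dvd_pow_self p (Nat.succ_ne_zero m)
    have h4 : (p : ℤ) ∣ r ^ (p ^ k) - 1 := dvd_trans (by exact_mod_cast h3) h2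
    have h5 : (p : ℤ) ∣ r - 1 := by
      have e1 : ((r ^ (p ^ k) - 1 : ℤ) : ZMod p) = 0 :=
        (ZMod.intCast_zmod_eq_zero_iff_dvd _ _).mpr h4
      have e2 : ((r - 1 : ℤ) : ZMod p) = 0 := by
        push_cast at e1 ⊢
        rw [ZMod.pow_card_pow] at e1
        exact e1
      exact (ZMod.intCast_zmod_eq_zero_iff_dvd _ _).mp e2
    obtain ⟨d, hd⟩ := h5
    refine ⟨(a ^ k') ^ d, Subgroup.zpow_mem _ (Subgroup.mem_zpowers _) d, ?_⟩
    have e3 : g * a ^ k' * g⁻¹ = a ^ (r * k') := by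
      rw [← conj_zpow, hr, ← zpow_mul]
    rw [e3, ← zpow_neg, ← zpow_add, ← zpow_mul, ← zpow_natCast, ← zpow_mul]
    congr 1
    have : r = p * d + 1 := by linarith
    rw [this]
    ring

/-- Subgroups of a cyclic normal subgroup of a `p`-group are normal. -/
theorem normal_of_le_cyclic (hG : IsPGroup p G) (N : Subgroup G) [N.Normal] (hN : IsCyclic N)
    {W : Subgroup G} (hW : W ≤ N) : W.Normal := by
  constructor
  intro w hw g
  obtain ⟨w', hw', e⟩ := conj_comm_eq_pow hG N hN g (hW hw)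
  have h1 : g * w * g⁻¹ = w' ^ p * w := by
    rw [← e]
    group
  rw [h1]
  exact W.mul_mem (W.pow_mem ((Subgroup.zpowers_le.mpr hw) hw') p) hw

theorem commutator_le_of_cyclic_quot (N : Subgroup G) [N.Normal] (hQ : IsCyclic (G ⧸ N)) :
    commutator G ≤ N := by
  letI : CommGroup (G ⧸ N) := IsCyclic.commGroup
  have h := Abelianization.commutator_subset_ker (QuotientGroup.mk' N)
  rwa [QuotientGroup.ker_mk'] at h

/-- A finite `p`-group, `p` odd, with a cyclic normal subgroup with cyclic quotient is regular. -/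
theorem regAt_one (hp : p ≠ 2) (hG : IsPGroup p G) (N : Subgroup G) [N.Normal] (hN : IsCyclic N)
    (hQ : IsCyclic (G ⧸ N)) : RegAt p 1 G := by
  intro x y
  have hDN : ⁅Subgroup.closure ({x, y} : Set G), Subgroup.closure ({x, y} : Set G)⁆ ≤ N := by
    refine le_trans (Subgroup.commutator_mono le_top le_top) ?_
    rw [← commutator_def]
    exact commutator_le_of_cyclic_quot N hQ
  have hWN : powerClosure p 1 ⁅Subgroup.closure ({x, y} : Set G),
      Subgroup.closure ({x, y} : Set G)⁆ ≤ N := le_trans (powerClosure_le p 1 _) hDN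
  haveI hWn : (powerClosure p 1 ⁅Subgroup.closure ({x, y} : Set G),
      Subgroup.closure ({x, y} : Set G)⁆).Normal := normal_of_le_cyclic hG N hN hWN
  have hx : x ∈ Subgroup.closure ({x, y} : Set G) := mem_closure_pair_left x y
  have hy : y ∈ Subgroup.closure ({x, y} : Set G) := mem_closure_pair_right x y
  have hzD : ⁅y, x⁆ ∈ ⁅Subgroup.closure ({x, y} : Set G), Subgroup.closure ({x, y} : Set G)⁆ :=
    Subgroup.commutator_mem_commutator hy hx
  have hcent : ∀ g : G, g * ⁅y, x⁆ * g⁻¹ * ⁅y, x⁆⁻¹ ∈ powerClosure p 1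
      ⁅Subgroup.closure ({x, y} : Set G), Subgroup.closure ({x, y} : Set G)⁆ := by
    intro g
    obtain ⟨w, hw, e⟩ := conj_comm_eq_pow hG N hN g (hDN hzD)
    rw [e]
    have hwD := (Subgroup.zpowers_le.mpr hzD) hw
    have h1 := pow_mem_powerClosure (p := p) (n := 1) hwD
    rwa [pow_one] at h1
  have hzp : ⁅y, x⁆ ^ p ∈ powerClosure p 1
      ⁅Subgroup.closure ({x, y} : Set G), Subgroup.closure ({x, y} : Set G)⁆ := by
    have h1 := pow_mem_powerClosure (p := p) (n := 1) hzD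
    rwa [pow_one] at h1
  set W := powerClosure p 1 ⁅Subgroup.closure ({x, y} : Set G),
      Subgroup.closure ({x, y} : Set G)⁆ with hW
  have h1 : QuotientGroup.mk' W y * QuotientGroup.mk' W x =
      QuotientGroup.mk' W ⁅y, x⁆ * QuotientGroup.mk' W x * QuotientGroup.mk' W y := by
    rw [← map_mul, ← map_mul, ← map_mul]
    congr 1
    rw [commutatorElement_def]
    group
  have hcomm : ∀ g : G, QuotientGroup.mk' W ⁅y, x⁆ * QuotientGroup.mk' W g =
      QuotientGroup.mk' W g * QuotientGroup.mk' W ⁅y, x⁆ := by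
    intro g
    have e1 : QuotientGroup.mk' W (g * ⁅y, x⁆ * g⁻¹ * ⁅y, x⁆⁻¹) = 1 :=
      (QuotientGroup.eq_one_iff _).mpr (hcent g)
    rw [map_mul, map_mul, map_mul, map_inv, map_inv] at e1
    have e2 := mul_inv_eq_one.mp e1
    rw [mul_inv_eq_iff_eq_mul] at e2
    exact e2.symm
  have h4 := mul_pow_class2 h1 (hcomm x) (hcomm y) p
  have h5 : QuotientGroup.mk' W ⁅y, x⁆ ^ (p.choose 2) = 1 := by
    have hpp := (Fact.out : p.Prime)
    have hdvd : p ∣ p.choose 2 :=
      hpp.dvd_choose_self (by norm_num) (lt_of_le_of_ne hpp.two_le (Ne.symm hp))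
    obtain ⟨e, he⟩ := hdvd
    have e1 : QuotientGroup.mk' W ⁅y, x⁆ ^ p = 1 := by
      rw [← map_pow]
      exact (QuotientGroup.eq_one_iff _).mpr hzp
    rw [he, pow_mul, e1, one_pow]
  rw [h5, one_mul] at h4
  refine ⟨(x ^ p * y ^ p)⁻¹ * (x * y) ^ p, ?_, ?_⟩
  · have e1 : QuotientGroup.mk' W ((x ^ p * y ^ p)⁻¹ * (x * y) ^ p) = 1 := by
      rw [map_mul, map_inv, map_mul, map_pow, map_pow, map_pow, map_mul, h4]
      group
    exact (QuotientGroup.eq_one_iff _).mp e1
  · rw [pow_one]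
    group

theorem regAt (hp : p ≠ 2) (hG : IsPGroup p G) (N : Subgroup G) [N.Normal] (hN : IsCyclic N)
    (hQ : IsCyclic (G ⧸ N)) (s : ℕ) : RegAt p s G :=
  regAt_of_one hG (regAt_one hp hG N hN hQ) s

/-! ### Commutation of powers in a regular group -/

theorem comm_pow_symm (x y : G) (k : ℕ) : ⁅x, y⁆ ^ k = 1 ↔ ⁅y, x⁆ ^ k = 1 := by
  rw [← commutatorElement_inv y x, inv_pow, inv_eq_one]

theorem commute_pow_iff (hG : IsPGroup p G) {s : ℕ} (hreg : RegAt p s G) (x y : G) :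
    Commute (x ^ (p ^ s)) y ↔ ⁅x, y⁆ ^ (p ^ s) = 1 := by
  have h := reg_pow_eq_iff hG hreg (y * x * y⁻¹) x
  rw [conj_pow] at h
  have e3 : y * x * y⁻¹ * x⁻¹ = ⁅y, x⁆ := by rw [commutatorElement_def]
  rw [e3] at h
  rw [comm_pow_symm, ← h]
  constructor
  · intro hc
    rw [← hc.eq]
    group
  · intro e1
    show x ^ (p ^ s) * y = y * x ^ (p ^ s)
    calc x ^ (p ^ s) * y = (y * x ^ (p ^ s) * y⁻¹) * y := by rw [e1]
      _ = y * x ^ (p ^ s) := by group

theorem commute_pow_pow_iff (hG : IsPGroup p G) (hreg : ∀ s, RegAt p s G) (x y : G) (i j : ℕ) :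
    Commute (x ^ (p ^ i)) (y ^ (p ^ j)) ↔ ⁅x, y⁆ ^ (p ^ (i + j)) = 1 := by
  rw [commute_pow_iff hG (hreg i) x (y ^ (p ^ j)), comm_pow_symm,
    ← commute_pow_iff hG (hreg i) (y ^ (p ^ j)) x, ← pow_mul, ← pow_add, add_comm j i,
    commute_pow_iff hG (hreg (i + j)) y x, comm_pow_symm]

/-- In a `p`-group, an element is a power of each of its powers with exponent prime to `p`. -/
theorem mem_zpowers_pow_of_not_dvd (hG : IsPGroup p G) (t : G) {j : ℕ} (hj : ¬ p ∣ j) :
    t ∈ Subgroup.zpowers (t ^ j) := by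
  have hp := (Fact.out : p.Prime)
  obtain ⟨k, hk⟩ := (IsPGroup.iff_orderOf.mp hG) t
  have hcop : (orderOf t).Coprime j := by
    rw [hk]
    exact Nat.Coprime.pow_left k ((Nat.Prime.coprime_iff_not_dvd hp).mpr hj)
  have h1 : orderOf (t ^ j) = orderOf t := hcop.orderOf_pow
  have h2 : Subgroup.zpowers (t ^ j) ≤ Subgroup.zpowers t :=
    Subgroup.zpowers_le.mpr (Subgroup.pow_mem _ (Subgroup.mem_zpowers t) j)
  have h3 : Subgroup.zpowers (t ^ j) = Subgroup.zpowers t :=
    Subgroup.eq_of_le_of_card_ge h2 (by rw [Nat.card_zpowers, Nat.card_zpowers, h1])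
  rw [h3]
  exact Subgroup.mem_zpowers t

theorem commute_pow_of_not_dvd (hG : IsPGroup p G) (x t : G) {j : ℕ} (hj : ¬ p ∣ j) :
    Commute x (t ^ j) ↔ Commute x t := by
  constructor
  · intro h
    obtain ⟨l, hl⟩ := Subgroup.mem_zpowers_iff.mp (mem_zpowers_pow_of_not_dvd hG t hj)
    rw [← hl]
    exact h.zpow_right l
  · intro h
    exact h.pow_right j

end Cfsg.Agent.Helper8.Meta
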