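import Cfsg.Agent.Helper8.Meta1
import Cfsg.Prelude.Def_OddOrderLocal

/-!
# Metacyclic `p`-groups for odd `p`: generators, commutators and class sizes
-/

set_option autoImplicit false

namespace Cfsg.Agent.Helper8.Meta

open Cfsg Cfsg.Agent.Helper8 Cfsg.Agent.Helper8.RegP
open scoped commutatorElement

variable {G : Type*} [Group G] [Finite G] {p : ℕ} [Fact p.Prime]

/-- Generators of a metacyclic group. -/
structure Gens (N : Subgroup G) (a b : G) : Prop where
  ha : a ∈ N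
  hN : ∀ u ∈ N, ∃ i : ℕ, u = a ^ i
  hb : ∀ g : G, ∃ i j : ℕ, g = a ^ i * b ^ j

theorem exists_gens (N : Subgroup G) [N.Normal] (hN : IsCyclic N) (hQ : IsCyclic (G ⧸ N)) :
    ∃ a b : G, Gens N a b := by
  obtain ⟨a, haN, hgen⟩ := exists_gen_of_isCyclic N hN
  have hgen' : ∀ u ∈ N, ∃ i : ℕ, u = a ^ i := by
    intro u hu
    obtain ⟨k, rfl⟩ := hgen u hu
    have h1 : a ^ k ∈ Submonoid.powers a :=
      mem_powers_iff_mem_zpowers.mpr (Subgroup.zpow_mem_zpowers a k)
    obtain ⟨i, hi⟩ := (Submonoid.mem_powers_iff _ _).mp h1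
    exact ⟨i, hi.symm⟩
  obtain ⟨β, hβ⟩ := IsCyclic.exists_generator (α := G ⧸ N)
  obtain ⟨b, rfl⟩ := QuotientGroup.mk_surjective β
  refine ⟨a, b, haN, hgen', fun g => ?_⟩
  have h1 : (g : G ⧸ N) ∈ Submonoid.powers (b : G ⧸ N) := mem_powers_iff_mem_zpowers.mpr (hβ _)
  obtain ⟨j, hj⟩ := (Submonoid.mem_powers_iff _ _).mp h1
  have h2 : g * (b ^ j)⁻¹ ∈ N := by
    rw [← QuotientGroup.eq_one_iff, QuotientGroup.mk_mul, QuotientGroup.mk_inv,
      QuotientGroup.mk_pow, hj, mul_inv_cancel]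
  obtain ⟨i, hi⟩ := hgen' _ h2
  exact ⟨i, j, by rw [← hi]; group⟩

theorem comm_mem_zpowers (hG : IsPGroup p G) (N : Subgroup G) [N.Normal] (hN : IsCyclic N)
    {a b : G} (hg : Gens N a b) (x y : G) : ⁅x, y⁆ ∈ Subgroup.zpowers ⁅a, b⁆ := by
  have hcN : ⁅a, b⁆ ∈ N := by
    rw [commutatorElement_def]
    have h1 := Subgroup.Normal.conj_mem inferInstance a⁻¹ (N.inv_mem hg.ha) b
    have e : a * b * a⁻¹ * b⁻¹ = a * (b * a⁻¹ * b⁻¹) := by group
    rw [e]
    exact N.mul_mem hg.ha h1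
  haveI : (Subgroup.zpowers ⁅a, b⁆).Normal :=
    normal_of_le_cyclic hG N hN (Subgroup.zpowers_le.mpr hcN)
  have hab : Commute (QuotientGroup.mk' (Subgroup.zpowers ⁅a, b⁆) a)
      (QuotientGroup.mk' (Subgroup.zpowers ⁅a, b⁆) b) := by
    have e1 : QuotientGroup.mk' (Subgroup.zpowers ⁅a, b⁆) ⁅a, b⁆ = 1 :=
      (QuotientGroup.eq_one_iff _).mpr (Subgroup.mem_zpowers _)
    rw [map_commutatorElement, commutatorElement_eq_one_iff_commute] at e1
    exact e1
  obtain ⟨i, j, rfl⟩ := hg.hb x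
  obtain ⟨k, l, rfl⟩ := hg.hb y
  have h2 : Commute (QuotientGroup.mk' (Subgroup.zpowers ⁅a, b⁆) (a ^ i * b ^ j))
      (QuotientGroup.mk' (Subgroup.zpowers ⁅a, b⁆) (a ^ k * b ^ l)) := by
    simp only [map_mul, map_pow]
    exact (((Commute.refl _).pow_pow i k).mul_right (hab.pow_pow i l)).mul_left
      ((hab.symm.pow_pow j k).mul_right ((Commute.refl _).pow_pow j l))
  rw [← QuotientGroup.eq_one_iff, ← QuotientGroup.mk'_apply, map_commutatorElement,
    commutatorElement_eq_one_iff_commute]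
  exact h2

/-- The data of a metacyclic `p`-group, `p` odd, with derived subgroup of order `p ^ n`. -/
structure Setup (p : ℕ) (G : Type*) [Group G] (N : Subgroup G) (a b : G) (n : ℕ) : Prop where
  hG : IsPGroup p G
  hNn : N.Normal
  hNc : IsCyclic N
  gens : Gens N a b
  reg : ∀ s, RegAt p s G
  comm_mem : ∀ x y : G, ⁅x, y⁆ ∈ Subgroup.zpowers ⁅a, b⁆
  ord : orderOf ⁅a, b⁆ = p ^ n
  card : Nat.card (commutator G) = p ^ n

theorem exists_setup (hp : p ≠ 2) (hG : IsPGroup p G) (hmc : IsMetacyclic G) {n : ℕ}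
    (hn : Nat.card (commutator G) = p ^ n) : ∃ (N : Subgroup G) (a b : G), Setup p G N a b n := by
  obtain ⟨N, hNn, hN, hQ⟩ := hmc
  obtain ⟨a, b, hg⟩ := exists_gens N hN hQ
  refine ⟨N, a, b, hG, hNn, hN, hg, regAt hp hG N hN hQ, comm_mem_zpowers hG N hN hg, ?_, hn⟩
  have h1 : commutator G = Subgroup.zpowers ⁅a, b⁆ := by
    apply le_antisymm
    · rw [commutator_def, Subgroup.commutator_le]
      intro x _ y _
      exact comm_mem_zpowers hG N hN hg x y
    · rw [Subgroup.zpowers_le, commutator_def]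
      exact Subgroup.commutator_mem_commutator (Subgroup.mem_top a) (Subgroup.mem_top b)
  rw [← Nat.card_zpowers, ← h1, hn]

theorem exists_setup' (hp : p ≠ 2) (hG : IsPGroup p G) (hmc : IsMetacyclic G) :
    ∃ (n : ℕ) (N : Subgroup G) (a b : G), Setup p G N a b n := by
  obtain ⟨n, hn⟩ := (hG.to_subgroup (commutator G)).exists_card_eq
  exact ⟨n, exists_setup hp hG hmc hn⟩

variable {N : Subgroup G} {a b : G} {n : ℕ}

theorem Setup.ab_iff (S : Setup p G N a b n) (e : ℕ) : ⁅a, b⁆ ^ (p ^ e) = 1 ↔ n ≤ e := by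
  rw [← orderOf_dvd_iff_pow_eq_one, S.ord,
    Nat.pow_dvd_pow_iff_le_right (Fact.out : p.Prime).one_lt]

theorem Setup.comm_pow (S : Setup p G N a b n) (x y : G) {e : ℕ} (h : n ≤ e) :
    ⁅x, y⁆ ^ (p ^ e) = 1 := by
  obtain ⟨l, hl⟩ := Subgroup.mem_zpowers_iff.mp (S.comm_mem x y)
  rw [← hl, ← zpow_natCast, ← zpow_mul, mul_comm, zpow_mul, zpow_natCast, (S.ab_iff e).mpr h,
    one_zpow]

theorem Setup.commute_iff (S : Setup p G N a b n) (x y : G) (i j : ℕ) :
    Commute (x ^ (p ^ i)) (y ^ (p ^ j)) ↔ ⁅x, y⁆ ^ (p ^ (i + j)) = 1 :=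
  commute_pow_pow_iff S.hG S.reg x y i j

/-- Every element is a `p`-th power or has a commutator generating the derived subgroup. -/
theorem Setup.dich (S : Setup p G N a b n) (x : G) :
    (∃ z, x = z ^ p) ∨ (∃ u : G, ∀ e, ⁅u, x⁆ ^ (p ^ e) = 1 ↔ n ≤ e) := by
  obtain ⟨i, j, rfl⟩ := S.gens.hb x
  by_cases hj : p ∣ j
  · by_cases hi : p ∣ i
    · left
      obtain ⟨i', rfl⟩ := hi
      obtain ⟨j', rfl⟩ := hj
      obtain ⟨z, -, hz⟩ := reg_pow_mul_pow S.hG (S.reg 1) (a ^ i') (b ^ j')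
      refine ⟨z, ?_⟩
      rw [pow_one] at hz
      rw [← hz, ← pow_mul, ← pow_mul, mul_comm i' p, mul_comm j' p]
    · right
      refine ⟨b, fun e => ?_⟩
      rw [← S.ab_iff e, comm_pow_symm a b, ← commute_pow_iff S.hG (S.reg e) b a,
        ← commute_pow_iff S.hG (S.reg e) b (a ^ i * b ^ j),
        ← commute_pow_of_not_dvd S.hG (b ^ (p ^ e)) a hi]
      have hbb : Commute (b ^ (p ^ e)) (b ^ j) := (Commute.refl b).pow_pow _ _
      constructor
      · intro h
        have h1 := h.mul_right hbb.inv_right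
        simpa using h1
      · intro h
        exact h.mul_right hbb
  · right
    refine ⟨a, fun e => ?_⟩
    rw [← S.ab_iff e, ← commute_pow_iff S.hG (S.reg e) a b,
      ← commute_pow_iff S.hG (S.reg e) a (a ^ i * b ^ j),
      ← commute_pow_of_not_dvd S.hG (a ^ (p ^ e)) b hj]
    have haa : Commute (a ^ (p ^ e)) (a ^ i) := (Commute.refl a).pow_pow _ _
    constructor
    · intro h
      have h1 := haa.inv_right.mul_right h
      simpa using h1
    · intro h
      exact haa.mul_right h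

theorem Setup.index_le (S : Setup p G N a b n) (x : G) {s : ℕ} (hs : s ≤ n) :
    (Subgroup.centralizer ({x ^ (p ^ s)} : Set G)).index ≤ p ^ (n - s) := by
  have hp := (Fact.out : p.Prime)
  have key : ∀ y : G, ∃ k : ℕ, k < p ^ (n - s) ∧
      y * x ^ (p ^ s) * y⁻¹ = (⁅a, b⁆ ^ k * x) ^ (p ^ s) := by
    intro y
    have h1 : ⁅y, x⁆ ∈ Submonoid.powers ⁅a, b⁆ := mem_powers_iff_mem_zpowers.mpr (S.comm_mem y x)
    obtain ⟨l, hl⟩ := (Submonoid.mem_powers_iff _ _).mp h1
    obtain ⟨r, d, hr, hld⟩ : ∃ r d, r < p ^ (n - s) ∧ l = r + p ^ (n - s) * d :=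
      ⟨l % p ^ (n - s), l / p ^ (n - s), Nat.mod_lt _ (pow_pos hp.pos _),
        (Nat.mod_add_div l _).symm⟩
    subst hld
    refine ⟨r, hr, ?_⟩
    have e1 : y * x ^ (p ^ s) * y⁻¹ = (⁅a, b⁆ ^ (r + p ^ (n - s) * d) * x) ^ (p ^ s) := by
      rw [← conj_pow, hl, commutatorElement_def]
      congr 1
      group
    rw [e1, reg_pow_eq_iff S.hG (S.reg s)]
    have e2 : ⁅a, b⁆ ^ (r + p ^ (n - s) * d) * x * (⁅a, b⁆ ^ r * x)⁻¹ =
        ⁅a, b⁆ ^ (p ^ (n - s) * d) := by
      rw [pow_add]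
      group
    rw [e2, ← pow_mul, mul_comm (p ^ (n - s)) d, mul_assoc, ← pow_add, Nat.sub_add_cancel hs,
      mul_comm, pow_mul, (S.ab_iff n).mpr le_rfl, one_pow]
  choose f hf1 hf2 using key
  have hinj : Function.Injective (fun q : G ⧸ Subgroup.centralizer ({x ^ (p ^ s)} : Set G) =>
      (⟨f q.out, hf1 _⟩ : Fin (p ^ (n - s)))) := by
    intro q1 q2 h
    have h' : f q1.out = f q2.out := by simpa using h
    have e : q1.out * x ^ (p ^ s) * q1.out⁻¹ = q2.out * x ^ (p ^ s) * q2.out⁻¹ := by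
      rw [hf2, hf2, h']
    have e2 : q1.out⁻¹ * q2.out ∈ Subgroup.centralizer ({x ^ (p ^ s)} : Set G) := by
      rw [Subgroup.mem_centralizer_singleton_iff]
      calc q1.out⁻¹ * q2.out * x ^ (p ^ s)
          = q1.out⁻¹ * (q2.out * x ^ (p ^ s) * q2.out⁻¹) * q2.out := by group
        _ = q1.out⁻¹ * (q1.out * x ^ (p ^ s) * q1.out⁻¹) * q2.out := by rw [e]
        _ = x ^ (p ^ s) * (q1.out⁻¹ * q2.out) := by group
    have e3 : (q1.out : G ⧸ Subgroup.centralizer ({x ^ (p ^ s)} : Set G)) = q2.out :=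
      QuotientGroup.eq.mpr e2
    rwa [QuotientGroup.out_eq', QuotientGroup.out_eq'] at e3
  have h2 := Nat.card_le_card_of_injective _ hinj
  rw [Nat.card_fin] at h2
  exact h2

theorem normal_subgroupOf_zpowers (T : Subgroup G) (u : G) :
    (T.subgroupOf (Subgroup.zpowers u)).Normal := by
  constructor
  intro m hm g
  have hc : g * m = m * g := by
    obtain ⟨i, hi⟩ := Subgroup.mem_zpowers_iff.mp g.2
    obtain ⟨j, hj⟩ := Subgroup.mem_zpowers_iff.mp m.2
    apply Subtype.ext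
    simp only [Subgroup.coe_mul]
    rw [← hi, ← hj]
    exact (Commute.zpow_zpow_self u i j).eq
  have h1 : g * m * g⁻¹ = m := by
    rw [hc]
    group
  rw [h1]
  exact hm

theorem Setup.le_index (S : Setup p G N a b n) (x u : G)
    (hu : ∀ e, ⁅u, x⁆ ^ (p ^ e) = 1 ↔ n ≤ e) {s : ℕ} (hs : s ≤ n) :
    p ^ (n - s) ≤ (Subgroup.centralizer ({x ^ (p ^ s)} : Set G)).index := by
  have hp := (Fact.out : p.Prime)
  have h1 : (Subgroup.centralizer ({x ^ (p ^ s)} : Set G)).relIndex (Subgroup.zpowers u) ≤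
      (Subgroup.centralizer ({x ^ (p ^ s)} : Set G)).index := by
    have h0 := Subgroup.relIndex_le_of_le_right
      (H := Subgroup.centralizer ({x ^ (p ^ s)} : Set G)) (le_top : Subgroup.zpowers u ≤ ⊤)
      (by rw [Subgroup.relIndex_top_right]; exact Subgroup.index_ne_zero_of_finite)
    rwa [Subgroup.relIndex_top_right] at h0
  have h2 : (Subgroup.centralizer ({x ^ (p ^ s)} : Set G)).relIndex (Subgroup.zpowers u) ∣
      Nat.card (Subgroup.zpowers u) := Subgroup.relIndex_dvd_card _ _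
  obtain ⟨k, hk⟩ := (IsPGroup.iff_orderOf.mp S.hG) u
  rw [Nat.card_zpowers, hk] at h2
  obtain ⟨f, -, hf⟩ := (Nat.dvd_prime_pow hp).mp h2
  have h3 : u ^ (p ^ f) ∈ Subgroup.centralizer ({x ^ (p ^ s)} : Set G) := by
    haveI := normal_subgroupOf_zpowers (Subgroup.centralizer ({x ^ (p ^ s)} : Set G)) u
    have h0 := Subgroup.pow_index_mem
      ((Subgroup.centralizer ({x ^ (p ^ s)} : Set G)).subgroupOf (Subgroup.zpowers u))
      (⟨u, Subgroup.mem_zpowers u⟩ : Subgroup.zpowers u)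
    have e0 : ((Subgroup.centralizer ({x ^ (p ^ s)} : Set G)).subgroupOf
        (Subgroup.zpowers u)).index = p ^ f := hf
    rw [e0] at h0
    exact Subgroup.mem_subgroupOf.mp h0
  have h4 : Commute (u ^ (p ^ f)) (x ^ (p ^ s)) := by
    rw [Subgroup.mem_centralizer_singleton_iff] at h3
    exact h3
  rw [S.commute_iff, hu] at h4
  calc p ^ (n - s) ≤ p ^ f := Nat.pow_le_pow_right hp.pos (by omega)
    _ = (Subgroup.centralizer ({x ^ (p ^ s)} : Set G)).relIndex (Subgroup.zpowers u) := hf.symm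
    _ ≤ _ := h1

theorem Setup.index_eq (S : Setup p G N a b n) (x u : G)
    (hu : ∀ e, ⁅u, x⁆ ^ (p ^ e) = 1 ↔ n ≤ e) {s : ℕ} (hs : s ≤ n) :
    (Subgroup.centralizer ({x ^ (p ^ s)} : Set G)).index = p ^ (n - s) :=
  le_antisymm (S.index_le x hs) (S.le_index x u hu hs)

/-- The subgroup generated by the `p ^ s`-th powers consists of `p ^ s`-th powers. -/
theorem Setup.mem_agemo_iff (S : Setup p G N a b n) (s : ℕ) (g : G) :
    g ∈ Subgroup.closure {x : G | ∃ y : G, y ^ p ^ s = x} ↔ ∃ y : G, g = y ^ (p ^ s) := by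
  have h1 : {x : G | ∃ y : G, y ^ p ^ s = x} = {y : G | ∃ x ∈ (⊤ : Subgroup G), y = x ^ (p ^ s)} := by
    ext x
    simp only [Set.mem_setOf_eq, Subgroup.mem_top, true_and]
    exact ⟨fun ⟨y, hy⟩ => ⟨y, hy.symm⟩, fun ⟨y, hy⟩ => ⟨y, hy.symm⟩⟩
  have h2 := mem_powerClosure_iff S.hG (S.reg s) ⊤ g
  unfold powerClosure at h2
  rw [h1, h2]
  simp

/-- Depth dichotomy: `g` is a `p ^ s`-th power or its class has size `p ^ (n - s')` for some
`s' < s`. -/
theorem Setup.depth (S : Setup p G N a b n) (g : G) : ∀ s : ℕ, s ≤ n →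
    (∃ y : G, g = y ^ (p ^ s)) ∨
      ∃ s' : ℕ, s' < s ∧ (Subgroup.centralizer ({g} : Set G)).index = p ^ (n - s') := by
  intro s
  induction s with
  | zero => intro _; exact Or.inl ⟨g, by simp⟩
  | succ s ih =>
    intro hs
    rcases ih (by omega) with ⟨y, rfl⟩ | ⟨s', hs', h⟩
    · rcases S.dich y with ⟨z, rfl⟩ | ⟨u, hu⟩
      · left
        exact ⟨z, by rw [← pow_mul, ← pow_succ']⟩
      · right
        exact ⟨s, Nat.lt_succ_self s, S.index_eq y u hu (by omega)⟩
    · right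
      exact ⟨s', by omega, h⟩

/-- Class sizes and power subgroups (S3882). -/
theorem Setup.agemo_iff (S : Setup p G N a b n) {s : ℕ} (hs : s ≤ n) (g : G) :
    g ∈ Subgroup.closure {x : G | ∃ y : G, y ^ p ^ s = x} ↔
      (Subgroup.centralizer ({g} : Set G)).index ≤ p ^ (n - s) := by
  have hp := (Fact.out : p.Prime)
  rw [S.mem_agemo_iff]
  constructor
  · rintro ⟨y, rfl⟩
    exact S.index_le y hs
  · intro h
    rcases S.depth g s hs with h1 | ⟨s', hs', h2⟩
    · exact h1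
    · exfalso
      rw [h2] at h
      have h3 := (Nat.pow_le_pow_iff_right hp.one_lt).mp h
      omega

theorem Setup.agemo_eq_center (S : Setup p G N a b n) :
    Subgroup.closure {x : G | ∃ y : G, y ^ p ^ n = x} = Subgroup.center G := by
  ext g
  rw [S.agemo_iff le_rfl, Nat.sub_self, pow_zero]
  have h0 : (Subgroup.centralizer ({g} : Set G)).index ≠ 0 := Subgroup.index_ne_zero_of_finite
  constructor
  · intro h
    have h1 : (Subgroup.centralizer ({g} : Set G)).index = 1 := by omega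
    rw [Subgroup.index_eq_one, Subgroup.centralizer_eq_top_iff_subset] at h1
    exact h1 (Set.mem_singleton g)
  · intro h
    have h1 : (Subgroup.centralizer ({g} : Set G)) = ⊤ := by
      rw [Subgroup.centralizer_eq_top_iff_subset]
      intro x hx
      rw [Set.mem_singleton_iff.mp hx]
      exact h
    rw [h1, Subgroup.index_top]

end Cfsg.Agent.Helper8.Meta
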