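import Cfsg.Agent.Helper8.Meta2

/-!
# Metacyclic `p`-groups for odd `p`: the center, the Frattini subgroup, abelian centralizers
-/

set_option autoImplicit false

namespace Cfsg.Agent.Helper8.Meta

open Cfsg Cfsg.Agent.Helper8 Cfsg.Agent.Helper8.RegP
open scoped commutatorElement

variable {G : Type*} [Group G] [Finite G] {p : ℕ} [Fact p.Prime]
variable {N : Subgroup G} {a b : G} {n : ℕ}

theorem Setup.ab_mem (S : Setup p G N a b n) : ⁅a, b⁆ ∈ N := by
  haveI := S.hNn
  rw [commutatorElement_def]
  have h1 := Subgroup.Normal.conj_mem inferInstance a⁻¹ (N.inv_mem S.gens.ha) b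
  have e : a * b * a⁻¹ * b⁻¹ = a * (b * a⁻¹ * b⁻¹) := by group
  rw [e]
  exact N.mul_mem S.gens.ha h1

theorem Setup.comm_mem_N (S : Setup p G N a b n) (x y : G) : ⁅x, y⁆ ∈ N :=
  (Subgroup.zpowers_le.mpr S.ab_mem) (S.comm_mem x y)

/-- `|G : Z(G)| = |G'|²`. -/
theorem Setup.center_index (S : Setup p G N a b n) :
    (Subgroup.center G).index = p ^ (2 * n) := by
  have hp := (Fact.out : p.Prime)
  have hCidx : (Subgroup.centralizer ({a} : Set G)).index = p ^ n := by
    have h := S.index_eq a b (fun e => by rw [comm_pow_symm]; exact S.ab_iff e) (Nat.zero_le n)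
    simpa using h
  have hmemC : ∀ y : G, y ∈ Subgroup.centralizer ({a} : Set G) ↔ Commute y a :=
    fun y => Subgroup.mem_centralizer_singleton_iff
  have hcz : ∀ x y : G, ∀ z ∈ Subgroup.centralizer ({a} : Set G), Commute z ⁅x, y⁆ := by
    intro x y z hz
    obtain ⟨i, hi⟩ := S.gens.hN _ (S.comm_mem_N x y)
    rw [hi]
    exact ((hmemC z).mp hz).pow_right i
  let φ : Subgroup.centralizer ({a} : Set G) →* G := MonoidHom.mk' (fun y => ⁅(y : G), b⁆) (by
    intro y y'
    have e1 : ⁅(y : G) * (y' : G), b⁆ = (y : G) * ⁅(y' : G), b⁆ * (y : G)⁻¹ * ⁅(y : G), b⁆ := by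
      simp only [commutatorElement_def]
      group
    have e2 : (y : G) * ⁅(y' : G), b⁆ * (y : G)⁻¹ = ⁅(y' : G), b⁆ := by
      rw [(hcz _ _ y y.2).eq]
      group
    rw [Subgroup.coe_mul, e1, e2]
    obtain ⟨i, hi⟩ := Subgroup.mem_zpowers_iff.mp (S.comm_mem (y' : G) b)
    obtain ⟨j, hj⟩ := Subgroup.mem_zpowers_iff.mp (S.comm_mem (y : G) b)
    rw [← hi, ← hj]
    exact (Commute.zpow_zpow_self _ i j).eq)
  have hφ : ∀ y : Subgroup.centralizer ({a} : Set G), φ y = ⁅(y : G), b⁆ := fun y => rfl
  have hker : φ.ker = (Subgroup.center G).subgroupOf (Subgroup.centralizer ({a} : Set G)) := by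
    ext y
    rw [MonoidHom.mem_ker, Subgroup.mem_subgroupOf, Subgroup.mem_center_iff, hφ,
      commutatorElement_eq_one_iff_commute]
    constructor
    · intro hb g
      obtain ⟨i, j, rfl⟩ := S.gens.hb g
      have ha : Commute (y : G) a := (hmemC y).mp y.2
      exact ((ha.pow_right i).mul_right (hb.pow_right j)).symm.eq
    · intro h
      exact (h b).symm
  have hrange : Nat.card φ.range = p ^ n := by
    have h1 : φ.range = Subgroup.zpowers ⁅a, b⁆ := by
      apply le_antisymm
      · rintro _ ⟨y, rfl⟩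
        exact S.comm_mem _ _
      · rw [Subgroup.zpowers_le]
        exact ⟨⟨a, (hmemC a).mpr (Commute.refl a)⟩, rfl⟩
    rw [h1, Nat.card_zpowers, S.ord]
  have hZC : Subgroup.center G ≤ Subgroup.centralizer ({a} : Set G) :=
    fun z hz => (hmemC z).mpr (Subgroup.mem_center_iff.mp hz a).symm
  have h1 : Nat.card (Subgroup.centralizer ({a} : Set G)) =
      Nat.card (Subgroup.center G) * p ^ n := by
    have h2 := Subgroup.card_mul_index φ.ker
    rw [Subgroup.index_ker, hrange, hker] at h2
    rw [← h2]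
    congr 1
    exact Nat.card_congr (Subgroup.subgroupOfEquivOfLe hZC).toEquiv
  have h3 := Subgroup.card_mul_index (Subgroup.centralizer ({a} : Set G))
  have h4 := Subgroup.card_mul_index (Subgroup.center G)
  rw [hCidx, h1] at h3
  have h5 : Nat.card (Subgroup.center G) * (Subgroup.center G).index =
      Nat.card (Subgroup.center G) * p ^ (2 * n) := by
    rw [h4, ← h3]
    ring
  exact Nat.eq_of_mul_eq_mul_left Nat.card_pos h5

theorem Setup.card_eq (S : Setup p G N a b n) :
    Nat.card G = Nat.card (Subgroup.center G) * p ^ (2 * n) := by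
  rw [← S.center_index]
  exact (Subgroup.card_mul_index _).symm

theorem Setup.not_comm_of_pos (S : Setup p G N a b n) (hn : 1 ≤ n) : ¬ Commute a b := by
  intro h
  have h1 := (S.ab_iff 0).mp (by
    rw [pow_zero, pow_one]
    exact commutatorElement_eq_one_iff_commute.mpr h)
  omega

theorem Setup.b_not_mem (S : Setup p G N a b n) (hn : 1 ≤ n) : b ∉ N := by
  intro hb
  obtain ⟨i, hi⟩ := S.gens.hN b hb
  apply S.not_comm_of_pos hn
  rw [hi]
  exact (Commute.refl a).pow_right i

theorem Setup.a_ne_one (S : Setup p G N a b n) (hn : 1 ≤ n) : a ≠ 1 := by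
  intro h
  apply S.not_comm_of_pos hn
  rw [h]
  exact Commute.one_left b

theorem Setup.dvd_of_b_zpow_mem (S : Setup p G N a b n) (hn : 1 ≤ n) {t : ℤ} (ht : b ^ t ∈ N) :
    (p : ℤ) ∣ t := by
  haveI := S.hNn
  have h1 : ((b : G ⧸ N)) ^ t = 1 := by
    rw [← QuotientGroup.mk_zpow]
    exact (QuotientGroup.eq_one_iff _).mpr ht
  have h2 := orderOf_dvd_iff_zpow_eq_one.mpr h1
  have hQ : IsPGroup p (G ⧸ N) := S.hG.to_quotient N
  obtain ⟨k, hk⟩ := (IsPGroup.iff_orderOf.mp hQ) (b : G ⧸ N)
  have hk1 : k ≠ 0 := by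
    rintro rfl
    rw [pow_zero, orderOf_eq_one_iff, QuotientGroup.eq_one_iff] at hk
    exact S.b_not_mem hn hk
  rw [hk] at h2
  exact dvd_trans (by exact_mod_cast dvd_pow_self p hk1) h2

theorem Setup.dvd_of_commute (S : Setup p G N a b n) (hn : 1 ≤ n) {e : ℕ}
    (h : Commute (a ^ e) b) : p ∣ e := by
  by_contra hne
  exact S.not_comm_of_pos hn ((commute_pow_of_not_dvd S.hG b a hne).mp h.symm).symm

theorem Setup.dvd_of_pow_mem (S : Setup p G N a b n) (hn : 1 ≤ n) {i : ℕ}
    (h : a ^ i ∈ Subgroup.zpowers (a ^ p)) : p ∣ i := by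
  by_contra hne
  have h1 : a ∈ Subgroup.zpowers (a ^ p) :=
    (Subgroup.zpowers_le.mpr h) (mem_zpowers_pow_of_not_dvd S.hG a hne)
  obtain ⟨t, ht⟩ := Subgroup.mem_zpowers_iff.mp h1
  have h2 : a ^ ((p : ℤ) * t - 1) = 1 := by
    rw [zpow_sub, zpow_mul, zpow_natCast, ht, zpow_one, mul_inv_cancel]
  have h3 := orderOf_dvd_iff_zpow_eq_one.mpr h2
  obtain ⟨m, hm⟩ := (IsPGroup.iff_orderOf.mp S.hG) a
  have hm1 : m ≠ 0 := by
    rintro rfl
    rw [pow_zero, orderOf_eq_one_iff] at hm
    exact S.a_ne_one hn hm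
  rw [hm] at h3
  have h4 : (p : ℤ) ∣ (p : ℤ) * t - 1 := dvd_trans (by exact_mod_cast dvd_pow_self p hm1) h3
  have h5 : (p : ℤ) ∣ 1 := by
    have h6 := dvd_sub (dvd_mul_right (p : ℤ) t) h4
    simpa using h6
  have h7 : p ∣ 1 := by exact_mod_cast h5
  exact (Fact.out : p.Prime).one_lt.ne' (Nat.dvd_one.mp h7)

/-- Elements of the Frattini subgroup are `p`-th powers (nonabelian case). -/
theorem Setup.frattini_sub (S : Setup p G N a b n) (hn : 1 ≤ n) {g : G} (hg : g ∈ frattini G) :
    ∃ z, g = z ^ p := by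
  have hp := (Fact.out : p.Prime)
  haveI := S.hNn
  obtain ⟨i, j, rfl⟩ := S.gens.hb g
  by_cases hj : p ∣ j
  · by_cases hi : p ∣ i
    · obtain ⟨i', rfl⟩ := hi
      obtain ⟨j', rfl⟩ := hj
      obtain ⟨z, -, hz⟩ := reg_pow_mul_pow S.hG (S.reg 1) (a ^ i') (b ^ j')
      refine ⟨z, ?_⟩
      rw [pow_one] at hz
      rw [← hz, ← pow_mul, ← pow_mul, mul_comm i' p, mul_comm j' p]
    · exfalso
      haveI : (Subgroup.zpowers (a ^ p)).Normal :=
        normal_of_le_cyclic S.hG N S.hNc (Subgroup.zpowers_le.mpr (N.pow_mem S.gens.ha p))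
      have hcrit : ∀ i' j' : ℕ,
          a ^ i' * b ^ j' ∈ Subgroup.zpowers (a ^ p) ⊔ Subgroup.zpowers b → p ∣ i' := by
        intro i' j' hmem
        obtain ⟨y, hy, z, hz, e⟩ := Subgroup.mem_sup_of_normal_left.mp hmem
        obtain ⟨t, rfl⟩ := Subgroup.mem_zpowers_iff.mp hz
        have e1 : y⁻¹ * a ^ i' = b ^ t * (b ^ j')⁻¹ := by
          rw [eq_mul_inv_iff_mul_eq, mul_assoc, ← e]
          group
        have hyN : y ∈ N := (Subgroup.zpowers_le.mpr (N.pow_mem S.gens.ha p)) hy
        have hνN : y⁻¹ * a ^ i' ∈ N := N.mul_mem (N.inv_mem hyN) (N.pow_mem S.gens.ha i')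
        obtain ⟨e', he'⟩ := S.gens.hN _ hνN
        have hcomm : Commute (a ^ e') b := by
          rw [← he', e1]
          exact ((Commute.refl b).zpow_left t).mul_left ((Commute.refl b).pow_left j').inv_left
        obtain ⟨e'', rfl⟩ := S.dvd_of_commute hn hcomm
        apply S.dvd_of_pow_mem hn
        have e2 : a ^ i' = y * (a ^ p) ^ e'' := by
          rw [← pow_mul, ← he']
          group
        rw [e2]
        exact Subgroup.mul_mem _ hy (Subgroup.pow_mem _ (Subgroup.mem_zpowers _) e'')
      have hco : IsCoatom (Subgroup.zpowers (a ^ p) ⊔ Subgroup.zpowers b) := by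
        constructor
        · intro htop
          have h1 : a ^ 1 * b ^ 0 ∈ Subgroup.zpowers (a ^ p) ⊔ Subgroup.zpowers b := by
            rw [htop]
            trivial
          exact hp.one_lt.ne' (Nat.dvd_one.mp (hcrit 1 0 h1))
        · intro K hK
          obtain ⟨x, hxK, hxM⟩ := SetLike.exists_of_lt hK
          obtain ⟨i', j', rfl⟩ := S.gens.hb x
          have hbK : b ∈ K := hK.le (Subgroup.mem_sup_right (Subgroup.mem_zpowers b))
          have hi' : ¬ p ∣ i' := by
            rintro ⟨c, rfl⟩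
            apply hxM
            exact Subgroup.mul_mem _
              (Subgroup.mem_sup_left (by
                rw [pow_mul]
                exact Subgroup.pow_mem _ (Subgroup.mem_zpowers _) c))
              (Subgroup.mem_sup_right (Subgroup.pow_mem _ (Subgroup.mem_zpowers b) j'))
          have haiK : a ^ i' ∈ K := by
            have h1 := K.mul_mem hxK (K.inv_mem (K.pow_mem hbK j'))
            simpa using h1
          have haK : a ∈ K :=
            (Subgroup.zpowers_le.mpr haiK) (mem_zpowers_pow_of_not_dvd S.hG a hi')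
          rw [eq_top_iff]
          intro g _
          obtain ⟨i2, j2, rfl⟩ := S.gens.hb g
          exact K.mul_mem (K.pow_mem haK i2) (K.pow_mem hbK j2)
      exact hi (hcrit i j (frattini_le_coatom hco hg))
  · exfalso
    have hcrit : ∀ i' j' : ℕ, a ^ i' * b ^ j' ∈ N ⊔ Subgroup.zpowers (b ^ p) → p ∣ j' := by
      intro i' j' hmem
      obtain ⟨y, hy, z, hz, e⟩ := Subgroup.mem_sup_of_normal_left.mp hmem
      obtain ⟨t, rfl⟩ := Subgroup.mem_zpowers_iff.mp hz
      have h1 : b ^ ((j' : ℤ) - p * t) ∈ N := by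
        have e1 : b ^ ((j' : ℤ) - p * t) = (a ^ i')⁻¹ * y := by
          rw [zpow_sub, zpow_natCast, zpow_mul, zpow_natCast, mul_inv_eq_iff_eq_mul, mul_assoc, e]
          group
        rw [e1]
        exact N.mul_mem (N.inv_mem (N.pow_mem S.gens.ha i')) hy
      have h2 := S.dvd_of_b_zpow_mem hn h1
      have h3 : (p : ℤ) ∣ (j' : ℤ) := by
        have h4 := dvd_add h2 (dvd_mul_right (p : ℤ) t)
        simpa using h4
      exact_mod_cast h3
    have hco : IsCoatom (N ⊔ Subgroup.zpowers (b ^ p)) := by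
      constructor
      · intro htop
        have h1 : a ^ 0 * b ^ 1 ∈ N ⊔ Subgroup.zpowers (b ^ p) := by
          rw [htop]
          trivial
        exact hp.one_lt.ne' (Nat.dvd_one.mp (hcrit 0 1 h1))
      · intro K hK
        obtain ⟨x, hxK, hxM⟩ := SetLike.exists_of_lt hK
        obtain ⟨i', j', rfl⟩ := S.gens.hb x
        have haK : a ∈ K := hK.le (Subgroup.mem_sup_left S.gens.ha)
        have hj' : ¬ p ∣ j' := by
          rintro ⟨c, rfl⟩
          apply hxM
          exact Subgroup.mul_mem _ (Subgroup.mem_sup_left (N.pow_mem S.gens.ha i'))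
            (Subgroup.mem_sup_right (by
              rw [pow_mul]
              exact Subgroup.pow_mem _ (Subgroup.mem_zpowers _) c))
        have hbjK : b ^ j' ∈ K := by
          have h1 := K.mul_mem (K.inv_mem (K.pow_mem haK i')) hxK
          simpa using h1
        have hbK : b ∈ K :=
          (Subgroup.zpowers_le.mpr hbjK) (mem_zpowers_pow_of_not_dvd S.hG b hj')
        rw [eq_top_iff]
        intro g _
        obtain ⟨i2, j2, rfl⟩ := S.gens.hb g
        exact K.mul_mem (K.pow_mem haK i2) (K.pow_mem hbK j2)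
    exact hj (hcrit i j (frattini_le_coatom hco hg))

/-- An element lies outside the Frattini subgroup iff its centralizer is abelian (S3883). -/
theorem Setup.comm_centralizer_iff (S : Setup p G N a b n) (hn : 1 ≤ n) (g : G) :
    g ∉ frattini G ↔ IsMulCommutative ↥(Subgroup.centralizer ({g} : Set G)) := by
  have hp := (Fact.out : p.Prime)
  constructor
  · intro hg
    rcases S.dich g with ⟨z, rfl⟩ | ⟨u, hu⟩
    · exact absurd (Cfsg.Agent.Lead.pow_mem_frattini_of_isPGroup p S.hG z) hg
    · have hidx : (Subgroup.centralizer ({g} : Set G)).index = p ^ n := by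
        have h := S.index_eq g u hu (Nat.zero_le n)
        simpa using h
      have hcardT : Nat.card (Subgroup.centralizer ({g} : Set G)) =
          Nat.card (Subgroup.center G) * p ^ n := by
        have h1 := Subgroup.card_mul_index (Subgroup.centralizer ({g} : Set G))
        rw [hidx, S.card_eq] at h1
        have h2 : Nat.card (Subgroup.centralizer ({g} : Set G)) * p ^ n =
            (Nat.card (Subgroup.center G) * p ^ n) * p ^ n := by
          rw [h1]
          ring
        exact Nat.eq_of_mul_eq_mul_right (pow_pos hp.pos n) h2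
      have hmemT : ∀ (z : Subgroup.center G) (l : ℕ),
          (z : G) * g ^ l ∈ Subgroup.centralizer ({g} : Set G) := by
        intro z l
        rw [Subgroup.mem_centralizer_singleton_iff]
        have hz : Commute (z : G) g := (Subgroup.mem_center_iff.mp z.2 g).symm
        exact (hz.mul_left ((Commute.refl g).pow_left l)).eq
      have hkey : ∀ d : ℕ, 0 < d → d < p ^ n → g ^ d ∉ Subgroup.center G := by
        intro d hd0 hdn hmem
        obtain ⟨e, w, hw, rfl⟩ := Nat.exists_eq_pow_mul_and_not_dvd hd0.ne' p hp.ne_one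
        have h1 : g ^ (p ^ e) ∈ Subgroup.center G := by
          have h2 : g ^ (p ^ e) ∈ Subgroup.zpowers ((g ^ (p ^ e)) ^ w) :=
            mem_zpowers_pow_of_not_dvd S.hG _ hw
          rw [← pow_mul] at h2
          exact (Subgroup.zpowers_le.mpr hmem) h2
        have h3 : Commute (g ^ (p ^ e)) (u ^ (p ^ 0)) := by
          rw [pow_zero, pow_one]
          exact (Subgroup.mem_center_iff.mp h1 u).symm
        rw [S.commute_iff, add_zero, comm_pow_symm, hu] at h3
        have hw0 : 0 < w := Nat.pos_of_ne_zero (fun h0 => hw (h0 ▸ dvd_zero p))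
        have h4 : p ^ e < p ^ n := lt_of_le_of_lt (Nat.le_mul_of_pos_right _ hw0) hdn
        have h5 := (Nat.pow_lt_pow_iff_right hp.one_lt).mp h4
        omega
      have hinj : Function.Injective (fun q : Subgroup.center G × Fin (p ^ n) =>
          (⟨(q.1 : G) * g ^ (q.2 : ℕ), hmemT q.1 q.2⟩ : Subgroup.centralizer ({g} : Set G))) := by
        rintro ⟨z1, l1⟩ ⟨z2, l2⟩ h
        have h' : (z1 : G) * g ^ (l1 : ℕ) = (z2 : G) * g ^ (l2 : ℕ) := by
          simpa using congrArg Subtype.val h
        have hl : (l1 : ℕ) = l2 := by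
          by_contra hne
          rcases Nat.lt_or_gt_of_ne hne with hlt | hlt
          · apply hkey ((l2 : ℕ) - l1) (by omega) (by have := l2.2; omega)
            have e0 : g ^ (l2 : ℕ) = g ^ ((l2 : ℕ) - l1) * g ^ (l1 : ℕ) := by
              rw [← pow_add, Nat.sub_add_cancel hlt.le]
            have e : g ^ ((l2 : ℕ) - l1) = (z2 : G)⁻¹ * z1 := by
              rw [e0] at h'
              have h'' := mul_right_cancel (show (z1 : G) * g ^ (l1 : ℕ) =
                ((z2 : G) * g ^ ((l2 : ℕ) - l1)) * g ^ (l1 : ℕ) by rw [h']; group)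
              rw [h'']
              group
            rw [e]
            exact Subgroup.mul_mem _ (Subgroup.inv_mem _ z2.2) z1.2
          · apply hkey ((l1 : ℕ) - l2) (by omega) (by have := l1.2; omega)
            have e0 : g ^ (l1 : ℕ) = g ^ ((l1 : ℕ) - l2) * g ^ (l2 : ℕ) := by
              rw [← pow_add, Nat.sub_add_cancel hlt.le]
            have e : g ^ ((l1 : ℕ) - l2) = (z1 : G)⁻¹ * z2 := by
              rw [e0] at h'
              have h'' := mul_right_cancel (show (z2 : G) * g ^ (l2 : ℕ) =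
                ((z1 : G) * g ^ ((l1 : ℕ) - l2)) * g ^ (l2 : ℕ) by rw [← h']; group)
              rw [h'']
              group
            rw [e]
            exact Subgroup.mul_mem _ (Subgroup.inv_mem _ z1.2) z2.2
        have hz : z1 = z2 := by
          apply Subtype.ext
          rw [hl] at h'
          exact mul_right_cancel h'
        exact Prod.ext hz (Fin.ext hl)
      have hbij := hinj.bijective_of_nat_card_le (by rw [hcardT, Nat.card_prod, Nat.card_fin])
      refine ⟨⟨fun y1 y2 => ?_⟩⟩
      obtain ⟨⟨z1, l1⟩, h1⟩ := hbij.2 y1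
      obtain ⟨⟨z2, l2⟩, h2⟩ := hbij.2 y2
      rw [← h1, ← h2]
      apply Subtype.ext
      have hc1 : ∀ x : G, Commute (z1 : G) x := fun x => (Subgroup.mem_center_iff.mp z1.2 x).symm
      have hc2 : ∀ x : G, Commute (z2 : G) x := fun x => (Subgroup.mem_center_iff.mp z2.2 x).symm
      have hc : Commute ((z1 : G) * g ^ (l1 : ℕ)) ((z2 : G) * g ^ (l2 : ℕ)) :=
        (hc1 _).mul_left ((hc2 _).symm.mul_right ((Commute.refl g).pow_pow _ _))
      exact hc.eq
  · intro hcomm hg
    obtain ⟨x, rfl⟩ := S.frattini_sub hn hg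
    have hxT : x ∈ Subgroup.centralizer ({x ^ p} : Set G) :=
      Subgroup.mem_centralizer_singleton_iff.mpr ((Commute.refl x).pow_right p).eq
    by_cases hxc : ∀ y, Commute x y
    · apply S.not_comm_of_pos hn
      have haT : a ∈ Subgroup.centralizer ({x ^ p} : Set G) :=
        Subgroup.mem_centralizer_singleton_iff.mpr ((hxc a).pow_left p).symm.eq
      have hbT : b ∈ Subgroup.centralizer ({x ^ p} : Set G) :=
        Subgroup.mem_centralizer_singleton_iff.mpr ((hxc b).pow_left p).symm.eq
      have h1 := hcomm.is_comm.comm ⟨a, haT⟩ ⟨b, hbT⟩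
      exact congrArg Subtype.val h1
    · push Not at hxc
      obtain ⟨y0, hy0⟩ := hxc
      have hex : ∃ e, ⁅x, y0⁆ ^ (p ^ e) = 1 := ⟨n, S.comm_pow x y0 le_rfl⟩
      classical
      obtain ⟨e, he1, hmin⟩ : ∃ e, ⁅x, y0⁆ ^ (p ^ e) = 1 ∧ ∀ m < e, ¬ ⁅x, y0⁆ ^ (p ^ m) = 1 :=
        ⟨Nat.find hex, Nat.find_spec hex, fun m hm => Nat.find_min hex hm⟩
      cases e with
      | zero =>
        rw [pow_zero, pow_one, commutatorElement_eq_one_iff_commute] at he1
        exact hy0 he1
      | succ e' =>
        have hyT : y0 ^ (p ^ e') ∈ Subgroup.centralizer ({x ^ p} : Set G) := by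
          rw [Subgroup.mem_centralizer_singleton_iff]
          have h1 : Commute (x ^ (p ^ 1)) (y0 ^ (p ^ e')) := by
            rw [S.commute_iff, add_comm]
            exact he1
          rw [pow_one] at h1
          exact h1.symm.eq
        have hnc : ¬ Commute x (y0 ^ (p ^ e')) := by
          intro hc
          have h1 : Commute (x ^ (p ^ 0)) (y0 ^ (p ^ e')) := by
            rw [pow_zero, pow_one]
            exact hc
          rw [S.commute_iff, zero_add] at h1
          exact hmin e' (Nat.lt_succ_self e') h1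
        apply hnc
        have h1 := hcomm.is_comm.comm ⟨x, hxT⟩ ⟨y0 ^ (p ^ e'), hyT⟩
        exact congrArg Subtype.val h1

end Cfsg.Agent.Helper8.Meta
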