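import Cfsg.Agent.Helper8.Meta3

/-!
# Metacyclic `p`-groups for odd `p`: normal forms and the order of the power subgroups
-/

set_option autoImplicit false

namespace Cfsg.Agent.Helper8.Meta

open Cfsg Cfsg.Agent.Helper8 Cfsg.Agent.Helper8.RegP
open scoped commutatorElement

variable {G : Type*} [Group G] [Finite G] {p : ℕ} [Fact p.Prime]
variable {N : Subgroup G} {a b : G} {n m k : ℕ}

/-- Orders of the cyclic normal subgroup and of the cyclic quotient. -/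
structure Ords (p : ℕ) (N : Subgroup G) (a b : G) (m k : ℕ) : Prop where
  hm : orderOf a = p ^ m
  hk : ∀ t : ℕ, b ^ t ∈ N ↔ p ^ k ∣ t

theorem Setup.exists_ords (S : Setup p G N a b n) : ∃ m k, Ords p N a b m k := by
  haveI := S.hNn
  obtain ⟨m, hm⟩ := (IsPGroup.iff_orderOf.mp S.hG) a
  have hQ : IsPGroup p (G ⧸ N) := S.hG.to_quotient N
  obtain ⟨k, hk⟩ := (IsPGroup.iff_orderOf.mp hQ) (b : G ⧸ N)
  refine ⟨m, k, hm, fun t => ?_⟩
  rw [← hk, orderOf_dvd_iff_pow_eq_one, ← QuotientGroup.mk_pow, QuotientGroup.eq_one_iff]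

theorem Ords.a_pow_eq (O : Ords p N a b m k) {i i' : ℕ} (hi : i < p ^ m) (hi' : i' < p ^ m)
    (h : a ^ i = a ^ i') : i = i' := by
  have h1 := pow_eq_pow_iff_modEq.mp h
  rw [O.hm] at h1
  exact Nat.ModEq.eq_of_lt_of_lt h1 hi hi'

theorem Ords.zpow_mem (O : Ords p N a b m k) {t : ℤ} (h : b ^ t ∈ N) : ((p ^ k : ℕ) : ℤ) ∣ t := by
  rcases Int.natAbs_eq t with e | e
  · rw [e] at h ⊢
    rw [zpow_natCast] at h
    exact Int.natCast_dvd_natCast.mpr ((O.hk _).mp h)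
  · rw [e] at h ⊢
    rw [zpow_neg, zpow_natCast, inv_mem_iff] at h
    exact (dvd_neg).mpr (Int.natCast_dvd_natCast.mpr ((O.hk _).mp h))

theorem Setup.nf_unique (S : Setup p G N a b n) (O : Ords p N a b m k) {i i' j j' : ℕ}
    (hi : i < p ^ m) (hi' : i' < p ^ m) (hj : j < p ^ k) (hj' : j' < p ^ k)
    (h : a ^ i * b ^ j = a ^ i' * b ^ j') : i = i' ∧ j = j' := by
  have hjj : j = j' := by
    rcases le_total j j' with hle | hle
    · have h1 : b ^ (j' - j) ∈ N := by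
        have e0 : b ^ j' = b ^ (j' - j) * b ^ j := by rw [← pow_add, Nat.sub_add_cancel hle]
        have e : b ^ (j' - j) = (a ^ i')⁻¹ * a ^ i := by
          rw [e0, ← mul_assoc] at h
          have h2 := mul_right_cancel h
          rw [h2]
          group
        rw [e]
        exact N.mul_mem (N.inv_mem (N.pow_mem S.gens.ha _)) (N.pow_mem S.gens.ha _)
      have h2 := (O.hk _).mp h1
      have h3 := Nat.eq_zero_of_dvd_of_lt h2 (by omega)
      omega
    · have h1 : b ^ (j - j') ∈ N := by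
        have e0 : b ^ j = b ^ (j - j') * b ^ j' := by rw [← pow_add, Nat.sub_add_cancel hle]
        have e : b ^ (j - j') = (a ^ i)⁻¹ * a ^ i' := by
          rw [e0, ← mul_assoc] at h
          have h2 := mul_right_cancel h
          rw [← h2]
          group
        rw [e]
        exact N.mul_mem (N.inv_mem (N.pow_mem S.gens.ha _)) (N.pow_mem S.gens.ha _)
      have h2 := (O.hk _).mp h1
      have h3 := Nat.eq_zero_of_dvd_of_lt h2 (by omega)
      omega
  subst hjj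
  exact ⟨O.a_pow_eq hi hi' (mul_right_cancel h), rfl⟩

theorem Setup.nf_exists (S : Setup p G N a b n) (O : Ords p N a b m k) (g : G) :
    ∃ i j, i < p ^ m ∧ j < p ^ k ∧ g = a ^ i * b ^ j := by
  have hp := (Fact.out : p.Prime)
  obtain ⟨i, j, rfl⟩ := S.gens.hb g
  have h1 : b ^ (p ^ k) ∈ N := (O.hk _).mpr dvd_rfl
  obtain ⟨t, ht⟩ := S.gens.hN _ h1
  have e1 : b ^ j = a ^ (t * (j / p ^ k)) * b ^ (j % p ^ k) := by
    conv_lhs => rw [← Nat.div_add_mod j (p ^ k)]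
    rw [pow_add, pow_mul, ht, ← pow_mul]
  refine ⟨(i + t * (j / p ^ k)) % p ^ m, j % p ^ k, Nat.mod_lt _ (pow_pos hp.pos _),
    Nat.mod_lt _ (pow_pos hp.pos _), ?_⟩
  rw [e1, ← mul_assoc, ← pow_add, ← O.hm, pow_mod_orderOf]

theorem Setup.card_nf (S : Setup p G N a b n) (O : Ords p N a b m k) :
    Nat.card G = p ^ m * p ^ k := by
  have hbij : Function.Bijective (fun q : Fin (p ^ m) × Fin (p ^ k) =>
      a ^ (q.1 : ℕ) * b ^ (q.2 : ℕ)) := by
    constructor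
    · rintro ⟨i1, j1⟩ ⟨i2, j2⟩ h
      obtain ⟨e1, e2⟩ := S.nf_unique O i1.2 i2.2 j1.2 j2.2 h
      exact Prod.ext (Fin.ext e1) (Fin.ext e2)
    · intro g
      obtain ⟨i, j, hi, hj, rfl⟩ := S.nf_exists O g
      exact ⟨(⟨i, hi⟩, ⟨j, hj⟩), rfl⟩
  rw [← Nat.card_congr (Equiv.ofBijective _ hbij), Nat.card_prod, Nat.card_fin, Nat.card_fin]

theorem Setup.n_le_k (S : Setup p G N a b n) (O : Ords p N a b m k) : n ≤ k := by
  have h1 : b ^ (p ^ k) ∈ N := (O.hk _).mpr dvd_rfl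
  obtain ⟨t, ht⟩ := S.gens.hN _ h1
  have h2 : Commute (a ^ (p ^ 0)) (b ^ (p ^ k)) := by
    rw [pow_zero, pow_one, ht]
    exact (Commute.refl a).pow_right t
  rw [S.commute_iff, zero_add, S.ab_iff] at h2
  exact h2

theorem Setup.n_le_m (S : Setup p G N a b n) (O : Ords p N a b m k) : n ≤ m := by
  obtain ⟨l, hl⟩ := S.gens.hN _ S.ab_mem
  rw [← S.ab_iff, hl, ← pow_mul, mul_comm, pow_mul, ← O.hm, pow_orderOf_eq_one, one_pow]

/-- Powers of `a` commuting with `b` are `p ^ n`-th powers of powers of `a`. -/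
theorem Setup.pow_of_commute (S : Setup p G N a b n) {t : ℕ} (h : Commute (a ^ t) b) :
    ∃ l, a ^ t = (a ^ l) ^ (p ^ n) := by
  have hp := (Fact.out : p.Prime)
  rcases Nat.eq_zero_or_pos t with rfl | ht
  · exact ⟨0, by simp⟩
  · obtain ⟨e, w, hw, rfl⟩ := Nat.exists_eq_pow_mul_and_not_dvd ht.ne' p hp.ne_one
    have h1 : Commute (a ^ (p ^ e)) b := by
      rw [pow_mul] at h
      exact ((commute_pow_of_not_dvd S.hG b (a ^ (p ^ e)) hw).mp h.symm).symm
    have h2 : Commute (a ^ (p ^ e)) (b ^ (p ^ 0)) := by rwa [pow_zero, pow_one]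
    rw [S.commute_iff, add_zero, S.ab_iff] at h2
    refine ⟨p ^ (e - n) * w, ?_⟩
    rw [← pow_mul, mul_comm (p ^ (e - n) * w) (p ^ n), ← mul_assoc, ← pow_add,
      Nat.add_sub_cancel' h2]

/-- A `p ^ s`-th power lying in `N` is the `p ^ s`-th power of an element of `N`. -/
theorem Setup.pow_mem_N (S : Setup p G N a b n) {s : ℕ} (hs : s ≤ n) (z : G)
    (hz : z ^ (p ^ s) ∈ N) : ∃ l, z ^ (p ^ s) = (a ^ l) ^ (p ^ s) := by
  haveI := S.hNn
  obtain ⟨i, j, rfl⟩ := S.gens.hb z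
  have h1 : (b ^ j) ^ (p ^ s) ∈ N := by
    have e0 : ((a ^ i * b ^ j : G) : G ⧸ N) = ((b ^ j : G) : G ⧸ N) := by
      rw [QuotientGroup.mk_mul, (QuotientGroup.eq_one_iff _).mpr (N.pow_mem S.gens.ha i), one_mul]
    rw [← QuotientGroup.eq_one_iff, QuotientGroup.mk_pow, ← e0, ← QuotientGroup.mk_pow,
      QuotientGroup.eq_one_iff]
    exact hz
  obtain ⟨t, ht⟩ := S.gens.hN _ h1
  have hc : Commute (a ^ t) b := by
    rw [← ht]
    exact ((Commute.refl b).pow_left j).pow_left _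
  obtain ⟨l, hl⟩ := S.pow_of_commute hc
  have hγp : (a ^ (l * p ^ (n - s))) ^ (p ^ s) = (b ^ j) ^ (p ^ s) := by
    rw [ht, hl, ← pow_mul, ← pow_mul, mul_assoc, ← pow_add, Nat.sub_add_cancel hs]
  have hδ : (b ^ j * (a ^ (l * p ^ (n - s)))⁻¹) ^ (p ^ s) = 1 :=
    (reg_pow_eq_iff S.hG (S.reg s) (b ^ j) (a ^ (l * p ^ (n - s)))).mp hγp.symm
  have hγN : a ^ (l * p ^ (n - s)) ∈ N := N.pow_mem S.gens.ha _
  have hν'N : a ^ i * ((b ^ j * (a ^ (l * p ^ (n - s)))⁻¹) * a ^ (l * p ^ (n - s)) *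
      (b ^ j * (a ^ (l * p ^ (n - s)))⁻¹)⁻¹) ∈ N :=
    N.mul_mem (N.pow_mem S.gens.ha i) (S.hNn.conj_mem _ hγN _)
  have ez : a ^ i * b ^ j = (a ^ i * ((b ^ j * (a ^ (l * p ^ (n - s)))⁻¹) *
      a ^ (l * p ^ (n - s)) * (b ^ j * (a ^ (l * p ^ (n - s)))⁻¹)⁻¹)) *
      (b ^ j * (a ^ (l * p ^ (n - s)))⁻¹) := by group
  obtain ⟨l', hl'⟩ := S.gens.hN _ hν'N
  refine ⟨l', ?_⟩
  rw [ez, hl', reg_pow_eq_iff S.hG (S.reg s), conj_pow, hδ]
  group

/-- Normal forms of `p ^ s`-th powers. -/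
theorem Setup.agemo_nf (S : Setup p G N a b n) (O : Ords p N a b m k) {s : ℕ} (hs : s ≤ n)
    {i j : ℕ} : (∃ y, a ^ i * b ^ j = y ^ (p ^ s)) ↔ (∃ i0 j0, a ^ i * b ^ j =
      a ^ (p ^ s * i0) * b ^ (p ^ s * j0)) := by
  constructor
  · rintro ⟨y, hy⟩
    haveI := S.hNn
    have hsk : s ≤ k := le_trans hs (S.n_le_k O)
    obtain ⟨i', j', rfl⟩ := S.gens.hb y
    have h1 : p ^ s ∣ j := by
      have e1 : ((b : G ⧸ N)) ^ j = ((b : G ⧸ N)) ^ (j' * p ^ s) := by
        have h0 := congrArg (QuotientGroup.mk (s := N)) hy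
        rw [QuotientGroup.mk_mul, QuotientGroup.mk_pow, QuotientGroup.mk_pow,
          QuotientGroup.mk_pow, QuotientGroup.mk_mul, QuotientGroup.mk_pow, QuotientGroup.mk_pow,
          (QuotientGroup.eq_one_iff a).mpr S.gens.ha, one_pow, one_pow, one_mul, one_mul,
          ← pow_mul] at h0
        exact h0
      have h2 : b ^ j * (b ^ (j' * p ^ s))⁻¹ ∈ N := by
        rw [← QuotientGroup.eq_one_iff, QuotientGroup.mk_mul, QuotientGroup.mk_inv,
          QuotientGroup.mk_pow, QuotientGroup.mk_pow, e1, mul_inv_cancel]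
      have h3 : b ^ ((j : ℤ) - ((j' * p ^ s : ℕ) : ℤ)) ∈ N := by
        rw [zpow_sub, zpow_natCast, zpow_natCast]
        exact h2
      have h4 := O.zpow_mem h3
      have h5 : ((p ^ s : ℕ) : ℤ) ∣ (j : ℤ) := by
        have h6 : ((p ^ s : ℕ) : ℤ) ∣ (j : ℤ) - ((j' * p ^ s : ℕ) : ℤ) :=
          dvd_trans (Int.natCast_dvd_natCast.mpr (pow_dvd_pow p hsk)) h4
        have h7 : ((p ^ s : ℕ) : ℤ) ∣ ((j' * p ^ s : ℕ) : ℤ) :=
          Int.natCast_dvd_natCast.mpr (dvd_mul_left _ _)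
        have h8 := dvd_add h6 h7
        simpa using h8
      exact Int.natCast_dvd_natCast.mp h5
    obtain ⟨j0, rfl⟩ := h1
    have h8 : ∃ z, a ^ i = z ^ (p ^ s) := by
      obtain ⟨z, -, hz⟩ := reg_pow_mul_pow S.hG (S.reg s) (a ^ i' * b ^ j') ((b ^ j0)⁻¹)
      refine ⟨z, ?_⟩
      rw [← hz, ← hy, inv_pow, ← pow_mul, mul_comm j0 (p ^ s)]
      group
    obtain ⟨z, hz⟩ := h8
    obtain ⟨l, hl⟩ := S.pow_mem_N hs z (by rw [← hz]; exact N.pow_mem S.gens.ha i)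
    refine ⟨l, j0, ?_⟩
    rw [hz, hl, ← pow_mul, mul_comm l]
  · rintro ⟨i0, j0, h⟩
    obtain ⟨z, -, hz⟩ := reg_pow_mul_pow S.hG (S.reg s) (a ^ i0) (b ^ j0)
    exact ⟨z, by rw [h, ← hz, ← pow_mul, ← pow_mul, mul_comm i0, mul_comm j0]⟩

/-- The number of `p ^ s`-th powers. -/
theorem Setup.card_agemo (S : Setup p G N a b n) (O : Ords p N a b m k) {s : ℕ} (hs : s ≤ n) :
    Nat.card {g : G // ∃ y, g = y ^ (p ^ s)} = p ^ (m - s) * p ^ (k - s) := by
  have hp := (Fact.out : p.Prime)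
  have hsk : s ≤ k := le_trans hs (S.n_le_k O)
  have hsm : s ≤ m := le_trans hs (S.n_le_m O)
  have hm' : p ^ m = p ^ s * p ^ (m - s) := by rw [← pow_add, Nat.add_sub_cancel' hsm]
  have hk' : p ^ k = p ^ s * p ^ (k - s) := by rw [← pow_add, Nat.add_sub_cancel' hsk]
  have hmem : ∀ q : Fin (p ^ (m - s)) × Fin (p ^ (k - s)),
      ∃ y, a ^ (p ^ s * (q.1 : ℕ)) * b ^ (p ^ s * (q.2 : ℕ)) = y ^ (p ^ s) :=
    fun q => (S.agemo_nf O hs).mpr ⟨_, _, rfl⟩
  have hbij : Function.Bijective (fun q : Fin (p ^ (m - s)) × Fin (p ^ (k - s)) =>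
      (⟨a ^ (p ^ s * (q.1 : ℕ)) * b ^ (p ^ s * (q.2 : ℕ)), hmem q⟩ :
        {g : G // ∃ y, g = y ^ (p ^ s)})) := by
    constructor
    · rintro ⟨i1, j1⟩ ⟨i2, j2⟩ h
      have h' : a ^ (p ^ s * (i1 : ℕ)) * b ^ (p ^ s * (j1 : ℕ)) =
          a ^ (p ^ s * (i2 : ℕ)) * b ^ (p ^ s * (j2 : ℕ)) := congrArg Subtype.val h
      have b1 : p ^ s * (i1 : ℕ) < p ^ m := by
        rw [hm']
        exact Nat.mul_lt_mul_of_pos_left i1.2 (pow_pos hp.pos s)
      have b2 : p ^ s * (i2 : ℕ) < p ^ m := by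
        rw [hm']
        exact Nat.mul_lt_mul_of_pos_left i2.2 (pow_pos hp.pos s)
      have b3 : p ^ s * (j1 : ℕ) < p ^ k := by
        rw [hk']
        exact Nat.mul_lt_mul_of_pos_left j1.2 (pow_pos hp.pos s)
      have b4 : p ^ s * (j2 : ℕ) < p ^ k := by
        rw [hk']
        exact Nat.mul_lt_mul_of_pos_left j2.2 (pow_pos hp.pos s)
      obtain ⟨e1, e2⟩ := S.nf_unique O b1 b2 b3 b4 h'
      exact Prod.ext (Fin.ext (Nat.eq_of_mul_eq_mul_left (pow_pos hp.pos s) e1))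
        (Fin.ext (Nat.eq_of_mul_eq_mul_left (pow_pos hp.pos s) e2))
    · rintro ⟨g, hg⟩
      obtain ⟨i, j, rfl⟩ := S.gens.hb g
      obtain ⟨i0, j0, h0⟩ := (S.agemo_nf O hs).mp hg
      have hbk : b ^ (p ^ k) ∈ N := (O.hk _).mpr dvd_rfl
      obtain ⟨t, ht⟩ := S.gens.hN _ hbk
      have hc : Commute (a ^ t) b := by
        rw [← ht]
        exact (Commute.refl b).pow_left _
      obtain ⟨l, hl⟩ := S.pow_of_commute hc
      have hn' : p ^ n = p ^ s * p ^ (n - s) := by rw [← pow_add, Nat.add_sub_cancel' hs]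
      have eb : b ^ (p ^ s * j0) = a ^ (p ^ s * (l * p ^ (n - s) * (j0 / p ^ (k - s)))) *
          b ^ (p ^ s * (j0 % p ^ (k - s))) := by
        conv_lhs => rw [← Nat.div_add_mod j0 (p ^ (k - s))]
        rw [mul_add, ← mul_assoc, ← hk', pow_add, pow_mul, ht, hl, ← pow_mul, ← pow_mul]
        congr 2
        rw [hn']
        ring
      refine ⟨(⟨(i0 + l * p ^ (n - s) * (j0 / p ^ (k - s))) % p ^ (m - s),
        Nat.mod_lt _ (pow_pos hp.pos _)⟩, ⟨j0 % p ^ (k - s), Nat.mod_lt _ (pow_pos hp.pos _)⟩),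
        Subtype.ext ?_⟩
      show a ^ (p ^ s * ((i0 + l * p ^ (n - s) * (j0 / p ^ (k - s))) % p ^ (m - s))) *
        b ^ (p ^ s * (j0 % p ^ (k - s))) = a ^ i * b ^ j
      rw [h0, eb, ← mul_assoc, ← pow_add, ← mul_add]
      congr 1
      apply pow_eq_pow_iff_modEq.mpr
      rw [O.hm, hm']
      exact Nat.ModEq.mul_left' _ (Nat.mod_modEq _ _)
  rw [← Nat.card_congr (Equiv.ofBijective _ hbij), Nat.card_prod, Nat.card_fin, Nat.card_fin]

/-- The number of elements with class size `p ^ i` (S3881). -/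
theorem Setup.card_class (S : Setup p G N a b n) (O : Ords p N a b m k) {i : ℕ} (hi : 1 ≤ i)
    (hin : i ≤ n) :
    Nat.card {g : G // (Subgroup.centralizer ({g} : Set G)).index = p ^ i} =
      Nat.card (Subgroup.center G) * (p ^ (2 * i) - p ^ (2 * i - 2)) := by
  have hp := (Fact.out : p.Prime)
  have hnk := S.n_le_k O
  have hnm := S.n_le_m O
  have hA : ∀ s ≤ n, {g : G | ∃ y, g = y ^ (p ^ s)} =
      {g : G | (Subgroup.centralizer ({g} : Set G)).index ≤ p ^ (n - s)} := by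
    intro s hs
    ext g
    simp only [Set.mem_setOf_eq]
    rw [← S.mem_agemo_iff, S.agemo_iff hs]
  have hset : {g : G | (Subgroup.centralizer ({g} : Set G)).index = p ^ i} =
      {g : G | ∃ y, g = y ^ (p ^ (n - i))} \ {g : G | ∃ y, g = y ^ (p ^ (n - i + 1))} := by
    rw [hA (n - i) (by omega), hA (n - i + 1) (by omega)]
    ext g
    simp only [Set.mem_diff, Set.mem_setOf_eq]
    have e1 : n - (n - i) = i := by omega
    have e2 : n - (n - i + 1) = i - 1 := by omega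
    rw [e1, e2]
    have hdvd : (Subgroup.centralizer ({g} : Set G)).index ∣ p ^ (m + k) := by
      rw [pow_add, ← S.card_nf O]
      exact Subgroup.index_dvd_card _
    obtain ⟨e, -, he⟩ := (Nat.dvd_prime_pow hp).mp hdvd
    rw [he]
    constructor
    · intro h
      have h1 : e = i := Nat.pow_right_injective hp.two_le h
      subst h1
      refine ⟨le_rfl, fun h2 => ?_⟩
      have h3 := (Nat.pow_le_pow_iff_right hp.one_lt).mp h2
      omega
    · rintro ⟨h1, h2⟩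
      have h3 := (Nat.pow_le_pow_iff_right hp.one_lt).mp h1
      have h4 : ¬ e ≤ i - 1 := fun h5 => h2 (Nat.pow_le_pow_right hp.pos h5)
      have h5 : e = i := by omega
      rw [h5]
  have hsub : {g : G | ∃ y, g = y ^ (p ^ (n - i + 1))} ⊆ {g : G | ∃ y, g = y ^ (p ^ (n - i))} := by
    rintro g ⟨y, rfl⟩
    exact ⟨y ^ p, by rw [← pow_mul, ← pow_succ']⟩
  have hc1 : Set.ncard {g : G | ∃ y, g = y ^ (p ^ (n - i))} =
      p ^ (m - (n - i)) * p ^ (k - (n - i)) := by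
    rw [← S.card_agemo O (show n - i ≤ n by omega)]
    exact (Nat.card_coe_set_eq _).symm
  have hc2 : Set.ncard {g : G | ∃ y, g = y ^ (p ^ (n - i + 1))} =
      p ^ (m - (n - i + 1)) * p ^ (k - (n - i + 1)) := by
    rw [← S.card_agemo O (show n - i + 1 ≤ n by omega)]
    exact (Nat.card_coe_set_eq _).symm
  have hZ : Nat.card (Subgroup.center G) = p ^ (m + k - 2 * n) := by
    have h1 := S.card_eq
    rw [S.card_nf O] at h1
    have h2 : p ^ (m + k - 2 * n) * p ^ (2 * n) = Nat.card (Subgroup.center G) * p ^ (2 * n) := by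
      rw [← h1, ← pow_add, ← pow_add]
      congr 1
      omega
    exact (Nat.eq_of_mul_eq_mul_right (pow_pos hp.pos _) h2).symm
  have hcard : Nat.card {g : G // (Subgroup.centralizer ({g} : Set G)).index = p ^ i} =
      Set.ncard {g : G | (Subgroup.centralizer ({g} : Set G)).index = p ^ i} :=
    Nat.card_coe_set_eq _
  rw [hcard, hset, Set.ncard_diff hsub, hc1, hc2, hZ, Nat.mul_sub]
  have e1 : p ^ (m - (n - i)) * p ^ (k - (n - i)) = p ^ (m + k - 2 * n) * p ^ (2 * i) := by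
    rw [← pow_add, ← pow_add]
    congr 1
    omega
  have e2 : p ^ (m - (n - i + 1)) * p ^ (k - (n - i + 1)) =
      p ^ (m + k - 2 * n) * p ^ (2 * i - 2) := by
    rw [← pow_add, ← pow_add]
    congr 1
    omega
  rw [e1, e2]

end Cfsg.Agent.Helper8.Meta
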