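import Cfsg.Agent.Helper8.Meta4

/-!
# Metacyclic `p`-groups for odd `p`: factorization into two cyclic subgroups
-/

set_option autoImplicit false

namespace Cfsg.Agent.Helper8.Meta

open Cfsg Cfsg.Agent.Helper8 Cfsg.Agent.Helper8.RegP
open scoped commutatorElement

variable {G : Type*} [Group G] [Finite G] {p : ℕ} [Fact p.Prime]
variable {N : Subgroup G} {a b : G} {n m k : ℕ}

theorem Setup.N_eq (S : Setup p G N a b n) : N = Subgroup.zpowers a := by
  apply le_antisymm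
  · intro u hu
    obtain ⟨i, rfl⟩ := S.gens.hN u hu
    exact Subgroup.pow_mem _ (Subgroup.mem_zpowers a) i
  · exact Subgroup.zpowers_le.mpr S.gens.ha

theorem Setup.card_N (S : Setup p G N a b n) (O : Ords p N a b m k) : Nat.card N = p ^ m := by
  have h := S.N_eq
  rw [h, Nat.card_zpowers, O.hm]

theorem Ords.pow_not_mem (O : Ords p N a b m k) {e : ℕ} (he : e < m) :
    a ^ (p ^ e) ∉ Subgroup.zpowers (a ^ (p ^ (e + 1))) := by
  have hp := (Fact.out : p.Prime)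
  intro h
  obtain ⟨z, hz⟩ := Subgroup.mem_zpowers_iff.mp h
  have h2 : a ^ (((p ^ e : ℕ) : ℤ) * ((p : ℤ) * z - 1)) = 1 := by
    have e1 : ((p ^ e : ℕ) : ℤ) * ((p : ℤ) * z - 1) =
        ((p ^ (e + 1) : ℕ) : ℤ) * z - ((p ^ e : ℕ) : ℤ) := by
      push_cast
      ring
    rw [e1, zpow_sub, zpow_mul, zpow_natCast, zpow_natCast, hz, mul_inv_cancel]
  have h3 := orderOf_dvd_iff_zpow_eq_one.mpr h2
  rw [O.hm] at h3
  have h4 : ((p ^ (e + 1) : ℕ) : ℤ) ∣ ((p ^ e : ℕ) : ℤ) * ((p : ℤ) * z - 1) :=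
    dvd_trans (Int.natCast_dvd_natCast.mpr (pow_dvd_pow p (by omega))) h3
  have h5 : (p : ℤ) ∣ (p : ℤ) * z - 1 := by
    rw [pow_succ] at h4
    push_cast at h4
    have hpe : ((p : ℤ) ^ e) ≠ 0 := pow_ne_zero _ (by exact_mod_cast hp.ne_zero)
    exact (mul_dvd_mul_iff_left hpe).mp h4
  have h6 : (p : ℤ) ∣ 1 := by
    have h7 := dvd_sub (dvd_mul_right (p : ℤ) z) h5
    simpa using h7
  have h8 : p ∣ 1 := by exact_mod_cast h6
  exact hp.one_lt.ne' (Nat.dvd_one.mp h8)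

theorem Setup.comm_le_pow (S : Setup p G N a b n) :
    ⁅(⊤ : Subgroup G), ⊤⁆ ≤ Subgroup.zpowers (a ^ p) := by
  haveI := S.hNn
  rw [Subgroup.commutator_le]
  intro x _ y _
  refine (Subgroup.zpowers_le.mpr ?_) (S.comm_mem x y)
  obtain ⟨w, hw, e⟩ := conj_comm_eq_pow S.hG N S.hNc b S.gens.ha
  have e1 : ⁅a, b⁆ = (w ^ p)⁻¹ := by
    rw [← e, commutatorElement_def]
    group
  rw [e1]
  obtain ⟨z, rfl⟩ := Subgroup.mem_zpowers_iff.mp hw
  apply Subgroup.inv_mem
  rw [Subgroup.mem_zpowers_iff]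
  exact ⟨z, by rw [← zpow_natCast, ← zpow_natCast, ← zpow_mul, ← zpow_mul, mul_comm]⟩

theorem Setup.powerClosure_comm_le (S : Setup p G N a b n) (H : Subgroup G) (e : ℕ) :
    powerClosure p e ⁅H, H⁆ ≤ Subgroup.zpowers (a ^ (p ^ (e + 1))) := by
  unfold powerClosure
  rw [Subgroup.closure_le]
  rintro y ⟨x, hx, rfl⟩
  have hx' : x ∈ Subgroup.zpowers (a ^ p) :=
    S.comm_le_pow (Subgroup.commutator_mono le_top le_top hx)
  obtain ⟨z, rfl⟩ := Subgroup.mem_zpowers_iff.mp hx'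
  show ((a ^ p) ^ z) ^ (p ^ e) ∈ Subgroup.zpowers (a ^ (p ^ (e + 1)))
  rw [Subgroup.mem_zpowers_iff]
  refine ⟨z, ?_⟩
  rw [← zpow_natCast, ← zpow_natCast, ← zpow_natCast, ← zpow_mul, ← zpow_mul, ← zpow_mul]
  congr 1
  push_cast
  ring

/-- A metacyclic `p`-group, `p` odd, is the product of two cyclic subgroups with trivial
intersection (S3884). -/
theorem Setup.exists_factorization (S : Setup p G N a b n) (O : Ords p N a b m k) :
    ∃ A B : Subgroup G, IsCyclic A ∧ IsCyclic B ∧ A ⊓ B = ⊥ ∧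
      Nat.card A * Nat.card B = Nat.card G := by
  have hp := (Fact.out : p.Prime)
  haveI := S.hNn
  have hbk : b ^ (p ^ k) ∈ N := (O.hk _).mpr dvd_rfl
  by_cases hI : ∃ l, b ^ (p ^ k) = (a ^ l) ^ (p ^ k)
  · obtain ⟨l, hl⟩ := hI
    have hc0 : (b * (a ^ l)⁻¹) ^ (p ^ k) = 1 := (reg_pow_eq_iff S.hG (S.reg k) b (a ^ l)).mp hl
    have hq : ∀ z : ℤ, (b * (a ^ l)⁻¹) ^ z ∈ N → ((p ^ k : ℕ) : ℤ) ∣ z := by
      intro z hz
      apply O.zpow_mem
      rw [← QuotientGroup.eq_one_iff] at hz ⊢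
      rw [QuotientGroup.mk_zpow] at hz ⊢
      rw [QuotientGroup.mk_mul, QuotientGroup.mk_inv,
        (QuotientGroup.eq_one_iff _).mpr (N.pow_mem S.gens.ha l), inv_one, mul_one] at hz
      exact hz
    refine ⟨N, Subgroup.zpowers (b * (a ^ l)⁻¹), S.hNc, inferInstance, ?_, ?_⟩
    · rw [eq_bot_iff]
      rintro x ⟨hxN, hxB⟩
      obtain ⟨z, rfl⟩ := Subgroup.mem_zpowers_iff.mp hxB
      obtain ⟨d, rfl⟩ := hq z hxN
      rw [Subgroup.mem_bot, zpow_mul, zpow_natCast, hc0, one_zpow]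
    · rw [S.card_N O, Nat.card_zpowers, S.card_nf O]
      congr 1
      apply Nat.dvd_antisymm (orderOf_dvd_of_pow_eq_one hc0)
      have h1 := hq (orderOf (b * (a ^ l)⁻¹)) (by
        rw [zpow_natCast, pow_orderOf_eq_one]
        exact N.one_mem)
      exact Int.natCast_dvd_natCast.mp h1
  · obtain ⟨t, ht⟩ := S.gens.hN _ hbk
    have ht0 : t ≠ 0 := by
      rintro rfl
      exact hI ⟨0, by rw [ht]; simp⟩
    obtain ⟨h, w, hw, rfl⟩ := Nat.exists_eq_pow_mul_and_not_dvd ht0 p hp.ne_one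
    have hhk : h < k := by
      by_contra hge
      push Not at hge
      apply hI
      refine ⟨p ^ (h - k) * w, ?_⟩
      rw [ht, ← pow_mul]
      congr 1
      rw [mul_right_comm, ← pow_add, Nat.sub_add_cancel hge]
    have hhm : h < m := by
      by_contra hge
      push Not at hge
      apply hI
      refine ⟨0, ?_⟩
      rw [ht, pow_zero, one_pow]
      apply orderOf_dvd_iff_pow_eq_one.mp
      rw [O.hm]
      exact Dvd.dvd.mul_right (pow_dvd_pow p hge) w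
    have h1 : a ^ (p ^ h) ∈ Subgroup.zpowers ((a ^ (p ^ h)) ^ w) :=
      mem_zpowers_pow_of_not_dvd S.hG _ hw
    rw [← pow_mul, ← ht] at h1
    obtain ⟨z', hz'⟩ := (Submonoid.mem_powers_iff _ _).mp (mem_powers_iff_mem_zpowers.mpr h1)
    have hβ : (b ^ (p ^ (k - h) * z')) ^ (p ^ h) = a ^ (p ^ h) := by
      rw [← hz', ← pow_mul, ← pow_mul]
      congr 1
      rw [mul_right_comm, ← pow_add, Nat.sub_add_cancel hhk.le]
    have ha' : (a * (b ^ (p ^ (k - h) * z'))⁻¹) ^ (p ^ h) = 1 :=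
      (reg_pow_eq_iff S.hG (S.reg h) a _).mp hβ.symm
    have hclaim : ∀ e : ℕ,
        (a * (b ^ (p ^ (k - h) * z'))⁻¹) ^ (p ^ e) ∈ Subgroup.zpowers b → h ≤ e := by
      intro e hmem
      by_contra hlt
      push Not at hlt
      obtain ⟨c', hc', hreg⟩ := S.reg e a (b ^ (p ^ (k - h) * z'))⁻¹
      have hc'mem : c' ∈ Subgroup.zpowers (a ^ (p ^ (e + 1))) := S.powerClosure_comm_le _ e hc'
      obtain ⟨zb, hzb⟩ := Subgroup.mem_zpowers_iff.mp hmem
      haveI hWn : (Subgroup.zpowers (a ^ (p ^ (e + 1)))).Normal :=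
        normal_of_le_cyclic S.hG N S.hNc (Subgroup.zpowers_le.mpr (N.pow_mem S.gens.ha _))
      have e1 : a ^ (p ^ e) = (b ^ zb * (b ^ (p ^ (k - h) * z')) ^ (p ^ e)) *
          (((b ^ (p ^ (k - h) * z')) ^ (p ^ e))⁻¹ * c'⁻¹ * (b ^ (p ^ (k - h) * z')) ^ (p ^ e)) := by
        have e2 : a ^ (p ^ e) = b ^ zb * c'⁻¹ * (b ^ (p ^ (k - h) * z')) ^ (p ^ e) := by
          rw [hzb, hreg, inv_pow]
          group
        rw [e2]
        group
      have hconj : ((b ^ (p ^ (k - h) * z')) ^ (p ^ e))⁻¹ * c'⁻¹ *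
          (b ^ (p ^ (k - h) * z')) ^ (p ^ e) ∈ Subgroup.zpowers (a ^ (p ^ (e + 1))) := by
        have h2 := hWn.conj_mem c'⁻¹ (Subgroup.inv_mem _ hc'mem)
          ((b ^ (p ^ (k - h) * z')) ^ (p ^ e))⁻¹
        simpa using h2
      have hyN : b ^ zb * (b ^ (p ^ (k - h) * z')) ^ (p ^ e) ∈ N := by
        have h2 : b ^ zb * (b ^ (p ^ (k - h) * z')) ^ (p ^ e) = a ^ (p ^ e) *
            (((b ^ (p ^ (k - h) * z')) ^ (p ^ e))⁻¹ * c'⁻¹ *
              (b ^ (p ^ (k - h) * z')) ^ (p ^ e))⁻¹ := by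
          rw [e1]
          group
        rw [h2]
        exact N.mul_mem (N.pow_mem S.gens.ha _)
          (N.inv_mem ((Subgroup.zpowers_le.mpr (N.pow_mem S.gens.ha _)) hconj))
      have hy : b ^ zb * (b ^ (p ^ (k - h) * z')) ^ (p ^ e) =
          b ^ (zb + ((p ^ (k - h) * z' * p ^ e : ℕ) : ℤ)) := by
        rw [zpow_add, zpow_natCast, ← pow_mul]
      rw [hy] at hyN
      obtain ⟨d, hd⟩ := O.zpow_mem hyN
      have hyW : b ^ zb * (b ^ (p ^ (k - h) * z')) ^ (p ^ e) ∈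
          Subgroup.zpowers (a ^ (p ^ (e + 1))) := by
        rw [hy, hd, zpow_mul, zpow_natCast, ht]
        apply Subgroup.zpow_mem
        rw [Subgroup.mem_zpowers_iff]
        refine ⟨((p ^ (h - (e + 1)) * w : ℕ) : ℤ), ?_⟩
        rw [zpow_natCast, ← pow_mul]
        congr 1
        rw [← mul_assoc, ← pow_add, Nat.add_sub_cancel' (by omega)]
      have h3 : a ^ (p ^ e) ∈ Subgroup.zpowers (a ^ (p ^ (e + 1))) := by
        rw [e1]
        exact Subgroup.mul_mem _ hyW hconj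
      exact O.pow_not_mem (by omega) h3
    have hord : orderOf (a * (b ^ (p ^ (k - h) * z'))⁻¹) = p ^ h := by
      obtain ⟨e', he'le, he'⟩ := (Nat.dvd_prime_pow hp).mp (orderOf_dvd_of_pow_eq_one ha')
      have h2 := hclaim e' (by
        rw [← he', pow_orderOf_eq_one]
        exact Subgroup.one_mem _)
      rw [he']
      congr 1
      omega
    have hordb : orderOf b = p ^ k * p ^ (m - h) := by
      have hdvd : p ^ k ∣ orderOf b := (O.hk _).mp (by
        rw [pow_orderOf_eq_one]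
        exact N.one_mem)
      have h2 : orderOf (b ^ (p ^ k)) = orderOf b / p ^ k :=
        orderOf_pow_of_dvd (pow_pos hp.pos k).ne' hdvd
      have h3 : orderOf (b ^ (p ^ k)) = p ^ (m - h) := by
        rw [ht, pow_mul]
        have hcop : (orderOf (a ^ (p ^ h))).Coprime w := by
          obtain ⟨q, hq⟩ := (IsPGroup.iff_orderOf.mp S.hG) (a ^ (p ^ h))
          rw [hq]
          exact Nat.Coprime.pow_left q ((Nat.Prime.coprime_iff_not_dvd hp).mpr hw)
        rw [hcop.orderOf_pow, orderOf_pow_of_dvd (pow_pos hp.pos h).ne'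
          (by rw [O.hm]; exact pow_dvd_pow p hhm.le), O.hm, Nat.pow_div hhm.le hp.pos]
      rw [h3] at h2
      rw [h2]
      exact (Nat.mul_div_cancel' hdvd).symm
    refine ⟨Subgroup.zpowers (a * (b ^ (p ^ (k - h) * z'))⁻¹), Subgroup.zpowers b,
      inferInstance, inferInstance, ?_, ?_⟩
    · rw [eq_bot_iff]
      rintro x ⟨hxA, hxB⟩
      obtain ⟨z, rfl⟩ := (Submonoid.mem_powers_iff _ _).mp (mem_powers_iff_mem_zpowers.mpr hxA)
      rw [Subgroup.mem_bot]
      rcases Nat.eq_zero_or_pos z with rfl | hz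
      · simp
      · obtain ⟨e, w', hw', rfl⟩ := Nat.exists_eq_pow_mul_and_not_dvd hz.ne' p hp.ne_one
        have h2 : (a * (b ^ (p ^ (k - h) * z'))⁻¹) ^ (p ^ e) ∈
            Subgroup.zpowers (((a * (b ^ (p ^ (k - h) * z'))⁻¹) ^ (p ^ e)) ^ w') :=
          mem_zpowers_pow_of_not_dvd S.hG _ hw'
        rw [← pow_mul] at h2
        have h3 := hclaim e ((Subgroup.zpowers_le.mpr hxB) h2)
        have h4 : (a * (b ^ (p ^ (k - h) * z'))⁻¹) ^ (p ^ e) = 1 := by
          apply orderOf_dvd_iff_pow_eq_one.mp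
          rw [hord]
          exact pow_dvd_pow p h3
        rw [pow_mul, h4, one_pow]
    · rw [Nat.card_zpowers, Nat.card_zpowers, hord, hordb, S.card_nf O, mul_left_comm, ← pow_add,
        Nat.add_sub_cancel' hhm.le, mul_comm]

end Cfsg.Agent.Helper8.Meta
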