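import Cfsg.Agent.Helper8.Meta5

/-!
# Metacyclic `p`-groups for odd `p`: subgroups and abelian subgroups
-/

set_option autoImplicit false

namespace Cfsg.Agent.Helper8.Meta

open Cfsg Cfsg.Agent.Helper8 Cfsg.Agent.Helper8.RegP
open scoped commutatorElement

variable {G : Type*} [Group G] [Finite G] {p : ℕ} [Fact p.Prime]
variable {N : Subgroup G} {a b : G} {n m k : ℕ}

/-- Invariants of a subgroup of a metacyclic group. -/
structure SubInv (p : ℕ) (N : Subgroup G) (a b : G) (L : Subgroup G) (e f : ℕ) (v : G) : Prop where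
  he : a ^ (p ^ e) ∈ L
  hemin : ∀ e' < e, a ^ (p ^ e') ∉ L
  hN : ∀ x ∈ L, x ∈ N → x ∈ Subgroup.zpowers (a ^ (p ^ e))
  hvL : v ∈ L
  hv : ∃ ν ∈ N, v = ν * b ^ (p ^ f)
  hfmin : ∀ f' < f, ∀ ν ∈ N, ν * b ^ (p ^ f') ∉ L
  hgen : ∀ y ∈ L, ∃ l : ℕ, ∃ μ ∈ N, y = μ * v ^ l

theorem Setup.exists_subInv (S : Setup p G N a b n) (O : Ords p N a b m k) (L : Subgroup G) :
    ∃ e f v, e ≤ m ∧ f ≤ k ∧ SubInv p N a b L e f v := by
  classical
  have hp := (Fact.out : p.Prime)
  haveI := S.hNn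
  have ham : a ^ (p ^ m) ∈ L := by
    rw [← O.hm, pow_orderOf_eq_one]
    exact L.one_mem
  have hex1 : ∃ e, a ^ (p ^ e) ∈ L := ⟨m, ham⟩
  have hbk : b ^ (p ^ k) ∈ N := (O.hk _).mpr dvd_rfl
  have hk1 : ∃ ν ∈ N, ν * b ^ (p ^ k) ∈ L :=
    ⟨(b ^ (p ^ k))⁻¹, N.inv_mem hbk, by rw [inv_mul_cancel]; exact L.one_mem⟩
  have hex2 : ∃ f, ∃ ν ∈ N, ν * b ^ (p ^ f) ∈ L := ⟨k, hk1⟩
  obtain ⟨ν, hν, hvL⟩ := Nat.find_spec hex2
  refine ⟨Nat.find hex1, Nat.find hex2, ν * b ^ (p ^ Nat.find hex2), Nat.find_min' hex1 ham,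
    Nat.find_min' hex2 hk1, Nat.find_spec hex1, fun e' he' => Nat.find_min hex1 he', ?_, hvL,
    ⟨ν, hν, rfl⟩, fun f' hf' ν' hν' h => Nat.find_min hex2 hf' ⟨ν', hν', h⟩, ?_⟩
  · intro x hxL hxN
    obtain ⟨i, rfl⟩ := S.gens.hN x hxN
    rcases Nat.eq_zero_or_pos i with rfl | hi
    · rw [pow_zero]
      exact Subgroup.one_mem _
    · obtain ⟨e', w, hw, rfl⟩ := Nat.exists_eq_pow_mul_and_not_dvd hi.ne' p hp.ne_one
      have h1 : a ^ (p ^ e') ∈ Subgroup.zpowers ((a ^ (p ^ e')) ^ w) :=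
        mem_zpowers_pow_of_not_dvd S.hG _ hw
      rw [← pow_mul] at h1
      have h2 : a ^ (p ^ e') ∈ L := (Subgroup.zpowers_le.mpr hxL) h1
      have h3 : Nat.find hex1 ≤ e' := Nat.find_min' hex1 h2
      have h4 : a ^ (p ^ e' * w) = (a ^ (p ^ Nat.find hex1)) ^ (p ^ (e' - Nat.find hex1) * w) := by
        rw [← pow_mul, ← mul_assoc, ← pow_add, Nat.add_sub_cancel' h3]
      rw [h4]
      exact Subgroup.pow_mem _ (Subgroup.mem_zpowers _) _
  · intro y hyL
    obtain ⟨i, j, rfl⟩ := S.gens.hb y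
    rcases Nat.eq_zero_or_pos j with rfl | hj
    · exact ⟨0, a ^ i * b ^ 0, by simpa using N.pow_mem S.gens.ha i, by simp⟩
    · obtain ⟨f', w, hw, rfl⟩ := Nat.exists_eq_pow_mul_and_not_dvd hj.ne' p hp.ne_one
      have h1 : b ^ (p ^ f') ∈ Subgroup.zpowers ((b ^ (p ^ f')) ^ w) :=
        mem_zpowers_pow_of_not_dvd S.hG _ hw
      rw [← pow_mul] at h1
      obtain ⟨l', hl'⟩ := (Submonoid.mem_powers_iff _ _).mp (mem_powers_iff_mem_zpowers.mpr h1)
      have h2 : (a ^ i * b ^ (p ^ f' * w)) ^ l' * (b ^ (p ^ f'))⁻¹ ∈ N := by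
        rw [← QuotientGroup.eq_one_iff, QuotientGroup.mk_mul, QuotientGroup.mk_inv,
          QuotientGroup.mk_pow, QuotientGroup.mk_mul,
          (QuotientGroup.eq_one_iff _).mpr (N.pow_mem S.gens.ha i), one_mul,
          ← QuotientGroup.mk_pow, hl', mul_inv_cancel]
      have h3 : Nat.find hex2 ≤ f' := Nat.find_min' hex2 ⟨_, h2, by
        rw [inv_mul_cancel_right]
        exact L.pow_mem hyL l'⟩
      refine ⟨p ^ (f' - Nat.find hex2) * w, a ^ i * b ^ (p ^ f' * w) *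
        ((ν * b ^ (p ^ Nat.find hex2)) ^ (p ^ (f' - Nat.find hex2) * w))⁻¹, ?_, by group⟩
      rw [← QuotientGroup.eq_one_iff, QuotientGroup.mk_mul, QuotientGroup.mk_inv,
        QuotientGroup.mk_pow, QuotientGroup.mk_mul, QuotientGroup.mk_mul,
        (QuotientGroup.eq_one_iff _).mpr (N.pow_mem S.gens.ha i),
        (QuotientGroup.eq_one_iff _).mpr hν, one_mul, one_mul, ← QuotientGroup.mk_pow, ← pow_mul,
        ← mul_assoc, ← pow_add, Nat.add_sub_cancel' h3, mul_inv_cancel]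

variable {L : Subgroup G} {e f : ℕ} {v : G}

theorem SubInv.v_pow_mem (I : SubInv p N a b L e f v) (S : Setup p G N a b n)
    (O : Ords p N a b m k) (hfk : f ≤ k) (l : ℕ) : v ^ l ∈ N ↔ p ^ (k - f) ∣ l := by
  have hp := (Fact.out : p.Prime)
  haveI := S.hNn
  obtain ⟨ν, hν, hvdef⟩ := I.hv
  have h1 : v ^ l ∈ N ↔ b ^ (p ^ f * l) ∈ N := by
    rw [hvdef, ← QuotientGroup.eq_one_iff, ← QuotientGroup.eq_one_iff, QuotientGroup.mk_pow,
      QuotientGroup.mk_mul, (QuotientGroup.eq_one_iff _).mpr hν, one_mul, ← QuotientGroup.mk_pow,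
      ← pow_mul]
  have h2 : p ^ k = p ^ f * p ^ (k - f) := by rw [← pow_add, Nat.add_sub_cancel' hfk]
  rw [h1, O.hk, h2]
  exact Nat.mul_dvd_mul_iff_left (pow_pos hp.pos f)

theorem SubInv.mu_mem (I : SubInv p N a b L e f v) {y μ : G} {l : ℕ} (hy : y ∈ L)
    (h : y = μ * v ^ l) : μ ∈ L := by
  have h1 : μ = y * (v ^ l)⁻¹ := by
    rw [h]
    group
  rw [h1]
  exact L.mul_mem hy (L.inv_mem (L.pow_mem I.hvL l))

theorem SubInv.card (I : SubInv p N a b L e f v) (S : Setup p G N a b n)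
    (O : Ords p N a b m k) (hem : e ≤ m) (hfk : f ≤ k) :
    Nat.card L = p ^ (m - e) * p ^ (k - f) := by
  have hp := (Fact.out : p.Prime)
  have hm' : p ^ m = p ^ e * p ^ (m - e) := by rw [← pow_add, Nat.add_sub_cancel' hem]
  have hordu : orderOf (a ^ (p ^ e)) = p ^ (m - e) := by
    rw [orderOf_pow_of_dvd (pow_pos hp.pos e).ne' (by rw [O.hm]; exact pow_dvd_pow p hem), O.hm,
      Nat.pow_div hem hp.pos]
  have hmem : ∀ q : Fin (p ^ (m - e)) × Fin (p ^ (k - f)),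
      (a ^ (p ^ e)) ^ (q.1 : ℕ) * v ^ (q.2 : ℕ) ∈ L :=
    fun q => L.mul_mem (L.pow_mem I.he _) (L.pow_mem I.hvL _)
  have hbij : Function.Bijective (fun q : Fin (p ^ (m - e)) × Fin (p ^ (k - f)) =>
      (⟨(a ^ (p ^ e)) ^ (q.1 : ℕ) * v ^ (q.2 : ℕ), hmem q⟩ : L)) := by
    constructor
    · rintro ⟨i1, j1⟩ ⟨i2, j2⟩ h
      have h' : (a ^ (p ^ e)) ^ (i1 : ℕ) * v ^ (j1 : ℕ) =
          (a ^ (p ^ e)) ^ (i2 : ℕ) * v ^ (j2 : ℕ) := congrArg Subtype.val h
      have hjj : (j1 : ℕ) = j2 := by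
        rcases le_total (j1 : ℕ) j2 with hle | hle
        · have h1 : v ^ ((j2 : ℕ) - j1) ∈ N := by
            have e0 : v ^ (j2 : ℕ) = v ^ ((j2 : ℕ) - j1) * v ^ (j1 : ℕ) := by
              rw [← pow_add, Nat.sub_add_cancel hle]
            have e1 : v ^ ((j2 : ℕ) - j1) = ((a ^ (p ^ e)) ^ (i2 : ℕ))⁻¹ * (a ^ (p ^ e)) ^ (i1 : ℕ) := by
              rw [e0, ← mul_assoc] at h'
              have h2 := mul_right_cancel h'
              rw [h2]
              group
            rw [e1]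
            exact N.mul_mem (N.inv_mem (N.pow_mem (N.pow_mem S.gens.ha _) _))
              (N.pow_mem (N.pow_mem S.gens.ha _) _)
          have h2 := (I.v_pow_mem S O hfk _).mp h1
          have h3 := Nat.eq_zero_of_dvd_of_lt h2 (by have := j2.2; omega)
          omega
        · have h1 : v ^ ((j1 : ℕ) - j2) ∈ N := by
            have e0 : v ^ (j1 : ℕ) = v ^ ((j1 : ℕ) - j2) * v ^ (j2 : ℕ) := by
              rw [← pow_add, Nat.sub_add_cancel hle]
            have e1 : v ^ ((j1 : ℕ) - j2) = ((a ^ (p ^ e)) ^ (i1 : ℕ))⁻¹ * (a ^ (p ^ e)) ^ (i2 : ℕ) := by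
              rw [e0, ← mul_assoc] at h'
              have h2 := mul_right_cancel h'
              rw [← h2]
              group
            rw [e1]
            exact N.mul_mem (N.inv_mem (N.pow_mem (N.pow_mem S.gens.ha _) _))
              (N.pow_mem (N.pow_mem S.gens.ha _) _)
          have h2 := (I.v_pow_mem S O hfk _).mp h1
          have h3 := Nat.eq_zero_of_dvd_of_lt h2 (by have := j1.2; omega)
          omega
      rw [hjj] at h'
      have h4 := mul_right_cancel h'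
      have h5 := pow_eq_pow_iff_modEq.mp h4
      rw [hordu] at h5
      exact Prod.ext (Fin.ext (Nat.ModEq.eq_of_lt_of_lt h5 i1.2 i2.2)) (Fin.ext hjj)
    · rintro ⟨y, hy⟩
      obtain ⟨l, μ, hμ, rfl⟩ := I.hgen y hy
      have hμL : μ ∈ L := I.mu_mem hy rfl
      have hvp : v ^ (p ^ (k - f)) ∈ Subgroup.zpowers (a ^ (p ^ e)) :=
        I.hN _ (L.pow_mem I.hvL _) ((I.v_pow_mem S O hfk _).mpr dvd_rfl)
      have hμ' : μ * (v ^ (p ^ (k - f))) ^ (l / p ^ (k - f)) ∈ Subgroup.zpowers (a ^ (p ^ e)) :=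
        Subgroup.mul_mem _ (I.hN μ hμL hμ) (Subgroup.pow_mem _ hvp _)
      obtain ⟨z, hz⟩ := (Submonoid.mem_powers_iff _ _).mp (mem_powers_iff_mem_zpowers.mpr hμ')
      refine ⟨(⟨z % p ^ (m - e), Nat.mod_lt _ (pow_pos hp.pos _)⟩,
        ⟨l % p ^ (k - f), Nat.mod_lt _ (pow_pos hp.pos _)⟩), Subtype.ext ?_⟩
      show (a ^ (p ^ e)) ^ (z % p ^ (m - e)) * v ^ (l % p ^ (k - f)) = μ * v ^ l
      have e1 : (a ^ (p ^ e)) ^ (z % p ^ (m - e)) = (a ^ (p ^ e)) ^ z := by
        rw [← hordu, pow_mod_orderOf]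
      have e2 : v ^ l = (v ^ (p ^ (k - f))) ^ (l / p ^ (k - f)) * v ^ (l % p ^ (k - f)) := by
        conv_lhs => rw [← Nat.div_add_mod l (p ^ (k - f))]
        rw [pow_add, pow_mul]
      rw [e1, hz, e2]
      group
  rw [← Nat.card_congr (Equiv.ofBijective _ hbij), Nat.card_prod, Nat.card_fin, Nat.card_fin]

theorem SubInv.comm_iff (I : SubInv p N a b L e f v) (S : Setup p G N a b n) :
    IsMulCommutative ↥L ↔ n ≤ e + f := by
  have hkey : Commute (a ^ (p ^ e)) v ↔ n ≤ e + f := by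
    obtain ⟨ν, hν, hvdef⟩ := I.hv
    obtain ⟨t, rfl⟩ := S.gens.hN ν hν
    rw [← S.ab_iff, ← S.commute_iff, hvdef]
    have hc : Commute (a ^ (p ^ e)) (a ^ t) := (Commute.refl a).pow_pow _ _
    constructor
    · intro h
      have h1 := hc.inv_right.mul_right h
      simpa using h1
    · intro h
      exact hc.mul_right h
  rw [← hkey]
  constructor
  · intro hc
    exact congrArg Subtype.val (hc.is_comm.comm ⟨a ^ (p ^ e), I.he⟩ ⟨v, I.hvL⟩)
  · intro hc
    refine ⟨⟨fun y1 y2 => Subtype.ext ?_⟩⟩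
    obtain ⟨l1, μ1, hμ1, h1⟩ := I.hgen y1 y1.2
    obtain ⟨l2, μ2, hμ2, h2⟩ := I.hgen y2 y2.2
    obtain ⟨z1, hz1⟩ := Subgroup.mem_zpowers_iff.mp (I.hN μ1 (I.mu_mem y1.2 h1) hμ1)
    obtain ⟨z2, hz2⟩ := Subgroup.mem_zpowers_iff.mp (I.hN μ2 (I.mu_mem y2.2 h2) hμ2)
    show (y1 : G) * (y2 : G) = (y2 : G) * (y1 : G)
    rw [h1, h2, ← hz1, ← hz2]
    have huu : Commute (a ^ (p ^ e)) (a ^ (p ^ e)) := Commute.refl _
    have hvv : Commute v v := Commute.refl _
    exact (((huu.zpow_zpow z1 z2).mul_right ((hc.zpow_left z1).pow_right l2)).mul_left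
      (((hc.symm.pow_left l1).zpow_right z2).mul_right (hvv.pow_pow l1 l2))).eq

theorem Setup.comm_index (S : Setup p G N a b n) (O : Ords p N a b m k) :
    (commutator G).index = p ^ (m + k - n) := by
  have hp := (Fact.out : p.Prime)
  have hnm := S.n_le_m O
  have h1 := Subgroup.card_mul_index (commutator G)
  rw [S.card, S.card_nf O] at h1
  have h2 : p ^ n * (commutator G).index = p ^ n * p ^ (m + k - n) := by
    rw [h1, ← pow_add, ← pow_add]
    congr 1
    omega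
  exact Nat.eq_of_mul_eq_mul_left (pow_pos hp.pos n) h2

/-- Abelian subgroups of a metacyclic `p`-group, `p` odd (S3880). -/
theorem Setup.abelian_iff (S : Setup p G N a b n) (O : Ords p N a b m k) (L : Subgroup G) :
    (IsMulCommutative ↥L ↔ Nat.card ↥L ≤ (commutator G).index) ∧
      (Maximal (fun K : Subgroup G => IsMulCommutative ↥K) L ↔
        Nat.card ↥L = (commutator G).index) := by
  have hp := (Fact.out : p.Prime)
  have hnm := S.n_le_m O
  have hidx := S.comm_index O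
  haveI := S.hNn
  have part1 : ∀ K : Subgroup G, IsMulCommutative ↥K ↔ Nat.card ↥K ≤ (commutator G).index := by
    intro K
    obtain ⟨e, f, v, hem, hfk, I⟩ := S.exists_subInv O K
    rw [I.comm_iff S, I.card S O hem hfk, hidx, ← pow_add, Nat.pow_le_pow_iff_right hp.one_lt]
    omega
  refine ⟨part1 L, ?_⟩
  obtain ⟨e, f, v, hem, hfk, I⟩ := S.exists_subInv O L
  constructor
  · rintro ⟨hLc, hmax⟩
    have hle := (I.comm_iff S).mp hLc
    by_contra hne
    have hlt : n < e + f := by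
      rcases Nat.lt_or_ge n (e + f) with h | h
      · exact h
      · exfalso
        apply hne
        rw [I.card S O hem hfk, hidx, ← pow_add]
        congr 1
        omega
    rcases Nat.eq_zero_or_pos e with he0 | hepos
    · subst he0
      have hfpos : 1 ≤ f := by omega
      haveI := S.hNn
      have hcv : Commute a (b ^ (p ^ (f - 1))) := by
        have h1 : Commute (a ^ (p ^ 0)) (b ^ (p ^ (f - 1))) := by
          rw [S.commute_iff, S.ab_iff]
          omega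
        simpa using h1
      have hK : IsMulCommutative ↥(N ⊔ Subgroup.zpowers (b ^ (p ^ (f - 1)))) := by
        refine ⟨⟨fun y1 y2 => Subtype.ext ?_⟩⟩
        obtain ⟨μ1, hμ1, w1, hw1, e1⟩ := Subgroup.mem_sup_of_normal_left.mp y1.2
        obtain ⟨μ2, hμ2, w2, hw2, e2⟩ := Subgroup.mem_sup_of_normal_left.mp y2.2
        obtain ⟨i1, rfl⟩ := S.gens.hN μ1 hμ1
        obtain ⟨i2, rfl⟩ := S.gens.hN μ2 hμ2
        obtain ⟨z1, rfl⟩ := Subgroup.mem_zpowers_iff.mp hw1
        obtain ⟨z2, rfl⟩ := Subgroup.mem_zpowers_iff.mp hw2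
        show (y1 : G) * (y2 : G) = (y2 : G) * (y1 : G)
        rw [← e1, ← e2]
        exact ((((Commute.refl a).pow_pow i1 i2).mul_right
          ((hcv.pow_left i1).zpow_right z2)).mul_left
          ((((hcv.symm).zpow_left z1).pow_right i2).mul_right
            ((Commute.refl _).zpow_zpow z1 z2))).eq
      have hLK : L ≤ N ⊔ Subgroup.zpowers (b ^ (p ^ (f - 1))) := by
        intro y hy
        obtain ⟨l, μ, hμ, rfl⟩ := I.hgen y hy
        obtain ⟨ν, hν, hvdef⟩ := I.hv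
        refine Subgroup.mul_mem _ (Subgroup.mem_sup_left hμ) (Subgroup.pow_mem _ ?_ l)
        rw [hvdef]
        refine Subgroup.mul_mem _ (Subgroup.mem_sup_left hν) (Subgroup.mem_sup_right ?_)
        have e3 : b ^ (p ^ f) = (b ^ (p ^ (f - 1))) ^ p := by
          rw [← pow_mul, ← pow_succ, Nat.sub_add_cancel hfpos]
        rw [e3]
        exact Subgroup.pow_mem _ (Subgroup.mem_zpowers _) p
      have hKL := hmax hK hLK
      have hbL : b ^ (p ^ (f - 1)) ∈ L :=
        hKL (Subgroup.mem_sup_right (Subgroup.mem_zpowers _))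
      exact I.hfmin (f - 1) (by omega) 1 N.one_mem (by rwa [one_mul])
    · haveI hun : (Subgroup.zpowers (a ^ (p ^ (e - 1)))).Normal :=
        normal_of_le_cyclic S.hG N S.hNc (Subgroup.zpowers_le.mpr (N.pow_mem S.gens.ha _))
      have hcv : Commute (a ^ (p ^ (e - 1))) v := by
        obtain ⟨ν, hν, hvdef⟩ := I.hv
        obtain ⟨t, rfl⟩ := S.gens.hN ν hν
        rw [hvdef]
        have h1 : Commute (a ^ (p ^ (e - 1))) (b ^ (p ^ f)) := by
          rw [S.commute_iff, S.ab_iff]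
          omega
        exact ((Commute.refl a).pow_pow _ _).mul_right h1
      have hcL : ∀ y ∈ L, Commute (a ^ (p ^ (e - 1))) y := by
        intro y hy
        obtain ⟨l, μ, hμ, rfl⟩ := I.hgen y hy
        obtain ⟨t, rfl⟩ := S.gens.hN μ hμ
        exact ((Commute.refl a).pow_pow _ _).mul_right (hcv.pow_right l)
      have hK : IsMulCommutative ↥(Subgroup.zpowers (a ^ (p ^ (e - 1))) ⊔ L) := by
        refine ⟨⟨fun y1 y2 => Subtype.ext ?_⟩⟩
        obtain ⟨w1, hw1, x1, hx1, e1⟩ := Subgroup.mem_sup_of_normal_left.mp y1.2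
        obtain ⟨w2, hw2, x2, hx2, e2⟩ := Subgroup.mem_sup_of_normal_left.mp y2.2
        obtain ⟨z1, rfl⟩ := Subgroup.mem_zpowers_iff.mp hw1
        obtain ⟨z2, rfl⟩ := Subgroup.mem_zpowers_iff.mp hw2
        have hxx : Commute x1 x2 := congrArg Subtype.val (hLc.is_comm.comm ⟨x1, hx1⟩ ⟨x2, hx2⟩)
        show (y1 : G) * (y2 : G) = (y2 : G) * (y1 : G)
        rw [← e1, ← e2]
        exact ((((Commute.refl _).zpow_zpow z1 z2).mul_right
          ((hcL x2 hx2).zpow_left z1)).mul_left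
          ((((hcL x1 hx1).symm).zpow_right z2).mul_right hxx)).eq
      have hKL := hmax hK le_sup_right
      have h1 : a ^ (p ^ (e - 1)) ∈ L := hKL (Subgroup.mem_sup_left (Subgroup.mem_zpowers _))
      exact I.hemin (e - 1) (by omega) h1
  · intro hcard
    have hLc : IsMulCommutative ↥L := (part1 L).mpr hcard.le
    refine ⟨hLc, fun K hK hLK => ?_⟩
    have h1 := (part1 K).mp hK
    have h2 : L = K := Subgroup.eq_of_le_of_card_ge hLK (by rw [hcard]; exact h1)
    rw [h2]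

end Cfsg.Agent.Helper8.Meta
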