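import Cfsg.Agent.Helper8.Meta6
import Cfsg.Prelude.Def_BaumannBlocks

/-!
# Metacyclic `p`-groups for odd `p`: the Chermak–Delgado measure
-/

set_option autoImplicit false

namespace Cfsg.Agent.Helper8.Meta

open Cfsg Cfsg.Agent.Helper8 Cfsg.Agent.Helper8.RegP
open scoped commutatorElement

section generic

variable {G : Type*} [Group G] [Finite G]

theorem card_mul_relIndex_of_le {H K : Subgroup G} (h : H ≤ K) :
    Nat.card H * H.relIndex K = Nat.card K := by
  have h1 := Subgroup.relIndex_mul_relIndex ⊥ H K bot_le h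
  rwa [Subgroup.relIndex_bot_left, Subgroup.relIndex_bot_left] at h1

theorem card_mul_card_le_sup_inf (H K : Subgroup G) :
    Nat.card H * Nat.card K ≤ Nat.card (H ⊔ K : Subgroup G) * Nat.card (H ⊓ K : Subgroup G) := by
  have h1 : H.relIndex K ≤ H.relIndex (H ⊔ K) :=
    Subgroup.relIndex_le_of_le_right le_sup_right
      (Subgroup.index_ne_zero_of_finite (H := H.subgroupOf (H ⊔ K)))
  have h2 : Nat.card (H ⊓ K : Subgroup G) * H.relIndex K = Nat.card K := by
    rw [← Subgroup.inf_relIndex_right]
    exact card_mul_relIndex_of_le inf_le_right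
  have h3 : Nat.card H * H.relIndex (H ⊔ K) = Nat.card (H ⊔ K : Subgroup G) :=
    card_mul_relIndex_of_le le_sup_left
  calc Nat.card H * Nat.card K = Nat.card H * (Nat.card (H ⊓ K : Subgroup G) * H.relIndex K) := by
        rw [h2]
    _ ≤ Nat.card H * (Nat.card (H ⊓ K : Subgroup G) * H.relIndex (H ⊔ K)) :=
        Nat.mul_le_mul_left _ (Nat.mul_le_mul_left _ h1)
    _ = Nat.card (H ⊔ K : Subgroup G) * Nat.card (H ⊓ K : Subgroup G) := by
        rw [← h3]
        ring

/-- The Chermak–Delgado measure of a subgroup. -/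
noncomputable def cdm (R : Subgroup G) : ℕ :=
  Nat.card R * Nat.card (Subgroup.centralizer (R : Set G))

theorem centralizer_inf_le (H K : Subgroup G) :
    Subgroup.centralizer (H : Set G) ⊓ Subgroup.centralizer (K : Set G) ≤
      Subgroup.centralizer ((H ⊔ K : Subgroup G) : Set G) := by
  rw [Subgroup.le_centralizer_iff]
  refine sup_le ?_ ?_
  · rw [Subgroup.le_centralizer_iff]
    exact inf_le_left
  · rw [Subgroup.le_centralizer_iff]
    exact inf_le_right

theorem centralizer_sup_le (H K : Subgroup G) :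
    Subgroup.centralizer (H : Set G) ⊔ Subgroup.centralizer (K : Set G) ≤
      Subgroup.centralizer ((H ⊓ K : Subgroup G) : Set G) :=
  sup_le (Subgroup.centralizer_le (fun _ hx => (Subgroup.mem_inf.mp hx).1))
    (Subgroup.centralizer_le (fun _ hx => (Subgroup.mem_inf.mp hx).2))

/-- The Chermak–Delgado inequality. -/
theorem cdm_mul_le (H K : Subgroup G) : cdm H * cdm K ≤ cdm (H ⊔ K) * cdm (H ⊓ K) := by
  unfold cdm
  have h1 := card_mul_card_le_sup_inf H K
  have h2 := card_mul_card_le_sup_inf (Subgroup.centralizer (H : Set G))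
    (Subgroup.centralizer (K : Set G))
  have h3 := Subgroup.card_le_of_le (centralizer_inf_le H K)
  have h4 := Subgroup.card_le_of_le (centralizer_sup_le H K)
  calc Nat.card H * Nat.card (Subgroup.centralizer (H : Set G)) *
        (Nat.card K * Nat.card (Subgroup.centralizer (K : Set G)))
      = (Nat.card H * Nat.card K) * (Nat.card (Subgroup.centralizer (H : Set G)) *
          Nat.card (Subgroup.centralizer (K : Set G))) := by ring
    _ ≤ (Nat.card (H ⊔ K : Subgroup G) * Nat.card (H ⊓ K : Subgroup G)) *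
          (Nat.card (Subgroup.centralizer (H : Set G) ⊔ Subgroup.centralizer (K : Set G) :
            Subgroup G) *
          Nat.card (Subgroup.centralizer (H : Set G) ⊓ Subgroup.centralizer (K : Set G) :
            Subgroup G)) := Nat.mul_le_mul h1 h2
    _ ≤ (Nat.card (H ⊔ K : Subgroup G) * Nat.card (H ⊓ K : Subgroup G)) *
          (Nat.card (Subgroup.centralizer ((H ⊓ K : Subgroup G) : Set G)) *
          Nat.card (Subgroup.centralizer ((H ⊔ K : Subgroup G) : Set G))) :=
        Nat.mul_le_mul_left _ (Nat.mul_le_mul h4 h3)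
    _ = _ := by ring

theorem centralizer_sup_center (R : Subgroup G) :
    Subgroup.centralizer ((R ⊔ Subgroup.center G : Subgroup G) : Set G) =
      Subgroup.centralizer (R : Set G) := by
  apply le_antisymm
  · exact Subgroup.centralizer_le (fun _ hx => Subgroup.mem_sup_left hx)
  · rw [Subgroup.le_centralizer_iff]
    refine sup_le ?_ (Subgroup.center_le_centralizer _)
    rw [Subgroup.le_centralizer_iff]

theorem cdm_center : cdm (Subgroup.center G) = Nat.card G * Nat.card (Subgroup.center G) := by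
  unfold cdm
  rw [Subgroup.centralizer_eq_top_iff_subset.mpr (le_refl _), Subgroup.card_top, mul_comm]

end generic

variable {G : Type*} [Group G] [Finite G] {p : ℕ} [Fact p.Prime]
variable {N : Subgroup G} {a b : G} {n m k : ℕ}
variable {L : Subgroup G} {e f : ℕ} {v : G}

theorem SubInv.e_le (I : SubInv p N a b L e f v) {e' : ℕ} (h : a ^ (p ^ e') ∈ L) : e ≤ e' := by
  by_contra hlt
  exact I.hemin e' (by omega) h

theorem SubInv.f_le (I : SubInv p N a b L e f v) {f' : ℕ} {ν : G} (hν : ν ∈ N)
    (h : ν * b ^ (p ^ f') ∈ L) : f ≤ f' := by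
  by_contra hlt
  exact I.hfmin f' (by omega) ν hν h

theorem Setup.card_le (S : Setup p G N a b n) (O : Ords p N a b m k) (L : Subgroup G) {e0 f0 : ℕ}
    (h1 : ∀ e', a ^ (p ^ e') ∈ L → e0 ≤ e')
    (h2 : ∀ f' ν, ν ∈ N → ν * b ^ (p ^ f') ∈ L → f0 ≤ f') :
    Nat.card L ≤ p ^ (m - e0) * p ^ (k - f0) := by
  have hp := (Fact.out : p.Prime)
  obtain ⟨e, f, v, hem, hfk, I⟩ := S.exists_subInv O L
  have h3 := h1 e I.he
  obtain ⟨ν, hν, hv⟩ := I.hv
  have h4 := h2 f ν hν (hv ▸ I.hvL)
  rw [I.card S O hem hfk]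
  exact Nat.mul_le_mul (Nat.pow_le_pow_right hp.pos (by omega))
    (Nat.pow_le_pow_right hp.pos (by omega))

theorem Setup.card_ge (S : Setup p G N a b n) (O : Ords p N a b m k) (L : Subgroup G) {e0 f0 : ℕ}
    (h1 : a ^ (p ^ e0) ∈ L) {ν : G} (hν : ν ∈ N) (h2 : ν * b ^ (p ^ f0) ∈ L) :
    p ^ (m - e0) * p ^ (k - f0) ≤ Nat.card L := by
  have hp := (Fact.out : p.Prime)
  obtain ⟨e, f, v, hem, hfk, I⟩ := S.exists_subInv O L
  have h3 := I.e_le h1
  have h4 := I.f_le hν h2
  rw [I.card S O hem hfk]
  exact Nat.mul_le_mul (Nat.pow_le_pow_right hp.pos (by omega))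
    (Nat.pow_le_pow_right hp.pos (by omega))

theorem Setup.commute_a_pow_iff (S : Setup p G N a b n) {ν : G} (hν : ν ∈ N) (i j : ℕ) :
    Commute (a ^ (p ^ i)) (ν * b ^ (p ^ j)) ↔ n ≤ i + j := by
  obtain ⟨t, rfl⟩ := S.gens.hN ν hν
  rw [← S.ab_iff, ← S.commute_iff]
  have hc : Commute (a ^ (p ^ i)) (a ^ t) := (Commute.refl a).pow_pow _ _
  constructor
  · intro h
    have h1 := hc.inv_right.mul_right h
    simpa using h1
  · intro h
    exact hc.mul_right h

theorem SubInv.cent_card_le (I : SubInv p N a b L e f v) (S : Setup p G N a b n)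
    (O : Ords p N a b m k) :
    Nat.card (Subgroup.centralizer (L : Set G)) ≤ p ^ (m - (n - f)) * p ^ (k - (n - e)) := by
  apply S.card_le O
  · intro e' h
    have hc : Commute (a ^ (p ^ e')) v := (Subgroup.mem_centralizer_iff.mp h v I.hvL).symm
    obtain ⟨ν, hν, hvdef⟩ := I.hv
    rw [hvdef, S.commute_a_pow_iff hν] at hc
    omega
  · intro f' ν hν h
    have hc : Commute (a ^ (p ^ e)) (ν * b ^ (p ^ f')) :=
      Subgroup.mem_centralizer_iff.mp h _ I.he
    rw [S.commute_a_pow_iff hν] at hc
    omega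

theorem Setup.pow_mem_center (S : Setup p G N a b n) (y : G) :
    y ^ (p ^ n) ∈ Subgroup.center G := by
  rw [← S.agemo_eq_center]
  exact Subgroup.subset_closure ⟨y, rfl⟩

theorem Setup.card_center (S : Setup p G N a b n) (O : Ords p N a b m k) :
    Nat.card (Subgroup.center G) = p ^ (m + k - 2 * n) := by
  have hp := (Fact.out : p.Prime)
  have hnm := S.n_le_m O
  have hnk := S.n_le_k O
  have h1 := S.card_eq
  rw [S.card_nf O] at h1
  have h2 : p ^ (m + k - 2 * n) * p ^ (2 * n) = Nat.card (Subgroup.center G) * p ^ (2 * n) := by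
    rw [← h1, ← pow_add, ← pow_add]
    congr 1
    omega
  exact (Nat.eq_of_mul_eq_mul_right (pow_pos hp.pos _) h2).symm

/-- The Chermak–Delgado measure is at most `|G| |Z(G)|`. -/
theorem Setup.cdm_le (S : Setup p G N a b n) (O : Ords p N a b m k) (R : Subgroup G) :
    cdm R ≤ Nat.card G * Nat.card (Subgroup.center G) := by
  have hp := (Fact.out : p.Prime)
  have hnm := S.n_le_m O
  have hnk := S.n_le_k O
  obtain ⟨e, f, v, hem, hfk, I⟩ := S.exists_subInv O (R ⊔ Subgroup.center G)
  have he : e ≤ n := I.e_le (Subgroup.mem_sup_right (S.pow_mem_center a))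
  have hf : f ≤ n := I.f_le (ν := 1) N.one_mem (by
    rw [one_mul]
    exact Subgroup.mem_sup_right (S.pow_mem_center b))
  have h1 : Nat.card R ≤ Nat.card (R ⊔ Subgroup.center G : Subgroup G) :=
    Subgroup.card_le_of_le le_sup_left
  have h2 := I.cent_card_le S O
  rw [centralizer_sup_center] at h2
  unfold cdm
  rw [S.card_center O, S.card_nf O]
  calc Nat.card R * Nat.card (Subgroup.centralizer (R : Set G))
      ≤ Nat.card (R ⊔ Subgroup.center G : Subgroup G) *
          (p ^ (m - (n - f)) * p ^ (k - (n - e))) := Nat.mul_le_mul h1 h2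
    _ = p ^ m * p ^ k * p ^ (m + k - 2 * n) := by
        rw [I.card S O hem hfk, ← pow_add, ← pow_add, ← pow_add, ← pow_add, ← pow_add]
        congr 1
        omega

theorem Setup.depth' (S : Setup p G N a b n) (g : G) : ∀ s : ℕ, s ≤ n →
    (∃ y : G, g = y ^ (p ^ s)) ∨
      ∃ s' : ℕ, s' < s ∧ ∃ x u : G, g = x ^ (p ^ s') ∧ ∀ e, ⁅u, x⁆ ^ (p ^ e) = 1 ↔ n ≤ e := by
  intro s
  induction s with
  | zero => intro _; exact Or.inl ⟨g, by simp⟩
  | succ s ih =>
    intro hs
    rcases ih (by omega) with ⟨y, rfl⟩ | ⟨s', hs', h⟩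
    · rcases S.dich y with ⟨z, rfl⟩ | ⟨u, hu⟩
      · left
        exact ⟨z, by rw [← pow_mul, ← pow_succ']⟩
      · right
        exact ⟨s, Nat.lt_succ_self s, y, u, rfl, hu⟩
    · right
      exact ⟨s', by omega, h⟩

/-- Cyclic extensions of the centre have the largest Chermak–Delgado measure. -/
theorem Setup.cdm_cyclic_ge (S : Setup p G N a b n) (g : G) :
    Nat.card G * Nat.card (Subgroup.center G) ≤ cdm (Subgroup.zpowers g ⊔ Subgroup.center G) := by
  have hp := (Fact.out : p.Prime)
  rcases S.depth' g n le_rfl with ⟨y, rfl⟩ | ⟨s', hs', x, u, rfl, hu⟩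
  · have h1 : Subgroup.zpowers (y ^ (p ^ n)) ⊔ Subgroup.center G = Subgroup.center G :=
      sup_eq_right.mpr (Subgroup.zpowers_le.mpr (S.pow_mem_center y))
    rw [h1, cdm_center]
  · have hidx := S.index_eq x u hu (s := s') (by omega)
    have hC : Subgroup.centralizer ({x ^ (p ^ s')} : Set G) ≤ Subgroup.centralizer
        ((Subgroup.zpowers (x ^ (p ^ s')) ⊔ Subgroup.center G : Subgroup G) : Set G) := by
      rw [Subgroup.le_centralizer_iff]
      refine sup_le ?_ (Subgroup.center_le_centralizer _)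
      rw [Subgroup.zpowers_le]
      rw [Subgroup.mem_centralizer_iff]
      intro h hh
      exact (Subgroup.mem_centralizer_singleton_iff.mp hh)
    have h1 := Subgroup.card_mul_index (Subgroup.centralizer ({x ^ (p ^ s')} : Set G))
    rw [hidx] at h1
    have hrel : p ^ (n - s') ≤ (Subgroup.center G).relIndex
        (Subgroup.zpowers (x ^ (p ^ s')) ⊔ Subgroup.center G) := by
      rw [Subgroup.relIndex_sup_right]
      have h2 : (Subgroup.center G).relIndex (Subgroup.zpowers (x ^ (p ^ s'))) ∣
          Nat.card (Subgroup.zpowers (x ^ (p ^ s'))) := Subgroup.relIndex_dvd_card _ _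
      obtain ⟨k', hk'⟩ := (IsPGroup.iff_orderOf.mp S.hG) (x ^ (p ^ s'))
      rw [Nat.card_zpowers, hk'] at h2
      obtain ⟨j, -, hj⟩ := (Nat.dvd_prime_pow hp).mp h2
      have h3 : (x ^ (p ^ s')) ^ (p ^ j) ∈ Subgroup.center G := by
        have h0 := Subgroup.pow_index_mem
          ((Subgroup.center G).subgroupOf (Subgroup.zpowers (x ^ (p ^ s'))))
          (⟨x ^ (p ^ s'), Subgroup.mem_zpowers _⟩ : Subgroup.zpowers (x ^ (p ^ s')))
        have e0 : ((Subgroup.center G).subgroupOf (Subgroup.zpowers (x ^ (p ^ s')))).index =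
            p ^ j := hj
        rw [e0] at h0
        exact Subgroup.mem_subgroupOf.mp h0
      have h4 : Commute (x ^ (p ^ (s' + j))) (u ^ (p ^ 0)) := by
        rw [pow_zero, pow_one, pow_add, pow_mul]
        exact (Subgroup.mem_center_iff.mp h3 u).symm
      rw [S.commute_iff, add_zero, comm_pow_symm, hu] at h4
      rw [hj]
      exact Nat.pow_le_pow_right hp.pos (by omega)
    have h2 : Nat.card (Subgroup.center G) * (Subgroup.center G).relIndex
        (Subgroup.zpowers (x ^ (p ^ s')) ⊔ Subgroup.center G) =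
        Nat.card (Subgroup.zpowers (x ^ (p ^ s')) ⊔ Subgroup.center G : Subgroup G) :=
      card_mul_relIndex_of_le le_sup_right
    unfold cdm
    calc Nat.card G * Nat.card (Subgroup.center G)
        = Nat.card (Subgroup.center G) * p ^ (n - s') *
            Nat.card (Subgroup.centralizer ({x ^ (p ^ s')} : Set G)) := by
          rw [← h1]
          ring
      _ ≤ Nat.card (Subgroup.center G) * (Subgroup.center G).relIndex
            (Subgroup.zpowers (x ^ (p ^ s')) ⊔ Subgroup.center G) *
            Nat.card (Subgroup.centralizer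
              ((Subgroup.zpowers (x ^ (p ^ s')) ⊔ Subgroup.center G : Subgroup G) : Set G)) :=
          Nat.mul_le_mul (Nat.mul_le_mul_left _ hrel) (Subgroup.card_le_of_le hC)
      _ = _ := by rw [h2]

/-- Subgroups containing the centre have the largest Chermak–Delgado measure. -/
theorem Setup.cdm_eq (S : Setup p G N a b n) (O : Ords p N a b m k) (R : Subgroup G)
    (hZ : Subgroup.center G ≤ R) : cdm R = Nat.card G * Nat.card (Subgroup.center G) := by
  have hub := S.cdm_le O
  have hMpos : 0 < Nat.card G * Nat.card (Subgroup.center G) :=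
    Nat.mul_pos Nat.card_pos Nat.card_pos
  have hjoin : ∀ H K : Subgroup G, cdm H = Nat.card G * Nat.card (Subgroup.center G) →
      cdm K = Nat.card G * Nat.card (Subgroup.center G) →
      cdm (H ⊔ K) = Nat.card G * Nat.card (Subgroup.center G) := by
    intro H K hH hK
    have h1 := cdm_mul_le H K
    rw [hH, hK] at h1
    have h2 := hub (H ⊔ K)
    have h3 := hub (H ⊓ K)
    by_contra hne
    have h4 : cdm (H ⊔ K) < Nat.card G * Nat.card (Subgroup.center G) := lt_of_le_of_ne h2 hne
    have h5 := Nat.mul_lt_mul_of_lt_of_le h4 h3 hMpos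
    omega
  obtain ⟨H, ⟨hZH, hHR, hHm⟩, hmax⟩ := Set.exists_max_image
    {H : Subgroup G | Subgroup.center G ≤ H ∧ H ≤ R ∧
      cdm H = Nat.card G * Nat.card (Subgroup.center G)}
    (fun H => Nat.card H) (Set.toFinite _) ⟨Subgroup.center G, le_rfl, hZ, cdm_center⟩
  by_cases hHR' : H = R
  · rw [← hHR']
    exact hHm
  · exfalso
    obtain ⟨g, hgR, hgH⟩ : ∃ g ∈ R, g ∉ H := by
      by_contra hcon
      push Not at hcon
      exact hHR' (le_antisymm hHR hcon)
    have hK : cdm (Subgroup.zpowers g ⊔ Subgroup.center G) =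
        Nat.card G * Nat.card (Subgroup.center G) := le_antisymm (hub _) (S.cdm_cyclic_ge g)
    have hHK := hjoin H _ hHm hK
    have h1 := hmax (H ⊔ (Subgroup.zpowers g ⊔ Subgroup.center G))
      ⟨le_sup_of_le_left hZH, sup_le hHR (sup_le (Subgroup.zpowers_le.mpr hgR) hZ), hHK⟩
    have h2 : H = H ⊔ (Subgroup.zpowers g ⊔ Subgroup.center G) :=
      Subgroup.eq_of_le_of_card_ge le_sup_left h1
    apply hgH
    rw [h2]
    exact Subgroup.mem_sup_right (Subgroup.mem_sup_left (Subgroup.mem_zpowers g))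

theorem Setup.cdm_lt (S : Setup p G N a b n) (O : Ords p N a b m k) (R : Subgroup G)
    (hZ : ¬ Subgroup.center G ≤ R) : cdm R < Nat.card G * Nat.card (Subgroup.center G) := by
  have h1 := S.cdm_le O (R ⊔ Subgroup.center G)
  have h2 : Nat.card R < Nat.card (R ⊔ Subgroup.center G : Subgroup G) := by
    by_contra hcon
    push Not at hcon
    have h3 : R = R ⊔ Subgroup.center G := Subgroup.eq_of_le_of_card_ge le_sup_left hcon
    apply hZ
    rw [h3]
    exact le_sup_right
  unfold cdm at h1 ⊢
  rw [centralizer_sup_center] at h1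
  exact lt_of_lt_of_le (Nat.mul_lt_mul_of_pos_right h2 Nat.card_pos) h1

theorem Setup.maxCentralizerProduct_eq (S : Setup p G N a b n) (O : Ords p N a b m k) :
    maxCentralizerProduct G = Nat.card G * Nat.card (Subgroup.center G) := by
  unfold maxCentralizerProduct
  apply IsGreatest.csSup_eq
  refine ⟨⟨Subgroup.center G, cdm_center⟩, ?_⟩
  rintro _ ⟨R, rfl⟩
  exact S.cdm_le O R

/-- S3887. -/
theorem Setup.centralizerLarge_iff (S : Setup p G N a b n) (O : Ords p N a b m k)
    (R : Subgroup G) : IsCentralizerLarge R ↔ Subgroup.center G ≤ R := by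
  unfold IsCentralizerLarge
  rw [S.maxCentralizerProduct_eq O]
  constructor
  · intro h
    by_contra hZ
    have h1 := S.cdm_lt O R hZ
    unfold cdm at h1
    omega
  · intro hZ
    exact S.cdm_eq O R hZ

/-- S3885. -/
theorem Setup.abelian_eq (S : Setup p G N a b n) (O : Ords p N a b m k) (K : Subgroup G)
    (hK : IsMulCommutative ↥K) (hZ : Subgroup.center G ≤ K) :
    K = Subgroup.centralizer (K : Set G) ⊓
      Subgroup.centralizer (Subgroup.centralizer (K : Set G) : Set G) := by
  have h1 := S.cdm_eq O K hZ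
  have h2 := S.cdm_eq O (Subgroup.centralizer (K : Set G)) (Subgroup.center_le_centralizer _)
  unfold cdm at h1 h2
  have hKC : K ≤ Subgroup.centralizer (K : Set G) := by
    intro x hx
    rw [Subgroup.mem_centralizer_iff]
    intro y hy
    exact congrArg Subtype.val (hK.is_comm.comm ⟨y, hy⟩ ⟨x, hx⟩)
  have hKCC : K ≤ Subgroup.centralizer (Subgroup.centralizer (K : Set G) : Set G) := by
    rw [Subgroup.le_centralizer_iff]
  have h3 : Nat.card (Subgroup.centralizer (Subgroup.centralizer (K : Set G) : Set G)) =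
      Nat.card K := by
    have h4 : Nat.card (Subgroup.centralizer (K : Set G)) *
        Nat.card (Subgroup.centralizer (Subgroup.centralizer (K : Set G) : Set G)) =
        Nat.card (Subgroup.centralizer (K : Set G)) * Nat.card K := by
      rw [h2, ← h1, mul_comm]
    exact Nat.eq_of_mul_eq_mul_left Nat.card_pos h4
  have h5 : K = Subgroup.centralizer (Subgroup.centralizer (K : Set G) : Set G) :=
    Subgroup.eq_of_le_of_card_ge hKCC h3.le
  rw [← h5]
  exact (inf_eq_right.mpr hKC).symm

end Cfsg.Agent.Helper8.Meta
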