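import Cfsg.Agent.Helper8.Meta7

/-!
# Metacyclic `p`-groups for odd `p`: centrally large subgroups
-/

set_option autoImplicit false

namespace Cfsg.Agent.Helper8.Meta

open Cfsg Cfsg.Agent.Helper8 Cfsg.Agent.Helper8.RegP
open scoped commutatorElement

theorem card_center_subtype {G : Type*} [Group G] (R : Subgroup G) :
    Nat.card (Subgroup.center ↥R) =
      Nat.card (R ⊓ Subgroup.centralizer (R : Set G) : Subgroup G) := by
  have h1 : (Subgroup.center ↥R).map R.subtype = R ⊓ Subgroup.centralizer (R : Set G) := by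
    ext x
    constructor
    · rintro ⟨y, hy, rfl⟩
      refine Subgroup.mem_inf.mpr ⟨y.2, Subgroup.mem_centralizer_iff.mpr ?_⟩
      intro h hh
      have h2 := Subgroup.mem_center_iff.mp hy ⟨h, hh⟩
      exact congrArg Subtype.val h2
    · rintro ⟨hxR, hxC⟩
      refine ⟨⟨x, hxR⟩, ?_, rfl⟩
      rw [SetLike.mem_coe, Subgroup.mem_center_iff]
      intro g
      apply Subtype.ext
      exact Subgroup.mem_centralizer_iff.mp hxC g g.2
  rw [← h1, Subgroup.card_map_of_injective R.subtype_injective]

variable {G : Type*} [Group G] [Finite G] {p : ℕ} [Fact p.Prime]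
variable {N : Subgroup G} {a b : G} {n m k : ℕ}
variable {L : Subgroup G} {e f : ℕ} {v : G}

theorem SubInv.v_pow_eq (I : SubInv p N a b L e f v) (S : Setup p G N a b n) (j : ℕ) :
    ∃ ν ∈ N, v ^ (p ^ j) = ν * b ^ (p ^ (f + j)) := by
  haveI := S.hNn
  obtain ⟨ν0, hν0, hvdef⟩ := I.hv
  refine ⟨v ^ (p ^ j) * (b ^ (p ^ (f + j)))⁻¹, ?_, by group⟩
  rw [hvdef, ← QuotientGroup.eq_one_iff, QuotientGroup.mk_mul, QuotientGroup.mk_inv,
    QuotientGroup.mk_pow, QuotientGroup.mk_mul, (QuotientGroup.eq_one_iff _).mpr hν0, one_mul,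
    ← QuotientGroup.mk_pow, ← pow_mul, ← pow_add, mul_inv_cancel]

/-- The centre of a non-abelian subgroup. -/
theorem SubInv.card_center (I : SubInv p N a b L e f v) (S : Setup p G N a b n)
    (O : Ords p N a b m k) (hL : ¬ IsMulCommutative ↥L) :
    Nat.card (Subgroup.center ↥L) = p ^ (m - (n - f)) * p ^ (k - (n - e)) := by
  have hlt : e + f < n := by
    by_contra hcon
    exact hL ((I.comm_iff S).mpr (by omega))
  rw [card_center_subtype]
  apply le_antisymm
  · exact le_trans (Subgroup.card_le_of_le inf_le_right) (I.cent_card_le S O)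
  · obtain ⟨ν, hν, hνe⟩ := I.v_pow_eq S (n - e - f)
    have e1 : f + (n - e - f) = n - e := by omega
    rw [e1] at hνe
    have hcomm : ∀ y ∈ L, ∀ x : G, Commute x (a ^ (p ^ e)) → Commute x v → Commute x y := by
      intro y hy x hxa hxv
      obtain ⟨l, μ, hμ, rfl⟩ := I.hgen y hy
      obtain ⟨z, rfl⟩ := Subgroup.mem_zpowers_iff.mp (I.hN μ (I.mu_mem hy rfl) hμ)
      exact (hxa.zpow_right z).mul_right (hxv.pow_right l)
    have hA : a ^ (p ^ (n - f)) ∈ L ⊓ Subgroup.centralizer (L : Set G) := by
      refine Subgroup.mem_inf.mpr ⟨?_, Subgroup.mem_centralizer_iff.mpr ?_⟩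
      · have e2 : a ^ (p ^ (n - f)) = (a ^ (p ^ e)) ^ (p ^ (n - f - e)) := by
          rw [← pow_mul, ← pow_add]
          congr 2
          omega
        rw [e2]
        exact L.pow_mem I.he _
      · intro y hy
        refine (hcomm y hy _ ((Commute.refl a).pow_pow _ _) ?_).symm.eq
        obtain ⟨ν0, hν0, hvdef⟩ := I.hv
        rw [hvdef, S.commute_a_pow_iff hν0]
        omega
    have hB : ν * b ^ (p ^ (n - e)) ∈ L ⊓ Subgroup.centralizer (L : Set G) := by
      rw [← hνe]
      refine Subgroup.mem_inf.mpr ⟨L.pow_mem I.hvL _, Subgroup.mem_centralizer_iff.mpr ?_⟩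
      intro y hy
      refine (hcomm y hy _ ?_ ((Commute.refl v).pow_left _)).symm.eq
      rw [hνe]
      exact ((S.commute_a_pow_iff hν e (n - e)).mpr (by omega)).symm
    exact S.card_ge O _ hA hν hB

/-- The product `|L| |Z(L)|` for a non-abelian subgroup. -/
theorem Setup.central_product_nonabelian (S : Setup p G N a b n) (O : Ords p N a b m k)
    (L : Subgroup G) (hL : ¬ IsMulCommutative ↥L) :
    Nat.card L * Nat.card (Subgroup.center ↥L) = (commutator G).index ^ 2 := by
  have hnm := S.n_le_m O
  have hnk := S.n_le_k O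
  obtain ⟨e, f, v, hem, hfk, I⟩ := S.exists_subInv O L
  have hlt : e + f < n := by
    by_contra hcon
    exact hL ((I.comm_iff S).mpr (by omega))
  rw [I.card_center S O hL, I.card S O hem hfk, S.comm_index O, ← pow_add, ← pow_add, ← pow_add,
    ← pow_mul]
  congr 1
  omega

theorem central_product_abelian (L : Subgroup G) (hL : IsMulCommutative ↥L) :
    Nat.card L * Nat.card (Subgroup.center ↥L) = Nat.card L ^ 2 := by
  rw [Subgroup.center_eq_top_iff.mpr hL, Subgroup.card_top, sq]

/-- S3886. -/
theorem Setup.centrallyLarge (S : Setup p G N a b n) (O : Ords p N a b m k) :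
    maxCentralProduct G = (commutator G).index ^ 2 ∧
    ∀ R : Subgroup G, IsCentrallyLarge R ↔
      (¬ IsMulCommutative ↥R ∨ Maximal (fun K : Subgroup G => IsMulCommutative ↥K) R) := by
  have hmax : maxCentralProduct G = (commutator G).index ^ 2 := by
    unfold maxCentralProduct
    apply IsGreatest.csSup_eq
    refine ⟨⟨⊤, ?_⟩, ?_⟩
    · by_cases hT : IsMulCommutative ↥(⊤ : Subgroup G)
      · rw [central_product_abelian _ hT]
        have h1 := ((S.abelian_iff O ⊤).1).mp hT
        have h2 : (commutator G).index ≤ Nat.card (⊤ : Subgroup G) := by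
          rw [Subgroup.card_top]
          exact Nat.le_of_dvd Nat.card_pos (Subgroup.index_dvd_card _)
        rw [le_antisymm h1 h2]
      · exact S.central_product_nonabelian O ⊤ hT
    · rintro _ ⟨R, rfl⟩
      by_cases hR : IsMulCommutative ↥R
      · rw [central_product_abelian _ hR]
        exact Nat.pow_le_pow_left (((S.abelian_iff O R).1).mp hR) 2
      · exact (S.central_product_nonabelian O R hR).le
  refine ⟨hmax, fun R => ?_⟩
  unfold IsCentrallyLarge
  rw [hmax]
  constructor
  · intro h
    by_cases hR : IsMulCommutative ↥R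
    · right
      rw [central_product_abelian _ hR] at h
      have h1 : Nat.card R = (commutator G).index := by
        have := Nat.pow_left_injective (n := 2) (by norm_num) h
        exact this
      exact ((S.abelian_iff O R).2).mpr h1
    · exact Or.inl hR
  · rintro (hR | hR)
    · exact S.central_product_nonabelian O R hR
    · rw [central_product_abelian _ hR.1, ((S.abelian_iff O R).2).mp hR]

end Cfsg.Agent.Helper8.Meta
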