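import Mathlib
import Cfsg.Prelude.Def_LocalEven

namespace Cfsg.Agent.Helper8.MinPar

open MulAction
open scoped Pointwise

theorem main2963 (n : ℕ) (hn : Odd n) (h : Cfsg.IsPMinimal 2 (Equiv.Perm (Fin n))) :
    ∃ m : ℕ, n = 2 ^ m + 1 := by
  haveI : Fact (Nat.Prime 2) := ⟨Nat.prime_two⟩
  obtain ⟨S⟩ : Nonempty (Sylow 2 (Equiv.Perm (Fin n))) := inferInstance
  obtain ⟨hnn, M, ⟨hM, hSM⟩, huniq⟩ := h S
  have hP : IsPGroup 2 (S : Subgroup (Equiv.Perm (Fin n))) := S.isPGroup'
  have hfix : (fixedPoints (S : Subgroup (Equiv.Perm (Fin n))) (Fin n)).Nonempty := by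
    apply hP.nonempty_fixed_point_of_prime_not_dvd_card
    rw [Nat.card_fin]
    exact fun h2 => (Nat.not_even_iff_odd.mpr hn) (even_iff_two_dvd.mpr h2)
  obtain ⟨x, hx⟩ := hfix
  have hx' : ∀ g ∈ (S : Subgroup (Equiv.Perm (Fin n))), g x = x := fun g hg => hx ⟨g, hg⟩
  have hn1 : n ≠ 1 := by
    rintro rfl
    apply hnn
    exact ⟨fun a ha g => by rw [Subsingleton.elim (g * a * g⁻¹) a]; exact ha⟩
  have hn3 : 3 ≤ n := by
    obtain ⟨k, rfl⟩ := hn
    omega
  obtain ⟨y, hyx⟩ : ∃ y : Fin n, y ≠ x := by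
    haveI : Nontrivial (Fin n) := Fin.nontrivial_iff_two_le.mpr (by omega)
    exact exists_ne x
  obtain ⟨k, hk⟩ := hP.card_orbit y
  set O : Set (Fin n) := orbit (S : Subgroup (Equiv.Perm (Fin n))) y with hO
  have hyO : y ∈ O := mem_orbit_self y
  have hxO : x ∉ O := by
    rintro ⟨g, hg⟩
    apply hyx
    have h1 : (g : Equiv.Perm (Fin n)) y = x := hg
    have h2 := hx' g g.2
    exact (g : Equiv.Perm (Fin n)).injective (h1.trans h2.symm)
  have hkO : O.ncard = 2 ^ k := by rw [← Nat.card_coe_set_eq]; exact hk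
  have hS1 : (S : Subgroup (Equiv.Perm (Fin n))) ≤
      stabilizer (Equiv.Perm (Fin n)) ({x} : Set (Fin n)) := by
    intro g hg
    rw [mem_stabilizer_set]
    intro b
    simp only [Set.mem_singleton_iff]
    constructor
    · intro hb
      have h2 := hx' g hg
      exact g.injective ((show g b = x from hb).trans h2.symm)
    · intro hb; rw [hb]; exact hx' g hg
  have hS2 : (S : Subgroup (Equiv.Perm (Fin n))) ≤ stabilizer (Equiv.Perm (Fin n)) O := by
    intro g hg
    rw [mem_stabilizer_set]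
    intro b
    constructor
    · rintro ⟨k, hk⟩
      refine ⟨⟨g, hg⟩⁻¹ * k, ?_⟩
      have h1 : (k : Equiv.Perm (Fin n)) y = g b := hk
      show (g⁻¹ * (k : Equiv.Perm (Fin n))) y = b
      rw [Equiv.Perm.mul_apply, h1]
      exact g.symm_apply_apply b
    · rintro ⟨k, rfl⟩
      exact ⟨⟨g, hg⟩ * k, rfl⟩
  have hc1 : IsCoatom (stabilizer (Equiv.Perm (Fin n)) ({x} : Set (Fin n))) := by
    apply Equiv.Perm.isCoatom_stabilizer
    · exact Set.singleton_nonempty x
    · exact ⟨y, hyx⟩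
    · rw [Nat.card_fin, Set.ncard_singleton]; obtain ⟨k, rfl⟩ := hn; omega
  have hc2 : IsCoatom (stabilizer (Equiv.Perm (Fin n)) O) := by
    apply Equiv.Perm.isCoatom_stabilizer
    · exact ⟨y, hyO⟩
    · exact ⟨x, hxO⟩
    · rw [Nat.card_fin]; obtain ⟨k, rfl⟩ := hn; omega
  have heq : stabilizer (Equiv.Perm (Fin n)) ({x} : Set (Fin n)) =
      stabilizer (Equiv.Perm (Fin n)) O :=
    (huniq _ ⟨hc1, hS1⟩).trans (huniq _ ⟨hc2, hS2⟩).symm
  have hOc : O = ({x} : Set (Fin n))ᶜ := by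
    by_contra hne
    have hex : ∃ w, w ∉ O ∧ w ≠ x := by
      by_contra hcon
      push_neg at hcon
      apply hne
      ext w
      simp only [Set.mem_compl_iff, Set.mem_singleton_iff]
      constructor
      · intro hw hwx; rw [hwx] at hw; exact hxO hw
      · intro hwx; by_contra hw; exact hwx (hcon w hw)
    obtain ⟨w, hwO, hwx⟩ := hex
    have h1 : Equiv.swap x w ∈ stabilizer (Equiv.Perm (Fin n)) O := by
      rw [mem_stabilizer_set]
      intro b
      show Equiv.swap x w b ∈ O ↔ b ∈ O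
      by_cases hbx : b = x
      · rw [hbx, Equiv.swap_apply_left]
        exact ⟨fun h => absurd h hwO, fun h => absurd h hxO⟩
      · by_cases hbw : b = w
        · rw [hbw, Equiv.swap_apply_right]
          exact ⟨fun h => absurd h hxO, fun h => absurd h hwO⟩
        · rw [Equiv.swap_apply_of_ne_of_ne hbx hbw]
    rw [← heq, mem_stabilizer_set] at h1
    have h2 := (h1 x).mpr rfl
    have h3 : Equiv.swap x w x = x := h2
    rw [Equiv.swap_apply_left] at h3
    exact hwx h3
  refine ⟨k, ?_⟩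
  have h1 : O.ncard = n - 1 := by
    rw [hOc, Set.ncard_compl, Nat.card_fin, Set.ncard_singleton]
  omega

end Cfsg.Agent.Helper8.MinPar
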