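import Mathlib

set_option autoImplicit false

namespace Cfsg.Agent.Helper8.OrbIdx

variable {G : Type*} [Group G]

theorem card_mul_relIndex {H K : Subgroup G} (h : H ≤ K) :
    Nat.card H * H.relIndex K = Nat.card K := by
  have := Subgroup.relIndex_mul_relIndex ⊥ H K bot_le h
  rwa [Subgroup.relIndex_bot_left, Subgroup.relIndex_bot_left] at this

/-- second isomorphism theorem, index form, with `K` normal -/
theorem relIndex_sup_of_normal [Finite G] (H K : Subgroup G) [K.Normal] :
    H.relIndex (K ⊔ H) = H.relIndex K := by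
  have h1 : K.relIndex (H ⊔ K) = K.relIndex H := Subgroup.relIndex_sup_right H K
  have c1 : Nat.card K * K.relIndex (H ⊔ K) = Nat.card (H ⊔ K : Subgroup G) :=
    card_mul_relIndex le_sup_right
  have c2 : Nat.card (H ⊓ K : Subgroup G) * K.relIndex H = Nat.card H := by
    rw [← Subgroup.inf_relIndex_left]
    exact card_mul_relIndex inf_le_left
  have c3 : Nat.card (H ⊓ K : Subgroup G) * H.relIndex K = Nat.card K := by
    rw [← Subgroup.inf_relIndex_right]
    exact card_mul_relIndex inf_le_right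
  have c4 : Nat.card H * H.relIndex (H ⊔ K) = Nat.card (H ⊔ K : Subgroup G) :=
    card_mul_relIndex le_sup_left
  rw [sup_comm]
  have hpos : 0 < Nat.card (H ⊓ K : Subgroup G) := Nat.card_pos
  have hpos2 : 0 < K.relIndex H := by
    rcases Nat.eq_zero_or_pos (K.relIndex H) with h0 | h0
    · rw [h0, mul_zero] at c2
      have : 0 < Nat.card H := Nat.card_pos
      omega
    · exact h0
  rw [h1] at c1
  have e : Nat.card (H ⊓ K : Subgroup G) * K.relIndex H * H.relIndex (H ⊔ K)
      = Nat.card (H ⊓ K : Subgroup G) * K.relIndex H * H.relIndex K := by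
    calc Nat.card (H ⊓ K : Subgroup G) * K.relIndex H * H.relIndex (H ⊔ K)
        = Nat.card H * H.relIndex (H ⊔ K) := by rw [c2]
      _ = Nat.card K * K.relIndex H := by rw [c4, c1]
      _ = Nat.card (H ⊓ K : Subgroup G) * H.relIndex K * K.relIndex H := by rw [c3]
      _ = Nat.card (H ⊓ K : Subgroup G) * K.relIndex H * H.relIndex K := by ring
  exact Nat.eq_of_mul_eq_mul_left (Nat.mul_pos hpos hpos2) e

/-- if `H` normalizes `K ≤ H` then `[K : K ∩ S]` divides `[H : H ∩ S]` -/
theorem relIndex_dvd_of_normalizes [Finite G] (S H K : Subgroup G) (hKH : K ≤ H)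
    (hn : H ≤ Subgroup.normalizer (K : Set G)) : S.relIndex K ∣ S.relIndex H := by
  haveI : (K.subgroupOf H).Normal := (Subgroup.normal_subgroupOf_iff_le_normalizer hKH).mpr hn
  have h1 : S.relIndex K = (S.subgroupOf H).relIndex (K.subgroupOf H) :=
    (Subgroup.relIndex_subgroupOf hKH).symm
  rw [h1, ← relIndex_sup_of_normal]
  exact Subgroup.relIndex_dvd_index_of_le le_sup_right

/-- if `H` normalizes `N` then `[NH : H]` divides `|N|` -/
theorem relIndex_sup_dvd_card [Finite G] (H N : Subgroup G)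
    (hn : H ≤ Subgroup.normalizer (N : Set G)) : H.relIndex (N ⊔ H) ∣ Nat.card N := by
  have hT : N ⊔ H ≤ Subgroup.normalizer (N : Set G) := sup_le Subgroup.le_normalizer hn
  haveI : (N.subgroupOf (N ⊔ H)).Normal :=
    (Subgroup.normal_subgroupOf_iff_le_normalizer le_sup_left).mpr hT
  have h1 : H.relIndex (N ⊔ H) = (H.subgroupOf (N ⊔ H)).relIndex ⊤ := by
    rw [Subgroup.relIndex_top_right]
    rfl
  have h2 : (⊤ : Subgroup ↥(N ⊔ H)) = N.subgroupOf (N ⊔ H) ⊔ H.subgroupOf (N ⊔ H) := by
    rw [← Subgroup.subgroupOf_sup le_sup_left le_sup_right, Subgroup.subgroupOf_self]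
  rw [h1, h2, relIndex_sup_of_normal, Subgroup.relIndex_subgroupOf le_sup_left]
  exact Subgroup.relIndex_dvd_card H N

/-- orbit of a subgroup as an index -/
theorem card_orbit_eq_relIndex {V : Type*} [MulAction G V] (X : Subgroup G) (v : V) :
    Nat.card {u : V | ∃ x ∈ X, x • v = u} = (MulAction.stabilizer G v).relIndex X := by
  have h1 : {u : V | ∃ x ∈ X, x • v = u} = MulAction.orbit ↥X v := by
    ext u
    simp only [Set.mem_setOf_eq, MulAction.mem_orbit_iff]
    constructor
    · rintro ⟨x, hx, rfl⟩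
      exact ⟨⟨x, hx⟩, rfl⟩
    · rintro ⟨⟨x, hx⟩, rfl⟩
      exact ⟨x, hx, rfl⟩
  rw [h1, Nat.card_coe_set_eq, ← MulAction.index_stabilizer]
  rfl

end Cfsg.Agent.Helper8.OrbIdx
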