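import Mathlib
import Cfsg.Agent.Helper8.GroupGES

set_option autoImplicit false

namespace Cfsg.Agent.Helper8.OrderP4

open scoped commutatorElement

variable {P : Type*} [Group P]

/-- the commutator homomorphism `y ↦ [x, y]` in a group of class two -/
def psi (hc : commutator P ≤ Subgroup.center P) (x : P) : P →* P :=
  MonoidHom.mk' (fun y => ⁅x, y⁆) (by
    intro y z
    have hz : ⁅x, z⁆ ∈ Subgroup.center P :=
      hc (Subgroup.commutator_mem_commutator (Subgroup.mem_top x) (Subgroup.mem_top z))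
    have hcomm := Subgroup.mem_center_iff.mp hz y⁻¹
    simp only [commutatorElement_def] at hcomm ⊢
    calc x * (y * z) * x⁻¹ * (y * z)⁻¹ = x * y * x⁻¹ * ((x * z * x⁻¹ * z⁻¹) * y⁻¹) := by group
      _ = x * y * x⁻¹ * (y⁻¹ * (x * z * x⁻¹ * z⁻¹)) := by rw [← hcomm]
      _ = x * y * x⁻¹ * y⁻¹ * (x * z * x⁻¹ * z⁻¹) := by group)

theorem psi_apply (hc : commutator P ≤ Subgroup.center P) (x y : P) : psi hc x y = ⁅x, y⁆ := rfl

theorem mem_ker (hc : commutator P ≤ Subgroup.center P) (x y : P) :
    y ∈ (psi hc x).ker ↔ x * y = y * x := by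
  rw [MonoidHom.mem_ker, psi_apply, commutatorElement_eq_one_iff_commute]
  exact Iff.rfl

theorem range_le (hc : commutator P ≤ Subgroup.center P) (x : P) :
    (psi hc x).range ≤ commutator P := by
  rintro _ ⟨y, rfl⟩
  exact Subgroup.commutator_mem_commutator (Subgroup.mem_top x) (Subgroup.mem_top y)

theorem center_le_ker (hc : commutator P ≤ Subgroup.center P) (x : P) :
    Subgroup.center P ≤ (psi hc x).ker := by
  intro z hz
  rw [mem_ker]
  exact Subgroup.mem_center_iff.mp hz x

theorem self_mem_ker (hc : commutator P ≤ Subgroup.center P) (x : P) : x ∈ (psi hc x).ker := by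
  rw [mem_ker]

theorem not_center_iff (x : P) : x ∉ Subgroup.center P ↔ ∃ y, x * y ≠ y * x := by
  rw [Subgroup.mem_center_iff]
  push Not
  constructor
  · rintro ⟨y, hy⟩
    exact ⟨y, fun h => hy h.symm⟩
  · rintro ⟨y, hy⟩
    exact ⟨y, fun h => hy h.symm⟩

theorem ker_ne_top (hc : commutator P ≤ Subgroup.center P) {x : P}
    (hx : x ∉ Subgroup.center P) : (psi hc x).ker ≠ ⊤ := by
  intro h
  obtain ⟨y, hy⟩ := (not_center_iff x).mp hx
  have : y ∈ (psi hc x).ker := by
    rw [h]
    trivial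
  exact hy ((mem_ker hc x y).mp this)

/-- `|P'| = p` implies `[P : Z(P)] = p²` for `|P| = p⁴` -/
theorem dir1 [Finite P] (p : ℕ) [Fact p.Prime] (hP : Nat.card P = p ^ 4)
    (hc1 : Nat.card (commutator P) = p) : (Subgroup.center P).index = p ^ 2 := by
  have hp : p.Prime := Fact.out
  have hG : IsPGroup p P := IsPGroup.of_card hP
  have hc : commutator P ≤ Subgroup.center P := normal_prime_card_le_center hG _ hc1
  have hidx : ∀ x : P, x ∉ Subgroup.center P → (psi hc x).ker.index = p := by
    intro x hx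
    rw [Subgroup.index_ker]
    have h1 : Nat.card (psi hc x).range ∣ p := by
      rw [← hc1]
      exact Subgroup.card_dvd_of_le (range_le hc x)
    rcases (Nat.dvd_prime hp).mp h1 with h2 | h2
    · exfalso
      have h3 : (psi hc x).range = ⊥ := Subgroup.card_eq_one.mp h2
      obtain ⟨y, hy⟩ := (not_center_iff x).mp hx
      have h4 : psi hc x y ∈ (psi hc x).range := ⟨y, rfl⟩
      rw [h3, Subgroup.mem_bot] at h4
      exact hy ((mem_ker hc x y).mp h4)
    · exact h2
  have hcard : ∀ x : P, x ∉ Subgroup.center P → Nat.card (psi hc x).ker = p ^ 3 := by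
    intro x hx
    have h1 := Subgroup.card_mul_index (psi hc x).ker
    rw [hidx x hx, hP] at h1
    have h2 : p ^ 4 = p ^ 3 * p := by ring
    rw [h2] at h1
    exact Nat.eq_of_mul_eq_mul_right hp.pos h1
  obtain ⟨x, hx⟩ : ∃ x : P, x ∉ Subgroup.center P := by
    by_contra hcon
    push Not at hcon
    have h1 : Subgroup.center P = ⊤ := by
      rw [eq_top_iff]
      intro g _
      exact hcon g
    have h2 : commutator P = ⊥ := (_root_.commutator_eq_bot_iff_center_eq_top (G := P)).mpr h1
    rw [h2, Subgroup.card_bot] at hc1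
    exact hp.one_lt.ne hc1
  obtain ⟨y, hy⟩ : ∃ y : P, y ∉ (psi hc x).ker := by
    by_contra hcon
    push Not at hcon
    exact ker_ne_top hc hx (eq_top_iff.mpr (fun g _ => hcon g))
  have hyZ : y ∉ Subgroup.center P := fun h => hy (center_le_ker hc x h)
  have hxy : x ∉ (psi hc y).ker := by
    intro h
    apply hy
    rw [mem_ker] at h ⊢
    exact h.symm
  -- `D = C(x) ∩ C(y)` has order `p²`
  have hDlt : (psi hc x).ker ⊓ (psi hc y).ker < (psi hc x).ker := by
    refine lt_of_le_of_ne inf_le_left ?_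
    intro h
    have : x ∈ (psi hc x).ker ⊓ (psi hc y).ker := by
      rw [h]
      exact self_mem_ker hc x
    exact hxy (Subgroup.mem_inf.mp this).2
  have hDcard : Nat.card ((psi hc x).ker ⊓ (psi hc y).ker : Subgroup P) = p ^ 2 := by
    have h1 : Nat.card ((psi hc x).ker ⊓ (psi hc y).ker : Subgroup P) ∣ p ^ 3 := by
      rw [← hcard x hx]
      exact Subgroup.card_dvd_of_le inf_le_left
    obtain ⟨j, hj, hjc⟩ := (Nat.dvd_prime_pow hp).mp h1
    have hj3 : j ≠ 3 := by
      rintro rfl
      have := Subgroup.eq_of_le_of_card_ge (inf_le_left :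
        (psi hc x).ker ⊓ (psi hc y).ker ≤ (psi hc x).ker) (by rw [hjc, hcard x hx])
      exact hDlt.ne this
    have h2 := Subgroup.card_mul_index ((psi hc x).ker ⊓ (psi hc y).ker : Subgroup P)
    have h3 : ((psi hc x).ker ⊓ (psi hc y).ker : Subgroup P).index ≤ p * p := by
      have := Subgroup.index_inf_le (H := (psi hc x).ker) (K := (psi hc y).ker)
      rwa [hidx x hx, hidx y hyZ] at this
    rw [hjc, hP] at h2
    have hj2 : 2 ≤ j := by
      by_contra hlt
      have hj1 : j ≤ 1 := by omega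
      have h4 : p ^ j ≤ p ^ 1 := Nat.pow_le_pow_right hp.pos hj1
      have h5 : p ^ 4 ≤ p ^ 1 * (p * p) := by
        calc p ^ 4 = p ^ j * ((psi hc x).ker ⊓ (psi hc y).ker : Subgroup P).index := h2.symm
          _ ≤ p ^ 1 * (p * p) := Nat.mul_le_mul h4 h3
      have h6 : p ^ 1 * (p * p) = p ^ 3 := by ring
      rw [h6] at h5
      have h7 : p ^ 3 < p ^ 4 := Nat.pow_lt_pow_right hp.one_lt (by omega)
      omega
    have : j = 2 := by omega
    rw [hjc, this]
  -- `D` is central
  have hDZ : (psi hc x).ker ⊓ (psi hc y).ker ≤ Subgroup.center P := by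
    intro d hd
    by_contra hdZ
    have hDab : IsMulCommutative ↥((psi hc x).ker ⊓ (psi hc y).ker : Subgroup P) :=
      IsPGroup.isMulCommutative_of_card_eq_prime_sq hDcard
    have hDM : (psi hc x).ker ⊓ (psi hc y).ker ≤ (psi hc d).ker := by
      intro e he
      rw [mem_ker]
      exact congrArg Subtype.val (hDab.is_comm.comm ⟨d, hd⟩ ⟨e, he⟩)
    have hxM : x ∈ (psi hc d).ker := by
      rw [mem_ker]
      exact ((mem_ker hc x d).mp (Subgroup.mem_inf.mp hd).1).symm
    have hyM : y ∈ (psi hc d).ker := by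
      rw [mem_ker]
      exact ((mem_ker hc y d).mp (Subgroup.mem_inf.mp hd).2).symm
    -- `M ∩ C(x)` properly contains `D`
    have hlt : (psi hc x).ker ⊓ (psi hc y).ker < (psi hc d).ker ⊓ (psi hc x).ker := by
      refine lt_of_le_of_ne (le_inf hDM inf_le_left) ?_
      intro h
      have : x ∈ (psi hc x).ker ⊓ (psi hc y).ker := by
        rw [h]
        exact Subgroup.mem_inf.mpr ⟨hxM, self_mem_ker hc x⟩
      exact hxy (Subgroup.mem_inf.mp this).2
    have h1 : Nat.card ((psi hc d).ker ⊓ (psi hc x).ker : Subgroup P) ∣ p ^ 3 := by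
      rw [← hcard x hx]
      exact Subgroup.card_dvd_of_le inf_le_right
    obtain ⟨j, hj, hjc⟩ := (Nat.dvd_prime_pow hp).mp h1
    have h2 : p ^ 2 < p ^ j := by
      rw [← hDcard, ← hjc]
      refine lt_of_le_of_ne (Subgroup.card_le_of_le hlt.le) ?_
      intro hEq
      exact hlt.ne (Subgroup.eq_of_le_of_card_ge hlt.le hEq.ge)
    have hj3 : j = 3 := by
      have : 2 < j := (Nat.pow_lt_pow_iff_right hp.one_lt).mp h2
      omega
    have h3 : (psi hc d).ker ⊓ (psi hc x).ker = (psi hc x).ker :=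
      Subgroup.eq_of_le_of_card_ge inf_le_right (by rw [hjc, hj3, hcard x hx])
    have h4 : (psi hc x).ker ≤ (psi hc d).ker := by
      rw [← h3]
      exact inf_le_left
    have h5 : (psi hc x).ker = (psi hc d).ker :=
      Subgroup.eq_of_le_of_card_ge h4 (by rw [hcard x hx, hcard d hdZ])
    exact hy (h5 ▸ hyM)
  have hZD : Subgroup.center P = (psi hc x).ker ⊓ (psi hc y).ker :=
    le_antisymm (le_inf (center_le_ker hc x) (center_le_ker hc y)) hDZ
  have h1 := Subgroup.card_mul_index (Subgroup.center P)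
  rw [hZD, hDcard, hP] at h1
  have h2 : p ^ 4 = p ^ 2 * p ^ 2 := by ring
  rw [h2] at h1
  rw [hZD]
  exact Nat.eq_of_mul_eq_mul_left (pow_pos hp.pos 2) h1

theorem eq_zpowers_of_prime_card {G : Type*} [Group G] (R : Subgroup G) (p : ℕ) [Fact p.Prime]
    (hR : Nat.card R = p) {c : G} (hc : c ∈ R) (hc1 : c ≠ 1) : R = Subgroup.zpowers c := by
  symm
  have hp : p.Prime := Fact.out
  have : Finite R := Nat.finite_of_card_ne_zero (by rw [hR]; exact hp.pos.ne')
  have hle : Subgroup.zpowers c ≤ R := by rwa [Subgroup.zpowers_le]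
  apply Subgroup.eq_of_le_of_card_ge hle
  have h1 : Nat.card (Subgroup.zpowers c) ∣ p := by
    rw [← hR]
    exact Subgroup.card_dvd_of_le hle
  rcases (Nat.dvd_prime hp).mp h1 with h | h
  · exfalso
    have h2 := Subgroup.card_eq_one.mp h
    rw [Subgroup.zpowers_eq_bot] at h2
    exact hc1 h2
  · rw [h, hR]

/-- `[P : Z(P)] = p²` implies `|P'| = p` for `|P| = p⁴` -/
theorem dir2 [Finite P] (p : ℕ) [Fact p.Prime] (hP : Nat.card P = p ^ 4)
    (hZ : (Subgroup.center P).index = p ^ 2) : Nat.card (commutator P) = p := by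
  have hp : p.Prime := Fact.out
  have hZc : Nat.card (Subgroup.center P) = p ^ 2 := by
    have h1 := Subgroup.card_mul_index (Subgroup.center P)
    rw [hZ, hP] at h1
    have h2 : p ^ 4 = p ^ 2 * p ^ 2 := by ring
    rw [h2] at h1
    exact Nat.eq_of_mul_eq_mul_right (pow_pos hp.pos 2) h1
  have hc : commutator P ≤ Subgroup.center P := by
    have hq : Nat.card (P ⧸ Subgroup.center P) = p ^ 2 := by
      rw [← Subgroup.index_eq_card]
      exact hZ
    have hab : IsMulCommutative (P ⧸ Subgroup.center P) :=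
      IsPGroup.isMulCommutative_of_card_eq_prime_sq hq
    rw [commutator_def, Subgroup.commutator_le]
    intro a _ b _
    rw [← QuotientGroup.eq_one_iff]
    have h2 : ((⁅a, b⁆ : P) : P ⧸ Subgroup.center P)
        = ⁅(a : P ⧸ Subgroup.center P), (b : P ⧸ Subgroup.center P)⁆ := rfl
    rw [h2, commutatorElement_eq_one_iff_commute]
    exact hab.is_comm.comm _ _
  have hK : ∀ u : P, u ∉ Subgroup.center P → Nat.card (psi hc u).ker = p ^ 3 := by
    intro u hu
    have hlt : Subgroup.center P < (psi hc u).ker := by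
      refine lt_of_le_of_ne (center_le_ker hc u) ?_
      intro h
      exact hu (h ▸ self_mem_ker hc u)
    have h1 : Nat.card (psi hc u).ker ∣ p ^ 4 := by
      rw [← hP]
      exact Subgroup.card_subgroup_dvd_card _
    obtain ⟨j, hj, hjc⟩ := (Nat.dvd_prime_pow hp).mp h1
    have h2 : p ^ 2 < p ^ j := by
      rw [← hZc, ← hjc]
      refine lt_of_le_of_ne (Subgroup.card_le_of_le hlt.le) ?_
      intro hEq
      exact hlt.ne (Subgroup.eq_of_le_of_card_ge hlt.le hEq.ge)
    have h3 : 2 < j := (Nat.pow_lt_pow_iff_right hp.one_lt).mp h2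
    have h4 : j ≠ 4 := by
      rintro rfl
      apply ker_ne_top hc hu
      exact Subgroup.eq_top_of_card_eq _ (by rw [hjc, hP])
    have hj3 : j = 3 := by omega
    rw [hjc, hj3]
  have hA : ∀ u : P, u ∉ Subgroup.center P → Nat.card (psi hc u).range = p := by
    intro u hu
    have h5 := Subgroup.card_mul_index (psi hc u).ker
    rw [hK u hu, hP, Subgroup.index_ker] at h5
    have h6 : p ^ 4 = p ^ 3 * p := by ring
    rw [h6] at h5
    exact Nat.eq_of_mul_eq_mul_left (pow_pos hp.pos 3) h5
  have hnc : ∀ u v : P, ⁅u, v⁆ ≠ 1 → u ∉ Subgroup.center P := by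
    intro u v huv hu
    apply huv
    rw [commutatorElement_eq_one_iff_commute]
    exact (Subgroup.mem_center_iff.mp hu v).symm
  have hsymm : ∀ u v : P, ⁅u, v⁆ ≠ 1 → ⁅v, u⁆ ≠ 1 := by
    intro u v huv h
    apply huv
    rw [commutatorElement_eq_one_iff_commute] at h ⊢
    exact h.symm
  have hB : ∀ u v : P, ⁅u, v⁆ ≠ 1 →
      (psi hc u).ker ⊓ (psi hc v).ker ≤ Subgroup.center P := by
    intro u v huv
    have hu := hnc u v huv
    have hle : Subgroup.center P ≤ (psi hc u).ker ⊓ (psi hc v).ker :=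
      le_inf (center_le_ker hc u) (center_le_ker hc v)
    have hlt : (psi hc u).ker ⊓ (psi hc v).ker < (psi hc u).ker := by
      refine lt_of_le_of_ne inf_le_left ?_
      intro h
      have h1 : u ∈ (psi hc u).ker ⊓ (psi hc v).ker := by
        rw [h]
        exact self_mem_ker hc u
      have h2 := (Subgroup.mem_inf.mp h1).2
      rw [mem_ker] at h2
      apply huv
      rw [commutatorElement_eq_one_iff_commute]
      exact h2.symm
    have h1 : Nat.card ((psi hc u).ker ⊓ (psi hc v).ker : Subgroup P) ∣ p ^ 3 := by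
      rw [← hK u hu]
      exact Subgroup.card_dvd_of_le inf_le_left
    obtain ⟨j, hj, hjc⟩ := (Nat.dvd_prime_pow hp).mp h1
    have hj3 : j ≠ 3 := by
      rintro rfl
      exact hlt.ne (Subgroup.eq_of_le_of_card_ge inf_le_left (by rw [hjc, hK u hu]))
    have hj2 : j ≤ 2 := by omega
    have h3 : (Subgroup.center P) = (psi hc u).ker ⊓ (psi hc v).ker := by
      apply Subgroup.eq_of_le_of_card_ge hle
      rw [hjc, hZc]
      exact Nat.pow_le_pow_right hp.pos hj2
    rw [← h3]
  have hC : ∀ u v : P, ⁅u, v⁆ ≠ 1 → (psi hc u).range = (psi hc v).range := by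
    intro u v huv
    have h1 : (psi hc u).range = Subgroup.zpowers ⁅u, v⁆ :=
      eq_zpowers_of_prime_card _ p (hA u (hnc u v huv)) ⟨v, rfl⟩ huv
    have h2 : (psi hc v).range = Subgroup.zpowers ⁅v, u⁆ :=
      eq_zpowers_of_prime_card _ p (hA v (hnc v u (hsymm u v huv))) ⟨u, rfl⟩ (hsymm u v huv)
    rw [h1, h2, ← commutatorElement_inv, Subgroup.zpowers_inv]
  obtain ⟨u₀, hu₀⟩ : ∃ x : P, x ∉ Subgroup.center P := by
    by_contra hcon
    push Not at hcon
    have h1 : Subgroup.center P = ⊤ := eq_top_iff.mpr (fun g _ => hcon g)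
    rw [h1, Subgroup.index_top] at hZ
    have : 1 < p ^ 2 := Nat.one_lt_pow (by norm_num) hp.one_lt
    omega
  obtain ⟨v₀, hv₀⟩ := (not_center_iff u₀).mp hu₀
  have hc0 : ⁅u₀, v₀⁆ ≠ 1 := by
    rw [Ne, commutatorElement_eq_one_iff_commute]
    exact hv₀
  have hle : commutator P ≤ (psi hc u₀).range := by
    rw [commutator_def, Subgroup.commutator_le]
    intro a _ b _
    by_cases hab : ⁅a, b⁆ = 1
    · rw [hab]
      exact one_mem _
    have hmem : ⁅a, b⁆ ∈ (psi hc a).range := ⟨b, rfl⟩
    by_cases hau : ⁅a, u₀⁆ = 1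
    · by_cases hav : ⁅a, v₀⁆ = 1
      · exfalso
        have haZ : a ∈ Subgroup.center P := by
          apply hB u₀ v₀ hc0
          refine Subgroup.mem_inf.mpr ⟨?_, ?_⟩
          · rw [mem_ker]
            rw [commutatorElement_eq_one_iff_commute] at hau
            exact hau.symm
          · rw [mem_ker]
            rw [commutatorElement_eq_one_iff_commute] at hav
            exact hav.symm
        exact hnc a b hab haZ
      · rw [hC u₀ v₀ hc0, ← hC a v₀ hav]
        exact hmem
    · rw [← hC a u₀ hau]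
      exact hmem
  rw [le_antisymm hle (range_le hc u₀)]
  exact hA u₀ hu₀

theorem main [Finite P] (p : ℕ) [Fact p.Prime] (hP : Nat.card P = p ^ 4) :
    Nat.card (commutator P) = p ↔ (Subgroup.center P).index = p ^ 2 :=
  ⟨dir1 p hP, dir2 p hP⟩

end Cfsg.Agent.Helper8.OrderP4
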