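import Mathlib

namespace Cfsg.Agent.Helper8.PCover

open scoped Pointwise

universe u v

section basics

variable {G : Type*} [Group G]

/-- subgroups generated by their p-elements -/
def Gen (p : ℕ) (H : Subgroup G) : Prop :=
  Subgroup.closure {g : G | g ∈ H ∧ ∃ k : ℕ, orderOf g = p ^ k} = H

theorem gen_sup {p : ℕ} {M M' : Subgroup G} (h : Gen p M) (h' : Gen p M') : Gen p (M ⊔ M') := by
  unfold Gen at *
  apply le_antisymm
  · rw [Subgroup.closure_le]; intro g hg; exact hg.1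
  · apply sup_le
    · conv_lhs => rw [← h]
      exact Subgroup.closure_mono (fun g hg => ⟨Subgroup.mem_sup_left hg.1, hg.2⟩)
    · conv_lhs => rw [← h']
      exact Subgroup.closure_mono (fun g hg => ⟨Subgroup.mem_sup_right hg.1, hg.2⟩)

theorem gen_zpowers {p : ℕ} {x : G} (hx : ∃ k : ℕ, orderOf x = p ^ k) :
    Gen p (Subgroup.zpowers x) := by
  unfold Gen
  apply le_antisymm
  · rw [Subgroup.closure_le]; intro g hg; exact hg.1
  · rw [Subgroup.zpowers_le]
    exact Subgroup.subset_closure ⟨Subgroup.mem_zpowers x, hx⟩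

theorem gen_smul {p : ℕ} {M : Subgroup G} (φ : MulAut G) (h : Gen p M) : Gen p (φ • M) := by
  unfold Gen at *
  apply le_antisymm
  · rw [Subgroup.closure_le]; intro g hg; exact hg.1
  · rw [Subgroup.pointwise_smul_subset_iff]
    conv_lhs => rw [← h]
    rw [Subgroup.closure_le]
    rintro g ⟨hgM, k, hk⟩
    rw [SetLike.mem_coe, Subgroup.mem_inv_pointwise_smul_iff]
    apply Subgroup.subset_closure
    refine ⟨Subgroup.smul_mem_pointwise_smul g φ M hgM, k, ?_⟩
    rw [← hk]; exact orderOf_injective (φ : G →* G) φ.injective g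

theorem gen_subtype {p : ℕ} {H : Subgroup G} (h : Gen p H) :
    Subgroup.closure {x : H | ∃ k : ℕ, orderOf x = p ^ k} = ⊤ := by
  apply Subgroup.map_injective H.subtype_injective
  rw [MonoidHom.map_closure, ← MonoidHom.range_eq_map, Subgroup.range_subtype]
  conv_rhs => rw [← h]
  congr 1
  ext g
  constructor
  · rintro ⟨x, ⟨k, hk⟩, rfl⟩
    exact ⟨x.2, k, by rw [← hk]; exact Subgroup.orderOf_coe x⟩
  · rintro ⟨hg, k, hk⟩
    exact ⟨⟨g, hg⟩, ⟨k, by rw [← hk]; exact (Subgroup.orderOf_coe _).symm⟩, rfl⟩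

theorem pgroup_cover [Finite G] (p : ℕ) [Fact p.Prime] (P : Subgroup G) (hP : IsPGroup p P)
    (𝓜 : Finset (Subgroup G)) (hcard : 𝓜.card ≤ p) (hcov : ∀ g ∈ P, ∃ M ∈ 𝓜, g ∈ M) :
    ∃ M ∈ 𝓜, P ≤ M := by
  classical
  by_contra hcon
  push_neg at hcon
  have hp := (Fact.out : p.Prime)
  letI : Fintype G := Fintype.ofFinite G
  obtain ⟨k, hk⟩ := IsPGroup.iff_card.mp hP
  obtain ⟨M0, hM0, -⟩ := hcov 1 P.one_mem
  have hsmall : ∀ M ∈ 𝓜, Nat.card (P ⊓ M : Subgroup G) * p ≤ p ^ k := by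
    intro M hM
    have hle : P ⊓ M ≤ P := inf_le_left
    obtain ⟨j, hj⟩ := IsPGroup.iff_card.mp (hP.to_le hle)
    have hjk : j ≤ k := by
      have : p ^ j ∣ p ^ k := by rw [← hj, ← hk]; exact Subgroup.card_dvd_of_le hle
      exact (Nat.pow_dvd_pow_iff_le_right hp.one_lt).mp this
    have hne : j ≠ k := by
      intro h
      have : P ⊓ M = P := Subgroup.eq_of_le_of_card_ge hle (by rw [hj, hk, h])
      exact hcon M hM (this ▸ inf_le_right)
    rw [hj, ← pow_succ]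
    exact Nat.pow_le_pow_right hp.pos (by omega)
  have hk1 : 1 ≤ k := by
    by_contra h
    have hk0 : k = 0 := by omega
    have h0 := hsmall M0 hM0
    rw [hk0, pow_zero] at h0
    have h1 : 0 < Nat.card (P ⊓ M0 : Subgroup G) := Nat.card_pos
    have := hp.two_le
    nlinarith
  have hfil : ∀ H : Subgroup G, (Finset.univ.filter (· ∈ H)).card = Nat.card H := by
    intro H
    rw [Nat.card_eq_fintype_card]
    exact (Fintype.card_of_subtype _ (fun x => by simp)).symm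
  have hsub : (Finset.univ.filter (· ∈ P)).erase 1 ⊆
      𝓜.biUnion (fun M => (Finset.univ.filter (· ∈ P ⊓ M)).erase 1) := by
    intro g hg
    rw [Finset.mem_erase, Finset.mem_filter] at hg
    obtain ⟨M, hM, hgM⟩ := hcov g hg.2.2
    rw [Finset.mem_biUnion]
    refine ⟨M, hM, ?_⟩
    rw [Finset.mem_erase, Finset.mem_filter]
    exact ⟨hg.1, Finset.mem_univ _, hg.2.2, hgM⟩
  have h1 := Finset.card_le_card hsub
  have h2 := Finset.card_biUnion_le (s := 𝓜)
    (t := fun M => (Finset.univ.filter (· ∈ P ⊓ M)).erase 1)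
  have h3 : ∑ M ∈ 𝓜, ((Finset.univ.filter (· ∈ P ⊓ M)).erase 1).card ≤
      ∑ M ∈ 𝓜, (p ^ (k - 1) - 1) := by
    apply Finset.sum_le_sum
    intro M hM
    rw [Finset.card_erase_of_mem (by simp [Subgroup.one_mem]), hfil]
    have h4 := hsmall M hM
    have : Nat.card (P ⊓ M : Subgroup G) ≤ p ^ (k - 1) := by
      have h5 : p ^ k = p ^ (k - 1) * p := by rw [← pow_succ]; congr 1; omega
      rw [h5] at h4
      exact Nat.le_of_mul_le_mul_right h4 hp.pos
    omega
  rw [Finset.sum_const, smul_eq_mul] at h3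
  rw [Finset.card_erase_of_mem (by simp [Subgroup.one_mem]), hfil, hk] at h1
  have h5 : 𝓜.card * (p ^ (k - 1) - 1) ≤ p * (p ^ (k - 1) - 1) := Nat.mul_le_mul_right _ hcard
  have h6 : p ^ k = p * p ^ (k - 1) := by rw [← pow_succ']; congr 1; omega
  have h7 : 1 ≤ p ^ (k - 1) := Nat.one_le_pow _ _ hp.pos
  have h8 : p * (p ^ (k - 1) - 1) = p * p ^ (k - 1) - p := by rw [Nat.mul_sub, mul_one]
  have := hp.two_le
  have h9 : p ≤ p * p ^ (k - 1) := Nat.le_mul_of_pos_right _ (by omega)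
  omega

theorem fix_of_pow_fix {p : ℕ} [Fact p.Prime] (x : G) (j : ℕ) (hx : orderOf x = p ^ j)
    (M' : Subgroup G) (k l : ℕ) (hkl : k < l) (hl : l < p)
    (h : MulAut.conj x ^ k • M' = MulAut.conj x ^ l • M') : MulAut.conj x • M' = M' := by
  have hp := (Fact.out : p.Prime)
  set c := MulAut.conj x with hc
  obtain ⟨m, rfl⟩ : ∃ m, l = k + m := ⟨l - k, by omega⟩
  have hm1 : 0 < m := by omega
  have hmp : m < p := by omega
  rw [pow_add, mul_smul] at h
  have hm : c ^ m • M' = M' := (smul_left_cancel _ h).symm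
  have hcp : c ^ (p ^ j) = 1 := by
    rw [hc, ← map_pow, ← hx, pow_orderOf_eq_one, map_one]
  have hcop : Nat.Coprime m (p ^ j) := by
    apply Nat.Coprime.pow_right
    exact Nat.coprime_comm.mp ((Nat.Prime.coprime_iff_not_dvd hp).mpr
      (Nat.not_dvd_of_pos_of_lt hm1 hmp))
  obtain ⟨a, b, hab⟩ := Nat.isCoprime_iff_coprime.mpr hcop
  have hmem : c ^ m ∈ MulAction.stabilizer (MulAut G) M' := hm
  have hc1 : c = (c ^ m) ^ a * (c ^ (p ^ j)) ^ b := by
    rw [← zpow_natCast c m, ← zpow_natCast c (p ^ j), ← zpow_mul, ← zpow_mul, ← zpow_add]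
    have : (m : ℤ) * a + ((p ^ j : ℕ) : ℤ) * b = 1 := by rw [← hab]; ring
    rw [this, zpow_one]
  have : c ∈ MulAction.stabilizer (MulAut G) M' := by
    rw [hc1, hcp, one_zpow, mul_one]
    exact Subgroup.zpow_mem _ hmem a
  exact this

end basics

theorem aux (p : ℕ) [Fact p.Prime] : ∀ (N : ℕ) (G : Type u) [Group G] [Finite G],
    Nat.card G = N →
    Subgroup.closure {g : G | ∃ k : ℕ, orderOf g = p ^ k} = ⊤ →
    ∀ {ι : Type v} [Fintype ι] (K : ι → Subgroup G), (∀ i, K i ≠ ⊤) →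
    (∀ g : G, (∃ k : ℕ, orderOf g = p ^ k) → ∃ i, g ∈ K i) → p + 1 ≤ Fintype.card ι := by
  intro N
  induction N using Nat.strong_induction_on with
  | _ N ih =>
  intro G _ _ hN hgen ι _ K hK hcov
  classical
  by_contra hlt
  have hι : Fintype.card ι ≤ p := by omega
  have hp := (Fact.out : p.Prime)
  have ha : ∀ H : Subgroup G, H ≠ ⊤ → Gen p H → ∃ i, H ≤ K i := by
    intro H hH hgenH
    by_contra hno
    push_neg at hno
    have hcardH : Nat.card H < N := by
      rw [← hN]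
      by_contra hle
      exact hH (Subgroup.eq_top_of_le_card H (by omega))
    have := ih (Nat.card H) hcardH H rfl (gen_subtype hgenH) (fun i => (K i).subgroupOf H)
      (fun i h => hno i (Subgroup.subgroupOf_eq_top.mp h))
      (fun g hg => by
        obtain ⟨k, hk⟩ := hg
        obtain ⟨i, hi⟩ := hcov (g : G) ⟨k, by rw [← hk]; exact Subgroup.orderOf_coe g⟩
        exact ⟨i, Subgroup.mem_subgroupOf.mpr hi⟩)
    omega
  let 𝒢 : Set (Subgroup G) := {H | H ≠ ⊤ ∧ Gen p H}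
  have hmaxex : ∀ H ∈ 𝒢, ∃ M ∈ 𝒢, H ≤ M ∧ ∀ H' ∈ 𝒢, M ≤ H' → H' = M := by
    intro H hH
    obtain ⟨M, ⟨hM𝒢, hHM⟩, hmax⟩ := Set.exists_max_image {M : Subgroup G | M ∈ 𝒢 ∧ H ≤ M}
      (fun M => Nat.card M) (Set.toFinite _) ⟨H, hH, le_rfl⟩
    refine ⟨M, hM𝒢, hHM, ?_⟩
    intro H' hH' hMH'
    exact (Subgroup.eq_of_le_of_card_ge hMH' (hmax H' ⟨hH', hHM.trans hMH'⟩)).symm
  let ℳs : Set (Subgroup G) := {M | M ∈ 𝒢 ∧ ∀ H' ∈ 𝒢, M ≤ H' → H' = M}
  let ℳ : Finset (Subgroup G) := (Set.toFinite ℳs).toFinset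
  have hℳ : ∀ M, M ∈ ℳ ↔ (M ∈ 𝒢 ∧ ∀ H' ∈ 𝒢, M ≤ H' → H' = M) := by
    intro M; simp [ℳ, ℳs]
  have hcovℳ : ∀ g : G, (∃ k : ℕ, orderOf g = p ^ k) → ∃ M ∈ ℳ, g ∈ M := by
    intro g hg
    obtain ⟨i, hi⟩ := hcov g hg
    have hz : Subgroup.zpowers g ≠ ⊤ := by
      intro h
      apply hK i
      rw [eq_top_iff, ← h, Subgroup.zpowers_le]; exact hi
    obtain ⟨M, hM, hgM, hmax⟩ := hmaxex _ ⟨hz, gen_zpowers hg⟩
    exact ⟨M, (hℳ M).mpr ⟨hM, hmax⟩, hgM (Subgroup.mem_zpowers g)⟩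
  have hcardℳ : ℳ.card ≤ p := by
    have hchoose : ∀ M ∈ ℳ, ∃ i, M ≤ K i :=
      fun M hM => ha M ((hℳ M).mp hM).1.1 ((hℳ M).mp hM).1.2
    haveI : Nonempty ι := ⟨(hcov 1 ⟨0, by simp⟩).choose⟩
    choose! f hf using hchoose
    have hinj : Set.InjOn f ℳ := by
      intro M hM M' hM' hff
      have hM1 := (hℳ M).mp hM
      have hM2 := (hℳ M').mp hM'
      have hsup : M ⊔ M' ∈ 𝒢 := by
        refine ⟨?_, gen_sup hM1.1.2 hM2.1.2⟩
        intro htop
        apply hK (f M)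
        rw [eq_top_iff, ← htop]
        have h2 := hf M' hM'
        rw [← hff] at h2
        exact sup_le (hf M hM) h2
      have h1 := hM1.2 _ hsup le_sup_left
      have h2 := hM2.2 _ hsup le_sup_right
      exact h1.symm.trans h2
    calc ℳ.card ≤ (Finset.univ : Finset ι).card :=
          Finset.card_le_card_of_injOn f (fun M _ => Finset.mem_coe.mpr (Finset.mem_univ _)) hinj
      _ = Fintype.card ι := Finset.card_univ
      _ ≤ p := hι
  have h𝒢smul : ∀ (ψ : MulAut G) (H : Subgroup G), H ∈ 𝒢 → ψ • H ∈ 𝒢 := by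
    intro ψ H hH
    refine ⟨?_, gen_smul ψ hH.2⟩
    intro htop
    apply hH.1
    rw [eq_top_iff]
    intro x _
    have : ψ • x ∈ ψ • H := by rw [htop]; exact Subgroup.mem_top _
    exact Subgroup.smul_mem_pointwise_smul_iff.mp this
  have hℳsmul : ∀ (φ : MulAut G) (M : Subgroup G), M ∈ ℳ → φ • M ∈ ℳ := by
    intro φ M hM
    have hM1 := (hℳ M).mp hM
    rw [hℳ]
    refine ⟨h𝒢smul φ M hM1.1, ?_⟩
    intro H' hH' hle
    have h1 : M ≤ φ⁻¹ • H' := by
      have := (Subgroup.pointwise_smul_le_pointwise_smul_iff (a := φ⁻¹)).mpr hle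
      rwa [inv_smul_smul] at this
    have h2 := hM1.2 _ (h𝒢smul φ⁻¹ H' hH') h1
    rw [← h2, smul_inv_smul]
  have hfix : ∀ x : G, (∃ k : ℕ, orderOf x = p ^ k) → ∀ M' ∈ ℳ, MulAut.conj x • M' = M' := by
    intro x hx M' hM'
    obtain ⟨M, hM, hxM⟩ := hcovℳ x hx
    have hMfix : MulAut.conj x • M = M := Subgroup.conj_smul_eq_self_of_mem hxM
    by_cases hMM : M' = M
    · rw [hMM]; exact hMfix
    · have hpowfix : ∀ k : ℕ, MulAut.conj x ^ k • M = M := by
        intro k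
        induction k with
        | zero => simp
        | succ n ih => rw [pow_succ, mul_smul, hMfix, ih]
      have hmaps : Set.MapsTo (fun k : ℕ => MulAut.conj x ^ k • M') (Finset.range p)
          (ℳ.erase M) := by
        intro k _
        rw [Finset.mem_coe, Finset.mem_erase]
        refine ⟨?_, hℳsmul _ _ hM'⟩
        intro h
        apply hMM
        have h' : MulAut.conj x ^ k • M' = M := h
        have h2 : (MulAut.conj x ^ k)⁻¹ • (MulAut.conj x ^ k • M') =
            (MulAut.conj x ^ k)⁻¹ • M := by rw [h']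
        rw [inv_smul_smul] at h2
        rw [h2, inv_smul_eq_iff, hpowfix]
      have hcardlt : (ℳ.erase M).card < (Finset.range p).card := by
        rw [Finset.card_erase_of_mem hM, Finset.card_range]
        have : 0 < ℳ.card := Finset.card_pos.mpr ⟨M, hM⟩
        omega
      obtain ⟨k, hk, l, hl, hkl, heq⟩ :=
        Finset.exists_ne_map_eq_of_card_lt_of_maps_to hcardlt hmaps
      rw [Finset.mem_range] at hk hl
      obtain ⟨j, hj⟩ := hx
      rcases Nat.lt_or_gt_of_ne hkl with h | h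
      · exact fix_of_pow_fix x j hj M' k l h hl heq
      · exact fix_of_pow_fix x j hj M' l k h hk heq.symm
  have hnormal : ∀ M' ∈ ℳ, ∀ g : G, MulAut.conj g • M' = M' := by
    intro M' hM' g
    have hle : Subgroup.closure {g : G | ∃ k : ℕ, orderOf g = p ^ k} ≤
        (MulAction.stabilizer (MulAut G) M').comap (MulAut.conj : G →* MulAut G) := by
      rw [Subgroup.closure_le]
      intro x hx
      exact hfix x hx M' hM'
    have : g ∈ (MulAction.stabilizer (MulAut G) M').comap (MulAut.conj : G →* MulAut G) :=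
      hle (by rw [hgen]; exact Subgroup.mem_top g)
    exact this
  obtain ⟨P⟩ : Nonempty (Sylow p G) := inferInstance
  have hPcov : ∀ g ∈ (P : Subgroup G), ∃ M ∈ ℳ, g ∈ M := by
    intro g hg
    apply hcovℳ
    obtain ⟨k, hk⟩ := (P.2 ⟨g, hg⟩)
    have : g ^ p ^ k = 1 := by simpa using congrArg Subtype.val hk
    obtain ⟨j, -, hj⟩ := (Nat.dvd_prime_pow hp).mp (orderOf_dvd_of_pow_eq_one this)
    exact ⟨j, hj⟩
  obtain ⟨M, hM, hPM⟩ := pgroup_cover p (P : Subgroup G) P.2 ℳ hcardℳ hPcov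
  apply ((hℳ M).mp hM).1.1
  rw [eq_top_iff, ← hgen, Subgroup.closure_le]
  intro y hy
  obtain ⟨k, hk⟩ := hy
  have hyp : IsPGroup p (Subgroup.zpowers y) := IsPGroup.of_card (n := k) (by rw [Nat.card_zpowers, hk])
  obtain ⟨Q, hQ⟩ := hyp.exists_le_sylow
  obtain ⟨g, rfl⟩ := MulAction.exists_smul_eq G P Q
  have hy' : y ∈ ((g • P : Sylow p G) : Subgroup G) := hQ (Subgroup.mem_zpowers y)
  rw [Sylow.coe_subgroup_smul] at hy'
  have hle : MulAut.conj g • (P : Subgroup G) ≤ MulAut.conj g • M :=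
    Subgroup.pointwise_smul_le_pointwise_smul_iff.mpr hPM
  rw [hnormal M hM g] at hle
  exact hle hy'

theorem main {G : Type u} [Group G] [Finite G] (p : ℕ) [Fact p.Prime]
    (hgen : Subgroup.closure {g : G | ∃ k : ℕ, orderOf g = p ^ k} = ⊤)
    {ι : Type v} [Fintype ι] (K : ι → Subgroup G) (hK : ∀ i, K i ≠ ⊤)
    (hcov : ∀ g : G, (∃ k : ℕ, orderOf g = p ^ k) → ∃ i, g ∈ K i) :
    p + 1 ≤ Fintype.card ι :=
  aux p (Nat.card G) G rfl hgen K hK hcov

end Cfsg.Agent.Helper8.PCover
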