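import Mathlib

set_option autoImplicit false

namespace Cfsg.Agent.Helper8.PSL2TI

open Matrix

variable {F : Type*} [Field F]

lemma ext2 (A M : Matrix (Fin 2) (Fin 2) F) (h00 : A 0 0 = M 0 0) (h01 : A 0 1 = M 0 1)
    (h10 : A 1 0 = M 1 0) (h11 : A 1 1 = M 1 1) : A = M := by
  ext i j
  fin_cases i <;> fin_cases j <;> assumption

lemma form00 (α β : F) (B : Matrix (Fin 2) (Fin 2) F) :
    (α • (1 : Matrix (Fin 2) (Fin 2) F) + β • B) 0 0 = α + β * B 0 0 := by simp

lemma form01 (α β : F) (B : Matrix (Fin 2) (Fin 2) F) :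
    (α • (1 : Matrix (Fin 2) (Fin 2) F) + β • B) 0 1 = β * B 0 1 := by simp

lemma form10 (α β : F) (B : Matrix (Fin 2) (Fin 2) F) :
    (α • (1 : Matrix (Fin 2) (Fin 2) F) + β • B) 1 0 = β * B 1 0 := by simp

lemma form11 (α β : F) (B : Matrix (Fin 2) (Fin 2) F) :
    (α • (1 : Matrix (Fin 2) (Fin 2) F) + β • B) 1 1 = α + β * B 1 1 := by simp

/-- a matrix commuting with a non-scalar 2×2 matrix is a polynomial in it -/
lemma comm_form (A B : Matrix (Fin 2) (Fin 2) F)
    (hB : ∀ r : F, B ≠ r • (1 : Matrix (Fin 2) (Fin 2) F)) (h : A * B = B * A) :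
    ∃ α β : F, A = α • (1 : Matrix (Fin 2) (Fin 2) F) + β • B := by
  have h00 := congrFun (congrFun h 0) 0
  have h01 := congrFun (congrFun h 0) 1
  have h10 := congrFun (congrFun h 1) 0
  simp only [Matrix.mul_apply, Fin.sum_univ_two] at h00 h01 h10
  have e1 : A 0 1 * B 1 0 = A 1 0 * B 0 1 := by linear_combination h00
  have e2 : A 0 1 * (B 0 0 - B 1 1) = B 0 1 * (A 0 0 - A 1 1) := by linear_combination -h01
  have e3 : A 1 0 * (B 0 0 - B 1 1) = B 1 0 * (A 0 0 - A 1 1) := by linear_combination h10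
  by_cases hb2 : B 0 1 = 0
  · by_cases hb3 : B 1 0 = 0
    · have hd : B 0 0 - B 1 1 ≠ 0 := by
        intro hd
        apply hB (B 0 0)
        apply ext2
        · simp
        · simpa using hb2
        · simpa using hb3
        · simpa using (sub_eq_zero.mp hd).symm
      have ha2 : A 0 1 = 0 := by
        have := e2
        rw [hb2, zero_mul] at this
        exact (mul_eq_zero.mp this).resolve_right hd
      have ha3 : A 1 0 = 0 := by
        have := e3
        rw [hb3, zero_mul] at this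
        exact (mul_eq_zero.mp this).resolve_right hd
      have hβ : (A 0 0 - A 1 1) / (B 0 0 - B 1 1) * (B 0 0 - B 1 1) = A 0 0 - A 1 1 :=
        div_mul_cancel₀ _ hd
      generalize (A 0 0 - A 1 1) / (B 0 0 - B 1 1) = β at hβ
      refine ⟨A 0 0 - β * B 0 0, β, ext2 _ _ ?_ ?_ ?_ ?_⟩
      · rw [form00]; ring
      · rw [form01, ha2, hb2, mul_zero]
      · rw [form10, ha3, hb3, mul_zero]
      · rw [form11]; linear_combination hβ
    · have ha2 : A 0 1 = 0 := by
        have := e1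
        rw [hb2, mul_zero] at this
        exact (mul_eq_zero.mp this).resolve_right hb3
      have hβ : A 1 0 / B 1 0 * B 1 0 = A 1 0 := div_mul_cancel₀ _ hb3
      generalize A 1 0 / B 1 0 = β at hβ
      refine ⟨A 0 0 - β * B 0 0, β, ext2 _ _ ?_ ?_ ?_ ?_⟩
      · rw [form00]; ring
      · rw [form01, ha2, hb2, mul_zero]
      · rw [form10]; exact hβ.symm
      · rw [form11]
        apply mul_right_cancel₀ hb3
        linear_combination e3 + (B 0 0 - B 1 1) * hβ
  · have hβ : A 0 1 / B 0 1 * B 0 1 = A 0 1 := div_mul_cancel₀ _ hb2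
    generalize A 0 1 / B 0 1 = β at hβ
    refine ⟨A 0 0 - β * B 0 0, β, ext2 _ _ ?_ ?_ ?_ ?_⟩
    · rw [form00]; ring
    · rw [form01]; exact hβ.symm
    · rw [form10]
      apply mul_right_cancel₀ hb2
      linear_combination (-1 : F) * e1 - B 1 0 * hβ
    · rw [form11]
      apply mul_right_cancel₀ hb2
      linear_combination e2 + (B 0 0 - B 1 1) * hβ

lemma comm_trans (A B C : Matrix (Fin 2) (Fin 2) F)
    (hB : ∀ r : F, B ≠ r • (1 : Matrix (Fin 2) (Fin 2) F)) (hAB : A * B = B * A)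
    (hCB : C * B = B * C) : A * C = C * A := by
  obtain ⟨α, β, rfl⟩ := comm_form A B hB hAB
  obtain ⟨γ, δ, rfl⟩ := comm_form C B hB hCB
  have hBX : Commute B (γ • (1 : Matrix (Fin 2) (Fin 2) F) + δ • B) :=
    ((Commute.one_right B).smul_right γ).add_right ((Commute.refl B).smul_right δ)
  have h1 : Commute (α • (1 : Matrix (Fin 2) (Fin 2) F) + β • B)
      (γ • (1 : Matrix (Fin 2) (Fin 2) F) + δ • B) :=
    ((Commute.one_left _).smul_left α).add_left (hBX.smul_left β)
  exact h1.eq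

lemma sq_eq_one_char_two [CharP F 2] (r : F) (hr : r ^ 2 = 1) : r = 1 := by
  have h := CharTwo.add_sq r 1
  rw [hr, one_pow, CharTwo.add_self_eq_zero] at h
  have h' : r + 1 = 0 := by
    rcases pow_eq_zero_iff (two_ne_zero) |>.mp h with h0
    exact h0
  exact CharTwo.add_eq_zero.mp h'

lemma center_eq_bot [CharP F 2] :
    Subgroup.center (Matrix.SpecialLinearGroup (Fin 2) F) = ⊥ := by
  rw [eq_bot_iff]
  intro Z hZ
  rw [Matrix.SpecialLinearGroup.mem_center_iff] at hZ
  obtain ⟨r, hr, hrZ⟩ := hZ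
  have hr1 : r = 1 := sq_eq_one_char_two r (by simpa using hr)
  rw [Subgroup.mem_bot]
  apply Subtype.ext
  rw [← hrZ, hr1]
  simp

lemma sl_ca [CharP F 2] (A B C : Matrix.SpecialLinearGroup (Fin 2) F) (hB : B ≠ 1)
    (hAB : A * B = B * A) (hCB : C * B = B * C) : A * C = C * A := by
  apply Subtype.ext
  rw [Matrix.SpecialLinearGroup.coe_mul, Matrix.SpecialLinearGroup.coe_mul]
  apply comm_trans (A : Matrix (Fin 2) (Fin 2) F) B C
  · intro r hr
    apply hB
    have hdet : (B : Matrix (Fin 2) (Fin 2) F).det = 1 := B.det_coe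
    rw [hr, Matrix.det_smul, Matrix.det_one, mul_one, Fintype.card_fin] at hdet
    have hr1 := sq_eq_one_char_two r hdet
    apply Subtype.ext
    rw [hr, hr1, one_smul]
    rfl
  · have := congrArg Subtype.val hAB
    rwa [Matrix.SpecialLinearGroup.coe_mul, Matrix.SpecialLinearGroup.coe_mul] at this
  · have := congrArg Subtype.val hCB
    rwa [Matrix.SpecialLinearGroup.coe_mul, Matrix.SpecialLinearGroup.coe_mul] at this

lemma psl_ca [CharP F 2] (a b c : Matrix.ProjectiveSpecialLinearGroup (Fin 2) F) (hb : b ≠ 1)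
    (hab : a * b = b * a) (hcb : c * b = b * c) : a * c = c * a := by
  have hinj : Function.Injective
      (QuotientGroup.mk' (Subgroup.center (Matrix.SpecialLinearGroup (Fin 2) F))) := by
    rw [← MonoidHom.ker_eq_bot_iff, QuotientGroup.ker_mk', center_eq_bot]
  obtain ⟨A, rfl⟩ := QuotientGroup.mk'_surjective _ a
  obtain ⟨B, rfl⟩ := QuotientGroup.mk'_surjective _ b
  obtain ⟨C, rfl⟩ := QuotientGroup.mk'_surjective _ c
  rw [← map_mul, ← map_mul] at hab hcb ⊢
  have hB : B ≠ 1 := fun h => hb (by rw [h, map_one])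
  rw [sl_ca A B C hB (hinj hab) (hinj hcb)]

lemma ti_of_ca {G : Type*} [Group G]
    (hca : ∀ a b c : G, b ≠ 1 → a * b = b * a → c * b = b * c → a * c = c * a) (x₀ : G) :
    ∀ g : G, g ∉ Subgroup.normalizer ((Subgroup.centralizer ({x₀} : Set G) : Subgroup G) : Set G) →
      ∀ y ∈ ((Subgroup.centralizer ({x₀} : Set G) : Subgroup G) : Set G),
        g * y * g⁻¹ ∈ ((Subgroup.centralizer ({x₀} : Set G) : Subgroup G) : Set G) → y = 1 := by
  have hmem : ∀ z : G, z ∈ ((Subgroup.centralizer ({x₀} : Set G) : Subgroup G) : Set G) ↔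
      x₀ * z = z * x₀ := by
    intro z
    simp [Subgroup.mem_centralizer_iff]
  intro g hg y hy hgy
  by_contra hy1
  apply hg
  rw [Subgroup.mem_set_normalizer_iff]
  intro h
  by_cases hx : x₀ = 1
  · rw [hmem, hmem, hx]
    simp
  rw [hmem] at hy hgy
  have hy'1 : g * y * g⁻¹ ≠ 1 := by
    intro h1
    apply hy1
    have : y = g⁻¹ * (g * y * g⁻¹) * g := by group
    rw [this, h1]
    group
  rw [hmem, hmem]
  constructor
  · intro hh
    have h1 : h * y = y * h := hca h x₀ y hx hh.symm hy.symm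
    have h2 : g * h * g⁻¹ * (g * y * g⁻¹) = g * y * g⁻¹ * (g * h * g⁻¹) := by
      have e1 : g * h * g⁻¹ * (g * y * g⁻¹) = g * (h * y) * g⁻¹ := by group
      have e2 : g * y * g⁻¹ * (g * h * g⁻¹) = g * (y * h) * g⁻¹ := by group
      rw [e1, e2, h1]
    exact (hca (g * h * g⁻¹) (g * y * g⁻¹) x₀ hy'1 h2 hgy).symm
  · intro hh
    have h2 : g * h * g⁻¹ * (g * y * g⁻¹) = g * y * g⁻¹ * (g * h * g⁻¹) :=
      hca (g * h * g⁻¹) x₀ (g * y * g⁻¹) hx hh.symm hgy.symm
    have h1 : h * y = y * h := by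
      have e1 : g * h * g⁻¹ * (g * y * g⁻¹) = g * (h * y) * g⁻¹ := by group
      have e2 : g * y * g⁻¹ * (g * h * g⁻¹) = g * (y * h) * g⁻¹ := by group
      rw [e1, e2] at h2
      exact mul_left_cancel (mul_right_cancel h2)
    exact (hca h y x₀ hy1 h1 hy).symm

theorem main4065 (n : ℕ)
    (x : Matrix.ProjectiveSpecialLinearGroup (Fin 2) (GaloisField 2 n)) :
    ∀ g : Matrix.ProjectiveSpecialLinearGroup (Fin 2) (GaloisField 2 n),
      g ∉ Subgroup.normalizer ((Subgroup.centralizer ({x} : Set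
        (Matrix.ProjectiveSpecialLinearGroup (Fin 2) (GaloisField 2 n))) : Subgroup _) : Set _) →
      ∀ y ∈ ((Subgroup.centralizer ({x} : Set
        (Matrix.ProjectiveSpecialLinearGroup (Fin 2) (GaloisField 2 n))) : Subgroup _) : Set _),
        g * y * g⁻¹ ∈ ((Subgroup.centralizer ({x} : Set
          (Matrix.ProjectiveSpecialLinearGroup (Fin 2) (GaloisField 2 n))) : Subgroup _) : Set _) →
        y = 1 :=
  ti_of_ca (fun a b c hb hab hcb => psl_ca a b c hb hab hcb) x

end Cfsg.Agent.Helper8.PSL2TI
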