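import Mathlib
import Cfsg.Prelude.Def_PLocal

set_option autoImplicit false

namespace Cfsg.Agent.Helper8.RegP

open Cfsg
open scoped commutatorElement

variable {G : Type*} [Group G]

/-! ### General lemmas -/

/-- Commutators of elements of a closure lie in a subgroup normalized by the closure as soon as
those of the generators do. -/
theorem comm_closure_le (T : Set G) (N : Subgroup G)
    (hnorm : ∀ k ∈ Subgroup.closure T, ∀ m ∈ N, k * m * k⁻¹ ∈ N)
    (h : ∀ x ∈ T, ∀ y ∈ T, ⁅x, y⁆ ∈ N) :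
    ⁅Subgroup.closure T, Subgroup.closure T⁆ ≤ N := by
  have A : ∀ g₁ ∈ Subgroup.closure T, ∀ y ∈ T, ⁅g₁, y⁆ ∈ N := by
    intro g₁ hg₁
    induction hg₁ using Subgroup.closure_induction with
    | mem x hx => exact fun y hy => h x hx y hy
    | one =>
      intro y _
      rw [commutatorElement_one_left]
      exact N.one_mem
    | mul a b ha _ iha ihb =>
      intro y hy
      have e : ⁅a * b, y⁆ = a * ⁅b, y⁆ * a⁻¹ * ⁅a, y⁆ := by
        simp only [commutatorElement_def]
        group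
      rw [e]
      exact N.mul_mem (hnorm a ha _ (ihb y hy)) (iha y hy)
    | inv a ha iha =>
      intro y hy
      have e : ⁅a⁻¹, y⁆ = a⁻¹ * (⁅a, y⁆)⁻¹ * (a⁻¹)⁻¹ := by
        simp only [commutatorElement_def]
        group
      rw [e]
      exact hnorm a⁻¹ (Subgroup.inv_mem _ ha) _ (N.inv_mem (iha y hy))
  rw [Subgroup.commutator_le]
  intro g₁ hg₁ g₂ hg₂
  induction hg₂ using Subgroup.closure_induction with
  | mem y hy => exact A g₁ hg₁ y hy
  | one =>
    rw [commutatorElement_one_right]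
    exact N.one_mem
  | mul b c hb _ ihb ihc =>
    have e : ⁅g₁, b * c⁆ = ⁅g₁, b⁆ * (b * ⁅g₁, c⁆ * b⁻¹) := by
      simp only [commutatorElement_def]
      group
    rw [e]
    exact N.mul_mem ihb (hnorm b hb _ ihc)
  | inv b hb ihb =>
    have e : ⁅g₁, b⁻¹⁆ = b⁻¹ * (⁅g₁, b⁆)⁻¹ * (b⁻¹)⁻¹ := by
      simp only [commutatorElement_def]
      group
    rw [e]
    exact hnorm b⁻¹ (Subgroup.inv_mem _ hb) _ (N.inv_mem ihb)

theorem commutator_le_self (K : Subgroup G) : ⁅K, K⁆ ≤ K := by
  rw [Subgroup.commutator_le]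
  intro g₁ h₁ g₂ h₂
  rw [commutatorElement_def]
  exact K.mul_mem (K.mul_mem (K.mul_mem h₁ h₂) (K.inv_mem h₁)) (K.inv_mem h₂)

theorem comm_conj_mem {K : Subgroup G} {t d : G} (ht : t ∈ K) (hd : d ∈ ⁅K, K⁆) :
    t * d * t⁻¹ ∈ ⁅K, K⁆ := by
  have hdK : d ∈ K := commutator_le_self K hd
  have e : t * d * t⁻¹ = ⁅t, d⁆ * d := by
    simp only [commutatorElement_def]
    group
  rw [e]
  exact Subgroup.mul_mem _ (Subgroup.commutator_mem_commutator ht hdK) hd

theorem closure_pair_le {K : Subgroup G} {x y : G} (hx : x ∈ K) (hy : y ∈ K) :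
    Subgroup.closure ({x, y} : Set G) ≤ K := by
  apply (Subgroup.closure_le _).2
  rintro z (rfl | rfl)
  · exact hx
  · exact hy

theorem mem_closure_pair_left (a b : G) : a ∈ Subgroup.closure ({a, b} : Set G) :=
  Subgroup.subset_closure (Set.mem_insert _ _)

theorem mem_closure_pair_right (a b : G) : b ∈ Subgroup.closure ({a, b} : Set G) :=
  Subgroup.subset_closure (Set.mem_insert_of_mem _ rfl)

theorem closure_pair_eq {a b u v : G} (hu : u ∈ Subgroup.closure ({a, b} : Set G))
    (hv : v ∈ Subgroup.closure ({a, b} : Set G)) (ha : a ∈ Subgroup.closure ({u, v} : Set G))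
    (hb : b ∈ Subgroup.closure ({u, v} : Set G)) :
    Subgroup.closure ({u, v} : Set G) = Subgroup.closure ({a, b} : Set G) :=
  le_antisymm (closure_pair_le hu hv) (closure_pair_le ha hb)

/-! ### `powerClosure` -/

theorem powerClosure_mono {p n : ℕ} {H K : Subgroup G} (h : H ≤ K) :
    powerClosure p n H ≤ powerClosure p n K := by
  apply Subgroup.closure_mono
  rintro y ⟨x, hx, e⟩
  exact ⟨x, h hx, e⟩

theorem pow_mem_powerClosure {p n : ℕ} {H : Subgroup G} {x : G} (hx : x ∈ H) :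
    x ^ (p ^ n) ∈ powerClosure p n H :=
  Subgroup.subset_closure ⟨x, hx, rfl⟩

theorem powerClosure_le (p n : ℕ) (H : Subgroup G) : powerClosure p n H ≤ H := by
  apply (Subgroup.closure_le _).2
  rintro y ⟨x, hx, rfl⟩
  exact H.pow_mem hx _

theorem powerClosure_eq_bot {p n : ℕ} {H : Subgroup G} (h : ∀ x ∈ H, x ^ (p ^ n) = 1) :
    powerClosure p n H = ⊥ := by
  rw [eq_bot_iff]
  apply (Subgroup.closure_le _).2
  rintro y ⟨x, hx, rfl⟩
  exact Subgroup.mem_bot.2 (h x hx)

theorem powerClosure_conj_mem {p n : ℕ} {K : Subgroup G} {t c : G} (ht : t ∈ K)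
    (hc : c ∈ powerClosure p n ⁅K, K⁆) : t * c * t⁻¹ ∈ powerClosure p n ⁅K, K⁆ := by
  unfold powerClosure at hc ⊢
  induction hc using Subgroup.closure_induction with
  | mem y hy =>
    obtain ⟨x, hx, rfl⟩ := hy
    apply Subgroup.subset_closure
    exact ⟨t * x * t⁻¹, comm_conj_mem ht hx, conj_pow.symm⟩
  | one =>
    rw [mul_one, mul_inv_cancel]
    exact Subgroup.one_mem _
  | mul a b _ _ iha ihb =>
    have e : t * (a * b) * t⁻¹ = (t * a * t⁻¹) * (t * b * t⁻¹) := by group
    rw [e]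
    exact Subgroup.mul_mem _ iha ihb
  | inv a _ iha =>
    have e : t * a⁻¹ * t⁻¹ = (t * a * t⁻¹)⁻¹ := by group
    rw [e]
    exact Subgroup.inv_mem _ iha

/-! ### Proper subgroups of `p`-groups -/

theorem exists_proper_ge (H : Type*) [Group H] [Finite H] {p : ℕ} [Fact p.Prime]
    (hH : IsPGroup p H) (L : Subgroup H) (hL : L ≠ ⊤) :
    ∃ M : Subgroup H, L ≤ M ∧ M ≠ ⊤ ∧ commutator H ≤ M := by
  have hnil : Group.IsNilpotent H := hH.isNilpotent
  obtain ⟨M, hM, hLM⟩ := (eq_top_or_exists_le_coatom L).resolve_left hL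
  have hMn : M.Normal := Subgroup.NormalizerCondition.normal_of_coatom M
    normalizerCondition_of_isNilpotent hM
  refine ⟨M, hLM, hM.1, ?_⟩
  have hnt : Nontrivial (H ⧸ M) := by
    by_contra hns
    rw [not_nontrivial_iff_subsingleton] at hns
    exact hM.1 (QuotientGroup.subgroup_eq_top_of_subsingleton M hns)
  have hsol : Group.IsSolvable (H ⧸ M) := inferInstance
  have hlt := Group.IsSolvable.commutator_lt_top_of_nontrivial (H ⧸ M)
  have hM₁ : M ≤ (commutator (H ⧸ M)).comap (QuotientGroup.mk' M) := by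
    intro x hx
    show QuotientGroup.mk' M x ∈ commutator (H ⧸ M)
    rw [QuotientGroup.mk'_apply, (QuotientGroup.eq_one_iff x).2 hx]
    exact Subgroup.one_mem _
  have hM₁top : (commutator (H ⧸ M)).comap (QuotientGroup.mk' M) ≠ ⊤ := by
    intro h
    apply ne_of_lt hlt
    rw [eq_top_iff]
    intro q _
    obtain ⟨x, rfl⟩ := QuotientGroup.mk'_surjective M q
    have hx : x ∈ (commutator (H ⧸ M)).comap (QuotientGroup.mk' M) := by
      rw [h]
      trivial
    exact hx
  have hM₁eq : (commutator (H ⧸ M)).comap (QuotientGroup.mk' M) = M := by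
    rcases hM.le_iff.1 hM₁ with h | h
    · exact absurd h hM₁top
    · exact h
  intro x hx
  rw [← hM₁eq]
  show QuotientGroup.mk' M x ∈ commutator (H ⧸ M)
  have h1 : (commutator H).map (QuotientGroup.mk' M) ≤ commutator (H ⧸ M) := by
    rw [commutator_def, commutator_def, Subgroup.map_commutator]
    exact Subgroup.commutator_mono le_top le_top
  exact h1 (Subgroup.mem_map_of_mem _ hx)

theorem exists_lt_of_mem [Finite G] {p : ℕ} [Fact p.Prime] (hG : IsPGroup p G)
    (K : Subgroup G) {u : G} (hu : u ∈ K) (hne : Subgroup.zpowers u ≠ K) :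
    ∃ M : Subgroup G, M < K ∧ u ∈ M ∧ ⁅K, K⁆ ≤ M := by
  have hK : IsPGroup p K := hG.to_subgroup K
  have hL : (Subgroup.zpowers u).subgroupOf K ≠ ⊤ := by
    intro h
    apply hne
    rw [Subgroup.subgroupOf_eq_top] at h
    exact le_antisymm ((Subgroup.zpowers_le).2 hu) h
  obtain ⟨M, hLM, hM, hcomm⟩ := exists_proper_ge K hK _ hL
  refine ⟨M.map K.subtype, ?_, ?_, ?_⟩
  · refine lt_of_le_of_ne (Subgroup.map_subtype_le M) ?_
    intro h
    apply hM
    rw [eq_top_iff]
    intro x _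
    have hx : (x : G) ∈ M.map K.subtype := by
      rw [h]
      exact x.2
    obtain ⟨y, hy, hyx⟩ := Subgroup.mem_map.1 hx
    have e : y = x := Subtype.ext hyx
    rw [← e]
    exact hy
  · exact Subgroup.mem_map.2 ⟨⟨u, hu⟩, hLM (Subgroup.mem_subgroupOf.2 (Subgroup.mem_zpowers u)), rfl⟩
  · rw [← Subgroup.map_subtype_commutator]
    exact Subgroup.map_mono hcomm

end Cfsg.Agent.Helper8.RegP
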