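import Mathlib

set_option autoImplicit false

namespace Cfsg.Agent.Helper8

open Finset

/-- Binomial expansion of `(1+x)^p` for a prime `p`, isolating the linear term. -/
theorem exists_one_add_pow_prime {R : Type*} [CommRing R] (p : ℕ) (hp : p.Prime) (x : R) :
    ∃ q : R, (1 + x) ^ p = 1 + x ^ p + p * x * (1 + x * q) := by
  obtain ⟨k, rfl⟩ : ∃ k, p = k + 2 := ⟨p - 2, by have := hp.two_le; omega⟩
  refine ⟨∑ m ∈ range k, x ^ m * (((k + 2).choose (m + 2) / (k + 2) : ℕ) : R), ?_⟩
  have key : ∀ m ∈ range k, x ^ (m + 2) * 1 ^ (k + 2 - (m + 2)) * ((k + 2).choose (m + 2) : R)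
      = ((k + 2 : ℕ) : R) * x * (x * (x ^ m * (((k + 2).choose (m + 2) / (k + 2) : ℕ) : R))) := by
    intro m hm
    have hd : (k + 2) ∣ (k + 2).choose (m + 2) :=
      hp.dvd_choose_self (by omega) (by have := mem_range.mp hm; omega)
    obtain ⟨d, hd⟩ := hd
    rw [hd, Nat.mul_div_cancel_left _ (by omega)]
    push_cast
    ring
  rw [add_comm 1 x, add_pow, Finset.sum_range_succ, Finset.sum_range_succ', Finset.sum_range_succ',
    Finset.sum_congr rfl key, ← Finset.mul_sum, ← Finset.mul_sum]
  simp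
  ring

/-- In a commutative ring, `(1+x)^p = 1` and `x^(n(p-1)+1) = 0` force `p^n x = 0`. -/
theorem pow_mul_eq_zero_of_one_add_pow {R : Type*} [CommRing R] (p : ℕ) (hp : p.Prime) (n : ℕ)
    (x : R) (h1 : (1 + x) ^ p = 1) (h2 : x ^ (n * (p - 1) + 1) = 0) : (p : R) ^ n * x = 0 := by
  obtain ⟨q, hq⟩ := exists_one_add_pow_prime p hp x
  have hu : (p : R) * x * (1 + x * q) = - x ^ p := by
    rw [h1] at hq
    linear_combination -hq
  have hB : ∀ k : ℕ, (p : R) ^ k * x * (1 + x * q) ^ k = (-1) ^ k * x ^ (k * (p - 1) + 1) := by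
    intro k
    induction k with
    | zero => simp
    | succ k ih =>
      have e : (k + 1) * (p - 1) + 1 = k * (p - 1) + p := by
        have := hp.two_le
        have h3 : p - 1 + 1 = p := by omega
        rw [Nat.add_mul, one_mul, add_assoc, h3]
      calc (p : R) ^ (k + 1) * x * (1 + x * q) ^ (k + 1)
          = ((p : R) ^ k * x * (1 + x * q) ^ k) * ((p : R) * (1 + x * q)) := by ring
        _ = (-1) ^ k * x ^ (k * (p - 1) + 1) * ((p : R) * (1 + x * q)) := by rw [ih]
        _ = (-1) ^ k * x ^ (k * (p - 1)) * ((p : R) * x * (1 + x * q)) := by ring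
        _ = (-1) ^ k * x ^ (k * (p - 1)) * (- x ^ p) := by rw [hu]
        _ = (-1) ^ (k + 1) * x ^ ((k + 1) * (p - 1) + 1) := by rw [e]; ring
  have hnil : IsNilpotent (x * q) := (Commute.all x q).isNilpotent_mul_right ⟨_, h2⟩
  have hunit : IsUnit ((1 + x * q) ^ n) := hnil.isUnit_one_add.pow n
  have h3 := hB n
  rw [h2, mul_zero] at h3
  exact hunit.mul_left_eq_zero.mp h3

/-- The same in an arbitrary ring (everything lives in the commutative subring generated by
`x`). -/
theorem pow_mul_eq_zero_of_one_add_pow' {R : Type*} [Ring R] (p : ℕ) (hp : p.Prime) (n : ℕ)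
    (x : R) (h1 : (1 + x) ^ p = 1) (h2 : x ^ (n * (p - 1) + 1) = 0) : (p : R) ^ n * x = 0 := by
  let _ : CommRing (Subring.closure ({x} : Set R)) := Subring.closureCommRingOfComm (by
    intro a ha b hb
    rw [Set.mem_singleton_iff] at ha hb
    rw [ha, hb])
  let y : Subring.closure ({x} : Set R) := ⟨x, Subring.subset_closure rfl⟩
  have h := pow_mul_eq_zero_of_one_add_pow p hp n y (Subtype.ext (by simpa [y] using h1))
    (Subtype.ext (by simpa [y] using h2))
  have h' := congrArg Subtype.val h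
  simpa [y] using h'

/-- Group form: `G` abelian, `T` an endomorphism with `T^p = 1` whose "commutator operator"
`u ↦ T u * u⁻¹` is nilpotent of index `n(p-1)+1`; then `T` fixes all `p^n`-th powers. -/
theorem hom_pow_fix {G : Type*} [Group G] (hcomm : ∀ a b : G, a * b = b * a) (p : ℕ)
    (hp : p.Prime) (n : ℕ) (T : G →* G) (hT : ∀ v, T^[p] v = v)
    (hN : ∀ v, (fun u => T u * u⁻¹)^[n * (p - 1) + 1] v = 1) (v : G) :
    T (v ^ (p ^ n)) = v ^ (p ^ n) := by
  let _ : CommGroup G := { ‹Group G› with mul_comm := hcomm }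
  let τ : AddMonoid.End (Additive G) := MonoidHom.toAdditive T
  have hτ : ∀ (k : ℕ) (v : G), (τ ^ k) (Additive.ofMul v) = Additive.ofMul (T^[k] v) := by
    intro k
    induction k with
    | zero => intro v; rfl
    | succ k ih =>
      intro v
      rw [pow_succ', AddMonoid.End.coe_mul, Function.comp_apply, ih, Function.iterate_succ_apply']
      rfl
  have hsub : ∀ a : Additive G, (τ - 1) a = τ a - a := fun a => rfl
  have hN' : ∀ (k : ℕ) (v : G), ((τ - 1) ^ k) (Additive.ofMul v)
      = Additive.ofMul ((fun u => T u * u⁻¹)^[k] v) := by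
    intro k
    induction k with
    | zero => intro v; rfl
    | succ k ih =>
      intro v
      rw [pow_succ', AddMonoid.End.coe_mul, Function.comp_apply, ih, Function.iterate_succ_apply',
        hsub]
      show Additive.ofMul (T _ / _) = Additive.ofMul (T _ * _⁻¹)
      rw [div_eq_mul_inv]
      rfl
  have h1 : (1 + (τ - 1)) ^ p = 1 := by
    rw [add_sub_cancel]
    ext a
    have := hτ p a.toMul
    rw [hT] at this
    exact this
  have h2 : (τ - 1) ^ (n * (p - 1) + 1) = 0 := by
    ext a
    have := hN' (n * (p - 1) + 1) a.toMul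
    rw [hN] at this
    exact this
  have h3 := pow_mul_eq_zero_of_one_add_pow' p hp n (τ - 1) h1 h2
  have h4 := DFunLike.congr_fun h3 (Additive.ofMul v)
  rw [← Nat.cast_pow, AddMonoid.End.coe_mul, Function.comp_apply, AddMonoid.End.natCast_apply,
    hsub] at h4
  have h5 : (T v / v) ^ (p ^ n) = 1 := h4
  rw [div_pow, div_eq_one] at h5
  rw [map_pow, h5]

end Cfsg.Agent.Helper8
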