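import Mathlib

set_option autoImplicit false
set_option maxHeartbeats 1000000

namespace Cfsg.Agent.Helper8.SecondMax

open MulAction
open scoped Pointwise

/-- transfer of coatoms along an injective hom -/
theorem coatom_transfer {G' G : Type*} [Group G'] [Group G] (φ : G' →* G)
    (hφ : Function.Injective φ) (S : Subgroup G') (hS : IsCoatom S) :
    IsCoatom ((S.map φ).subgroupOf φ.range) := by
  constructor
  · intro h
    apply hS.1
    rw [eq_top_iff]
    intro x _
    have h1 : (⟨φ x, ⟨x, rfl⟩⟩ : φ.range) ∈ (S.map φ).subgroupOf φ.range := by rw [h]; trivial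
    rw [Subgroup.mem_subgroupOf] at h1
    obtain ⟨s, hs, hsx⟩ := h1
    have h2 := hφ hsx
    rw [← h2]; exact hs
  · intro Y hY
    let Y' : Subgroup G' := (Y.map φ.range.subtype).comap φ
    have hle : S ≤ Y' := by
      intro s hs
      show φ s ∈ Y.map φ.range.subtype
      refine ⟨⟨φ s, ⟨s, rfl⟩⟩, hY.le ?_, rfl⟩
      rw [Subgroup.mem_subgroupOf]
      exact ⟨s, hs, rfl⟩
    have hne : S ≠ Y' := by
      intro heq
      apply hY.ne
      apply le_antisymm hY.le
      intro y hy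
      rw [Subgroup.mem_subgroupOf]
      obtain ⟨x, hx⟩ := y.2
      have hxY' : x ∈ Y' := by
        show φ x ∈ Y.map φ.range.subtype
        exact ⟨y, hy, hx.symm⟩
      rw [← heq] at hxY'
      exact ⟨x, hxY', hx⟩
    have htop : Y' = ⊤ := hS.2 Y' (lt_of_le_of_ne hle hne)
    rw [eq_top_iff]
    intro y _
    obtain ⟨x, hx⟩ := y.2
    have hxY' : x ∈ Y' := by rw [htop]; trivial
    obtain ⟨y', hy', hy'x⟩ := hxY'
    have h3 : y' = y := Subtype.ext (by rw [← hx]; exact hy'x)
    rw [← h3]; exact hy'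

theorem main (m : ℕ) (hm : 2 ≤ m) :
    ∃ M H K : Subgroup (Equiv.Perm (Fin (2 * m))), IsCoatom M ∧ M.index = 2 * m ∧ H ≤ M ∧
      IsCoatom (H.subgroupOf M) ∧ IsCoatom K ∧ H ≤ K ∧ ¬ IsCoatom (H.subgroupOf K) := by
  classical
  have h2m : 0 < 2 * m := by omega
  let ω : Fin (2 * m) := ⟨0, h2m⟩
  let w1 : Fin (2 * m) := ⟨1, by omega⟩
  let wm : Fin (2 * m) := ⟨m, by omega⟩
  have hw1 : w1 ≠ ω := by intro h; have := congrArg Fin.val h; simp [w1, ω] at this
  have hwm : wm ≠ ω := by intro h; have := congrArg Fin.val h; simp [wm, ω] at this; omega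
  have hw1m : w1 ≠ wm := by intro h; have := congrArg Fin.val h; simp [w1, wm] at this; omega
  let A : Set (Fin (2 * m)) := {i | i.val < m}
  have hωA : ω ∈ A := by show (0 : ℕ) < m; omega
  have hw1A : w1 ∈ A := by show (1 : ℕ) < m; omega
  have hwmA : wm ∉ A := by show ¬ (m < m); omega
  let φ : Equiv.Perm {x : Fin (2 * m) // x ≠ ω} →* Equiv.Perm (Fin (2 * m)) := Equiv.Perm.ofSubtype
  have hφ : Function.Injective φ := Equiv.Perm.ofSubtype_injective
  let s : Set {x : Fin (2 * m) // x ≠ ω} := {x | x.val ∈ A}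
  have hMeq : φ.range = stabilizer (Equiv.Perm (Fin (2 * m))) ω := by
    ext g
    constructor
    · rintro ⟨σ, rfl⟩
      rw [mem_stabilizer_iff]
      show Equiv.Perm.ofSubtype σ ω = ω
      exact Equiv.Perm.ofSubtype_apply_of_not_mem σ (by simp)
    · intro hg
      rw [mem_stabilizer_iff] at hg
      have hg' : g ω = ω := hg
      have h1 : ∀ x, (g x ≠ ω) ↔ (x ≠ ω) := by
        intro x
        constructor
        · intro h hx; apply h; rw [hx]; exact hg'
        · intro h hx; apply h; apply g.injective; rw [hx, hg']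
      refine ⟨g.subtypePerm h1, ?_⟩
      apply Equiv.Perm.ofSubtype_subtypePerm
      intro x hx hxω
      apply hx; rw [hxω]; exact hg'
  have hcardΩ : Nat.card (Fin (2 * m)) = 2 * m := by simp
  have hMco : IsCoatom φ.range := by
    rw [hMeq, ← stabilizer_singleton]
    apply Equiv.Perm.isCoatom_stabilizer (Set.singleton_nonempty ω) ⟨w1, by simpa using hw1⟩
    rw [hcardΩ, Set.ncard_singleton]; omega
  have hMidx : (φ.range).index = 2 * m := by
    rw [hMeq, index_stabilizer_of_transitive, hcardΩ]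
  have hcard' : Nat.card {x : Fin (2 * m) // x ≠ ω} = 2 * m - 1 := by
    rw [Nat.card_eq_fintype_card]
    show Fintype.card {x : Fin (2 * m) // ¬ x = ω} = _
    rw [Fintype.card_subtype_compl, Fintype.card_fin, Fintype.card_subtype_eq]
  have hSco : IsCoatom (stabilizer (Equiv.Perm {x : Fin (2 * m) // x ≠ ω}) s) := by
    apply Equiv.Perm.isCoatom_stabilizer ⟨⟨w1, hw1⟩, hw1A⟩ ⟨⟨wm, hwm⟩, hwmA⟩
    rw [hcard']; omega
  let H : Subgroup (Equiv.Perm (Fin (2 * m))) :=
    (stabilizer (Equiv.Perm {x : Fin (2 * m) // x ≠ ω}) s).map φ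
  have hHM : H ≤ φ.range := Subgroup.map_le_range _ _
  let L : Subgroup (Equiv.Perm (Fin (2 * m))) := stabilizer (Equiv.Perm (Fin (2 * m))) A
  have hHL : H ≤ L := by
    rintro g ⟨σ, hσ, rfl⟩
    show φ σ ∈ stabilizer (Equiv.Perm (Fin (2 * m))) A
    rw [mem_stabilizer_set]
    intro a
    show Equiv.Perm.ofSubtype σ a ∈ A ↔ a ∈ A
    by_cases ha : a = ω
    · rw [ha, Equiv.Perm.ofSubtype_apply_of_not_mem σ (by simp)]
    · rw [Equiv.Perm.ofSubtype_apply_of_mem σ ha]
      exact (mem_stabilizer_set.mp hσ) ⟨a, ha⟩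
  -- the partition stabilizer
  let L' : Subgroup (Equiv.Perm (Fin (2 * m))) :=
    stabilizer (Equiv.Perm (Fin (2 * m))) ({A, Aᶜ} : Set (Set (Fin (2 * m))))
  have hLL' : L ≤ L' := by
    intro g hg
    have hgA : g • A = A := hg
    show g • ({A, Aᶜ} : Set (Set (Fin (2 * m)))) = {A, Aᶜ}
    rw [Set.smul_set_insert, Set.smul_set_singleton, Set.smul_set_compl, hgA]
  -- ρ = reversal
  let ρ : Equiv.Perm (Fin (2 * m)) := Fin.revPerm
  have hρA : ρ • A = Aᶜ := by
    ext x
    constructor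
    · rintro ⟨a, ha, rfl⟩
      have ha' : a.val < m := ha
      show ¬ ((Fin.rev a).val < m)
      rw [Fin.val_rev]; omega
    · intro hx
      have hx' : ¬ (x.val < m) := hx
      refine ⟨Fin.rev x, ?_, ?_⟩
      · show (Fin.rev x).val < m
        rw [Fin.val_rev]; have := x.2; omega
      · show Fin.rev (Fin.rev x) = x
        exact Fin.rev_rev x
  have hρAc : ρ • Aᶜ = A := by
    rw [Set.smul_set_compl, hρA, compl_compl]
  have hρL' : ρ ∈ L' := by
    show ρ • ({A, Aᶜ} : Set (Set (Fin (2 * m)))) = {A, Aᶜ}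
    rw [Set.smul_set_insert, Set.smul_set_singleton, hρA, hρAc, Set.pair_comm]
  have hρL : ρ ∉ L := by
    intro h
    have h1 : ρ • A = A := h
    rw [hρA] at h1
    have : ω ∈ Aᶜ := by rw [h1]; exact hωA
    exact this hωA
  -- τ = swap ω wm is not in L'
  have hL'top : L' ≠ ⊤ := by
    intro htop
    have hτ : Equiv.swap ω wm ∈ L' := by rw [htop]; trivial
    have hτ' : Equiv.swap ω wm • ({A, Aᶜ} : Set (Set (Fin (2 * m)))) = {A, Aᶜ} := hτ
    have hmem : Equiv.swap ω wm • A ∈ ({A, Aᶜ} : Set (Set (Fin (2 * m)))) := by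
      rw [← hτ']
      exact Set.smul_mem_smul_set (Set.mem_insert _ _)
    have h1 : w1 ∈ Equiv.swap ω wm • A :=
      ⟨w1, hw1A, Equiv.swap_apply_of_ne_of_ne hw1 hw1m⟩
    have h2 : wm ∈ Equiv.swap ω wm • A := ⟨ω, hωA, Equiv.swap_apply_left ω wm⟩
    rcases hmem with h | h
    · rw [h] at h2; exact hwmA h2
    · have h' : Equiv.swap ω wm • A = Aᶜ := h
      rw [h'] at h1; exact h1 hw1A
  obtain ⟨K, hKco, hL'K⟩ := (eq_top_or_exists_le_coatom L').resolve_left hL'top
  have hLK : L ≤ K := hLL'.trans hL'K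
  refine ⟨φ.range, H, K, hMco, hMidx, hHM, ?_, hKco, hHL.trans hLK, ?_⟩
  · exact coatom_transfer φ hφ _ hSco
  · intro hc
    have hle : H.subgroupOf K ≤ L.subgroupOf K := by
      intro x hx
      rw [Subgroup.mem_subgroupOf] at hx ⊢
      exact hHL hx
    have hne : H.subgroupOf K ≠ L.subgroupOf K := by
      intro heq
      -- swap ω w1 ∈ L, not in H
      have hsL : Equiv.swap ω w1 ∈ L := by
        show Equiv.swap ω w1 ∈ stabilizer (Equiv.Perm (Fin (2 * m))) A
        rw [mem_stabilizer_set]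
        intro a
        show Equiv.swap ω w1 a ∈ A ↔ a ∈ A
        by_cases h0 : a = ω
        · rw [h0, Equiv.swap_apply_left]; exact ⟨fun _ => hωA, fun _ => hw1A⟩
        · by_cases h1 : a = w1
          · rw [h1, Equiv.swap_apply_right]; exact ⟨fun _ => hw1A, fun _ => hωA⟩
          · rw [Equiv.swap_apply_of_ne_of_ne h0 h1]
      have h1 : (⟨Equiv.swap ω w1, hLK hsL⟩ : K) ∈ L.subgroupOf K := by
        rw [Subgroup.mem_subgroupOf]; exact hsL
      rw [← heq, Subgroup.mem_subgroupOf] at h1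
      have h2 : Equiv.swap ω w1 ∈ stabilizer (Equiv.Perm (Fin (2 * m))) ω := by
        rw [← hMeq]; exact hHM h1
      rw [mem_stabilizer_iff] at h2
      have h3 : Equiv.swap ω w1 ω = ω := h2
      rw [Equiv.swap_apply_left] at h3
      exact hw1 h3
    have htop := hc.2 _ (lt_of_le_of_ne hle hne)
    have h1 : (⟨ρ, hL'K hρL'⟩ : K) ∈ L.subgroupOf K := by rw [htop]; trivial
    rw [Subgroup.mem_subgroupOf] at h1
    exact hρL h1

end Cfsg.Agent.Helper8.SecondMax
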