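import Mathlib

set_option autoImplicit false

namespace Cfsg.Agent.Helper8

open scoped commutatorElement BigOperators

/-- Transfer into `P` when a normal subgroup `N` supplements `P`: on `x ∈ P` the transfer is
`ϕ x ^ [L : P]` times a product of values of `ϕ` at elements of `P ∩ N`. -/
theorem transfer_supplement_formula {L : Type*} [Group L] {A : Type*} [CommGroup A]
    (P N : Subgroup L) [hN : N.Normal] [P.FiniteIndex]
    (hPN : ∀ l : L, ∃ n ∈ N, (n : L ⧸ P) = (l : L ⧸ P))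
    (ϕ : P →* A) (x : L) (hx : x ∈ P) :
    ∃ (s : Finset (L ⧸ P)) (u : L ⧸ P → P), (∀ q, ((u q : P) : L) ∈ N) ∧
      MonoidHom.transfer ϕ x = ϕ ⟨x, hx⟩ ^ P.index * ∏ q ∈ s, ϕ (u q) := by
  classical
  have hex : ∀ q : L ⧸ P, ∃ n ∈ N, (n : L ⧸ P) = q := by
    intro q
    obtain ⟨n, hn, hq⟩ := hPN q.out
    exact ⟨n, hn, hq.trans (QuotientGroup.out_eq' q)⟩
  choose f hfN hf using hex
  let T : P.LeftTransversal := ⟨Set.range f, Subgroup.isComplement_range_left hf⟩
  have hT : ∀ q : L ⧸ P, (T.2.leftQuotientEquiv q : L) = f q :=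
    fun q => Subgroup.IsComplement.leftQuotientEquiv_apply hf q
  have hmem : ∀ q : L ⧸ P, (f q)⁻¹ * (x * f (x⁻¹ • q)) ∈ P := by
    intro q
    rw [← QuotientGroup.eq, hf q]
    have h1 : ((x * f (x⁻¹ • q) : L) : L ⧸ P) = x • ((f (x⁻¹ • q) : L) : L ⧸ P) := rfl
    rw [h1, hf, smul_inv_smul]
  let u : L ⧸ P → P := fun q => ⟨x, hx⟩⁻¹ * ⟨(f q)⁻¹ * (x * f (x⁻¹ • q)), hmem q⟩
  have huN : ∀ q, ((u q : P) : L) ∈ N := by
    intro q
    show x⁻¹ * ((f q)⁻¹ * (x * f (x⁻¹ • q))) ∈ N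
    have h1 : x⁻¹ * (f q)⁻¹ * x⁻¹⁻¹ ∈ N := hN.conj_mem _ (N.inv_mem (hfN q)) x⁻¹
    have h2 : x⁻¹ * ((f q)⁻¹ * (x * f (x⁻¹ • q))) = x⁻¹ * (f q)⁻¹ * x⁻¹⁻¹ * f (x⁻¹ • q) := by
      group
    rw [h2]
    exact N.mul_mem h1 (hfN _)
  letI := P.fintypeQuotientOfFiniteIndex
  refine ⟨Finset.univ, u, huN, ?_⟩
  rw [MonoidHom.transfer_def ϕ T]
  unfold Subgroup.leftTransversals.diff
  have hterm : ∀ q : L ⧸ P,
      ϕ ⟨(T.2.leftQuotientEquiv q : L)⁻¹ * ((x • T).2.leftQuotientEquiv q : L),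
        QuotientGroup.leftRel_apply.mp <| Quotient.exact'
          ((T.2.leftQuotientEquiv.symm_apply_apply q).trans
            ((x • T).2.leftQuotientEquiv.symm_apply_apply q).symm)⟩ =
      ϕ ⟨x, hx⟩ * ϕ (u q) := by
    intro q
    rw [← map_mul]
    congr 1
    apply Subtype.ext
    show (T.2.leftQuotientEquiv q : L)⁻¹ * ((x • T).2.leftQuotientEquiv q : L) =
      x * (x⁻¹ * ((f q)⁻¹ * (x * f (x⁻¹ • q))))
    rw [Subgroup.smul_apply_eq_smul_apply_inv_smul, hT, hT, smul_eq_mul]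
    group
  have hprod : ∏ q : L ⧸ P, ϕ ⟨(T.2.leftQuotientEquiv q : L)⁻¹ * ((x • T).2.leftQuotientEquiv q : L),
        QuotientGroup.leftRel_apply.mp <| Quotient.exact'
          ((T.2.leftQuotientEquiv.symm_apply_apply q).trans
            ((x • T).2.leftQuotientEquiv.symm_apply_apply q).symm)⟩ =
      ∏ q : L ⧸ P, (ϕ ⟨x, hx⟩ * ϕ (u q)) := Finset.prod_congr rfl (fun q _ => hterm q)
  have hcard : P.index = Fintype.card (L ⧸ P) := by
    rw [Subgroup.index_eq_card, Nat.card_eq_fintype_card]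
  rw [hcard]
  refine Eq.trans ?_ (hprod.trans ?_)
  · rfl
  · rw [Finset.prod_mul_distrib, Finset.prod_const, Finset.card_univ]

/-- The core of the argument, in a group `L = N P`. -/
theorem sq_mem_commutator_of_supplement {L : Type*} [Group L] [Finite L] (P N : Subgroup L)
    [hN : N.Normal] (hPN : P ⊔ N = ⊤) (hP2 : IsPGroup 2 P) (hidx : Odd P.index)
    (hP : ∀ x ∈ P, x ^ 2 ∈ (P ⊓ N) ⊔ ⁅P, P⁆)
    (hQ : ∀ x ∈ P ⊓ N, x ^ 2 ∈ ⁅P ⊓ N, P ⊓ N⁆)
    (hodd : Odd (Nat.card (Abelianization N))) :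
    ∀ x ∈ P, x ^ 2 ∈ ⁅P, P⁆ := by
  classical
  intro x hx
  have hϕker : ∀ y : P, (Abelianization.of y = 1 ↔ (y : L) ∈ ⁅P, P⁆) := by
    intro y
    rw [← MonoidHom.mem_ker, Abelianization.ker_of, ← Subgroup.map_subtype_commutator]
    exact (Subgroup.mem_map_iff_mem (Subgroup.subtype_injective P)).symm
  have hA2 : ∀ a : Abelianization P, ∃ k : ℕ, a ^ (2 ^ k) = 1 := by
    intro a
    obtain ⟨y, rfl⟩ := QuotientGroup.mk_surjective a
    obtain ⟨k, hk⟩ := hP2 y
    refine ⟨k, ?_⟩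
    have : Abelianization.of (y ^ 2 ^ k) = 1 := by rw [hk, map_one]
    rw [map_pow] at this
    exact this
  have hτN : ∀ n ∈ N, MonoidHom.transfer (Abelianization.of : P →* Abelianization P) n = 1 := by
    intro n hn
    let ψ : N →* Abelianization P :=
      (MonoidHom.transfer (Abelianization.of : P →* Abelianization P)).comp N.subtype
    have h1 : ψ ⟨n, hn⟩ ^ Nat.card (Abelianization N) = 1 := by
      have h2 : ψ ⟨n, hn⟩ = Abelianization.lift ψ (Abelianization.of ⟨n, hn⟩) :=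
        (Abelianization.lift_apply_of ψ ⟨n, hn⟩).symm
      rw [h2, ← map_pow, pow_card_eq_one', map_one]
    obtain ⟨k, hk⟩ := hA2 (ψ ⟨n, hn⟩)
    have hd1 := orderOf_dvd_of_pow_eq_one h1
    have hd2 := orderOf_dvd_of_pow_eq_one hk
    have hcop : Nat.Coprime (Nat.card (Abelianization N)) (2 ^ k) :=
      Nat.Coprime.pow_right k (Nat.coprime_two_right.2 hodd)
    have h3 : orderOf (ψ ⟨n, hn⟩) = 1 := Nat.eq_one_of_dvd_coprimes hcop hd1 hd2
    exact orderOf_eq_one_iff.1 h3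
  have hτc : ⁅P, P⁆ ≤ (MonoidHom.transfer (Abelianization.of : P →* Abelianization P)).ker := by
    refine le_trans ?_ (Abelianization.commutator_subset_ker _)
    rw [commutator_def]
    exact Subgroup.commutator_mono le_top le_top
  have hτsq : MonoidHom.transfer (Abelianization.of : P →* Abelianization P) (x ^ 2) = 1 := by
    have h1 : (P ⊓ N) ⊔ ⁅P, P⁆ ≤
        (MonoidHom.transfer (Abelianization.of : P →* Abelianization P)).ker := by
      apply sup_le _ hτc
      intro n hn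
      exact MonoidHom.mem_ker.2 (hτN n hn.2)
    exact MonoidHom.mem_ker.1 (h1 (hP x hx))
  have hreps : ∀ l : L, ∃ n ∈ N, (n : L ⧸ P) = (l : L ⧸ P) := by
    intro l
    have hl : l ∈ ((N ⊔ P : Subgroup L) : Set L) := by
      rw [sup_comm, hPN]; exact Subgroup.mem_top l
    rw [Subgroup.normal_mul] at hl
    obtain ⟨n, hn, p, hp, rfl⟩ := Set.mem_mul.1 hl
    refine ⟨n, hn, ?_⟩
    rw [QuotientGroup.eq]
    have : n⁻¹ * (n * p) = p := by group
    rw [this]
    exact hp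
  obtain ⟨s, u, hu, hτx⟩ := transfer_supplement_formula P N hreps
    (Abelianization.of : P →* Abelianization P) x hx
  have hR : (∏ q ∈ s, (Abelianization.of (u q) : Abelianization P)) ^ 2 = 1 := by
    rw [← Finset.prod_pow]
    apply Finset.prod_eq_one
    intro q _
    rw [← map_pow, hϕker]
    have h1 : ((u q : P) : L) ∈ P ⊓ N := ⟨(u q).2, hu q⟩
    have h2 := hQ _ h1
    exact Subgroup.commutator_mono inf_le_left inf_le_left h2
  have h1 : (Abelianization.of (⟨x, hx⟩ : P) : Abelianization P) ^ (2 * P.index) = 1 := by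
    have h2 : (MonoidHom.transfer (Abelianization.of : P →* Abelianization P) x) ^ 2 = 1 := by
      rw [← map_pow]; exact hτsq
    rw [hτx, mul_pow, hR, mul_one, ← pow_mul, mul_comm] at h2
    exact h2
  obtain ⟨k, hk⟩ := hA2 (Abelianization.of (⟨x, hx⟩ : P))
  have h2 : (Abelianization.of (⟨x, hx⟩ : P) : Abelianization P) ^ 2 = 1 := by
    have hd1 := orderOf_dvd_of_pow_eq_one h1
    have hd2 := orderOf_dvd_of_pow_eq_one hk
    obtain ⟨j, _, hj⟩ := (Nat.dvd_prime_pow Nat.prime_two).1 hd2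
    have hcop : Nat.Coprime (orderOf (Abelianization.of (⟨x, hx⟩ : P) : Abelianization P)) P.index := by
      rw [hj]
      exact Nat.Coprime.pow_left j (Nat.coprime_two_left.2 hidx)
    have hd3 : orderOf (Abelianization.of (⟨x, hx⟩ : P) : Abelianization P) ∣ 2 :=
      Nat.Coprime.dvd_of_dvd_mul_right hcop hd1
    exact orderOf_dvd_iff_pow_eq_one.1 hd3
  rw [← map_pow, hϕker] at h2
  exact h2

end Cfsg.Agent.Helper8

namespace Cfsg.Agent.Helper8

open scoped commutatorElement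

theorem commutator_subgroupOf_self {G : Type*} [Group G] {A L : Subgroup G} (h : A ≤ L) :
    ⁅A.subgroupOf L, A.subgroupOf L⁆ = ⁅A, A⁆.subgroupOf L := by
  apply Subgroup.map_injective (Subgroup.subtype_injective L)
  rw [Subgroup.map_commutator, Subgroup.map_subgroupOf_eq_of_le h,
    Subgroup.map_subgroupOf_eq_of_le ((Subgroup.commutator_le_self A).trans h)]

/-- Transfer criterion: `P` of odd index and a `2`-group, `N` normal with `N/N'` of odd order,
`P/(P ∩ N)P'` and `(P ∩ N)/(P ∩ N)'` elementary abelian; then `P/P'` is elementary abelian. -/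
theorem sq_mem_commutator_general {G : Type*} [Group G] [Finite G] (P N : Subgroup G) [hN : N.Normal]
    (hP2 : IsPGroup 2 P) (hidx : Odd P.index)
    (hP : ∀ x ∈ P, x ^ 2 ∈ (P ⊓ N) ⊔ ⁅P, P⁆)
    (hQ : ∀ x ∈ P ⊓ N, x ^ 2 ∈ ⁅P ⊓ N, P ⊓ N⁆)
    (hodd : Odd (Nat.card (Abelianization N))) :
    ∀ x ∈ P, x ^ 2 ∈ ⁅P, P⁆ := by
  have hPL : P ≤ P ⊔ N := le_sup_left
  have hNL : N ≤ P ⊔ N := le_sup_right
  have hinf : (P.subgroupOf (P ⊔ N)) ⊓ (N.subgroupOf (P ⊔ N)) = (P ⊓ N).subgroupOf (P ⊔ N) := by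
    ext y
    simp only [Subgroup.mem_inf, Subgroup.mem_subgroupOf]
  have hcore := sq_mem_commutator_of_supplement (P.subgroupOf (P ⊔ N)) (N.subgroupOf (P ⊔ N))
    (by rw [← Subgroup.subgroupOf_sup hPL hNL, Subgroup.subgroupOf_self])
    hP2.comap_subtype
    (Odd.of_dvd_nat hidx (Subgroup.relIndex_dvd_index_of_le hPL))
    (by
      intro y hy
      rw [hinf, commutator_subgroupOf_self hPL,
        ← Subgroup.subgroupOf_sup (inf_le_left.trans hPL) ((Subgroup.commutator_le_self P).trans hPL),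
        Subgroup.mem_subgroupOf]
      have := hP (y : G) (Subgroup.mem_subgroupOf.1 hy)
      simpa using this)
    (by
      intro y hy
      rw [hinf] at hy ⊢
      rw [commutator_subgroupOf_self (inf_le_left.trans hPL), Subgroup.mem_subgroupOf]
      have := hQ (y : G) (Subgroup.mem_subgroupOf.1 hy)
      simpa using this)
    (by
      have e : Abelianization (N.subgroupOf (P ⊔ N)) ≃* Abelianization N :=
        (Subgroup.subgroupOfEquivOfLe hNL).abelianizationCongr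
      rw [Nat.card_congr e.toEquiv]
      exact hodd)
  intro x hx
  have h1 := hcore ⟨x, hPL hx⟩ (Subgroup.mem_subgroupOf.2 hx)
  rw [commutator_subgroupOf_self hPL, Subgroup.mem_subgroupOf] at h1
  simpa using h1

end Cfsg.Agent.Helper8
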