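import Cfsg.Agent.Helper3.CoprimeGen
import Cfsg.Agent.Lead.Coprime2
import Cfsg.Agent.Helper8.StronglyEmbedded

/-!
# A `p`-group acted on by `Z_q × Z_q` with exactly two subgroups of order `q` having fixed points
-/

set_option autoImplicit false

namespace Cfsg.Agent.Helper8.TwoFixed

open Cfsg
open scoped commutatorElement

universe u

theorem le_normalizer_of_conj {G : Type*} [Group G] (P Q : Subgroup G)
    (h : ∀ u ∈ P, ∀ x ∈ Q, u * x * u⁻¹ ∈ Q) : P ≤ Subgroup.normalizer (Q : Set G) := by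
  intro u hu
  rw [Subgroup.mem_normalizer_iff]
  intro x
  constructor
  · exact h u hu x
  · intro hx
    have h1 := h u⁻¹ (P.inv_mem hu) _ hx
    have e : u⁻¹ * (u * x * u⁻¹) * u⁻¹⁻¹ = x := by group
    rwa [e] at h1

theorem exists_gen_of_card_prime {G : Type*} [Group G] {q : ℕ} [Fact q.Prime] {X : Subgroup G}
    (hc : Nat.card X = q) : ∃ x ∈ X, x ≠ 1 ∧ Subgroup.zpowers x = X := by
  have hq := (Fact.out : q.Prime)
  haveI : Finite X := Nat.finite_of_card_ne_zero (by rw [hc]; exact hq.ne_zero)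
  have hne : X ≠ ⊥ := by
    intro h
    rw [← Subgroup.card_eq_one, hc] at h
    exact hq.one_lt.ne' h
  obtain ⟨x, hx⟩ := Subgroup.ne_bot_iff_exists_ne_one.mp hne
  have hx1 : (x : G) ≠ 1 := fun h => hx (Subtype.ext h)
  refine ⟨x, x.2, hx1, ?_⟩
  have h1 : orderOf (x : G) ∣ q := hc ▸ Subgroup.orderOf_dvd_natCard X x.2
  have h2 : orderOf (x : G) = q := by
    rcases (Nat.dvd_prime hq).mp h1 with h | h
    · exact absurd (orderOf_eq_one_iff.mp h) hx1
    · exact h
  exact Subgroup.eq_of_le_of_card_ge (Subgroup.zpowers_le.mpr x.2)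
    (by rw [Nat.card_zpowers, h2, hc])

variable {S : Type u} [Group S] [Finite S]

theorem main {p q : ℕ} [Fact p.Prime] [Fact q.Prime] (hpq : p ≠ q)
    (P : Subgroup S) [P.Normal] (hP : IsPGroup p P) (Q : Subgroup S)
    (hQ : IsElementaryAbelian q Q) (hQc : Nat.card Q = q ^ 2)
    (X₁ X₂ : Subgroup S) (h₁ : X₁ ≤ Q) (h₂ : X₂ ≤ Q) (h₁₂ : X₁ ≠ X₂) (hc₁ : Nat.card X₁ = q)
    (hc₂ : Nat.card X₂ = q)
    (honly : ∀ X : Subgroup S, X ≤ Q → Nat.card X = q →
      P ⊓ Subgroup.centralizer (X : Set S) ≠ ⊥ → X = X₁ ∨ X = X₂) :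
    ⁅P ⊓ Subgroup.centralizer (X₁ : Set S), P ⊓ Subgroup.centralizer (X₂ : Set S)⁆ = ⊥ ∧
      (P ⊓ Subgroup.centralizer (X₁ : Set S)) ⊓ (P ⊓ Subgroup.centralizer (X₂ : Set S)) = ⊥ ∧
      (P ⊓ Subgroup.centralizer (X₁ : Set S)) ⊔ (P ⊓ Subgroup.centralizer (X₂ : Set S)) = P := by
  have hpp := (Fact.out : p.Prime)
  have hqp := (Fact.out : q.Prime)
  have hQcomm : ∀ x ∈ Q, ∀ y ∈ Q, x * y = y * x := fun x hx y hy =>
    congrArg Subtype.val (hQ.1.is_comm.comm ⟨x, hx⟩ ⟨y, hy⟩)
  have hcopq : ∀ k : ℕ, ¬ q ∣ p ^ k := by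
    intro k hdvd
    exact hpq ((Nat.prime_dvd_prime_iff_eq hqp hpp).mp (hqp.dvd_of_dvd_pow hdvd)).symm
  have hqP : ∀ R : Subgroup S, R ≤ P → ¬ q ∣ Nat.card R := by
    intro R hR hdvd
    obtain ⟨k, hk⟩ := (hP.to_le hR).exists_card_eq
    rw [hk] at hdvd
    exact hcopq k hdvd
  -- generation
  have gen : ∀ R : Subgroup S, R ≤ P → Q ≤ Subgroup.normalizer (R : Set S) →
      R ≤ (R ⊓ Subgroup.centralizer (X₁ : Set S)) ⊔ (R ⊓ Subgroup.centralizer (X₂ : Set S)) := by
    intro R hRP hQR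
    have h := Cfsg.Agent.Helper3.generated_by_centralizers q Q R hQ (hqP R hRP) hQR
    have h' : (⨆ B : {B : Subgroup S // B ≤ Q ∧ B.relIndex Q ≤ q},
        R ⊓ Subgroup.centralizer ((B : Subgroup S) : Set S)) ≤
        (R ⊓ Subgroup.centralizer (X₁ : Set S)) ⊔ (R ⊓ Subgroup.centralizer (X₂ : Set S)) := by
      refine iSup_le ?_
      rintro ⟨B, hBQ, hBrel⟩
      show R ⊓ Subgroup.centralizer (B : Set S) ≤ _
      have hcard := Subgroup.relIndex_mul_relIndex ⊥ B Q bot_le hBQ
      rw [Subgroup.relIndex_bot_left, Subgroup.relIndex_bot_left, hQc] at hcard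
      have hdvd : B.relIndex Q ∣ q ^ 2 := Dvd.intro_left _ hcard
      obtain ⟨j, hj2, hj⟩ := (Nat.dvd_prime_pow hqp).mp hdvd
      have hj1 : j ≤ 1 := by
        by_contra hcon
        have h2 : j = 2 := by omega
        rw [hj, h2] at hBrel
        have h3 : q ^ 1 < q ^ 2 := Nat.pow_lt_pow_right hqp.one_lt (by norm_num)
        rw [pow_one] at h3
        omega
      rcases Nat.lt_or_ge j 1 with h0 | h1'
      · have hj0 : j = 0 := by omega
        rw [hj, hj0, pow_zero, mul_one] at hcard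
        have hBQ' : B = Q := Subgroup.eq_of_le_of_card_ge hBQ (by rw [hcard, hQc])
        refine le_trans (inf_le_inf_left R (Subgroup.centralizer_le ?_)) le_sup_left
        rw [hBQ']
        exact h₁
      · have hj1' : j = 1 := by omega
        rw [hj, hj1', pow_one] at hcard
        have hBc : Nat.card B = q := by
          have h4 : Nat.card B * q = q * q := by rw [hcard, sq]
          exact Nat.eq_of_mul_eq_mul_right hqp.pos h4
        by_cases hB : P ⊓ Subgroup.centralizer (B : Set S) = ⊥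
        · have h5 : R ⊓ Subgroup.centralizer (B : Set S) ≤ ⊥ := by
            rw [← hB]
            exact inf_le_inf_right _ hRP
          exact le_trans h5 bot_le
        · rcases honly B hBQ hBc hB with rfl | rfl
          · exact le_sup_left
          · exact le_sup_right
    calc R = _ := h
      _ ≤ _ := h'
  -- no common fixed points
  have hint : ∀ x ∈ P, x ∈ Subgroup.centralizer (X₁ : Set S) →
      x ∈ Subgroup.centralizer (X₂ : Set S) → x = 1 := by
    obtain ⟨x₁, hx₁, hx₁1, hg₁⟩ := exists_gen_of_card_prime hc₁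
    obtain ⟨x₂, hx₂, hx₂1, hg₂⟩ := exists_gen_of_card_prime hc₂
    have hne : x₁ * x₂ ≠ 1 := by
      intro h
      have h3 : x₂ = x₁⁻¹ := by
        rw [← mul_right_inj x₁, h, mul_inv_cancel]
      have h4 : X₂ ≤ X₁ := by
        rw [← hg₂, Subgroup.zpowers_le, h3]
        exact X₁.inv_mem hx₁
      exact h₁₂ (Subgroup.eq_of_le_of_card_ge h4 (by rw [hc₁, hc₂])).symm
    have hord : orderOf (x₁ * x₂) = q :=
      orderOf_eq_prime (hQ.2 _ (Q.mul_mem (h₁ hx₁) (h₂ hx₂))) hne
    have hX₃Q : Subgroup.zpowers (x₁ * x₂) ≤ Q :=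
      Subgroup.zpowers_le.mpr (Q.mul_mem (h₁ hx₁) (h₂ hx₂))
    have hX₃c : Nat.card (Subgroup.zpowers (x₁ * x₂)) = q := by rw [Nat.card_zpowers, hord]
    have hX₃1 : Subgroup.zpowers (x₁ * x₂) ≠ X₁ := by
      intro h
      have h3 : x₁ * x₂ ∈ X₁ := h ▸ Subgroup.mem_zpowers _
      have h4 : x₂ ∈ X₁ := by
        have e : x₂ = x₁⁻¹ * (x₁ * x₂) := by group
        rw [e]
        exact X₁.mul_mem (X₁.inv_mem hx₁) h3
      have h5 : X₂ ≤ X₁ := by
        rw [← hg₂, Subgroup.zpowers_le]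
        exact h4
      exact h₁₂ (Subgroup.eq_of_le_of_card_ge h5 (by rw [hc₁, hc₂])).symm
    have hX₃2 : Subgroup.zpowers (x₁ * x₂) ≠ X₂ := by
      intro h
      have h3 : x₁ * x₂ ∈ X₂ := h ▸ Subgroup.mem_zpowers _
      have h4 : x₁ ∈ X₂ := by
        have e : x₁ = (x₁ * x₂) * x₂⁻¹ := by group
        rw [e]
        exact X₂.mul_mem h3 (X₂.inv_mem hx₂)
      have h5 : X₁ ≤ X₂ := by
        rw [← hg₁, Subgroup.zpowers_le]
        exact h4
      exact h₁₂ (Subgroup.eq_of_le_of_card_ge h5 (by rw [hc₁, hc₂]))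
    have hX₃ : P ⊓ Subgroup.centralizer ((Subgroup.zpowers (x₁ * x₂) : Subgroup S) : Set S) = ⊥ := by
      by_contra hcon
      rcases honly _ hX₃Q hX₃c hcon with h | h
      · exact hX₃1 h
      · exact hX₃2 h
    intro x hxP hxC₁ hxC₂
    have h3 : x ∈ P ⊓ Subgroup.centralizer ((Subgroup.zpowers (x₁ * x₂) : Subgroup S) : Set S) := by
      refine Subgroup.mem_inf.mpr ⟨hxP, Subgroup.mem_centralizer_iff.mpr ?_⟩
      intro h hh
      obtain ⟨k, rfl⟩ := Subgroup.mem_zpowers_iff.mp hh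
      have c1 : Commute x₁ x := Subgroup.mem_centralizer_iff.mp hxC₁ x₁ hx₁
      have c2 : Commute x₂ x := Subgroup.mem_centralizer_iff.mp hxC₂ x₂ hx₂
      exact ((c1.mul_left c2).zpow_left k).eq
    rw [hX₃] at h3
    exact Subgroup.mem_bot.mp h3
  -- normalizers
  have hQNP : Q ≤ Subgroup.normalizer (P : Set S) := by
    rw [Subgroup.normalizer_eq_top]
    exact le_top
  have hQNC : ∀ X : Subgroup S, X ≤ Q → Q ≤ Subgroup.normalizer
      ((Subgroup.centralizer (X : Set S) : Subgroup S) : Set S) := by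
    intro X hX
    apply le_normalizer_of_conj
    intro u hu c hc
    rw [Subgroup.mem_centralizer_iff]
    intro t ht
    have c1 : Commute t u := hQcomm t (hX ht) u hu
    have c2 : Commute t c := Subgroup.mem_centralizer_iff.mp hc t ht
    exact ((c1.mul_right c2).mul_right c1.inv_right).eq
  have hQN1 : Q ≤ Subgroup.normalizer ((P ⊓ Subgroup.centralizer (X₁ : Set S) : Subgroup S) : Set S) :=
    Cfsg.Agent.Helper3.le_normalizer_inf_of_le _ _ _ hQNP (hQNC X₁ h₁)
  have hQN2 : Q ≤ Subgroup.normalizer ((P ⊓ Subgroup.centralizer (X₂ : Set S) : Subgroup S) : Set S) :=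
    Cfsg.Agent.Helper3.le_normalizer_inf_of_le _ _ _ hQNP (hQNC X₂ h₂)
  -- fixed-point-free coprime action
  have h3 : ∀ (K X : Subgroup S), K ≤ P → X ≤ Q → X ≤ Subgroup.normalizer (K : Set S) →
      (∀ x ∈ K, x ∈ Subgroup.centralizer (X : Set S) → x = 1) → K ≤ ⁅K, X⁆ := by
    intro K X hKP hXQ hXK hfix a ha
    have hcop : (Nat.card X).Coprime (Nat.card K) := by
      obtain ⟨k, hk⟩ := (hP.to_le hKP).exists_card_eq
      have h4 : Nat.card X ∣ q ^ 2 := hQc ▸ Subgroup.card_dvd_of_le hXQ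
      obtain ⟨j, -, hj⟩ := (Nat.dvd_prime_pow hqp).mp h4
      rw [hk, hj]
      exact Nat.Coprime.pow _ _ ((Nat.coprime_primes hqp hpp).mpr hpq.symm)
    have hsolv : Group.IsSolvable X := Group.isSolvable_of_comm (fun a b =>
      Subtype.ext (hQcomm a (hXQ a.2) b (hXQ b.2)))
    obtain ⟨n, hn, c, hc, rfl⟩ := Cfsg.Agent.Lead.coprime_decomp X K hXK hcop (Or.inl hsolv) a ha
    rw [hfix c hc.1 hc.2, mul_one]
    exact hn
  -- the normalizer of P₁
  have hY : P ⊓ Subgroup.normalizer ((P ⊓ Subgroup.centralizer (X₁ : Set S) : Subgroup S) : Set S) ⊓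
      Subgroup.centralizer (X₂ : Set S) ≤
      Subgroup.centralizer ((P ⊓ Subgroup.centralizer (X₁ : Set S) : Subgroup S) : Set S) := by
    have hYX₁ : X₁ ≤ Subgroup.normalizer
        ((P ⊓ Subgroup.normalizer ((P ⊓ Subgroup.centralizer (X₁ : Set S) : Subgroup S) : Set S) ⊓
          Subgroup.centralizer (X₂ : Set S) : Subgroup S) : Set S) :=
      le_trans h₁ (Cfsg.Agent.Helper3.le_normalizer_inf_of_le _ _ _
        (Cfsg.Agent.Helper3.le_normalizer_inf_of_le _ _ _ hQNP
          (le_trans hQN1 Subgroup.le_normalizer)) (hQNC X₂ h₂))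
    have h4 := h3 _ X₁ (le_trans inf_le_left inf_le_left) h₁ hYX₁
      (fun x hx hxC => hint x hx.1.1 hxC hx.2)
    refine le_trans h4 ?_
    rw [Subgroup.commutator_le]
    intro y hy x hx
    rw [Subgroup.mem_centralizer_iff]
    intro a ha
    have hyN := hy.1.2
    have ha' : y⁻¹ * a * y ∈ P ⊓ Subgroup.centralizer (X₁ : Set S) := by
      refine (Subgroup.mem_normalizer_iff.mp hyN (y⁻¹ * a * y)).mpr ?_
      have e : y * (y⁻¹ * a * y) * y⁻¹ = a := by group
      rw [e]
      exact ha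
    have hc1 : Commute x a := Subgroup.mem_centralizer_iff.mp ha.2 x hx
    have hc2 : Commute x (y⁻¹ * a * y) := Subgroup.mem_centralizer_iff.mp ha'.2 x hx
    rw [commutatorElement_def]
    calc a * (y * x * y⁻¹ * x⁻¹) = y * ((y⁻¹ * a * y) * x) * y⁻¹ * x⁻¹ := by group
      _ = y * (x * (y⁻¹ * a * y)) * y⁻¹ * x⁻¹ := by rw [hc2.eq]
      _ = y * x * y⁻¹ * (a * x⁻¹) := by group
      _ = y * x * y⁻¹ * (x⁻¹ * a) := by rw [hc1.inv_left.eq]
      _ = y * x * y⁻¹ * x⁻¹ * a := by group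
  have hQNN : Q ≤ Subgroup.normalizer
      ((P ⊓ Subgroup.normalizer ((P ⊓ Subgroup.centralizer (X₁ : Set S) : Subgroup S) : Set S) :
        Subgroup S) : Set S) :=
    Cfsg.Agent.Helper3.le_normalizer_inf_of_le _ _ _ hQNP (le_trans hQN1 Subgroup.le_normalizer)
  have hN : P ⊓ Subgroup.normalizer ((P ⊓ Subgroup.centralizer (X₁ : Set S) : Subgroup S) : Set S) ≤
      (P ⊓ Subgroup.centralizer (X₁ : Set S)) ⊔
      (P ⊓ Subgroup.normalizer ((P ⊓ Subgroup.centralizer (X₁ : Set S) : Subgroup S) : Set S) ⊓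
        Subgroup.centralizer (X₂ : Set S)) := by
    refine le_trans (gen _ inf_le_left hQNN) (sup_le ?_ le_sup_right)
    exact le_trans (inf_le_inf_right _ inf_le_left) le_sup_left
  -- commutators with X₂
  have hΦ : ∀ g ∈ P ⊓ Subgroup.normalizer
      ((P ⊓ Subgroup.centralizer (X₁ : Set S) : Subgroup S) : Set S),
      ∀ x ∈ X₂, ⁅g, x⁆ ∈ P ⊓ Subgroup.centralizer (X₁ : Set S) := by
    intro g hg
    have hg' : g ∈ Subgroup.closure
        (((P ⊓ Subgroup.centralizer (X₁ : Set S) : Subgroup S) : Set S) ∪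
          ((P ⊓ Subgroup.normalizer
            ((P ⊓ Subgroup.centralizer (X₁ : Set S) : Subgroup S) : Set S) ⊓
            Subgroup.centralizer (X₂ : Set S) : Subgroup S) : Set S)) :=
      (show (P ⊓ Subgroup.centralizer (X₁ : Set S)) ⊔
          (P ⊓ Subgroup.normalizer
            ((P ⊓ Subgroup.centralizer (X₁ : Set S) : Subgroup S) : Set S) ⊓
            Subgroup.centralizer (X₂ : Set S)) ≤ _ from
        sup_le (fun x hx => Subgroup.subset_closure (Or.inl hx))
          (fun x hx => Subgroup.subset_closure (Or.inr hx))) (hN hg)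
    clear hg
    have key : g ∈ Subgroup.normalizer
        ((P ⊓ Subgroup.centralizer (X₁ : Set S) : Subgroup S) : Set S) ∧
        ∀ x ∈ X₂, ⁅g, x⁆ ∈ P ⊓ Subgroup.centralizer (X₁ : Set S) := by
      induction hg' using Subgroup.closure_induction with
      | mem y hy =>
        rcases hy with hy | hy
        · refine ⟨Subgroup.le_normalizer hy, fun x hx => ?_⟩
          have h5 : x * y⁻¹ * x⁻¹ ∈ P ⊓ Subgroup.centralizer (X₁ : Set S) :=
            (Subgroup.mem_normalizer_iff.mp (hQN1 (h₂ hx)) y⁻¹).mp (Subgroup.inv_mem _ hy)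
          have e : ⁅y, x⁆ = y * (x * y⁻¹ * x⁻¹) := by
            rw [commutatorElement_def]
            group
          rw [e]
          exact Subgroup.mul_mem _ hy h5
        · refine ⟨hy.1.2, fun x hx => ?_⟩
          have hc : Commute x y := Subgroup.mem_centralizer_iff.mp hy.2 x hx
          rw [commutatorElement_eq_one_iff_commute.mpr hc.symm]
          exact Subgroup.one_mem _
      | one =>
        refine ⟨Subgroup.one_mem _, fun x _ => ?_⟩
        rw [commutatorElement_one_left]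
        exact Subgroup.one_mem _
      | mul y z _ _ ihy ihz =>
        refine ⟨Subgroup.mul_mem _ ihy.1 ihz.1, fun x hx => ?_⟩
        have e : ⁅y * z, x⁆ = y * ⁅z, x⁆ * y⁻¹ * ⁅y, x⁆ := by
          simp only [commutatorElement_def]
          group
        rw [e]
        exact Subgroup.mul_mem _ ((Subgroup.mem_normalizer_iff.mp ihy.1 _).mp (ihz.2 x hx))
          (ihy.2 x hx)
      | inv y _ ihy =>
        refine ⟨Subgroup.inv_mem _ ihy.1, fun x hx => ?_⟩
        have e : ⁅y⁻¹, x⁆ = y⁻¹ * ⁅y, x⁆⁻¹ * y⁻¹⁻¹ := by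
          simp only [commutatorElement_def]
          group
        rw [e]
        exact (Subgroup.mem_normalizer_iff.mp (Subgroup.inv_mem _ ihy.1) _).mp
          (Subgroup.inv_mem _ (ihy.2 x hx))
    exact key.2
  -- the normalizer of N
  have hN₂ : P ⊓ Subgroup.normalizer ((P ⊓ Subgroup.normalizer
      ((P ⊓ Subgroup.centralizer (X₁ : Set S) : Subgroup S) : Set S) : Subgroup S) : Set S) ≤
      P ⊓ Subgroup.normalizer ((P ⊓ Subgroup.centralizer (X₁ : Set S) : Subgroup S) : Set S) := by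
    have hQN₂ : Q ≤ Subgroup.normalizer ((P ⊓ Subgroup.normalizer ((P ⊓ Subgroup.normalizer
      ((P ⊓ Subgroup.centralizer (X₁ : Set S) : Subgroup S) : Set S) : Subgroup S) : Set S) :
        Subgroup S) : Set S) :=
      Cfsg.Agent.Helper3.le_normalizer_inf_of_le _ _ _ hQNP (le_trans hQNN Subgroup.le_normalizer)
    refine le_trans (gen _ inf_le_left hQN₂) (sup_le ?_ ?_)
    · exact le_inf (le_trans inf_le_left inf_le_left)
        (le_trans (inf_le_inf_right _ inf_le_left) Subgroup.le_normalizer)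
    · refine le_inf (le_trans inf_le_left inf_le_left) ?_
      apply le_normalizer_of_conj
      intro u hu a ha
      have ha2 : a ∈ ⁅P ⊓ Subgroup.centralizer (X₁ : Set S), X₂⁆ :=
        h3 _ X₂ inf_le_left h₂ (le_trans h₂ hQN1) (fun x hx hxC => hint x hx.1 hx.2 hxC) ha
      have h6 : ⁅P ⊓ Subgroup.centralizer (X₁ : Set S), X₂⁆ ≤
          (P ⊓ Subgroup.centralizer (X₁ : Set S)).comap (MulAut.conj u).toMonoidHom := by
        rw [Subgroup.commutator_le]
        intro a' ha' x hx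
        rw [Subgroup.mem_comap]
        show (MulAut.conj u) ⁅a', x⁆ ∈ _
        rw [MulAut.conj_apply]
        have hux : Commute x u := Subgroup.mem_centralizer_iff.mp hu.2 x hx
        have e : u * ⁅a', x⁆ * u⁻¹ = ⁅u * a' * u⁻¹, x⁆ := by
          have e1 : u * x * u⁻¹ = x := by
            rw [← hux.eq, mul_inv_cancel_right]
          have e2 : u * ⁅a', x⁆ * u⁻¹ = ⁅u * a' * u⁻¹, u * x * u⁻¹⁆ := by
            simp only [commutatorElement_def]
            group
          rw [e2, e1]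
        rw [e]
        apply hΦ _ _ x hx
        refine (Subgroup.mem_normalizer_iff.mp hu.1.2 a').mp ?_
        exact ⟨ha'.1, Subgroup.le_normalizer ha'⟩
      have h7 := h6 ha2
      rw [Subgroup.mem_comap] at h7
      exact h7
  -- N = P
  have hNP : P ≤ Subgroup.normalizer ((P ⊓ Subgroup.centralizer (X₁ : Set S) : Subgroup S) : Set S) := by
    by_contra hcon
    have hlt : P ⊓ Subgroup.normalizer
        ((P ⊓ Subgroup.centralizer (X₁ : Set S) : Subgroup S) : Set S) < P := by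
      exact lt_of_le_of_ne inf_le_left (fun h => hcon (le_trans h.symm.le inf_le_right))
    obtain ⟨g, hgP, hgN, hg⟩ := Cfsg.Agent.Helper8.exists_mem_normalizer_not_mem hP hlt
    exact hg (hN₂ ⟨hgP, hgN⟩)
  have hP₂ : P ⊓ Subgroup.centralizer (X₂ : Set S) ≤
      Subgroup.centralizer ((P ⊓ Subgroup.centralizer (X₁ : Set S) : Subgroup S) : Set S) :=
    le_trans (le_inf (le_inf inf_le_left (le_trans inf_le_left hNP)) inf_le_right) hY
  refine ⟨?_, ?_, ?_⟩
  · rw [Subgroup.commutator_eq_bot_iff_le_centralizer, Subgroup.le_centralizer_iff]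
    exact hP₂
  · rw [eq_bot_iff]
    intro x hx
    rw [Subgroup.mem_bot]
    exact hint x hx.1.1 hx.1.2 hx.2.2
  · apply le_antisymm (sup_le inf_le_left inf_le_left)
    exact gen P le_rfl hQNP

end Cfsg.Agent.Helper8.TwoFixed
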