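import Mathlib

set_option autoImplicit false
set_option maxHeartbeats 800000

namespace Cfsg.Agent.Helper8.ZCoprime

section abstract

variable {A N : Type*} [Group A] [Fintype A] [CommGroup N] [Finite N]

theorem cocycle_cobound (φ : A → N →* N)
    (hcop : (Nat.card N).Coprime (Fintype.card A))
    (f : A → N) (hf : ∀ a b, f (a * b) = f a * φ a (f b)) :
    ∃ e : N, ∀ a, f a = e * (φ a e)⁻¹ := by
  classical
  have h1 : ∀ a, φ a (∏ b, f b) = ((f a) ^ (Fintype.card A))⁻¹ * ∏ b, f b := by
    intro a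
    rw [map_prod]
    have : ∀ b, φ a (f b) = (f a)⁻¹ * f (a * b) := by
      intro b; rw [hf a b]; simp
    simp_rw [this]
    rw [Finset.prod_mul_distrib, Finset.prod_const, Finset.card_univ, inv_pow]
    congr 1
    exact Fintype.prod_equiv (Equiv.mulLeft a) _ _ (fun b => rfl)
  obtain ⟨e, he⟩ : ∃ e : N, e ^ (Fintype.card A) = ∏ b, f b :=
    ⟨(powCoprime hcop).symm (∏ b, f b), (powCoprime hcop).apply_symm_apply _⟩
  refine ⟨e, fun a => ?_⟩
  apply (powCoprime hcop).injective
  show (f a) ^ (Fintype.card A) = (e * (φ a e)⁻¹) ^ (Fintype.card A)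
  rw [mul_pow, inv_pow, ← map_pow, he, h1 a]
  group

theorem cocycle_norm (φ : A → N →* N)
    (f : A → N) (hf : ∀ a b, f (a * b) = f a * φ a (f b)) (a' : A) :
    ∏ a, φ a (f a') = 1 := by
  have : ∀ a, φ a (f a') = (f a)⁻¹ * f (a * a') := by
    intro a; rw [hf a a']; simp
  simp_rw [this]
  rw [Finset.prod_mul_distrib, Finset.prod_inv_distrib, inv_mul_eq_one]
  exact (Fintype.prod_equiv (Equiv.mulRight a') _ _ (fun b => rfl)).symm

end abstract

theorem main {G A : Type*} [Group G] [Finite G] [Group A] [Finite A]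
    [MulDistribMulAction A G] (hcop : (Nat.card A).Coprime (Nat.card G))
    (hcyc : ∀ (p : ℕ) [Fact p.Prime] (P : Sylow p G), IsCyclic (P : Subgroup G)) :
    (Nat.card (MulAction.fixedPoints A G : Set G)).Coprime (Nat.card G / Nat.card (MulAction.fixedPoints A G : Set G)) ∧
    IsCyclic (Subgroup.closure {y : G | ∃ (a : A) (g : G), y = g⁻¹ * a • g}) ∧
    (Subgroup.closure {y : G | ∃ (a : A) (g : G), y = g⁻¹ * a • g}).Normal ∧
    (Subgroup.closure {y : G | ∃ (a : A) (g : G), y = g⁻¹ * a • g} : Set G) ∩ MulAction.fixedPoints A G = {1} ∧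
    Subgroup.closure {y : G | ∃ (a : A) (g : G), y = g⁻¹ * a • g} ⊔ Subgroup.closure (MulAction.fixedPoints A G) = ⊤ := by
  classical
  haveI : Fintype A := Fintype.ofFinite A
  haveI hZ : IsZGroup G := ⟨fun p hp P => by haveI := Fact.mk hp; exact hcyc p P⟩
  set D : Subgroup G := Subgroup.closure {y : G | ∃ (a : A) (g : G), y = g⁻¹ * a • g} with hD
  have hgen : ∀ (a : A) (g : G), g⁻¹ * a • g ∈ D := fun a g => Subgroup.subset_closure ⟨a, g, rfl⟩
  have hinv : ∀ (a : A) (x : G), x ∈ D → a • x ∈ D := by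
    intro a x hx
    induction hx using Subgroup.closure_induction with
    | mem y hy =>
      obtain ⟨b, g, rfl⟩ := hy
      have : a • (g⁻¹ * b • g) = (a • g)⁻¹ * (a * b * a⁻¹) • (a • g) := by
        rw [smul_mul', smul_inv', smul_smul, smul_smul]; simp [mul_assoc]
      rw [this]; exact hgen _ _
    | one => rw [smul_one]; exact D.one_mem
    | mul x y _ _ hx hy => rw [smul_mul']; exact D.mul_mem hx hy
    | inv x _ hx => rw [smul_inv']; exact D.inv_mem hx
  have hnorm : D.Normal := by
    constructor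
    intro x hx h
    induction hx using Subgroup.closure_induction with
    | mem y hy =>
      obtain ⟨b, g, rfl⟩ := hy
      have : h * (g⁻¹ * b • g) * h⁻¹
          = ((g * h⁻¹)⁻¹ * b • (g * h⁻¹)) * ((h⁻¹)⁻¹ * b • h⁻¹)⁻¹ := by
        rw [smul_mul', smul_inv']; group
      rw [this]; exact D.mul_mem (hgen _ _) (D.inv_mem (hgen _ _))
    | one => simp
    | mul x y _ _ hx hy =>
      have : h * (x * y) * h⁻¹ = (h * x * h⁻¹) * (h * y * h⁻¹) := by group
      rw [this]; exact D.mul_mem hx hy
    | inv x _ hx =>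
      have : h * x⁻¹ * h⁻¹ = (h * x * h⁻¹)⁻¹ := by group
      rw [this]; exact D.inv_mem hx
  -- the commutator subgroup
  haveI hKc : IsCyclic (commutator G) := IsZGroup.isCyclic_commutator (G := G)
  haveI hKn : (commutator G).Normal := inferInstance
  have hKinv : ∀ (a : A) (x : G), x ∈ commutator G → a • x ∈ commutator G := by
    intro a x hx
    rw [commutator_eq_closure] at hx ⊢
    induction hx using Subgroup.closure_induction with
    | mem y hy =>
      obtain ⟨g, h, rfl⟩ := hy
      apply Subgroup.subset_closure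
      refine ⟨a • g, a • h, ?_⟩
      simp [commutatorElement_def, smul_mul', smul_inv']
    | one => rw [smul_one]; exact Subgroup.one_mem _
    | mul x y _ _ hx hy => rw [smul_mul']; exact Subgroup.mul_mem _ hx hy
    | inv x _ hx => rw [smul_inv']; exact Subgroup.inv_mem _ hx
  have hcent : ∀ (a : A) (g : G) (k : G), k ∈ commutator G →
      (g⁻¹ * a • g) * k = k * (g⁻¹ * a • g) := by
    intro a g k hk
    obtain ⟨⟨k0, hk0⟩, hgen0⟩ := IsCyclic.exists_generator (α := commutator G)
    have hpow : ∀ x ∈ commutator G, ∃ i : ℤ, x = k0 ^ i := by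
      intro x hx
      obtain ⟨i, hi⟩ := Subgroup.mem_zpowers_iff.mp (hgen0 ⟨x, hx⟩)
      refine ⟨i, ?_⟩
      have := congrArg Subtype.val hi
      simpa using this.symm
    obtain ⟨j, hj⟩ := hpow (a • k0) (hKinv a k0 hk0)
    have haK : ∀ x ∈ commutator G, a • x = x ^ j := by
      intro x hx
      obtain ⟨t, rfl⟩ := hpow x hx
      rw [smul_zpow', hj, ← zpow_mul, ← zpow_mul, mul_comm]
    have hy : ((a • g) * k0 * (a • g)⁻¹) ∈ commutator G := hKn.conj_mem k0 hk0 _
    have hy' : (g * k0 * g⁻¹) ∈ commutator G := hKn.conj_mem k0 hk0 _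
    have h3 : ((a • g) * k0 * (a • g)⁻¹) ^ j = (g * k0 * g⁻¹) ^ j := by
      calc ((a • g) * k0 * (a • g)⁻¹) ^ j = (a • g) * k0 ^ j * (a • g)⁻¹ := conj_zpow
        _ = (a • g) * (a • k0) * (a • g)⁻¹ := by rw [haK k0 hk0]
        _ = a • (g * k0 * g⁻¹) := by rw [smul_mul', smul_mul', smul_inv']
        _ = (g * k0 * g⁻¹) ^ j := haK _ hy'
    have h2 : (a • g) * k0 * (a • g)⁻¹ = g * k0 * g⁻¹ := by
      apply MulAction.injective a
      show a • ((a • g) * k0 * (a • g)⁻¹) = a • (g * k0 * g⁻¹)
      rw [haK _ hy, haK _ hy', h3]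
    have h4 : (g⁻¹ * a • g) * k0 = k0 * (g⁻¹ * a • g) := by
      have : a • g * k0 = g * k0 * g⁻¹ * a • g := by rw [← h2]; group
      calc (g⁻¹ * a • g) * k0 = g⁻¹ * (a • g * k0) := by group
        _ = g⁻¹ * (g * k0 * g⁻¹ * a • g) := by rw [this]
        _ = k0 * (g⁻¹ * a • g) := by group
    obtain ⟨t, rfl⟩ := hpow k hk
    exact (Commute.zpow_right (show Commute (g⁻¹ * a • g) k0 from h4) t)
  have hDcent : ∀ x ∈ D, ∀ k ∈ commutator G, x * k = k * x := by
    intro x hx k hk
    induction hx using Subgroup.closure_induction with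
    | mem y hy => obtain ⟨a, g, rfl⟩ := hy; exact hcent a g k hk
    | one => simp
    | mul x y _ _ hx hy => rw [mul_assoc, hy, ← mul_assoc, hx, mul_assoc]
    | inv x _ hx =>
      calc x⁻¹ * k = x⁻¹ * (k * x) * x⁻¹ := by group
        _ = x⁻¹ * (x * k) * x⁻¹ := by rw [hx]
        _ = k * x⁻¹ := by group
  haveI : IsCyclic (G ⧸ commutator G) := by
    have : IsCyclic (Abelianization G) := IsZGroup.isCyclic_abelianization
    exact this
  have hDcomm : ∀ x y : D, x * y = y * x := by
    intro x y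
    apply commutative_of_cyclic_center_quotient ((QuotientGroup.mk' (commutator G)).comp D.subtype)
    intro z hz
    rw [MonoidHom.mem_ker] at hz
    have hzK : (z : G) ∈ commutator G := by
      have : ((z : G) : G ⧸ commutator G) = 1 := hz
      exact (QuotientGroup.eq_one_iff _).mp this
    rw [Subgroup.mem_center_iff]
    intro w
    apply Subtype.ext
    show (w : G) * z = z * w
    exact hDcent w w.2 z hzK
  letI cgD : CommGroup D := { (inferInstance : Group D) with mul_comm := hDcomm }
  have hDcyc : IsCyclic D := by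
    haveI : Group.IsNilpotent D := CommGroup.isNilpotent
    infer_instance
  have hcopD : (Nat.card D).Coprime (Fintype.card A) := by
    have h1 : Nat.card D ∣ Nat.card G := Subgroup.card_subgroup_dvd_card D
    have h2 : (Nat.card G).Coprime (Nat.card A) := hcop.symm
    rw [← Nat.card_eq_fintype_card]
    exact Nat.Coprime.coprime_dvd_left h1 h2
  let φ : A → D →* D := fun a =>
    { toFun := fun x => ⟨a • (x : G), hinv a x x.2⟩
      map_one' := by apply Subtype.ext; simp
      map_mul' := by intro x y; apply Subtype.ext; simp [smul_mul'] }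
  let fg : G → A → D := fun g a => ⟨g⁻¹ * a • g, hgen a g⟩
  have hfg : ∀ g a b, fg g (a * b) = fg g a * φ a (fg g b) := by
    intro g a b
    apply Subtype.ext
    show g⁻¹ * (a * b) • g = (g⁻¹ * a • g) * a • (g⁻¹ * b • g)
    rw [mul_smul, smul_mul', smul_inv']; group
  have hlift : ∀ g : G, ∃ e ∈ D, ∀ a : A, a • (g * e) = g * e := by
    intro g
    obtain ⟨e, he⟩ := cocycle_cobound φ hcopD (fg g) (hfg g)
    refine ⟨e, e.2, fun a => ?_⟩
    have h' : g⁻¹ * a • g = (e : G) * (a • (e : G))⁻¹ := congrArg Subtype.val (he a)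
    rw [smul_mul']
    have : a • g = g * ((e : G) * (a • (e : G))⁻¹) := by rw [← h']; group
    rw [this]; group
  have hnu : ∀ x (hx : x ∈ D), (∏ a : A, φ a ⟨x, hx⟩) = 1 := by
    intro x hx
    induction hx using Subgroup.closure_induction with
    | mem y hy =>
      obtain ⟨a', g, rfl⟩ := hy
      exact cocycle_norm φ (fg g) (hfg g) a'
    | one =>
      have : ∀ a, φ a ⟨1, D.one_mem⟩ = 1 := fun a => map_one (φ a)
      simp [this]
    | mul x y hx hy ihx ihy =>
      have : ∀ a, φ a ⟨x * y, D.mul_mem hx hy⟩ = φ a ⟨x, hx⟩ * φ a ⟨y, hy⟩ :=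
        fun a => map_mul (φ a) ⟨x, hx⟩ ⟨y, hy⟩
      simp_rw [this]; rw [Finset.prod_mul_distrib, ihx, ihy, one_mul]
    | inv x hx ihx =>
      have : ∀ a, φ a ⟨x⁻¹, D.inv_mem hx⟩ = (φ a ⟨x, hx⟩)⁻¹ :=
        fun a => map_inv (φ a) ⟨x, hx⟩
      simp_rw [this]; rw [Finset.prod_inv_distrib, ihx, inv_one]
  have hint : ∀ x, x ∈ D → (∀ a : A, a • x = x) → x = 1 := by
    intro x hx hfix
    have h1 := hnu x hx
    have h2 : ∀ a, φ a ⟨x, hx⟩ = ⟨x, hx⟩ := fun a => Subtype.ext (hfix a)
    simp_rw [h2] at h1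
    rw [Finset.prod_const, Finset.card_univ] at h1
    have h3 : x ^ (Fintype.card A) = 1 := by
      have := congrArg Subtype.val h1
      simpa using this
    have h4 : orderOf x ∣ Fintype.card A := orderOf_dvd_of_pow_eq_one h3
    have h5 : orderOf x ∣ Nat.card G := orderOf_dvd_natCard x
    have h6 : orderOf x ∣ 1 := by
      have := Nat.dvd_gcd h4 h5
      rwa [← Nat.card_eq_fintype_card, Nat.Coprime.gcd_eq_one hcop] at this
    exact orderOf_eq_one_iff.mp (Nat.dvd_one.mp h6)
  -- the complement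
  have hcompl : Subgroup.IsComplement' (FixedPoints.subgroup A G) D := by
    apply Subgroup.isComplement'_of_disjoint_and_mul_eq_univ
    · rw [Subgroup.disjoint_def]
      intro x hxC hxD
      exact hint x hxD hxC
    · apply Set.eq_univ_iff_forall.mpr
      intro g
      obtain ⟨e, he, hfix⟩ := hlift g
      exact Set.mem_mul.mpr ⟨g * e, hfix, e⁻¹, D.inv_mem he, by group⟩
  have hcard : Nat.card (FixedPoints.subgroup A G) * Nat.card D = Nat.card G := hcompl.card_mul_card
  have hCcard : Nat.card (MulAction.fixedPoints A G : Set G) = Nat.card (FixedPoints.subgroup A G) :=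
    Nat.card_congr (Equiv.subtypeEquivRight (fun x => Iff.rfl))
  refine ⟨?_, hDcyc, hnorm, ?_, ?_⟩
  · rw [hCcard, ← hcard, Nat.mul_div_cancel_left _ Nat.card_pos]
    apply Nat.coprime_of_dvd
    intro p hp hpC hpD
    haveI := Fact.mk hp
    obtain ⟨x, hx⟩ := exists_prime_orderOf_dvd_card' p hpC
    obtain ⟨y, hy⟩ := exists_prime_orderOf_dvd_card' p hpD
    -- the p-torsion of D
    let Y1 : Subgroup G :=
      { carrier := {d | d ∈ D ∧ d ^ p = 1}
        one_mem' := ⟨D.one_mem, one_pow _⟩
        mul_mem' := by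
          rintro u v ⟨hu, hu'⟩ ⟨hv, hv'⟩
          refine ⟨D.mul_mem hu hv, ?_⟩
          have hc : Commute u v := congrArg Subtype.val (hDcomm ⟨u, hu⟩ ⟨v, hv⟩)
          rw [hc.mul_pow, hu', hv', one_mul]
        inv_mem' := by
          rintro u ⟨hu, hu'⟩
          exact ⟨D.inv_mem hu, by rw [inv_pow, hu', inv_one]⟩ }
    haveI hY1n : Y1.Normal := by
      constructor
      rintro u ⟨hu, hu'⟩ g
      refine ⟨hnorm.conj_mem u hu g, ?_⟩
      rw [conj_pow, hu']; group
    have hY1p : IsPGroup p Y1 := by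
      intro u
      refine ⟨1, ?_⟩
      apply Subtype.ext
      have := u.2.2
      simpa using this
    have hXp : IsPGroup p (Subgroup.zpowers (x : G)) := by
      apply IsPGroup.of_card (n := 1)
      rw [Nat.card_zpowers, Subgroup.orderOf_coe, hx, pow_one]
    have hQp : IsPGroup p ((Subgroup.zpowers (x : G)) ⊔ Y1 : Subgroup G) :=
      IsPGroup.to_sup_of_normal_right hXp hY1p
    haveI hQc : IsCyclic ((Subgroup.zpowers (x : G)) ⊔ Y1 : Subgroup G) :=
      IsPGroup.isCyclic_of_isZGroup hQp
    set Q : Subgroup G := (Subgroup.zpowers (x : G)) ⊔ Y1 with hQ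
    have hxQ : (x : G) ∈ Q := (le_sup_left : Subgroup.zpowers (x : G) ≤ Q) (Subgroup.mem_zpowers _)
    have hyp : (y : G) ^ p = 1 := by
      have : y ^ p = 1 := by rw [← hy]; exact pow_orderOf_eq_one y
      have := congrArg Subtype.val this
      simpa using this
    have hyQ : (y : G) ∈ Q := (le_sup_right : Y1 ≤ Q) ⟨y.2, hyp⟩
    haveI : Fintype Q := Fintype.ofFinite Q
    have hle := IsCyclic.card_pow_eq_one_le (α := Q) hp.pos
    have hoy : orderOf (⟨(y : G), hyQ⟩ : Q) = p := by
      rw [← Subgroup.orderOf_coe]; show orderOf (y : G) = p; rw [Subgroup.orderOf_coe, hy]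
    have hsub : (Finset.range p).image (fun i => (⟨(y : G), hyQ⟩ : Q) ^ i)
        ⊆ Finset.univ.filter (fun q : Q => q ^ p = 1) := by
      intro q hq
      obtain ⟨i, _, rfl⟩ := Finset.mem_image.mp hq
      simp only [Finset.mem_filter, Finset.mem_univ, true_and]
      rw [← pow_mul, mul_comm, pow_mul]
      have : (⟨(y : G), hyQ⟩ : Q) ^ p = 1 := by rw [← hoy]; exact pow_orderOf_eq_one _
      rw [this, one_pow]
    have hcardim : ((Finset.range p).image (fun i => (⟨(y : G), hyQ⟩ : Q) ^ i)).card = p := by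
      rw [Finset.card_image_of_injOn, Finset.card_range]
      intro i hi j hj hij
      have hi' : i < orderOf (⟨(y : G), hyQ⟩ : Q) := by rw [hoy]; exact Finset.mem_range.mp hi
      have hj' : j < orderOf (⟨(y : G), hyQ⟩ : Q) := by rw [hoy]; exact Finset.mem_range.mp hj
      exact pow_injOn_Iio_orderOf hi' hj' hij
    have heq := Finset.eq_of_subset_of_card_le hsub (by rw [hcardim]; exact hle)
    have hxmem : (⟨(x : G), hxQ⟩ : Q) ∈ Finset.univ.filter (fun q : Q => q ^ p = 1) := by
      simp only [Finset.mem_filter, Finset.mem_univ, true_and]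
      apply Subtype.ext
      have : x ^ p = 1 := by rw [← hx]; exact pow_orderOf_eq_one x
      have := congrArg Subtype.val this
      simpa using this
    rw [← heq] at hxmem
    obtain ⟨i, _, hi⟩ := Finset.mem_image.mp hxmem
    have hxy : (x : G) = (y : G) ^ i := by
      have := congrArg Subtype.val hi
      simpa using this.symm
    have hxD : (x : G) ∈ D := by rw [hxy]; exact D.pow_mem y.2 i
    have hx1 : (x : G) = 1 := hint _ hxD x.2
    have : orderOf (x : G) = 1 := by rw [hx1]; exact orderOf_one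
    rw [Subgroup.orderOf_coe, hx] at this
    exact hp.one_lt.ne' this
  · ext x
    constructor
    · rintro ⟨hxD, hxC⟩
      exact hint x hxD hxC
    · intro hx
      rw [Set.mem_singleton_iff] at hx
      subst hx
      exact ⟨D.one_mem, fun a => smul_one a⟩
  · rw [eq_top_iff]
    intro g _
    obtain ⟨e, he, hfix⟩ := hlift g
    have : g = (g * e) * e⁻¹ := by group
    rw [this]
    exact Subgroup.mul_mem _ (le_sup_right (a := D) (Subgroup.subset_closure hfix))
      (le_sup_left (a := D) (D.inv_mem he))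

end Cfsg.Agent.Helper8.ZCoprime
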